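import Cfsg.Agent.H1.FP0

/-! S4181 / S3580, chunks [WQ] [F1] [F2]. -/

set_option autoImplicit false
set_option linter.unusedSectionVars false
set_option linter.style.haveILetI false

namespace H26.FP
open MulAction H1.FP Subgroup
universe u v

theorem wq (w3 : W3.{u}) (w2 : W2.{u}) : WQ.{u} := fun p hp G _ _ P Θ _ _ Q hg ht h2 hQ hi hk => by
  classical
  let φ := (toPermHom G Θ).rangeRestrict
  have hs : Function.Surjective φ := MonoidHom.rangeRestrict_surjective _
  have sm : ∀ (g : G) (u : Θ), φ g • u = g • u := fun _ _ => rfl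
  have tr : IsPretransitive (toPermHom G Θ).range Θ := ⟨fun a b => let ⟨g, e⟩ := ht.exists_smul_eq a b; ⟨φ g, e⟩⟩
  let S := P.mapSurjective hs
  have c1 : Nat.card S ∣ p := by
    change Nat.card ((P : Subgroup G).map φ) ∣ _
    rw [← relIndex_ker, MonoidHom.ker_rangeRestrict]
    exact (relIndex_dvd_of_le_left _ hk).trans hi.dvd
  have sq : ¬ p ^ 2 ∣ Nat.card (toPermHom G Θ).range := fun h =>
    absurd (Nat.le_of_dvd hp.1.pos ((S.pow_dvd_card_of_pow_dvd_card h).trans c1)) (by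
      have := hp.1.two_le; nlinarith)
  have gen : closure {y : (toPermHom G Θ).range | orderOf y = p} = ⊤ := by
    rw [eq_top_iff, ← map_top_of_surjective φ hs, ← hg, MonoidHom.map_closure, closure_le]
    rintro _ ⟨g, ⟨k, e⟩, rfl⟩
    obtain ⟨j, -, f⟩ := (Nat.dvd_prime_pow hp.1).1 (e ▸ orderOf_map_dvd φ g)
    rcases j with _ | _ | j
    · rw [orderOf_eq_one_iff.1 f]; exact one_mem _
    · exact subset_closure (f.trans (pow_one p))
    · exact absurd ((pow_dvd_pow p (by omega)).trans (f.symm.dvd.trans (_root_.orderOf_dvd_natCard _))) sq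
  have pd : p ∣ Nat.card (toPermHom G Θ).range := by
    by_contra n
    have : Nontrivial Θ := Finite.one_lt_card_iff_nontrivial.1 h2
    obtain ⟨a, b, hab⟩ := exists_pair_ne Θ
    obtain ⟨g, rfl⟩ := tr.exists_smul_eq a b
    have : g ∈ (⊥ : Subgroup _) := (gen.ge.trans ((closure_le _).2 fun y (hy : orderOf y = p) =>
      absurd (hy.symm.dvd.trans (_root_.orderOf_dvd_natCard y)) n)) (mem_top g)
    exact hab (by rw [mem_bot.1 this, one_smul])
  have c2 : Nat.card S = p := Nat.dvd_antisymm c1 (S.dvd_card_of_dvd_card pd)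
  obtain ⟨⟨x, hx⟩, x1⟩ := ne_bot_iff_exists_ne_one.1 (S.ne_bot_of_dvd_card pd)
  have o : orderOf x = p := ((Nat.dvd_prime hp.1).1 (c2 ▸ Subgroup.orderOf_dvd_natCard _ hx)).resolve_left fun e =>
    x1 (Subtype.ext (orderOf_eq_one_iff.1 e))
  have z : zpowers x = S := eq_of_le_of_card_ge (zpowers_le.2 hx) (by rw [c2, Nat.card_zpowers, o])
  have s : St p x := ⟨hp.1, sq, o, gen⟩
  have e : fP (P : Subgroup G) Θ = fx x Θ := by
    refine congrArg (fun T : Set Θ => Nat.card T) (Set.ext fun u => ⟨fun h => ?_, fun h g => ?_⟩)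
    · obtain ⟨g, m, rfl⟩ := hx
      exact h ⟨g, m⟩
    · exact fix_zpow (x := x) (y := φ g) h (z.ge ⟨g, g.2, rfl⟩)
  have k : fx x Θ ≤ (p - 1) * lx p x Θ := by
    rcases hp.1.two_le.eq_or_lt with rfl | h3
    · simpa using w2 _ x Θ s tr h2
    · exact w3 p _ x Θ s h3 tr h2
  rw [e, card_eq (Δ := Θ) hp.1 o, Nat.add_sub_cancel_left, mul_left_comm]
  exact Nat.mul_le_mul_left _ k

theorem f1 (tg : TG.{u}) (fn : FN.{u, u}) : R1.{u} := fun {G} _ _ p hp hg H hH P hP => by
  have h2 : 2 ≤ Nat.card (G ⧸ H) := by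
    have := index_ne_zero_of_finite (H := H)
    have := mt index_eq_one.1 hH
    rw [← index_eq_card]; omega
  have a := tg p G P (G ⧸ H) hg inferInstance h2
  have b := fn p G P (G ⧸ H) ((1 : G) : G ⧸ H) inferInstance (by rwa [stabilizer_quotient])
  rw [stabilizer_quotient] at b
  have c : fP (P : Subgroup G) (G ⧸ H) ≤ Nat.card (G ⧸ H) := Nat.card_le_card_of_injective _ Subtype.val_injective
  obtain ⟨m, e⟩ := Nat.exists_eq_add_of_le c
  obtain ⟨q, rfl⟩ := Nat.exists_eq_add_of_le' hp.1.one_le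
  rw [e, Nat.add_sub_cancel_left] at a
  refine Nat.le_of_mul_le_mul_left ?_ (show 0 < Nat.card (G ⧸ H) by omega)
  rw [mul_left_comm, ← b, e, show 2 * (q + 1) - 1 = 2 * q + 1 by omega, Nat.add_sub_cancel] at *
  nlinarith [Nat.mul_le_mul_right (Nat.card (Sylow (q + 1) G)) a]

/-- a subgroup containing all `p`-elements has the same Sylow subgroups -/
theorem nu_eq {A B : Type*} [Group A] [Group B] [Finite B] (p : ℕ) [Fact p.Prime] (f : A →* B) (hf : Function.Injective f)
    (h : ∀ b, (∃ k, orderOf b = p ^ k) → b ∈ f.range) : Nat.card (Sylow p B) = Nat.card (Sylow p A) := by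
  have l : ∀ S : Sylow p B, (S : Subgroup B) ≤ f.range := fun S b hb => h b <| by
    obtain ⟨k, e⟩ := IsPGroup.iff_orderOf.1 S.2 ⟨b, hb⟩
    exact ⟨k, (orderOf_coe _).trans e⟩
  refine Nat.card_eq_of_bijective (fun S => S.comapOfInjective f hf (l S)) ⟨fun S T e => Sylow.ext ?_, fun S => ?_⟩
  · rw [← map_comap_eq_self (l S), ← map_comap_eq_self (l T)]
    exact congrArg (fun R : Sylow p A => (R : Subgroup A).map f) e
  · obtain ⟨T, e⟩ := S.exists_comap_eq_of_injective hf
    exact ⟨T, Sylow.ext e⟩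

theorem orb {P : Type u} {Ω : Type v} [Group P] [MulAction P Ω] [Finite Ω] {p : ℕ} [hp : Fact p.Prime] (h : IsPGroup p P) :
    p * Nat.card (orbitRel.Quotient P Ω) ≤ Nat.card Ω + (p - 1) * Nat.card (fixedPoints P Ω) := by
  classical
  letI := Fintype.ofFinite (orbitRel.Quotient P Ω)
  have c : Nat.card {ω : orbitRel.Quotient P Ω // ω.out ∈ fixedPoints P Ω} ≤ Nat.card (fixedPoints P Ω) :=
    Nat.card_le_card_of_injective (fun ω => ⟨_, ω.2⟩) fun a b e =>
      Subtype.ext (Quotient.out_injective (congrArg Subtype.val e))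
  refine le_trans ?_ (Nat.add_le_add_left (Nat.mul_le_mul_left _ c) _)
  rw [Nat.card_congr (selfEquivSigmaOrbits P Ω), Nat.card_sigma, Nat.card_eq_fintype_card (α := Subtype _),
    Fintype.card_subtype, Finset.card_filter, Finset.mul_sum, ← Finset.sum_add_distrib, Nat.card_eq_fintype_card,
    ← Finset.card_univ, mul_comm, ← smul_eq_mul, ← Finset.sum_const]
  refine Finset.sum_le_sum fun ω _ => ?_
  obtain ⟨k, e⟩ := h.card_orbit ω.out
  have := hp.1.one_le
  rcases k with _ | k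
  · letI := Fintype.ofFinite (orbit P ω.out)
    rw [e, if_pos (mem_fixedPoints_iff_card_orbit_eq_one.2 (by rw [← Nat.card_eq_fintype_card, e, pow_zero])), pow_zero]
    omega
  · exact (e ▸ Nat.le_self_pow k.succ_ne_zero p).trans (Nat.le_add_right _ _)

theorem f2 (r1 : R1.{u}) (fn : FN.{u, v}) : R2.{u, v} := fun {G Ω} _ _ _ _ _ ht p hp _ pd P => by
  have k : (2 * p - 1) * fP (P : Subgroup G) Ω ≤ (p - 1) * Nat.card Ω := by
    rcases (fP (P : Subgroup G) Ω).eq_zero_or_pos with e | e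
    · simp [e]
    obtain ⟨⟨a, ha⟩⟩ := (Nat.card_pos_iff.1 e).1
    have l : (P : Subgroup G) ≤ stabilizer G a := fun g m => ha ⟨g, m⟩
    let K := closure {g : G | ∃ k : ℕ, orderOf g = p ^ k}
    have PK : (P : Subgroup G) ≤ K := fun b hb => subset_closure <| by
      obtain ⟨k, e⟩ := IsPGroup.iff_orderOf.1 P.2 ⟨b, hb⟩
      exact ⟨k, (orderOf_coe _).trans e⟩
    have n : (stabilizer G a).subgroupOf K ≠ ⊤ := fun q => P.ne_bot_of_dvd_card pd <| eq_bot_iff.2 fun x hx =>
      eq_of_smul_eq_smul (α := Ω) fun b => by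
        obtain ⟨g, rfl⟩ := ht.exists_smul_eq a b
        obtain ⟨k, e⟩ := IsPGroup.iff_orderOf.1 P.2 ⟨x, hx⟩
        have : (g⁻¹ * x * g⁻¹⁻¹) • a = a := subgroupOf_eq_top.1 q (subset_closure
          ⟨k, ((MulAut.conj g⁻¹).orderOf_eq x).trans ((orderOf_coe _).trans e)⟩)
        rwa [inv_inv, mul_smul, mul_smul, inv_smul_eq_iff, ← one_smul G (g • a), smul_smul _ 1, mul_one] at this
    have r := r1 p (G := K) (by
      rw [← closure_closure_coe_preimage (k := {g : G | ∃ k : ℕ, orderOf g = p ^ k})]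
      exact congrArg Subgroup.closure (Set.ext fun g => by simp; rfl)) _ n (P.subtype PK) fun g m => l m
    rw [← nu_eq p K.subtype K.subtype_injective fun b h => by rw [range_subtype]; exact subset_closure h,
      ← nu_eq p (B := stabilizer G a) ((K.subtype.comp ((stabilizer G a).subgroupOf K).subtype).codRestrict _ fun g => g.2)
        (fun x y e => Subtype.ext (Subtype.ext (congrArg (fun b : stabilizer G a => (b : G)) e)))
        fun b ⟨k, h⟩ => ⟨⟨⟨b, subset_closure ⟨k, (orderOf_coe _).trans h⟩⟩, b.2⟩, rfl⟩] at r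
    refine Nat.le_of_mul_le_mul_right ?_ (Nat.card_pos (α := Sylow p G))
    rw [mul_assoc, fn p G P Ω a ht l, mul_left_comm, mul_assoc, mul_left_comm (p - 1)]
    exact Nat.mul_le_mul_left _ r
  have o := orb (Ω := Ω) P.2
  obtain ⟨q, rfl⟩ := Nat.exists_eq_add_of_le' hp.1.one_le
  refine Nat.le_of_mul_le_mul_left ?_ hp.1.pos
  rw [show 2 * (q + 1) - 1 = 2 * q + 1 by omega, Nat.add_sub_cancel] at *
  rw [fP] at k
  nlinarith [Nat.mul_le_mul_left (2 * q + 1) o, Nat.mul_le_mul_left q k]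

end H26.FP
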