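/-
Interface for S4578 (heights in blocks of the covering groups of the alternating groups).
See notes/RB.md.
-/
import Cfsg.Agent.H7.Sym3
import Cfsg.Agent.H6.Clifford
import Cfsg.Prelude.Def_Blocks
import Cfsg.Prelude.Def_CaseTheorems

set_option autoImplicit false

namespace H26.RB
open Cfsg Finset Matrix Equiv H7.Sn
open scoped Nat

universe u

/-! ### Neutral fermions -/

/-- states: `i ∈ S` stands for the part `i + 1` of a strict partition -/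
abbrev Fk (N : ℕ) := Finset (Fin N)

abbrev Mx (N : ℕ) := Matrix (Fk N) (Fk N) ℤ

section Fock
variable {N l : ℕ}

def sg (i : Fin N) (S : Fk N) : ℤ := (-1) ^ #{j ∈ S | i < j}

/-- creation operator; its transpose is the annihilation operator -/
def cr (i : Fin N) : Mx N := .of fun T S => if i ∉ S ∧ T = insert i S then sg i S else 0

def par (N : ℕ) : Mx N := diagonal fun S => (-1) ^ #S

/-- the neutral fermion `φ_k` -/
def ph (N : ℕ) (k : ℤ) : Mx N :=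
  if h : 0 < k ∧ k ≤ N then cr ⟨k.toNat - 1, by omega⟩ else if k = 0 then par N
  else if h : k < 0 ∧ -k ≤ N then (2 * k.negOnePow : ℤ) • (cr ⟨(-k).toNat - 1, by omega⟩)ᵀ else 0

/-- coordinates of the vector `φ_{α 0} ⋯ φ_{α (l-1)} ∅` -/
def ket (N : ℕ) (α : Fin l → ℤ) (S : Fk N) : ℤ := (List.ofFn fun i => ph N (α i)).prod S ∅

noncomputable def XX (N : ℕ) (α : Fin l → ℤ) (μ : Multiset ℕ) : ℤ :=
  ip (pm μ) fun β => ket N (α - β) ∅

/-- the parts in decreasing order -/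
def dec (S : Fk N) : Fin #S → ℤ := fun i => ((S.orderEmbOfFin rfl i.rev : Fin N) : ℕ) + 1

/-- coefficients of Schur's `Q`-functions -/
noncomputable def XS (S : Fk N) (μ : Multiset ℕ) : ℤ := XX N (dec S) μ

/-- `-4` times the boson `a_r` -/
noncomputable def bb (N : ℕ) (r : ℤ) : Mx N :=
  ∑ k ∈ Icc (-N : ℤ) N, (k.negOnePow : ℤ) • (ph N k * ph N (-k - r))

def Od (μ : Multiset ℕ) : Prop := ∀ k ∈ μ, Odd k

/-- size of the strict partition -/
def wt (S : Fk N) : ℕ := ∑ i ∈ S, (i.1 + 1)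

end Fock

def CAR : Prop := ∀ (N : ℕ) (i j : ℤ), ph N i * ph N j + ph N j * ph N i =
  if i + j = 0 ∧ |i| ≤ N then (2 * i.negOnePow : ℤ) • (1 : Mx N) else 0

/-- adjoints for the form `⟨e_S, e_S⟩ = 2 ^ #S` -/
def ADJ : Prop := ∀ (N : ℕ) (k : ℤ) (T S : Fk N),
  2 ^ #T * ph N k T S = k.negOnePow * 2 ^ #S * ph N (-k) S T

def KET : Prop := ∀ (N l : ℕ) (α : Fin l → ℤ), StrictAnti α → (∀ i, 0 < α i ∧ α i ≤ N) → ∀ S : Fk N,
  (∀ j : Fin N, j ∈ S ↔ ∃ i, α i = (j : ℕ) + 1) → ∀ T, ket N α T = if T = S then 1 else 0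

def COMM : Prop := ∀ (N : ℕ) (r m : ℤ), Odd r → |m| ≤ N →
  bb N r * ph N m - ph N m * bb N r = (-4 : ℤ) • ph N (m - r)

def LINK : Prop := ∀ (N l : ℕ) (α : Fin l → ℤ) (μ : Multiset ℕ), (∀ i, α i ≤ N) → Od μ →
  XX N α μ = ∑ S, ket N α S * XS S μ

def MN : Prop := ∀ (N r : ℕ) (μ : Multiset ℕ) (S : Fk N), Odd r → Od μ →
  -4 * XS S (r ::ₘ μ) = ∑ T, bb N r T S * XS T μ

def XS0 : Prop := ∀ (N : ℕ) (S : Fk N), XS S 0 = if S = ∅ then 1 else 0

def COL : Prop := ∀ (N : ℕ) (μ ν : Multiset ℕ), Od μ → Od ν → ν.sum ≤ N →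
  ∑ S : Fk N, (2 : ℚ)⁻¹ ^ #S * XS S μ * XS S ν = if μ = ν then (2 : ℚ)⁻¹ ^ μ.card * zz μ else 0

def VDV : Prop := ∀ (N l : ℕ) (γ : Fin l → ℤ), 2 ^ #{i | 0 < γ i} ∣ ket N γ ∅

def HOM : Prop := ∀ (N : ℕ) (S : Fk N) (μ : Multiset ℕ), XS S μ ≠ 0 → wt S = μ.sum

def DEG : Prop := ∀ (N l n : ℕ) (α : Fin l → ℤ), StrictAnti α → (∀ i, 0 < α i ∧ α i ≤ N) →
  ∑ i, α i = n → (XX N α (.replicate n 1) : ℚ) =
    n ! * ∏ i, (((α i).toNat ! : ℚ)⁻¹ * ∏ j with i < j, ((α i - α j : ℚ) / (α i + α j)))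

/-- number of bar lengths divisible by `p` -/
def W (p : ℕ) {N : ℕ} (S : Fk N) : ℤ := ∑ s ∈ S, (((s.1 + 1 : ℕ) : ℤ) / p + ∑ t ∈ S with t < s,
  ((if (p : ℤ) ∣ (s.1 + 1 : ℕ) + (t.1 + 1 : ℕ) then 1 else 0) -
    if (p : ℤ) ∣ (s.1 + 1 : ℕ) - (t.1 + 1 : ℕ) then 1 else 0))

def WJ : Prop := ∀ (N p : ℕ) (r : ℤ) (T S : Fk N), Odd p → (p : ℤ) ∣ r → bb N r T S ≠ 0 →
  W p T + r / p = W p S

def WD : Prop := ∀ (N p : ℕ) (S : Fk N), p.Prime → 0 ≤ W p S ∧ XS S (.replicate (wt S) 1) ≠ 0 ∧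
  W p S + (XS S (.replicate (wt S) 1)).natAbs.factorization p ≤ ((wt S)!).factorization p

def DW : Prop := ∀ (N p w : ℕ) (S : Fk N) (μ : Multiset ℕ), p.Prime → p ≠ 2 → Od μ → XS S μ ≠ 0 →
  p * w ≤ (μ.filter (p ∣ ·)).sum → XS S (.replicate μ.sum 1) ≠ 0 ∧
    w + (XS S (.replicate μ.sum 1)).natAbs.factorization p ≤ (μ.sum !).factorization p

/-! ### The double cover of the symmetric group -/

/-- gamma matrices -/
noncomputable def gam {n : ℕ} : Fin n ⊕ Option (Fin n) → Matrix (Fk n) (Fk n) ℂ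
  | .inl i => (cr i + (cr i)ᵀ).map (↑)
  | .inr (some i) => Complex.I • (cr i - (cr i)ᵀ).map (↑)
  | .inr none => (par n).map (↑)

def GAM : Prop := ∀ n : ℕ,
  (∀ a b : Fin n ⊕ Option (Fin n), gam a * gam b + gam b * gam a = if a = b then 2 else 0) ∧
  (∀ i : Fin n, (gam (.inl i))ᵀ = gam (.inl i)) ∧
  ∀ A : Matrix (Fk n) (Fk n) ℂ, (∀ a, A * gam a = gam a * A) → ∃ c : ℂ, A = c • 1

/-- the double cover, inside matrices times permutations -/
def SG (n : ℕ) : Subgroup ((Matrix (Fk n) (Fk n) ℂ)ˣ × Perm (Fin n)) where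
  carrier := {x | x.1.1 * x.1.1ᵀ = 1 ∧ ∀ a, x.1.1 * gam a =
    ((Perm.sign x.2 : ℤ) : ℂ) • (gam (Sum.map x.2 id a) * x.1.1)}
  one_mem' := ⟨by simp, fun a => by simp⟩
  mul_mem' := fun {x y} ⟨h1, h2⟩ ⟨h3, h4⟩ => ⟨by
    rw [Prod.fst_mul, Units.val_mul, transpose_mul, mul_assoc, ← mul_assoc y.1.1, h3, one_mul, h1],
    fun a => by
      rw [Prod.fst_mul, Units.val_mul, mul_assoc, h4, mul_smul_comm, ← mul_assoc, h2, smul_mul_assoc,
        smul_smul, Prod.snd_mul, map_mul, mul_assoc]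
      cases a <;> simp [mul_comm]⟩
  inv_mem' := fun {x} ⟨h1, h2⟩ => ⟨by
    have h3 : x.1⁻¹.1 = x.1.1ᵀ := Units.inv_eq_of_mul_eq_one_right h1
    rw [Prod.fst_inv, h3, transpose_transpose, ← h3, Units.inv_mul], fun a => by
      have h3 := h2 (Sum.map (x.2⁻¹ : Perm _) id a)
      rw [show Sum.map x.2 id (Sum.map (x.2⁻¹ : Perm _) id a) = a by cases a <;> simp] at h3
      rw [Prod.fst_inv, Prod.snd_inv, Perm.sign_inv, Units.inv_mul_eq_iff_eq_mul, mul_smul_comm,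
        ← mul_assoc, h3, smul_mul_assoc, smul_smul, Units.mul_inv_cancel_right, ← Int.cast_mul,
        ← Units.val_mul, Int.units_mul_self]
      simp⟩

def sπ (n : ℕ) : SG n →* Perm (Fin n) := (MonoidHom.snd _ _).comp (SG n).subtype

def sρ (n : ℕ) : SG n →* Matrix (Fk n) (Fk n) ℂ :=
  (Units.coeHom _).comp ((MonoidHom.fst _ _).comp (SG n).subtype)

def sz (n : ℕ) : SG n := ⟨(-1, 1), by simp, fun a => by simp⟩

noncomputable def sτ (n : ℕ) (g : SG n) : ℂ := (sρ n g).trace / 2 ^ n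

/-- colourings fixed by `g` -/
def Tf {n l : ℕ} {G : Type*} [Group G] (π : G →* Perm (Fin n)) (f : Fin n → Fin l) : Subgroup G where
  carrier := {g | f ∘ π g = f}
  one_mem' := by simp
  mul_mem' := fun {a b} ha hb => by
    rw [Set.mem_ofPred_eq, map_mul, Perm.coe_mul, ← Function.comp_assoc, ha, hb]
  inv_mem' := fun {a} ha => funext fun i => by
    simpa using (congrFun ha ((π a)⁻¹ i)).symm

section Fields
variable {n : ℕ} {G : Type*} [Group G] (π : G →* Perm (Fin n)) (z : G) (τ : G → ℂ)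

def FKer : Prop := Function.Surjective π ∧ z ≠ 1 ∧ z * z = 1 ∧ (∀ g, g * z = z * g) ∧
  ∀ g, π g = 1 ↔ g = 1 ∨ g = z

def FTau : Prop := IsClassFunction G τ ∧ (∀ g, τ (z * g) = -τ g) ∧ τ 1 = 1 ∧
  ∀ g, Perm.sign (π g) = -1 → τ g = 0

def FEven : Prop := ∀ g, Perm.sign (π g) = 1 → ¬ Od (ct (π g)) → IsConj g (z * g)

def FSq : Prop := ∀ g, Od (ct (π g)) → τ g ^ 2 * 2 ^ n = 2 ^ (ct (π g)).card

def FHalf : Prop := ∀ (l : ℕ) (f : Fin n → Fin l), ∃ θ, IsCharacter (Tf π f) θ ∧ ∀ g : Tf π f,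
  Perm.sign (π g) = 1 ∨ Even (n - #(univ.image f)) → θ g = 2 ^ ((n - #(univ.image f)) / 2) * τ g

def FAnti : Prop := ∀ (x g : G) (a b c d : Fin n), [a, b, c, d].Nodup → Perm.sign (π x) = 1 →
  π g = swap a b * swap c d → (π x a = b ∧ π x b = a ∧ π x c = c ∧ π x d = d) ∨
    (π x a = c ∧ π x c = a ∧ π x b = d ∧ π x d = b) → x * g ≠ g * x

structure SpinD : Prop where
  ker : FKer π z
  tau : FTau π z τ
  even : FEven π z
  sq : FSq π τ
  half : FHalf π τ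
  anti : FAnti π

/-- the spin characters -/
noncomputable def QQ (S : Fk n) (g : G) : ℂ := 2 ^ ((n - #S) / 2) * τ g * XS S (ct (π g))

/-- preimage of the alternating group -/
abbrev NN : Subgroup G := (alternatingGroup (Fin n)).comap π

end Fields

def G1 : Prop := ∀ n, FKer (sπ n) (sz n) ∧ FTau (sπ n) (sz n) (sτ n) ∧ FAnti (sπ n) ∧
  ∀ i j : Fin n, i ≠ j → ∃ g : SG n, sπ n g = swap i j ∧
    sρ n g = ((√2 : ℝ) : ℂ)⁻¹ • (gam (.inl i) - gam (.inl j))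

def G2 : Prop := ∀ n, FEven (sπ n) (sz n)

def G3 : Prop := ∀ n, FSq (sπ n) (sτ n)

def G4 : Prop := ∀ n, FHalf (sπ n) (sτ n)

def SPG : Prop := ∀ n, ∃ (G : Type) (_ : Group G) (_ : Fintype G) (π : G →* Perm (Fin n)) (z : G)
  (τ : G → ℂ), SpinD π z τ

def ORB : Prop := ∀ (K Ω : Type) [Group K] [Finite K] [Fintype Ω] [MulAction K Ω] (F : K → ℂ),
  IsClassFunction K F → (∀ ω : Ω, IsCharacter (MulAction.stabilizer K ω) fun g => F g) →
    IsCharacter K fun g => F g * Nat.card {ω : Ω // g • ω = ω}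

def C1 : Prop := ∀ (n : ℕ) (G : Type) [Group G] [Fintype G] (π : G →* Perm (Fin n)) (z : G)
  (τ : G → ℂ), SpinD π z τ → ∀ S : Fk n,
    IsGeneralizedCharacter (NN π) (fun x => QQ π τ S x) ∧
      (Even (n - #S) → IsGeneralizedCharacter G (QQ π τ S))

/-- expansion of invariant spin class functions -/
def C2 : Prop := ∀ (n : ℕ) (G : Type) [Group G] [Fintype G] (π : G →* Perm (Fin n)) (z : G)
  (τ : G → ℂ) [Fintype (NN π)], 2 ≤ n → SpinD π z τ → ∀ F : G → ℂ, IsClassFunction G F →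
    (∀ g, F (z * g) = -F g) → ∀ g ∈ NN π, F g = ∑ S : Fk n,
      (if Even (n - #S) then 2⁻¹ else 1) *
        classInner (fun x : NN π => F x) (fun x => QQ π τ S x) * QQ π τ S g

def C3 : Prop := ∀ (n : ℕ) (G : Type) [Group G] [Fintype G] (π : G →* Perm (Fin n)) (z : G)
  (τ : G → ℂ), 2 ≤ n → SpinD π z τ → ∀ (χ : IrrCharacter (NN π)) (t : G), t ∉ NN π →
    (∃ y : NN π, π y = 1 ∧ χ.1 y ≠ χ.1 1) → ∃ (S : Fk n) (c : ℤ), c ∣ 2 ∧
      ∀ x : NN π, χ.1 x + H6.cj t χ.1 x = c * QQ π τ S x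

/-! ### Covering groups and blocks -/

/-- `H` is a perfect central extension of the alternating group -/
structure Cov {n : ℕ} {H : Type*} [Group H] (π : H →* Perm (Fin n)) : Prop where
  five : 5 ≤ n
  range : π.range = alternatingGroup (Fin n)
  cen : π.ker ≤ Subgroup.center H
  perf : commutator H = ⊤

def KER : Prop := ∀ (n : ℕ) (H : Type u) [Group H] [Finite H] (π : H →* Perm (Fin n)), Cov π →
  Nat.card π.ker ∣ 6 ∧ (n ≠ 6 → n ≠ 7 → Nat.card π.ker ∣ 2)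

def EMB : Prop := ∀ (n : ℕ) (H : Type u) [Group H] [Finite H] (π : H →* Perm (Fin n)), Cov π →
  Nat.card π.ker = 2 → ∀ (G : Type) [Group G] [Finite G] (π' : G →* Perm (Fin n)) (z : G),
    FKer π' z → FAnti π' → ∃ e : H ≃* NN π', ∀ h, π' (e h) = π h

def Cor {n : ℕ} {H : Type*} [Group H] (π : H →* Perm (Fin n)) (p : ℕ) (χ : IrrCharacter H) : Prop :=
  ∃ χ' : IrrCharacter H, χ'.1 1 = χ.1 1 ∧ ∀ g w, χ.1 g + χ'.1 g ≠ 0 →
    p * w ≤ ((ct (π g)).filter (p ∣ ·)).sum →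
      w + (charDegree χ.1).factorization p ≤ (n !).factorization p

def SPC : Prop := ∀ (n : ℕ) (H : Type u) [Group H] [Finite H] (π : H →* Perm (Fin n)), Cov π →
  Nat.card π.ker = 2 → ∀ p : ℕ, p.Prime → p ≠ 2 → ∀ χ : IrrCharacter H,
    (∃ y, π y = 1 ∧ χ.1 y ≠ χ.1 1) → Cor π p χ

def NSC : Prop := ∀ (n : ℕ) (H : Type u) [Group H] [Finite H] (π : H →* Perm (Fin n)), Cov π →
  ∀ p : ℕ, p.Prime → p ≠ 2 → ∀ χ : IrrCharacter H, (∀ y, π y = 1 → χ.1 y = χ.1 1) → Cor π p χ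

/-- the base group along the cycles of `u`, centralized by `y` -/
def BE {α : Type*} (u y : Perm α) : Set (Perm α) :=
  {e | e * u = u * e ∧ e * y = y * e ∧ ∀ a, ∃ k : ℕ, e a = (u ^ k) a}

def PERM : Prop := ∀ (α : Type) [Fintype α] [DecidableEq α] (p : ℕ) (y : Perm α)
  (P : Subgroup (Perm α)), p.Prime → ¬ p ∣ orderOf y → IsPGroup p P → (∀ x ∈ P, x * y = y * x) →
    (∀ R : Subgroup (Perm α), IsPGroup p R → (∀ x ∈ R, x * y = y * x) → P ≤ R → R ≤ P) →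
      ∃ u ∈ P, ∃ (w : ℕ) (E : Subgroup (Perm α)), (∀ x ∈ P, x * u = u * x) ∧
        u.cycleType = .replicate w p ∧ (∀ x ∈ P, x.support ⊆ u.support) ∧ (E : Set _) = BE u y ∧
        E ≤ P ∧ Nat.card E ≤ p ^ w ∧ ∀ x ∈ P, x ∈ E ↔ ∀ e ∈ E, x * e = e * x

def PW : Prop := ∀ (α : Type) [Fintype α] [DecidableEq α] (p w : ℕ) (u s : Perm α), p.Prime →
  u.cycleType = .replicate w p → u * s = s * u → ¬ p ∣ orderOf s →
    p * w ≤ ((ct (u * s)).filter (p ∣ ·)).sum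

def MAXP : Prop := ∀ (H : Type u) (Q : Type) [Group H] [Finite H] [Group Q] (π : H →* Q) (p : ℕ)
  [Fact p.Prime] (y : H) (P : Sylow p (Subgroup.centralizer {y})), π.ker ≤ Subgroup.center H →
    ¬ p ∣ orderOf y → ∀ R : Subgroup Q, IsPGroup p R → R ≤ π.range → (∀ x ∈ R, x * π y = π y * x) →
      (P.1.map (Subgroup.centralizer {y}).subtype).map π ≤ R →
        R ≤ (P.1.map (Subgroup.centralizer {y}).subtype).map π

def Good (p k : ℕ) (D : Type*) [Group D] : Prop :=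
  (IsMulCommutative D → Nat.card D ≤ p ^ k) ∧
    (¬ IsMulCommutative D → Nat.card (Subgroup.center D) < p ^ k)

def Tiny (p : ℕ) (D : Type*) [Group D] : Prop :=
  Nat.card D ≤ p ^ 2 ∨ ¬ IsMulCommutative D ∧ Nat.card (Subgroup.center D) ≤ p

/-- a block with a defect group and a member -/
structure Blk {H : Type*} [Group H] (p : ℕ) (M : Ideal AlgInt) (B : Set (IrrCharacter H))
    (D : Subgroup H) (χ : IrrCharacter H) : Prop where
  hM : IsPModular p M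
  hB : IsPBlock M B
  hD : IsDefectGroup p M B D
  hχ : χ ∈ B

def Goal {H : Type*} [Group H] (p : ℕ) (B : Set (IrrCharacter H)) (D : Subgroup H)
    (χ : IrrCharacter H) : Prop :=
  blockHeight p B (χ : H → ℂ) ≤ ((Subgroup.center D).index).factorization p ∧
    (blockHeight p B (χ : H → ℂ) = ((Subgroup.center D).index).factorization p ↔ IsMulCommutative D)

def FIN : Prop := ∀ (H : Type u) [Group H] [Finite H] (p : ℕ) M B (D : Subgroup H) χ,
  Blk p M B D χ → (Tiny p D → Goal p B D χ) ∧ ∀ k, Good p k D →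
    k + (charDegree χ.1).factorization p ≤ (Nat.card H).factorization p → Goal p B D χ

def SC : Prop := ∀ (D : Type u) [Group D] [Finite D] (p k : ℕ) (E : Subgroup D),
  (∀ x, x ∈ E ↔ ∀ e ∈ E, x * e = e * x) → Nat.card E ≤ p ^ k → Good p k D

def SUB : Prop := ∀ (H : Type u) [Group H] [Finite H] (p : ℕ) M B (D : Subgroup H) χ,
  Blk p M B D χ → p ≠ 2 → ∀ u ∈ D, (∀ x ∈ D, x * u = u * x) → ∀ χ' : IrrCharacter H,
    χ'.1 1 = χ.1 1 → ∃ s, u * s = s * u ∧ ¬ p ∣ orderOf s ∧ χ.1 (u * s) + χ'.1 (u * s) ≠ 0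

def ODD : Prop := ∀ (n : ℕ) (H : Type u) [Group H] [Finite H] (π : H →* Perm (Fin n)), Cov π →
  Nat.card π.ker ∣ 2 → ∀ (p : ℕ) M B (D : Subgroup H) χ, Blk p M B D χ → p ≠ 2 → Goal p B D χ

/-- `2`-blocks of alternating groups -/
def ALT2 : Prop := ∀ (n : ℕ) M b (D : Subgroup (alternatingGroup (Fin n))) θ, Blk 2 M b D θ → 2 ≤ n →
  ∃ (P E : Subgroup (Perm (Fin n))) (u : Perm (Fin n)) (w : ℕ),
    D.map (alternatingGroup (Fin n)).subtype = P ⊓ alternatingGroup (Fin n) ∧ u ∈ P ∧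
    (∀ x ∈ P, x * u = u * x) ∧ u.cycleType = .replicate w 2 ∧ (E : Set _) = BE u 1 ∧ E ≤ P ∧
    Nat.card E ≤ 2 ^ w ∧ (∀ x ∈ P, x.support ⊆ u.support) ∧ (w ≤ 1 → D = ⊥) ∧
    (w ≤ 2 → Nat.card D ≤ 4) ∧
    (2 ≤ w → ∃ a c, [a, c, u a, u c].Nodup ∧ swap a c * swap (u a) (u c) ∈ P) ∧
    w + (charDegree θ.1).factorization 2 ≤ (n !).factorization 2

def P2A : Prop := ∀ (n : ℕ) (H : Type u) [Group H] [Finite H] (π : H →* Perm (Fin n)), Cov π →
  Nat.card π.ker = 1 → ∀ M B (D : Subgroup H) χ, Blk 2 M B D χ → Goal 2 B D χ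

def P2S : Prop := ∀ (n : ℕ) (H : Type u) [Group H] [Finite H] (π : H →* Perm (Fin n)), Cov π →
  Nat.card π.ker = 2 → ∀ M B (D : Subgroup H) χ, Blk 2 M B D χ → Tiny 2 D

/-- degrees six and seven -/
def SM : Prop := ∀ (n : ℕ) (H : Type u) [Group H] [Finite H] (π : H →* Perm (Fin n)), Cov π →
  n ≤ 7 → ∀ (p : ℕ) [Fact p.Prime] (y : H) (P : Sylow p (Subgroup.centralizer {y})),
    ¬ p ∣ orderOf y → Tiny p (P.1.map (Subgroup.centralizer {y}).subtype)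

end H26.RB
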