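/-
S3159 (a 3-component `Sp₆(2)`): definitions and the statements of the independent pieces.
The paper proofs are in `notes/SX.md`.
-/
import Cfsg.Agent.H26.SXB

set_option autoImplicit false
open Cfsg Subgroup H19 H23.F4
open H11.TC (Ch2)
open scoped commutatorElement
namespace H26.SX
universe u

/-! ### coordinates in `A = ⟨b⟩ × φ ⟨d1, d2, d3⟩` -/

abbrev t4 := Fin 3 × tA
/-- a matrix: the images of `b, d1, d2, d3` -/
abbrev M4 := t4 × t4 × t4 × t4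
def t4s : List t4 := ts.map (0, ·) ++ ts.map (1, ·) ++ ts.map (2, ·)
theorem mem_t4s : ∀ v, v ∈ t4s := by decide +kernel
instance (priority := high) (P : t4 → Prop) [DecidablePred P] : Decidable (∀ v, P v) :=
  decidable_of_iff (t4s.all fun v => decide (P v)) (by simp [mem_t4s])
instance (priority := high) (P : t4 → Prop) [DecidablePred P] : Decidable (∃ v, P v) :=
  decidable_of_iff (t4s.any fun v => decide (P v)) (by simp [mem_t4s])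
def ap4 (m : M4) (v : t4) : t4 := v.1.1 • m.1 + v.2.1.1 • m.2.1 + v.2.2.1.1 • m.2.2.1 + v.2.2.2.1 • m.2.2.2
/-- `cmp4 m n` is `m ∘ n` -/
def cmp4 (m n : M4) : M4 := (ap4 m n.1, ap4 m n.2.1, ap4 m n.2.2.1, ap4 m n.2.2.2)
def id4 : M4 := ((1, 0, 0, 0), (0, 1, 0, 0), (0, 0, 1, 0), (0, 0, 0, 1))
/-- the action of the monomial word `w` (`mg`, `ma`, `monoW`) -/
def mo4 (w : List ℕ) : M4 :=
  ((1, 0, 0, 0), (0, w.foldr ma (1, 0, 0)), (0, w.foldr ma (0, 1, 0)), (0, w.foldr ma (0, 0, 1)))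
/-- `b ↔ d1` -/
def nB : M4 := ((0, 1, 0, 0), (1, 0, 0, 0), (0, 0, 1, 0), (0, 0, 0, 1))
/-- `b ↦ d1 d2`, `d1 ↦ b d1 d2⁻¹`, `d2 ↦ b d1⁻¹ d2` -/
def nG : M4 := ((0, 1, 1, 0), (1, 1, 2, 0), (1, 2, 1, 0), (0, 0, 0, 1))
/-- `b ↦ b d1` -/
def nA : M4 := ((1, 1, 0, 0), (0, 1, 0, 0), (0, 0, 1, 0), (0, 0, 0, 1))
/-- `b ↦ b d1 d2 d3` -/
def nF : M4 := ((1, 1, 1, 1), (1, 1, 2, 2), (1, 2, 1, 2), (1, 2, 2, 1))
/-- the number of nonzero coordinates -/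
def wt (v : t4) : ℕ := (if v.1 = 0 then 0 else 1) + (if v.2.1 = 0 then 0 else 1) + (if v.2.2.1 = 0 then 0 else 1) +
  (if v.2.2.2 = 0 then 0 else 1)

/-- `z = d1 d2 d3` -/
def zz : Sp := d1 * d2 * d3
/-- `w = d1 d2` -/
def ww : Sp := d1 * d2
/-- `β = d1 d2⁻¹` -/
def bb : Sp := d1 * d2⁻¹
/-- the centre `2³` of `O₂(C(sw12))` -/
def ZW : Subgroup Sp := closure {T (e1 + e2), T (f1 + f2), T (e1 + e2 + (f1 + f2))}
/-- `Sp₄(2)` on `⟨a, c⟩^⊥` -/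
def S4 (a c : V) : Subgroup Sp := MulAction.stabilizer Sp a ⊓ MulAction.stabilizer Sp c

section
variable {G : Type*} [Group G]
def ea (b : G) (φ : Sp →* G) (v : t4) : G := b ^ v.1.1 * φ (dA v.2)
abbrev AA (b : G) (φ : Sp →* G) : Subgroup G := zpowers b ⊔ AM.map φ
/-- `g` acts on `A` by the matrix `m` -/
def Ac (b : G) (φ : Sp →* G) (g : G) (m : M4) : Prop := ∀ v, g * ea b φ v * g⁻¹ = ea b φ (ap4 m v)
/-- `m` belongs to the automizer of `A` -/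
def Wm (b : G) (φ : Sp →* G) (m : M4) : Prop := ∃ g, Ac b φ g m
/-- the conjugates of `b` in `A` (long elements) -/
def Lg (b : G) (φ : Sp →* G) (v : t4) : Prop := IsConj b (ea b φ v)
/-- the conjugate chart -/
def lc (g : G) (φ : Sp →* G) : Sp →* G := (MulAut.conj g).toMonoidHom.comp φ
@[simp] theorem lc_apply (g : G) (φ : Sp →* G) (y : Sp) : lc g φ y = g * φ y * g⁻¹ := rfl
/-- `O₂(C(t))` -/
abbrev Q1 (t : G) : Subgroup G := Oc {2} C[t]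

/-- a chart: `C(b) = ⟨b⟩ × R × φ(Sp₆(2))` -/
structure Wc (b : G) (φ : Sp →* G) (R : Subgroup G) : Prop where
  o3 : orderOf b = 3
  inj : Function.Injective φ
  cb : ∀ g, Commute b (φ g)
  Rb : ∀ k ∈ R, Commute k b
  RL : ∀ k ∈ R, ∀ g, Commute k (φ g)
  R6 : PiG {2, 3}ᶜ R
  cent : ∀ x, Commute x b → ∃ (i : Fin 3) (k : G) (g : Sp), k ∈ R ∧ x = b ^ i.1 * k * φ g
/-- a chart with a reflection `r` -/
structure Fc (b r : G) (φ : Sp →* G) (R : Subgroup G) : Prop extends Wc b φ R where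
  rr : r * r = 1
  rb : r * b * r⁻¹ = b⁻¹
  rL : ∀ g, Commute r (φ g)
  rR : ∀ k ∈ R, Commute r k
/-- the chart of `φ (T a * T c)`; the plane `⟨a, c⟩` of `ψ` belongs to `⟨r, b⟩` -/
structure Co (b r : G) (φ : Sp →* G) (R : Subgroup G) (a c : V) (ψ : Sp →* G) : Prop where
  fc : Fc (φ (T a * T c)) (φ (T a)) ψ R
  ha : ψ (T a) = r
  hc : ψ (T a * T c) = b
  ag : ∀ k : Sp, k • a = a → k • c = c → ψ k = φ k
/-- no elementary abelian subgroup of order 81 in a 2-local subgroup -/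
def Rk (G : Type*) [Group G] : Prop := ∀ X E : Subgroup G, PG 2 X → X ≠ ⊥ → E ≤ N(X) → Ab E →
  (∀ a ∈ E, a ^ 3 = 1) → #E ≤ 27
/-- the automizer is `W(B₄)` -/
structure B4 (b r : G) (φ : Sp →* G) (R : Subgroup G) : Prop extends Fc b r φ R where
  nb : Wm b φ nB
  lg : ∀ v, Lg b φ v ↔ wt v = 1
/-- the automizer is `W(F₄)` -/
structure F4 (b r : G) (φ : Sp →* G) (R : Subgroup G) : Prop extends Fc b r φ R where
  nb : Wm b φ nB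
  nf : Wm b φ nF
  lg : ∀ v, Lg b φ v ↔ wt v = 1 ∨ wt v = 4
/-- `C(w) = ⟨w⟩ × M` -/
structure Mz (w : G) (M : Subgroup G) : Prop where
  le : M ≤ C[w]
  nw : w ∉ M
  sup : ∀ x ∈ C[w], ∃ i : Fin 3, w ^ i.1 * x ∈ M
  d81 : 81 ∣ #M
  n243 : ¬ 243 ∣ #M
/-- the group `2⁵ = O₂(C_M(τ))` of the `F₄` case -/
abbrev OO (r g : G) (φ : Sp →* G) : Subgroup G := ZW.map (lc g φ) ⊔ ZW.map (lc (r * g) φ)
/-- the data of the `F₄` case: `τ = φ sw12`, `w = φ ww`, `χ = lc g φ` is the chart of `b φ zz`, `ψ` that of `φ d1` -/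
structure FX (b r g : G) (φ ψ : Sp →* G) (M : Subgroup G) : Prop where
  f4 : F4 b r φ ⊥
  zq : ZW.map φ ≤ Q1 (φ sw12)
  ac : Ac b φ g nF
  gt : Commute g (φ sw12)
  co : Co b r φ ⊥ e1 f1 ψ
  mz : Mz (φ ww) M
/-- `C_M(τ) = O : S₆` -/
structure FY (r g : G) (φ ψ : Sp →* G) (M : Subgroup G) : Prop where
  eq : M ⊓ C[φ sw12] = OO r g φ ⊔ (S4 e2 f2).map ψ
  nm : (S4 e2 f2).map ψ ≤ N(OO r g φ)
  ab : Ab (OO r g φ)
  card : #(OO r g φ) = 32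
  dis : OO r g φ ⊓ (S4 e2 f2).map ψ = ⊥
/-- `C_M(τ) ≅ W(D₆)` -/
structure FZ (r g : G) (φ ψ : Sp →* G) (M : Subgroup G) : Prop where
  iso : Nonempty (↥(M ⊓ C[φ sw12]) ≃* ↥(alternatingGroup (Fin 12) ⊓ C[(Equiv.swap (0 : Fin 12) 1 * Equiv.swap (2 : Fin 12) 3 *
    Equiv.swap (4 : Fin 12) 5 * Equiv.swap (6 : Fin 12) 7 * Equiv.swap (8 : Fin 12) 9 * Equiv.swap (10 : Fin 12) 11)]))
  tr : ∀ y ∈ OO r g φ, ∃ h ∈ (S4 e2 f2).map ψ, h * y * h⁻¹ ∈ ZW.map (lc g φ)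
  sc : M ⊓ C[φ sw12] ⊓ C(OO r g φ) ≤ OO r g φ
/-- the module `O₂(C(r)) = 2⁷` of the `B₄` case -/
structure MB (b r : G) (φ : Sp →* G) (δ : V → G) : Prop where
  d0 : δ 0 = 1
  cj : ∀ g p, φ g * δ p * (φ g)⁻¹ = δ (g • p)
  mul : ∀ p q, δ p * δ q = δ (p + q) * H26.SX.rb r (ω p q)
  cr : ∀ p, Commute (δ p) r
  co : ∀ {a c ψ}, ω a c = true → Co b r φ ⊥ a c ψ → ∀ q, ω q a = false → ω q c = false → ψ (X a q) = δ q
  form : ∀ x, Commute x r → ∃ p ε k, x = δ p * H26.SX.rb r ε * φ k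
end

/-! ### the basic lemmas (proved in `SX1`: `H26.SX.api`) -/

structure Api : Prop where
  /-- automorphisms of `Sp₆(2)` are inner -/
  inner : ∀ α : MulAut Sp, ∃ ξ, ∀ x, α x = ξ * x * ξ⁻¹
  /-- `N(AM)` is monomial -/
  mono : ∀ g ∈ N(AM), ∃ w ∈ monoW, ∃ t, g = (w.map mg).prod * dA t
  /-- `AM` normalizes no nontrivial 2-subgroup -/
  sig : ∀ K : Subgroup Sp, PG 2 K → AM ≤ N(K) → K = ⊥
  /-- `C(X) ∩ C(O₂(C(X))) ≤ O₂(C(X))` -/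
  ch : ∀ {G : Type u} [Group G] [Finite G], Ch2 G → ∀ {t : G}, t * t = 1 → t ≠ 1 → ∀ x, Commute x t → x ∈ C(Q1 t) → x ∈ Q1 t
  odd : ∀ {G : Type u} [Group G] [Finite G], Ch2 G → ∀ {s t : G}, s * s = 1 → t * t = 1 → Commute s t → s ≠ 1 → t ≠ 1 →
    s ≠ t → oddCore G = ⊥
  add : ∀ {G : Type u} [Group G] {b : G} {φ R}, Wc b φ R → ∀ v w, ea b φ (v + w) = ea b φ v * ea b φ w
  einj : ∀ {G : Type u} [Group G] [Finite G] {b : G} {φ R}, Wc b φ R → Function.Injective (ea b φ)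
  mem : ∀ {G : Type u} [Group G] [Finite G] {b : G} {φ R}, Wc b φ R → ∀ x, x ∈ AA b φ ↔ ∃ v, x = ea b φ v
  cA : ∀ {G : Type u} [Group G] [Finite G] {b : G} {φ R}, Wc b φ R →
    #(AA b φ) = 81 ∧ Ab (AA b φ) ∧ ∀ a ∈ AA b φ, a ^ 3 = 1
  /-- the 2-elements of `C(b)` -/
  m2 : ∀ {G : Type u} [Group G] [Finite G] {b : G} {φ R}, Wc b φ R → ∀ x, Commute x b → PiE {2} x → ∃ g, x = φ g
  /-- the `{2,3}`-elements of `C(b)` -/
  m3 : ∀ {G : Type u} [Group G] [Finite G] {b : G} {φ R}, Wc b φ R → ∀ x, Commute x b → PiE {2, 3} x →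
    ∃ (i : Fin 3) (g : Sp), x = b ^ i.1 * φ g
  /-- `C(A) = A × R` -/
  cen : ∀ {G : Type u} [Group G] [Finite G] {b : G} {φ R}, Wc b φ R → ∀ x, Ac b φ x id4 → ∃ v, ∃ k ∈ R, x = ea b φ v * k
  /-- an action is determined by four conjugations -/
  ac : ∀ {G : Type u} [Group G] {b : G} {φ R}, Wc b φ R → ∀ {g m}, g * b * g⁻¹ = ea b φ m.1 →
    g * φ d1 * g⁻¹ = ea b φ m.2.1 → g * φ d2 * g⁻¹ = ea b φ m.2.2.1 → g * φ d3 * g⁻¹ = ea b φ m.2.2.2 → Ac b φ g m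
  nac : ∀ {G : Type u} [Group G] [Finite G] {b : G} {φ R}, Wc b φ R → ∀ g, g ∈ N(AA b φ) ↔ ∃ m, Ac b φ g m
  amul : ∀ {G : Type u} [Group G] {b : G} {φ R}, Wc b φ R → ∀ {g h m n}, Ac b φ g m → Ac b φ h n → Ac b φ (g * h) (cmp4 m n)
  ainv : ∀ {G : Type u} [Group G] [Finite G] {b : G} {φ R}, Wc b φ R → ∀ {g m}, Ac b φ g m →
    ∃ n, Ac b φ g⁻¹ n ∧ cmp4 n m = id4 ∧ cmp4 m n = id4
  amo : ∀ {G : Type u} [Group G] {b : G} {φ R}, Wc b φ R → ∀ w : List ℕ, Ac b φ (φ (w.map mg).prod) (mo4 w)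
  /-- the stabilizer of `b` in the automizer -/
  stab : ∀ {G : Type u} [Group G] [Finite G] {b : G} {φ R}, Wc b φ R → ∀ {g m}, Ac b φ g m → m.1 = (1, 0, 0, 0) →
    ∃ w ∈ monoW, m = mo4 w
  /-- control of fusion -/
  fus : ∀ {G : Type u} [Group G] [Finite G] {b : G} {φ R}, Wc b φ R → ∀ v, Lg b φ v ↔ ∃ m, Wm b φ m ∧ m.1 = v
  lga : ∀ {G : Type u} [Group G] {b : G} {φ R}, Wc b φ R → ∀ {g m}, Ac b φ g m → ∀ v, Lg b φ (ap4 m v) ↔ Lg b φ v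
  /-- the chart of a conjugate -/
  wlc : ∀ {G : Type u} [Group G] {b : G} {φ R}, Wc b φ R → ∀ g, Wc (g * b * g⁻¹) (lc g φ) (cj g R)
  wcf : ∀ {G : Type u} [Group G] {b : G} {φ R}, Wc b φ R → ∀ k, Wc b (cf φ k) R
  /-- `N(A)` normalizes `R` -/
  nR : ∀ {G : Type u} [Group G] [Finite G] {b : G} {φ R}, Wc b φ R → ∀ {g m}, Ac b φ g m → cj g R = R
  elc : ∀ {G : Type u} [Group G] {b g : G} {φ} (v : t4), ea (g * b * g⁻¹) (lc g φ) v = g * ea b φ v * g⁻¹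
  /-- `N(⟨b⟩)` induces inner automorphisms on `L` -/
  inn : ∀ {G : Type u} [Group G] [Finite G] {b : G} {φ R}, Wc b φ R → ∀ g, g * b * g⁻¹ = b ∨ g * b * g⁻¹ = b⁻¹ →
    ∃ k, ∀ y, g * φ y * g⁻¹ = φ (k * y * k⁻¹)
  /-- an involution of `N(⟨b⟩)` centralizing `φ AM` centralizes `L` -/
  cenL : ∀ {G : Type u} [Group G] [Finite G] {b : G} {φ R}, Wc b φ R → ∀ r, r * r = 1 → r * b * r⁻¹ = b ∨ r * b * r⁻¹ = b⁻¹ →
    Commute r (φ d1) → Commute r (φ d2) → Commute r (φ d3) → ∀ y, Commute r (φ y)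
  /-- the reflection -/
  refl : ∀ {G : Type u} [Group G] [Finite G] {b : G} {φ R}, Wc b φ R → Wm b φ nB → ∃ r, Fc b r φ R
  flc : ∀ {G : Type u} [Group G] {b r : G} {φ R}, Fc b r φ R → ∀ g, Fc (g * b * g⁻¹) (g * r * g⁻¹) (lc g φ) (cj g R)
  fcf : ∀ {G : Type u} [Group G] {b r : G} {φ R}, Fc b r φ R → ∀ k, Fc b r (cf φ k) R
  /-- the charts of the long elements of `L` -/
  co : ∀ {G : Type u} [Group G] [Finite G] {b r : G} {φ R}, Fc b r φ R → Wm b φ nB → ∀ {a c}, ω a c = true →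
    ∃ ψ, Co b r φ R a c ψ
  /-- generation under an elementary abelian group of order nine -/
  e9 : ∀ {G : Type u} [Group G] [Finite G] {X Y : Subgroup G} {a b : G}, PiG {3}ᶜ X → a ^ 3 = 1 → b ^ 3 = 1 →
    Commute a b → a ∈ N(X) → b ∈ N(X) → X ⊓ C[a] ≤ Y → X ⊓ C[b] ≤ Y → X ⊓ C[a * b] ≤ Y →
    X ⊓ C[a * b⁻¹] ≤ Y → X ≤ Y

/-! ### the chunks -/

/-- subgroups of `GL₄(3)` with point stabilizer `W(B₃)` -/
def TRI : Prop := ∀ W : M4 → Prop, (∀ m n, W m → W n → W (cmp4 m n)) → 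
  (∀ m, W m → ∃ n, W n ∧ cmp4 n m = id4 ∧ cmp4 m n = id4) →
  (∀ w, W (mo4 w)) → (∀ m, W m → m.1 = (1, 0, 0, 0) → ∃ w ∈ monoW, m = mo4 w) → (∃ m, W m ∧ m.1.2 ≠ 0) →
  (W nB ∨ W nG ∨ (W nA ∧ ∀ m, W m → m.1.1 ≠ 0)) ∧ (∀ m, W m → m.1 ≠ (0, 1, 1, 1)) ∧
    (W nB → (∃ m, W m ∧ m.1 = (1, 1, 1, 1)) → W nF)

/-- the setup -/
def SU : Prop := Api.{u} → ∀ {G : Type u} [Group G] [Finite G] {b : G} (L : Subgroup G), orderOf b = 3 → L ≤ C[b] →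
  (L.subgroupOf C[b]).Normal → Nonempty (Sp ≃* L) → (∀ R : Sylow 3 C(L), IsCyclic (R : Subgroup C(L))) →
  (∀ k : ℕ, TwoLocalPRankLE 3 k G ↔ TwoLocalPRankLE 3 k C[b]) →
  (∃ g : G, g * b * g⁻¹ ∈ C[b] ∧ zpowers (g * b * g⁻¹) ≠ zpowers b) →
  (∀ B : Subgroup C[b], IsElementaryAbelian 3 B → (∃ H : Subgroup C[b], IsTwoLocal H ∧ B ≤ H) →
    (∀ B' : Subgroup C[b], IsElementaryAbelian 3 B' → (∃ H : Subgroup C[b], IsTwoLocal H ∧ B' ≤ H) → #B' ≤ #B) →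
    ∃ Q : Subgroup C[b], IsPGroup 2 Q ∧ B ≤ N(Q) ∧ ⁅Q, B⁆ ≠ ⊥) →
  ∃ φ R, Wc b φ R ∧ Rk G ∧ ∃ v : t4, v.2 ≠ 0 ∧ Lg b φ v

/-- the affine case -/
def AFF : Prop := Api.{u} → ∀ {G : Type u} [Group G] [Finite G] {b : G} {φ R}, Rk G →
  (∀ N : Subgroup G, N.Normal → N.index = 3 → False) → Wc b φ R → Wm b φ nA → (∀ v, Lg b φ v → v.1 ≠ 0) → False

/-- the case `GO₄⁻(3)` -/
def GO : Prop := Api.{u} → ∀ {G : Type u} [Group G] [Finite G] {b : G} {φ R}, Ch2 G → Wc b φ R → Wm b φ nG → False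

/-- the case `W(F₄).2` -/
def HY : Prop := Api.{u} → ∀ {G : Type u} [Group G] [Finite G] {b r : G} {φ R}, Ch2 G → Fc b r φ R → Wm b φ nB →
  Lg b φ (0, 1, 1, 0) → ¬ Lg b φ (0, 1, 1, 1) → Hy {x | IsConj b x}

/-- `Aut(F₄(2))` is not of characteristic 2 type -/
def NA : Prop := ∀ {G : Type u} [Group G] [Finite G], Ch2 G → Nonempty (G ≃* MulAut Y4) → False

/-- `F₄` case: the short involution `τ = φ sw12` -/
def FA : Prop := Api.{u} → ∀ {G : Type u} [Group G] [Finite G] {b r : G} {φ R}, Ch2 G → F4 b r φ R →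
  R = ⊥ ∧ ZW.map φ ≤ Q1 (φ sw12) ∧ ∃ g, Ac b φ g nF ∧ Commute g (φ sw12)

/-- `F₄` case: transfer in `C(w)` -/
def FT : Prop := Api.{u} → ∀ {G : Type u} [Group G] [Finite G] {b r : G} {φ}, F4 b r φ ⊥ → ∃ M, Mz (φ ww) M

/-- `F₄` case: `C_M(τ) = 2⁵ : S₆` -/
def FB : Prop := Api.{u} → ∀ {G : Type u} [Group G] [Finite G] {b r g : G} {φ ψ M}, FX b r g φ ψ M → FY r g φ ψ M

/-- `F₄` case: `C_M(τ)` is the centralizer of a fixed point free involution in `A₁₂` -/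
def FC : Prop := Api.{u} → ∀ {G : Type u} [Group G] [Finite G] {b r g : G} {φ ψ M}, FX b r g φ ψ M → FY r g φ ψ M →
  FZ r g φ ψ M

/-- `F₄` case: `M ≅ Sp₆(2)` -/
def FS : Prop := Api.{u} → ∀ {G : Type u} [Group G] [Finite G] {b r g : G} {φ ψ M}, FX b r g φ ψ M → FY r g φ ψ M →
  FZ r g φ ψ M → Nonempty (Sp ≃* M)

/-- `F₄` case: the frames -/
def FD : Prop := Api.{u} → ∀ {G : Type u} [Group G] [Finite G] {b r : G} {φ M}, F4 b r φ ⊥ → Mz (φ ww) M →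
  Nonempty (Sp ≃* M) → Hy {x | IsConj b x ∨ IsConj (φ ww) x}

/-- no simple group has these properties -/
def DL : Prop := ∀ (X : Type u) [Group X] [Finite X] [IsSimpleGroup X], ¬ IsMulCommutative X → (∀ x : X, orderOf x ≠ 6) →
  3 ∣ Nat.card X → ¬ 9 ∣ Nat.card X → (∀ x g : X, g * x * g⁻¹ = x⁻¹ → 3 ∣ orderOf x → orderOf x = 3) →
  ∀ (S : Sylow 2 X) (k : ℕ), Nat.card S = 2 ^ (2 * k + 3) → ∀ α : MulAut S, α ^ 3 = 1 → α ≠ 1 → False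

/-- `B₄` case: the hyperplane without long elements -/
def DD : Prop := Api.{u} → DL.{u} → ∀ {G : Type u} [Group G] [Finite G] {b r : G} {φ R}, Rk G → B4 b r φ R →
  ∀ Y : Subgroup G, PG 2 Y → r ∈ Y → Y ≤ C[φ zz] → Y ≤ C[φ bb] → φ d1 ∈ N(Y) → Y ≤ zpowers r

/-- `B₄` case: the centralizer of `r` -/
def QU : Prop := Api.{u} → ∀ {G : Type u} [Group G] [Finite G] {b r : G} {φ R}, Ch2 G → B4 b r φ R →
  Q1 r ⊓ C[φ zz] ⊓ C[φ bb] ≤ zpowers r → R = ⊥ ∧ ∃ δ, MB b r φ δ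

end H26.SX
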