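/-
S3159: a computable model of `Sp₈(2)` extending `H23.F4.Sp`, and the last two chunks.
-/
import Cfsg.Agent.H26.SX0

set_option autoImplicit false
open Cfsg Subgroup H19 H23.F4
open H11.TC (Ch2)
namespace H26.SX
universe u

/-- vectors of `F₂⁸`; the bits `0,…,7` are the coordinates of `e1,f1,e2,f2,e3,f3,e0,f0` -/
def V8 : Type := Fin 256
instance : DecidableEq V8 := inferInstanceAs (DecidableEq (Fin 256))
instance : Fintype V8 := inferInstanceAs (Fintype (Fin 256))
def vv8 (n : ℕ) : V8 := ⟨n % 256, Nat.mod_lt _ (by decide)⟩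
def v8s : List V8 := (List.range 256).map vv8
theorem mem_v8s (v : V8) : v ∈ v8s := List.mem_map.2 ⟨v.1, List.mem_range.2 v.2, Fin.ext (Nat.mod_eq_of_lt v.2)⟩
instance (P : V8 → Prop) [DecidablePred P] : Decidable (∀ v, P v) :=
  decidable_of_iff (v8s.all fun v => decide (P v)) (by simp [mem_v8s])
instance (P : V8 → Prop) [DecidablePred P] : Decidable (∃ v, P v) :=
  decidable_of_iff (v8s.any fun v => decide (P v)) (by simp [mem_v8s])
instance : Add V8 := ⟨fun x y => ⟨x.1 ^^^ y.1, Nat.xor_lt_two_pow (n := 8) x.2 y.2⟩⟩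
instance : Zero V8 := ⟨⟨0, by decide⟩⟩
instance : Neg V8 := ⟨id⟩
instance : AddCommGroup V8 where
  add_assoc x y z := Fin.ext (Nat.xor_assoc _ _ _)
  zero_add x := Fin.ext (Nat.zero_xor _)
  add_zero x := Fin.ext (Nat.xor_zero _)
  neg_add_cancel x := Fin.ext (Nat.xor_self _)
  add_comm x y := Fin.ext (Nat.xor_comm _ _)
  nsmul := nsmulRec
  zsmul := zsmulRec
@[simp] theorem add_self8 (x : V8) : x + x = 0 := Fin.ext (Nat.xor_self _)
@[simp] theorem neg_v8 (x : V8) : -x = x := rfl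
@[simp] theorem add_add_self8 (x y : V8) : x + (x + y) = y := by rw [← add_assoc, add_self8, zero_add]
theorem add_eq_zero8 {x y : V8} : x + y = 0 ↔ x = y := add_eq_zero_iff_eq_neg

def e0 : V8 := ⟨64, by decide⟩
def f0 : V8 := ⟨128, by decide⟩
def up (v : V) : V8 := ⟨v.1, v.2.trans (by decide)⟩
def lo (v : V8) : V := ⟨v.1 % 64, Nat.mod_lt _ (by decide)⟩
def par8 (n : ℕ) : Bool := xor (par (n % 16)) (par (n / 16))
def sw8 (n : ℕ) : ℕ := ((n &&& 85) <<< 1) ||| ((n >>> 1) &&& 85)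
/-- the symplectic form -/
def ω8 (x y : V8) : Bool := par8 (x.1 &&& sw8 y.1)
theorem par8_xor : ∀ a < 256, ∀ b < 256, par8 (a ^^^ b) = xor (par8 a) (par8 b) := by decide +kernel
theorem ω8_comm : ∀ x y : V8, ω8 x y = ω8 y x := by decide +kernel
@[simp] theorem ω8_self : ∀ x : V8, ω8 x x = false := by decide +kernel
@[simp] theorem ω8_zero : ∀ x : V8, ω8 x 0 = false := by decide +kernel
@[simp] theorem zero_ω8 : ∀ x : V8, ω8 0 x = false := by decide +kernel
@[simp] theorem ω8_add_left (x y z : V8) : ω8 (x + y) z = xor (ω8 x z) (ω8 y z) := by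
  have h : ∀ a : V8, a.1 &&& sw8 z.1 < 256 := fun a => lt_of_le_of_lt Nat.and_le_left a.2
  change par8 ((x.1 ^^^ y.1) &&& sw8 z.1) = _
  rw [Nat.and_xor_distrib_right, par8_xor _ (h x) _ (h y)]; rfl
@[simp] theorem ω8_add_right (x y z : V8) : ω8 z (x + y) = xor (ω8 z x) (ω8 z y) := by
  rw [ω8_comm, ω8_add_left, ω8_comm x, ω8_comm y]
def sc8 (b : Bool) (v : V8) : V8 := bif b then v else 0
@[simp] theorem sc8_true (v : V8) : sc8 true v = v := rfl
@[simp] theorem sc8_false (v : V8) : sc8 false v = 0 := rfl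
theorem sc8_xor (a b : Bool) (v : V8) : sc8 (xor a b) v = sc8 a v + sc8 b v := by cases a <;> cases b <;> simp
@[simp] theorem ω8_sc_left (b : Bool) (v w : V8) : ω8 (sc8 b v) w = (b && ω8 v w) := by cases b <;> simp
@[simp] theorem ω8_sc_right (b : Bool) (v w : V8) : ω8 w (sc8 b v) = (b && ω8 w v) := by cases b <;> simp
/-- the component in `⟨e0, f0⟩` -/
def hi (v : V8) : V8 := sc8 (ω8 v f0) e0 + sc8 (ω8 v e0) f0
theorem up_add (p q : V) : up (p + q) = up p + up q := rfl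
@[simp] theorem up_zero : up 0 = 0 := rfl
theorem up_sc (b : Bool) (p : V) : up (sc b p) = sc8 b (up p) := by cases b <;> rfl
@[simp] theorem lo_up : ∀ p, lo (up p) = p := by decide +kernel
theorem up_inj : Function.Injective up := Function.LeftInverse.injective lo_up
theorem up_lo : ∀ v, up (lo v) + hi v = v := by decide +kernel
theorem lo_add : ∀ x y, lo (x + y) = lo x + lo y := fun x y => Fin.ext (Nat.xor_mod_two_pow (n := 6))
theorem hi_add (x y : V8) : hi (x + y) = hi x + hi y := by simp only [hi, ω8_add_left, sc8_xor]; abel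
@[simp] theorem ω8_up : ∀ p q, ω8 (up p) (up q) = ω p q := by decide +kernel
@[simp] theorem ω8_up_e0 : ∀ p, ω8 (up p) e0 = false := by decide +kernel
@[simp] theorem ω8_up_f0 : ∀ p, ω8 (up p) f0 = false := by decide +kernel
@[simp] theorem ω8_e0_up : ∀ p, ω8 e0 (up p) = false := by decide +kernel
@[simp] theorem ω8_f0_up : ∀ p, ω8 f0 (up p) = false := by decide +kernel
@[simp] theorem ω8_ef : ω8 e0 f0 = true := rfl
@[simp] theorem ω8_fe : ω8 f0 e0 = true := rfl
@[simp] theorem hi_up (p : V) : hi (up p) = 0 := by simp [hi]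
@[simp] theorem hi_hi : ∀ v, hi (hi v) = hi v := by decide +kernel
@[simp] theorem lo_hi : ∀ v, lo (hi v) = 0 := by decide +kernel
@[simp] theorem ω8_up_hi (p : V) (v : V8) : ω8 (up p) (hi v) = false := by simp [hi]
@[simp] theorem ω8_hi_up (p : V) (v : V8) : ω8 (hi v) (up p) = false := by simp [hi]
theorem eq_up {v : V8} (h1 : ω8 v e0 = false) (h2 : ω8 v f0 = false) : up (lo v) = v := by
  have := up_lo v; rwa [hi, h1, h2, sc8_false, sc8_false, add_zero, add_zero] at this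
theorem nondeg8 : ∀ x : V8, (∀ p ∈ [up e1, up f1, up e2, up f2, up e3, up f3, e0, f0], ω8 x p = false) → x = 0 := by
  decide +kernel
theorem decomp8 : ∀ v : V8, v = sc8 (ω8 v (up f1)) (up e1) + sc8 (ω8 v (up e1)) (up f1) + sc8 (ω8 v (up f2)) (up e2) +
    sc8 (ω8 v (up e2)) (up f2) + sc8 (ω8 v (up f3)) (up e3) + sc8 (ω8 v (up e3)) (up f3) + sc8 (ω8 v f0) e0 +
    sc8 (ω8 v e0) f0 := by decide +kernel

def Sp8M : Subgroup (Equiv.Perm V8) where
  carrier := {g | (∀ x y, g (x + y) = g x + g y) ∧ ∀ x y, ω8 (g x) (g y) = ω8 x y}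
  one_mem' := ⟨fun _ _ => rfl, fun _ _ => rfl⟩
  mul_mem' := fun {a b} ha hb => ⟨fun x y => by simp only [Equiv.Perm.mul_apply, ha.1, hb.1],
    fun x y => by simp only [Equiv.Perm.mul_apply, ha.2, hb.2]⟩
  inv_mem' := fun {a} ha => ⟨fun x y => a.injective (by simp [ha.1]), fun x y => by rw [← ha.2]; simp⟩
/-- the model of `Sp₈(2)` -/
abbrev Sp8 : Type := ↥Sp8M
theorem smul_def8 (g : Sp8) (v : V8) : g • v = g.1 v := rfl
instance : DistribMulAction Sp8 V8 where
  smul_zero g := by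
    have := g.2.1 0 0
    rw [add_zero, add_self8] at this
    exact this
  smul_add g := g.2.1
@[simp] theorem ω8_smul (g : Sp8) (x y : V8) : ω8 (g • x) (g • y) = ω8 x y := g.2.2 x y
theorem ω8_smul_left (g : Sp8) (x y : V8) : ω8 (g • x) y = ω8 x (g⁻¹ • y) := by rw [← ω8_smul g x, smul_inv_smul]
@[simp] theorem smul_sc8 (g : Sp8) (b : Bool) (v : V8) : g • sc8 b v = sc8 b (g • v) := by cases b <;> simp
theorem ext_v8 {g h : Sp8} (e : ∀ v : V8, g • v = h • v) : g = h := Subtype.ext (Equiv.ext e)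
theorem ext8 {g h : Sp8} (e : ∀ p ∈ [up e1, up f1, up e2, up f2, up e3, up f3, e0, f0], g • p = h • p) : g = h :=
  ext_v8 fun v => by
    simp only [List.mem_cons, List.not_mem_nil, or_false, forall_eq_or_imp, forall_eq] at e
    rw [decomp8 v]; simp only [smul_add, smul_sc8, e]
instance : DecidableEq Sp8 := fun g h =>
  decidable_of_iff (∀ p ∈ [up e1, up f1, up e2, up f2, up e3, up f3, e0, f0], g • p = h • p) ⟨ext8, fun e => by simp [e]⟩
instance (g h : Sp8) : Decidable (Commute g h) := inferInstanceAs (Decidable (g * h = h * g))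
/-- an additive isometry is an element of `Sp8` -/
theorem mk8 (f : V8 → V8) (ha : ∀ x y, f (x + y) = f x + f y) (hw : ∀ x y, ω8 (f x) (f y) = ω8 x y) : ∃ g : Sp8, ∀ v, g • v = f v :=
  ⟨⟨Equiv.ofBijective f (Finite.injective_iff_bijective.1 fun x y e' => add_eq_zero8.1 (nondeg8 _ fun p _ => by
    rw [← hw, ha, e', add_self8, zero_ω8])), ha, hw⟩, fun _ => rfl⟩

def tf8 (p v : V8) : V8 := v + sc8 (ω8 v p) p
theorem tf8_tf8 (p : V8) : Function.Involutive (tf8 p) := fun v => by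
  simp only [tf8, ω8_add_left, ω8_sc_left, ω8_self, Bool.and_false, Bool.xor_false, add_assoc, add_self8, add_zero]
/-- the transvection with centre `p` -/
def T8 (p : V8) : Sp8 := ⟨(tf8_tf8 p).toPerm, fun x y => by
  change tf8 p (x + y) = tf8 p x + tf8 p y
  simp only [tf8, ω8_add_left, sc8_xor]; abel, fun x y => by
  change ω8 (tf8 p x) (tf8 p y) = _
  simp only [tf8, ω8_add_left, ω8_add_right, ω8_sc_left, ω8_sc_right, ω8_self, ω8_comm p y]
  cases ω8 x y <;> cases ω8 x p <;> cases ω8 y p <;> rfl⟩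
theorem T8_smul (p v : V8) : T8 p • v = v + sc8 (ω8 v p) p := rfl
@[simp] theorem T8_mul_self (p : V8) : T8 p * T8 p = 1 := ext_v8 fun v => tf8_tf8 p v
@[simp] theorem T8_inv (p : V8) : (T8 p)⁻¹ = T8 p := inv_eq_of_mul_eq_one_right (T8_mul_self p)
theorem conj_T8 (g : Sp8) (p : V8) : g * T8 p * g⁻¹ = T8 (g • p) := ext_v8 fun v => by
  simp only [mul_smul, T8_smul, smul_add, smul_inv_smul, smul_sc8, ω8_smul_left g⁻¹, inv_inv]
def X8 (p q : V8) : Sp8 := T8 p * T8 q * T8 (p + q)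
theorem conj_X8 (g : Sp8) (p q : V8) : g * X8 p q * g⁻¹ = X8 (g • p) (g • q) := by
  rw [X8, X8, ← smul_add, ← conj_T8, ← conj_T8, ← conj_T8]; group

def ef (k : Sp) (v : V8) : V8 := up (k • lo v) + hi v
theorem ef_mul (k l : Sp) (v : V8) : ef (k * l) v = ef k (ef l v) := by
  simp only [ef, lo_add, hi_add, lo_up, lo_hi, hi_up, hi_hi, add_zero, zero_add, mul_smul]
theorem ef_one (v : V8) : ef 1 v = v := by rw [ef, one_smul, up_lo]
/-- the stabilizer of `e0` and `f0` -/
def emb : Sp →* Sp8 where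
  toFun k := ⟨⟨ef k, ef k⁻¹, fun v => by rw [← ef_mul, inv_mul_cancel, ef_one],
    fun v => by rw [← ef_mul, mul_inv_cancel, ef_one]⟩, fun x y => by
      change ef k (x + y) = ef k x + ef k y
      simp only [ef, lo_add, hi_add, smul_add, up_add]; abel, fun x y => by
      change ω8 (ef k x) (ef k y) = _
      conv_rhs => rw [← up_lo x, ← up_lo y]
      simp only [ef, ω8_add_left, ω8_add_right, ω8_up, ω_smul, ω8_up_hi, ω8_hi_up]⟩
  map_one' := ext_v8 ef_one
  map_mul' k l := ext_v8 (ef_mul k l)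
theorem emb_smul (k : Sp) (v : V8) : emb k • v = up (k • lo v) + hi v := rfl
@[simp] theorem emb_up (k : Sp) (p : V) : emb k • up p = up (k • p) := by simp [emb_smul]
@[simp] theorem emb_e0 (k : Sp) : emb k • e0 = e0 := by rw [emb_smul, show lo e0 = 0 from rfl, smul_zero]; rfl
@[simp] theorem emb_f0 (k : Sp) : emb k • f0 = f0 := by rw [emb_smul, show lo f0 = 0 from rfl, smul_zero]; rfl
theorem emb_T (p : V) : emb (T p) = T8 (up p) := ext_v8 fun v => by
  conv_rhs => rw [← up_lo v]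
  simp only [emb_smul, T_smul, T8_smul, up_add, up_sc, ω8_add_left, ω8_up, ω8_hi_up, Bool.xor_false]; abel
theorem emb_inj : Function.Injective emb := fun k l e => ext_v fun p => up_inj (by rw [← emb_up, e, emb_up])
theorem ex_emb {g : Sp8} (h1 : g • e0 = e0) (h2 : g • f0 = f0) : ∃ k, g = emb k := by
  have u : ∀ p, up (lo (g • up p)) = g • up p := fun p =>
    eq_up (by rw [← h1, ω8_smul, ω8_up_e0]) (by rw [← h2, ω8_smul, ω8_up_f0])
  have w : ∀ p q, ω (lo (g • up p)) (lo (g • up q)) = ω p q := fun p q => by rw [← ω8_up, u, u, ω8_smul, ω8_up]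
  obtain ⟨k, a1, a2, a3, a4, a5, a6⟩ := exists_lin (a := lo (g • up e1)) (b := lo (g • up f1)) (c := lo (g • up e2))
    (d := lo (g • up f2)) (e := lo (g • up e3)) (f := lo (g • up f3)) (by simp only [SB, w]; decide)
  exact ⟨k, ext8 (by simp [a1, a2, a3, a4, a5, a6, u, h1, h2])⟩
/-- transitivity on hyperbolic pairs, inside any subgroup containing all transvections -/
theorem ex_hyp8 {M : Subgroup Sp8} (h : ∀ p, T8 p ∈ M) {a c : V8} (ac : ω8 a c = true) : ∃ g ∈ M, g • a = e0 ∧ g • c = f0 := by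
  have k : ∀ {x y : V8}, ω8 x y = true → T8 (x + y) • x = y := fun e => by simp [T8_smul, e]
  obtain ⟨g, hg, e⟩ : ∃ g ∈ M, g • a = e0 := by
    obtain ⟨z, z1, z2⟩ := (by decide +kernel : ∀ a : V8, a ≠ 0 → ∃ z ∈ [up e1 + f0, up f1 + f0, up e2 + f0, up f2 + f0,
      up e3 + f0, up f3 + f0, e0 + f0, f0], ω8 a z = true ∧ ω8 z e0 = true) a (by rintro rfl; simp at ac) |>.imp fun _ h => h.2
    exact ⟨_, mul_mem (h _) (h _), by rw [mul_smul, k z1, k z2]⟩
  have e' : ω8 (g • c) e0 = true := by rw [← e, ω8_smul, ω8_comm, ac]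
  have f : ∀ {p : V8}, ω8 e0 p = false → T8 p • e0 = e0 := fun e => by simp [T8_smul, e]
  have e'' := (ω8_comm _ _).trans e'
  cases o : ω8 (g • c) f0
  · exact ⟨_, mul_mem (mul_mem (h (e0 + g • c + f0)) (h (g • c + (e0 + g • c)))) hg,
      by rw [mul_smul, mul_smul, e, f (by simp [e'']), f (by simp [e''])],
      by rw [mul_smul, mul_smul, k (by simp [e']), k (by simp [o])]⟩
  · exact ⟨_, mul_mem (h (g • c + f0)) hg, by rw [mul_smul, e, f (by simp [e''])], by rw [mul_smul, k o]⟩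
theorem gen8 {M : Subgroup Sp8} (h : ∀ p, T8 p ∈ M) (g : Sp8) : g ∈ M := by
  obtain ⟨m, hm, e1, e2⟩ := ex_hyp8 h (a := g • e0) (c := g • f0) (by simp)
  obtain ⟨k, e⟩ := ex_emb (g := m * g) (by rwa [mul_smul]) (by rwa [mul_smul])
  exact (mul_mem_cancel_left hm).1 (e ▸ TG_le (M := M.comap emb) (fun p _ => show emb _ ∈ M from emb_T p ▸ h _) (gen0 k))

/-- comparison with Mathlib's symplectic group (proved in `SX9`: `H26.SX.m8`) -/
def M8 : Prop := Nat.card Sp8 = 47377612800 ∧ IsSimpleGroup Sp8 ∧ Nonempty (Sp8 ≃* PSp 4 (ZMod 2))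

/-- the subgroup `Sp₈(2)` -/
structure I8 {G : Type*} [Group G] (b r : G) (φ : Sp →* G) (δ : V → G) (ι : Sp8 →* G) : Prop where
  inj : Function.Injective ι
  em : ∀ k, ι (emb k) = φ k
  he : ι (T8 e0) = r
  hf : ι (T8 f0) = r * b
  hd : ∀ p, ι (X8 e0 (up p)) = δ p

/-- `B₄` case: construction of `Sp₈(2)` -/
def G1 : Prop := Api.{u} → M8 → ∀ {G : Type u} [Group G] [Finite G] {b r : G} {φ δ}, B4 b r φ ⊥ → MB b r φ δ →
  ∃ ι, I8 b r φ δ ι

/-- `B₄` case: `G = Sp₈(2)` -/
def EN : Prop := Api.{u} → M8 → ∀ {G : Type u} [Group G] [Finite G] {b r : G} {φ δ ι}, Ch2 G → B4 b r φ ⊥ → MB b r φ δ →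
  I8 b r φ δ ι → ι.range = ⊤

end H26.SX
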