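/-
S3159: matrices acting on `A`.
-/
import Cfsg.Agent.H26.SX0

set_option autoImplicit false
set_option synthInstance.maxSize 4096
set_option synthInstance.maxHeartbeats 200000
open H23.F4
namespace H26.SX

theorem sm3 (a b : Fin 3) (x : t4) : (a + b).1 • x = a.1 • x + b.1 • x := by
  revert a b x; decide +kernel
theorem ap4_add (m : M4) (v w : t4) : ap4 m (v + w) = ap4 m v + ap4 m w := by
  simp only [ap4, Prod.fst_add, Prod.snd_add, sm3]; abel
theorem ap4_zero (m : M4) : ap4 m 0 = 0 := by simp [ap4]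
theorem ap4_nsmul (m : M4) (n : ℕ) (v : t4) : ap4 m (n • v) = n • ap4 m v := by
  induction n with
  | zero => simp [ap4_zero]
  | succ n ih => rw [succ_nsmul, succ_nsmul, ap4_add, ih]
theorem ap4_neg (m : M4) (v : t4) : ap4 m (-v) = -ap4 m v :=
  eq_neg_of_add_eq_zero_left (by rw [← ap4_add, neg_add_cancel, ap4_zero])
theorem ap4_cmp (m n : M4) (v : t4) : ap4 (cmp4 m n) v = ap4 m (ap4 n v) := by
  conv_rhs => rw [ap4, ap4, ← ap4, ap4_add, ap4_add, ap4_add, ap4_nsmul, ap4_nsmul, ap4_nsmul, ap4_nsmul]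
  rfl
theorem ap4_id : ∀ v, ap4 id4 v = v := by decide +kernel
theorem ap4_0 (m : M4) : ap4 m (1, 0, 0, 0) = m.1 := by simp [ap4]
theorem ap4_1 (m : M4) : ap4 m (0, 1, 0, 0) = m.2.1 := by simp [ap4]
theorem ap4_2 (m : M4) : ap4 m (0, 0, 1, 0) = m.2.2.1 := by simp [ap4]
theorem ap4_3 (m : M4) : ap4 m (0, 0, 0, 1) = m.2.2.2 := by simp [ap4]
theorem cmp_assoc (m n k : M4) : cmp4 (cmp4 m n) k = cmp4 m (cmp4 n k) := by
  rw [cmp4, ap4_cmp, ap4_cmp, ap4_cmp, ap4_cmp]; rfl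
theorem cmp_id (m : M4) : cmp4 m id4 = m := by simp only [cmp4, id4, ap4_0, ap4_1, ap4_2, ap4_3]
theorem id_cmp (m : M4) : cmp4 id4 m = m := by simp only [cmp4, ap4_id]

end H26.SX
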