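/-
S3159: the basic lemmas.
-/
import Cfsg.Agent.H26.SX2
import Cfsg.Agent.S0814

set_option autoImplicit false
set_option linter.unusedSectionVars false
open Cfsg Subgroup H19 H23.F4
open H11.TC (Ch2)
open scoped commutatorElement
namespace H26.SX
universe u

theorem inner (α : MulAut Sp) : ∃ ξ, ∀ x, α x = ξ * x * ξ⁻¹ := by
  have := Fact.mk Nat.prime_two
  have e1 : center (Matrix.symplecticGroup (Fin 3) (ZMod 2)) = ⊥ := card_eq_one.1 (H11.card_center_sp.trans (by simp))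
  have e : Sp ≃* PSp 3 (ZMod 2) := spEquiv.trans ((QuotientGroup.quotientMulEquivOfEq e1).trans QuotientGroup.quotientBot).symm
  have c := Agent.S0814.result (F := ZMod 2) 2 1 le_rfl rfl 3 (by decide) (by decide)
  rw [← Nat.card_congr (MulAut.congr e).toEquiv, ← Nat.card_congr e.toEquiv] at c
  obtain ⟨ξ, h⟩ := ((Nat.bijective_iff_injective_and_card (MulAut.conj (G := Sp))).2 ⟨(injective_iff_map_eq_one _).2
    fun g h => eq_one_of_central fun k => by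
      simpa [mul_inv_eq_iff_eq_mul, commute_iff_eq] using DFunLike.congr_fun h k, by simpa using c.symm⟩).2 α
  exact ⟨ξ, fun x => h ▸ rfl⟩

theorem mono (g : Sp) (hg : g ∈ N(AM)) : ∃ w ∈ monoW, ∃ t, g = (w.map mg).prod * dA t := by
  have m : ∀ t, ∃ s, dA s = g⁻¹ * dA t * g := fun t => conj_mem_of_norm' hg ⟨t, rfl⟩
  choose f hf using m
  have fa : ∀ s t, f (s + t) = f s + f t := fun s t => dA_inj (by rw [dA_add, hf, hf, hf, dA_add]; group)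
  have fn : ∀ s, f (-s) = -f s := fun s => dA_inj (by rw [dA_neg, hf, hf, dA_neg]; group)
  have w3 : ∀ t, W3 (f t) ↔ W3 t := fun t => by
    rw [← fx_dA, ← fx_dA, hf, ← fx_conj g]; simp only [mul_assoc, mul_inv_cancel, mul_one, mul_inv_cancel_left]
  have I : Ind (f (1, 0, 0)) (f (0, 1, 0)) (f (0, 0, 1)) := fun i j k e => by
    have := congrArg dA e
    simp only [dA_add, dA_nsmul, hf, dA1, dA2, dA3, dA_zero] at this
    have := dA_eq_one (i, j, k) (by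
      have q : ∀ (x : Sp) (n : ℕ), (g⁻¹ * x * g) ^ n = g⁻¹ * x ^ n * g := fun x n => by simpa using conj_pow (a := g⁻¹) (i := n) (b := x)
      rw [dA, ← conj_eq_one_iff (a := g⁻¹), ← this, q, q, q]; group)
    simpa [Prod.ext_iff] using this
  obtain ⟨w, hw, k1, k2, k3⟩ := mono1' _ I.cs.1 (by rw [w3]; decide) _ I.cs.2.1 (by rw [w3]; decide)
    (by rw [← fa, w3]; decide) (by rw [← fn, ← fa, w3]; decide) _ (by rw [w3]; decide) (by rw [← fa, w3]; decide)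
    (by rw [← fn, ← fa, w3]; decide) (by rw [← fa, w3]; decide) (by rw [← fn, ← fa, w3]; decide) I.cs.2.2
  have c : ∀ t, w.foldr ma (f t) = t → Commute ((w.map mg).prod * g⁻¹) (dA t) := fun t e => by
    have := mw_conj w (f t)
    rw [e, hf] at this
    rw [commute_iff_eq, ← mul_inv_eq_iff_eq_mul]; refine Eq.trans ?_ this; group
  obtain ⟨t, e⟩ := centA (dA1 ▸ c _ k1) (dA2 ▸ c _ k2) (dA3 ▸ c _ k3)
  refine ⟨w, hw, -f t, ?_⟩
  rw [dA_neg, hf, ← e]; group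

theorem sig (K : Subgroup Sp) (p : PG 2 K) (n : AM ≤ N(K)) : K = ⊥ := by
  have := Fact.mk Nat.prime_two
  obtain ⟨v, hv, v0⟩ := p.isPGroup.exists_fixed_point_of_prime_dvd_card_of_fixed_point V
    (by rw [Nat.card_eq_fintype_card]; decide) (a := 0) fun g => smul_zero g
  have st : ∀ t {x : V}, (∀ g ∈ K, g • x = x) → ∀ g ∈ K, g • dA t • x = dA t • x := fun t x h g hg => by
    have := h _ (conj_mem_of_norm' (n ⟨t, rfl⟩) hg)
    rwa [mul_smul, mul_smul, inv_smul_eq_iff] at this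
  have hv : ∀ g ∈ K, g • v = v := fun g hg => hv ⟨g, hg⟩
  obtain ⟨k, hk, s, t, s', t', e, e', ⟨a, k2⟩, ⟨c, k3⟩, k4⟩ := (by decide +kernel : ∀ v : V, 0 ≠ v → ∃ k ∈ [1, sw12, sw13],
    ∃ s ∈ [(1, 0, 0), (2, 0, 0), (0, 1, 0), (0, 2, 0), (0, 0, 1), (0, 0, 2), 0],
    ∃ t ∈ [(1, 0, 0), (2, 0, 0), (0, 1, 0), (0, 2, 0), (0, 0, 1), (0, 0, 2), 0],
    dA s • v + dA t • v = k • e1 ∧ dA s • v + dA (-s - t) • v = k • f1) v v0 |>.imp fun k ⟨hk, s, _, t, _, e, e'⟩ =>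
      (⟨hk, s, t, s, -s - t, e, e', (by decide +kernel : ∀ k ∈ [1, sw12, sw13], (∃ a, dA a = k * d2 * k⁻¹) ∧
        (∃ a, dA a = k * d3 * k⁻¹) ∧ ∀ q, ω (k • e1) q = false → ∀ c, (X (k • e1) q * Tb c (k • e1)) • k • f1 = k • f1 →
          X (k • e1) q * Tb c (k • e1) = 1) k hk⟩ : k ∈ [1, sw12, sw13] ∧ ∃ s t s' t', dA s • v + dA t • v = k • e1 ∧
        dA s' • v + dA t' • v = k • f1 ∧ _)
  refine eq_bot_iff.2 fun g hg => ?_
  obtain ⟨q, c, w, rfl⟩ := le_Ua (p.sing_ne (by decide)) k (fun g hg => by rw [← e, smul_add, st _ hv g hg, st _ hv g hg])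
    (n ⟨a, k2⟩) (n ⟨c, k3⟩) hg
  exact k4 q w c (by rw [← e', smul_add, st _ hv _ hg, st _ hv _ hg])

variable {G : Type*} [Group G] {b r g h x t s : G} {φ ψ : Sp →* G} {R : Subgroup G} {m n : M4}

theorem pe2 (e : x * x = 1) : PiE {2} x := (PiN.prime_pow Nat.prime_two 1).dvd (orderOf_dvd_of_pow_eq_one (by rw [pow_one, sq, e]))
theorem pe3 (e : x ^ 3 = 1) : PiE {3} x := (PiN.prime_pow Nat.prime_three 1).dvd (orderOf_dvd_of_pow_eq_one e)
theorem ch [Finite G] (H : Ch2 G) (tt : t * t = 1) (t1 : t ≠ 1) (x : G) (c : Commute x t) (k : x ∈ C(Q1 t)) : x ∈ Q1 t := by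
  have := H11.TC.qs H (X := zpowers t) (piG_zpowers.2 (pe2 tt)) (by simpa using t1) x (by rw [cent_zpowers]; exact mem_cent1.2 c)
  simp only [H11.TC.QQ, cent_zpowers] at this
  exact this fun q hq => by rw [commutatorElement_eq_one_iff_mul_comm.2 (mem_cent.1 k q hq).symm]; exact one_mem _
theorem e9 [Finite G] {X Y : Subgroup G} {a b : G} (p : PiG {3}ᶜ X) (ha : a ^ 3 = 1) (hb : b ^ 3 = 1) (c : Commute a b)
    (na : a ∈ N(X)) (nb : b ∈ N(X)) (h1 : X ⊓ C[a] ≤ Y) (h2 : X ⊓ C[b] ≤ Y) (h3 : X ⊓ C[a * b] ≤ Y)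
    (h4 : X ⊓ C[a * b⁻¹] ≤ Y) : X ≤ Y := by
  by_cases ind : ∀ t, bB a b t = 1 → t = 0
  · exact c9 ha hb c ind p na nb fun k hk e => by
      rcases e with e | e | e | e
      exacts [h1 ⟨hk, mem_cent1.2 e⟩, h2 ⟨hk, mem_cent1.2 e⟩, h3 ⟨hk, mem_cent1.2 e⟩, h4 ⟨hk, mem_cent1.2 e⟩]
  · obtain ⟨t, e, t0⟩ : ∃ t, bB a b t = 1 ∧ t ≠ 0 := by simpa using ind
    have e2 := congrArg (· ^ 2) e
    simp only [← bB_nsmul ha hb c, one_pow] at e2
    have k : ∀ {y : G}, y = 1 → X ⊓ C[y] ≤ Y → X ≤ Y := fun e h => by simpa [e] using h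
    have bi : b⁻¹ = b ^ 2 := inv_eq_of_mul_eq_one_right (by rw [← pow_succ', hb])
    rcases (by decide : ∀ t : tB, t ≠ 0 → ∃ s ∈ [t, 2 • t], s = (1, 0) ∨ s = (0, 1) ∨ s = (1, 1) ∨ s = (1, 2)) t t0 with ⟨s, hs, e3⟩
    have e4 : bB a b s = 1 := by
      simp only [List.mem_cons, List.not_mem_nil, or_false] at hs
      rcases hs with rfl | rfl <;> assumption
    rcases e3 with rfl | rfl | rfl | rfl <;> simp only [bB, Fin.val_one, Fin.val_zero, Fin.val_two, pow_one, pow_zero,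
      one_mul, mul_one] at e4
    exacts [k e4 h1, k e4 h2, k e4 h3, k (bi ▸ e4) h4]
theorem odd [Finite G] (H : Ch2 G) (ss : s * s = 1) (tt : t * t = 1) (c : Commute s t) (s1 : s ≠ 1) (t1 : t ≠ 1) (st : s ≠ t) :
    oddCore G = ⊥ := by
  have o : PiG {2}ᶜ (oddCore G) := PiN.of_not_dvd (H1.odd_card_oddCore (G := G)).not_two_dvd_nat
  have n : ∀ y : G, y ∈ N(oddCore G) := fun y => by rw [normalizer_eq_top]; trivial
  have k : ∀ y : G, y * y = 1 → y ≠ 1 → oddCore G ⊓ C[y] ≤ ⊥ := fun y yy y1 x hx =>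
    mem_bot.2 (((Oc_pi _ _).elt (ch H yy y1 x (mem_cent1.1 hx.2) (cents_symm (PiN.cents_of_norms (Oc_pi _ _) (o.infl C[y])
      (inf_le_right.trans (Oc_norm _ _)) (norms_inf (fun y _ => n y) ((Oc_le _ _).trans le_normalizer))) hx))).e_eq_one (o.elt hx.1))
  have cz : zpowers t ≤ C(zpowers s) := by rw [cent_zpowers]; exact zpowers_le.2 (mem_cent1.2 c.symm)
  have sq : ∀ y ∈ zpowers s ⊔ zpowers t, y * y = 1 := fun y hy => by
    obtain ⟨a, ha, d, hd, rfl⟩ := (mem_sup_of_norm (norms_of_cents cz)).1 hy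
    rcases zp2 ss ha with rfl | rfl <;> rcases zp2 tt hd with rfl | rfl <;> try simp [ss, tt]
    rw [mul_assoc, ← mul_assoc d, ← c.eq, mul_assoc, tt, mul_one, ss]
  refine eq_bot_iff.2 (le_of_cent1_le (comm_sup (comm_zpowers _) (comm_zpowers _) (cents_symm cz)) (fun cy => ?_) (fun y _ => n y)
    (o.coprime' (pg_of_pow Nat.prime_two fun y hy => by rw [pow_two, sq y hy])) fun y hy y1 => k y (sq y hy) y1)
  obtain ⟨g, e⟩ := (Subgroup.isCyclic_iff_exists_zpowers_eq_top _).1 cy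
  have gg := sq g (e ▸ mem_zpowers g)
  exact st (((zp2 gg (e ▸ mem_sup_left (mem_zpowers s))).resolve_left s1).trans
    ((zp2 gg (e ▸ mem_sup_right (mem_zpowers t))).resolve_left t1).symm)

theorem cfa (φ : Sp →* G) (k g : Sp) : cf φ k g = φ (k * g * k⁻¹) := rfl
theorem cfT (φ : Sp →* G) (k : Sp) (p : V) : cf φ k (T p) = φ (T (k • p)) := by rw [cfa, conj_T]
theorem elc (v : t4) : ea (g * b * g⁻¹) (lc g φ) v = g * ea b φ v * g⁻¹ := by rw [ea, ea, lc_apply, conj_pow, conj_mul]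
theorem ea0 : ea b φ (1, 0, 0, 0) = b := by simp [ea, show dA (0, 0, 0) = 1 from dA_zero]
theorem ea1 (t : tA) : ea b φ (0, t) = φ (dA t) := by simp [ea]

namespace Wc
variable (W : Wc b φ R)
include W
theorem b3 : b ^ 3 = 1 := W.o3 ▸ pow_orderOf_eq_one b
theorem b1 : b ≠ 1 := fun e => by simpa [e] using W.o3
theorem cm {a c : Sp} : Commute (φ a) (φ c) ↔ Commute a c :=
  ⟨fun h => W.inj (by rw [map_mul, map_mul]; exact h), fun h => h.map φ⟩
theorem pf (i j : Fin 3) : b ^ (i + j).1 = b ^ i.1 * b ^ j.1 := by rw [← pow_add, Fin.val_add, ← pow_eq_pow_mod _ W.b3]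
theorem add (v w : t4) : ea b φ (v + w) = ea b φ v * ea b φ w := by
  simp only [ea, Prod.fst_add, Prod.snd_add, dA_add, map_mul, W.pf, mul_assoc]
  rw [← mul_assoc (b ^ w.1.1) (φ _), ((W.cb _).pow_left w.1.1).eq, mul_assoc]
theorem zero : ea b φ 0 = 1 := by simp [ea, dA_zero]
theorem nsm (k : ℕ) (v : t4) : ea b φ (k • v) = ea b φ v ^ k := by
  induction k with
  | zero => simp [W.zero]
  | succ k ih => rw [succ_nsmul, W.add, ih, pow_succ]
theorem neg (v : t4) : ea b φ (-v) = (ea b φ v)⁻¹ := eq_inv_of_mul_eq_one_left (by rw [← W.add, neg_add_cancel, W.zero])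
theorem ecm (v w : t4) : Commute (ea b φ v) (ea b φ w) := by rw [commute_iff_eq, ← W.add, ← W.add, add_comm]
theorem e3 (v : t4) : ea b φ v ^ 3 = 1 := by rw [← W.nsm, (by decide +kernel : ∀ v : t4, 3 • v = 0), W.zero]
theorem eb (v : t4) : Commute (ea b φ v) b := by simpa only [ea0] using W.ecm v (1, 0, 0, 0)
theorem eR (v : t4) {k : G} (hk : k ∈ R) : Commute k (ea b φ v) := ((W.Rb k hk).pow_right _).mul_right (W.RL k hk _)
theorem ac (h0 : g * b * g⁻¹ = ea b φ m.1) (h1 : g * φ d1 * g⁻¹ = ea b φ m.2.1) (h2 : g * φ d2 * g⁻¹ = ea b φ m.2.2.1)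
    (h3 : g * φ d3 * g⁻¹ = ea b φ m.2.2.2) : Ac b φ g m := fun v => by
  simp only [ap4, W.add, W.nsm, ← h0, ← h1, ← h2, ← h3, conj_pow, conj_mul]
  simp only [ea, dA, map_mul, map_pow, mul_assoc]
theorem amul (h1 : Ac b φ g m) (h2 : Ac b φ h n) : Ac b φ (g * h) (cmp4 m n) := fun v => by
  rw [ap4_cmp, ← h1, ← h2]; group
theorem aL (k : Sp) : φ k * b * (φ k)⁻¹ = b := by rw [← (W.cb k).eq, mul_inv_cancel_right]
theorem amo (w : List ℕ) : Ac b φ (φ (w.map mg).prod) (mo4 w) :=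
  W.ac ((W.aL _).trans ea0.symm) (by rw [← map_inv, ← map_mul, ← map_mul, ← dA1, mw_conj]; exact (ea1 _).symm)
    (by rw [← map_inv, ← map_mul, ← map_mul, ← dA2, mw_conj]; exact (ea1 _).symm)
    (by rw [← map_inv, ← map_mul, ← map_mul, ← dA3, mw_conj]; exact (ea1 _).symm)
omit W in
theorem lga (h : Ac b φ g m) (v : t4) : Lg b φ (ap4 m v) ↔ Lg b φ v := by
  have c : IsConj (ea b φ v) (ea b φ (ap4 m v)) := isConj_iff.2 ⟨g, h v⟩
  exact ⟨fun k => k.trans c.symm, fun k => k.trans c⟩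
theorem wlc (g : G) : Wc (g * b * g⁻¹) (lc g φ) (cj g R) where
  o3 := by rw [orderOf_conj', W.o3]
  inj := (MulAut.conj g).injective.comp W.inj
  cb k := (W.cb k).map (MulAut.conj g)
  Rb _ hk := let ⟨k, hk, e⟩ := mem_cj'.1 hk; e ▸ (W.Rb k hk).map (MulAut.conj g)
  RL _ hk y := let ⟨k, hk, e⟩ := mem_cj'.1 hk; e ▸ (W.RL k hk y).map (MulAut.conj g)
  R6 := W.R6.J g
  cent x hx := by
    obtain ⟨i, k, y, hk, e⟩ := W.cent (g⁻¹ * x * g) (by simpa [mul_assoc] using hx.map (MulAut.conj g⁻¹))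
    exact ⟨i, _, y, conj_mem_cj.2 hk, by rw [lc_apply, conj_pow, conj_mul, conj_mul, ← e]; group⟩
theorem wcf (k : Sp) : Wc b (cf φ k) R where
  o3 := W.o3
  inj := W.inj.comp (MulAut.conj k).injective
  cb _ := W.cb _
  Rb := W.Rb
  RL x hx _ := W.RL x hx _
  R6 := W.R6
  cent x hx := let ⟨i, y, g, hy, e⟩ := W.cent x hx; ⟨i, y, k⁻¹ * g * k, hy, by rw [e, cfa]; group⟩
variable [Finite G]
/-- the decomposition is direct -/
theorem dir {i : ℕ} {k : G} (hk : k ∈ R) {y : Sp} (e : b ^ i * k * φ y = 1) : b ^ i = 1 ∧ k = 1 ∧ y = 1 := by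
  have y1 : y = 1 := eq_one_of_central fun z => W.cm.1 (by
    rw [← inv_eq_of_mul_eq_one_right e]; exact (((W.cb z).pow_left i).mul_left (W.RL k hk z)).inv_left)
  rw [y1, map_one, mul_one] at e
  have k1 : k = 1 := (show PiE {2, 3} k from inv_eq_of_mul_eq_one_right e ▸
    (((pe3 W.b3).e_pow i).sing (by simp)).e_inv).e_eq_one (W.R6.elt hk)
  exact ⟨by simpa [k1] using e, k1, y1⟩
theorem pw {i : ℕ} {k : G} (hk : k ∈ R) (y : Sp) (n : ℕ) : (b ^ i * k * φ y) ^ n = b ^ (i * n) * k ^ n * φ (y ^ n) := by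
  rw [(((W.cb y).pow_left i).mul_left (W.RL k hk y)).mul_pow, ((W.Rb k hk).symm.pow_left i).mul_pow, pow_mul, map_pow]
theorem m3 (x : G) (c : Commute x b) (p : PiE {2, 3} x) : ∃ (i : Fin 3) (g : Sp), x = b ^ i.1 * φ g := by
  obtain ⟨i, k, y, hk, rfl⟩ := W.cent x c
  have := (W.dir (pow_mem hk _) ((W.pw (i := i) hk y _).symm.trans (pow_orderOf_eq_one _))).2.1
  exact ⟨i, y, by rw [(p.dvd (orderOf_dvd_of_pow_eq_one this)).e_eq_one (W.R6.elt hk), mul_one]⟩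
theorem m2 (x : G) (c : Commute x b) (p : PiE {2} x) : ∃ g, x = φ g := by
  obtain ⟨i, y, rfl⟩ := W.m3 x c (p.sing (by simp))
  have e := W.pw (i := i) (one_mem R) y (orderOf (b ^ i.1 * φ y))
  rw [mul_one, pow_orderOf_eq_one] at e
  have := (W.dir (pow_mem (one_mem R) _) e.symm).1
  rw [pow_mul] at this
  exact ⟨y, by rw [((pe3 W.b3).e_pow i).e_eq_one ((p.sing_ne (by decide)).dvd (orderOf_dvd_of_pow_eq_one this)), one_mul]⟩
theorem einj : Function.Injective (ea b φ) := fun v w e => by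
  have := W.dir (one_mem R) (i := (v - w).1) (y := dA (v - w).2) (by
    rw [mul_one, ← ea, sub_eq_add_neg, W.add, W.neg, e, mul_inv_cancel])
  rw [← orderOf_dvd_iff_pow_eq_one, W.o3] at this
  exact sub_eq_zero.1 (Prod.ext (Fin.ext (Nat.eq_zero_of_dvd_of_lt this.1 (v - w).1.2)) (dA_eq_one _ this.2.2))
theorem mem (x : G) : x ∈ AA b φ ↔ ∃ v, x = ea b φ v := by
  refine ⟨fun hx => ?_, fun ⟨v, e⟩ => e ▸ mul_mem (mem_sup_left (npow_mem_zpowers _ _)) (mem_sup_right ⟨_, ⟨_, rfl⟩, rfl⟩)⟩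
  obtain ⟨_, h1, _, ⟨_, ⟨t, rfl⟩, rfl⟩, rfl⟩ := (mem_sup_of_norm (norms_of_cents (by
    rw [cent_zpowers]; rintro _ ⟨y, -, rfl⟩; exact mem_cent1.2 (W.cb y).symm))).1 hx
  obtain ⟨i, rfl⟩ := zp3' W.b3 h1
  exact ⟨(i, t), rfl⟩
theorem cA : #(AA b φ) = 81 ∧ Ab (AA b φ) ∧ ∀ a ∈ AA b φ, a ^ 3 = 1 :=
  ⟨(Nat.card_congr (Equiv.ofBijective (fun v => (⟨_, (W.mem _).2 ⟨v, rfl⟩⟩ : AA b φ))
      ⟨fun _ _ e => W.einj (congrArg Subtype.val e), fun x => ((W.mem _).1 x.2).imp fun _ e => Subtype.ext e.symm⟩)).symm.trans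
      (by simp),
    ⟨⟨fun x y => Subtype.ext (by
      obtain ⟨v, e⟩ := (W.mem _).1 x.2; obtain ⟨w, e'⟩ := (W.mem _).1 y.2
      simp only [coe_mul, e, e', (W.ecm v w).eq])⟩⟩, fun a ha => let ⟨v, e⟩ := (W.mem a).1 ha; e ▸ W.e3 v⟩
omit W in
theorem a0 (h : Ac b φ g m) : g * b * g⁻¹ = ea b φ m.1 := by simpa only [ea0, ap4_0] using h (1, 0, 0, 0)
omit W in
theorem a1 (h : Ac b φ g m) : g * φ d1 * g⁻¹ = ea b φ m.2.1 := by simpa only [ea1, dA1, ap4_1] using h (0, 1, 0, 0)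
omit W in
theorem a2 (h : Ac b φ g m) : g * φ d2 * g⁻¹ = ea b φ m.2.2.1 := by simpa only [ea1, dA2, ap4_2] using h (0, 0, 1, 0)
omit W in
theorem a3 (h : Ac b φ g m) : g * φ d3 * g⁻¹ = ea b φ m.2.2.2 := by simpa only [ea1, dA3, ap4_3] using h (0, 0, 0, 1)
theorem cen (x : G) (h : Ac b φ x id4) : ∃ v, ∃ k ∈ R, x = ea b φ v * k := by
  have c : ∀ v, Commute x (ea b φ v) := fun v => mul_inv_eq_iff_eq_mul.1 ((h v).trans (by rw [ap4_id]))
  obtain ⟨i, k, y, hk, rfl⟩ := W.cent x (by simpa only [ea0] using c (1, 0, 0, 0))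
  have d : ∀ t, Commute y (dA t) := fun t => W.cm.1 (by
    have c0 := c (0, t)
    rw [ea1] at c0
    simpa [mul_assoc] using ((((W.cb (dA t)).pow_left i).mul_left (W.RL k hk _)).inv_left).mul_left c0)
  obtain ⟨t, rfl⟩ := centA (dA1 ▸ d _) (dA2 ▸ d _) (dA3 ▸ d _)
  exact ⟨(i, t), k, hk, by rw [ea, mul_assoc, (W.RL k hk _).eq, mul_assoc]⟩
theorem nac (g : G) : g ∈ N(AA b φ) ↔ ∃ m, Ac b φ g m := by
  refine ⟨fun hg => ?_, fun ⟨m, h⟩ => mem_norm_of_cj_le fun x hx => ?_⟩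
  · choose f hf using fun v => (W.mem _).1 (conj_mem_of_norm hg ((W.mem _).2 ⟨v, rfl⟩))
    exact ⟨(f (1, 0, 0, 0), f (0, 1, 0, 0), f (0, 0, 1, 0), f (0, 0, 0, 1)), W.ac (by rw [← hf, ea0]) (by rw [← hf, ea1, dA1])
      (by rw [← hf, ea1, dA2]) (by rw [← hf, ea1, dA3])⟩
  · obtain ⟨y, hy, rfl⟩ := mem_cj'.1 hx
    obtain ⟨v, rfl⟩ := (W.mem y).1 hy
    exact (W.mem _).2 ⟨_, h v⟩
theorem aid (h : Ac b φ 1 m) : m = id4 :=
  Prod.ext (W.einj (by rw [← a0 h]; simp [id4, ea0])) (Prod.ext (W.einj (by rw [← a1 h]; simp [id4, ea1, dA1]))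
    (Prod.ext (W.einj (by rw [← a2 h]; simp [id4, ea1, dA2])) (W.einj (by rw [← a3 h]; simp [id4, ea1, dA3]))))
theorem ainv (h : Ac b φ g m) : ∃ n, Ac b φ g⁻¹ n ∧ cmp4 n m = id4 ∧ cmp4 m n = id4 :=
  let ⟨n, k⟩ := (W.nac _).1 (inv_mem ((W.nac g).2 ⟨m, h⟩))
  ⟨n, k, W.aid (inv_mul_cancel g ▸ W.amul k h), W.aid (mul_inv_cancel g ▸ W.amul h k)⟩
theorem auq (h : Ac b φ g m) (h' : Ac b φ g n) : m = n :=
  Prod.ext (W.einj ((a0 h).symm.trans (a0 h'))) (Prod.ext (W.einj ((a1 h).symm.trans (a1 h')))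
    (Prod.ext (W.einj ((a2 h).symm.trans (a2 h'))) (W.einj ((a3 h).symm.trans (a3 h')))))
theorem dsj {i : ℕ} {y z : Sp} (e : φ y = b ^ i * φ z) : y = z := by
  have := (W.dir (one_mem R) (i := i) (y := z * y⁻¹) (by rw [mul_one, map_mul, ← mul_assoc, ← e, map_inv, mul_inv_cancel])).2.2
  exact (mul_inv_eq_one.1 this).symm
theorem stab (h : Ac b φ g m) (e : m.1 = (1, 0, 0, 0)) : ∃ w ∈ monoW, m = mo4 w := by
  obtain ⟨i, k, y, hk, rfl⟩ := W.cent g (mul_inv_eq_iff_eq_mul.1 ((a0 h).trans (e ▸ ea0)))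
  have q : ∀ v, b ^ i.1 * k * φ y * ea b φ v * (b ^ i.1 * k * φ y)⁻¹ = b ^ v.1.1 * φ (y * dA v.2 * y⁻¹) := fun v => by
    have c1 := ((W.cb (y * dA v.2 * y⁻¹)).pow_left i).mul_left (W.RL k hk _)
    have c2 := ((Commute.refl b).pow_pow i v.1).mul_left ((W.Rb k hk).pow_right v.1)
    calc _ = b ^ i.1 * k * (φ y * b ^ v.1.1 * φ (dA v.2) * (φ y)⁻¹) * (b ^ i.1 * k)⁻¹ := by rw [ea]; group
      _ = _ := by
        rw [← ((W.cb y).pow_left _).eq, mul_assoc (b ^ v.1.1), mul_assoc (b ^ v.1.1), ← map_inv, ← map_mul, ← map_mul,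
          (c2.mul_right c1).eq, mul_inv_cancel_right]
  obtain ⟨w, hw, t, rfl⟩ := mono y (mem_norm_of_cj_le fun x hx => by
    obtain ⟨_, ⟨t, rfl⟩, rfl⟩ := mem_cj'.1 hx
    have := (q (0, t)).symm.trans (h (0, t))
    exact ⟨_, (W.dsj (by simpa [ea] using this)).symm⟩)
  refine ⟨w, hw, W.auq h fun v => ?_⟩
  rw [q, ← W.amo w v, ea, ← mul_assoc, ← ((W.cb _).pow_left _).eq, mul_assoc (b ^ _), mul_assoc (b ^ _), ← map_inv, ← map_mul,
    ← map_mul, _root_.mul_inv_rev, ← mul_assoc, mul_assoc _ (dA t), mul_assoc _ _ (dA t)⁻¹, cjc (dA_comm _ _)]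
/-- the elementary abelian subgroups of order 81 containing `b` are conjugate -/
theorem c81 {E : Subgroup G} (ab : Ab E) (e3 : ∀ a ∈ E, a ^ 3 = 1) (c : #E = 81) (hb : b ∈ E) : ∃ k, cj (φ k) E = AA b φ := by
  have d : E = zpowers b ⊔ (E.comap φ).map φ := le_antisymm (fun x hx => by
    obtain ⟨i, y, rfl⟩ := W.m3 x (mul_comm_of_comm ab hx hb) ((pe3 (e3 x hx)).sing (by simp))
    exact mul_mem (mem_sup_left (npow_mem_zpowers _ _)) (mem_sup_right ⟨y, (mul_mem_cancel_left (pow_mem hb _)).1 hx, rfl⟩))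
    (sup_le (zpowers_le.2 hb) (map_comap_le _ _))
  have c' := c
  rw [d, card_sup_of_disjoint (norms_of_cents (by
    rw [cent_zpowers]; rintro _ ⟨y, -, rfl⟩; exact mem_cent1.2 (W.cb y).symm)) (eq_bot_iff.2 (by
      rintro _ ⟨h1, y, -, rfl⟩
      obtain ⟨i, e⟩ := zp3' W.b3 h1
      rw [W.dsj (y := y) (z := 1) (i := i) (by rw [map_one, mul_one, e]), map_one]; exact one_mem _)), Nat.card_zpowers, W.o3,
    card_map_of_injective W.inj] at c'
  obtain ⟨k, e⟩ := conj27 (B := E.comap φ) ⟨⟨fun x y => Subtype.ext (W.cm.1 (mul_comm_of_comm ab x.2 y.2))⟩⟩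
    (PiN.of_elt fun x hx => pe3 (W.inj (by rw [map_pow, e3 _ hx, map_one]))) (by omega)
  refine ⟨k, ?_⟩
  rw [d, cj_sup, cj_zpowers, W.aL, AA, ← e, cj, cj, map_map, map_map]
  congr 2; ext; simp
theorem fus (v : t4) : Lg b φ v ↔ ∃ m, Wm b φ m ∧ m.1 = v := by
  refine ⟨fun h => ?_, fun ⟨m, ⟨g, h⟩, e⟩ => isConj_iff.2 ⟨g, e ▸ a0 h⟩⟩
  obtain ⟨g, e⟩ := isConj_iff.1 h
  obtain ⟨k, e'⟩ := W.c81 (E := cj g⁻¹ (AA b φ)) (comm_cj.2 W.cA.2.1) (fun a ha => by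
    have := W.cA.2.2 _ (mem_cj_inv.1 ha); rwa [conj_pow, conj_eq_one_iff] at this) (by rw [card_cj, W.cA.1])
    (mem_cj_inv.2 ((W.mem _).2 ⟨v, e⟩))
  obtain ⟨m, h⟩ := (W.nac _).1 (inv_mem (mem_norm_iff_cj.2 ((cj_mul _ _ _).trans e')))
  exact ⟨m, ⟨_, h⟩, W.einj (by rw [← a0 h, ← e]; (conv_rhs => rw [← W.aL k⁻¹, map_inv]); group)⟩
theorem memR : x ∈ R ↔ PiE {3}ᶜ x ∧ ∀ v, Commute x (ea b φ v) := by
  refine ⟨fun hx => ⟨(W.R6.elt hx).compl_sing' (by simp), fun v => W.eR v hx⟩, fun ⟨p, c⟩ => ?_⟩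
  obtain ⟨v, k, hk, rfl⟩ := W.cen x fun v => by rw [ap4_id, (c v).eq, mul_inv_cancel_right]
  have : ea b φ v = ea b φ v * k * k⁻¹ := by group
  rwa [(pe3 (W.e3 v)).e_eq_one (this ▸ p.e_mul ((W.R6.elt hk).compl_sing' (by simp)).e_inv
    ((W.eR v hk).symm.mul_left (Commute.refl k)).inv_right), one_mul]
theorem nR (h : Ac b φ g m) : cj g R = R := by
  obtain ⟨n, k, -⟩ := W.ainv h
  refine mem_norm_iff_cj.1 (mem_norm_of_cj_le fun x hx => ?_)
  obtain ⟨y, hy, rfl⟩ := mem_cj'.1 hx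
  refine W.memR.2 ⟨(W.memR.1 hy).1.e_conj g, fun v => ?_⟩
  simpa [← k v, mul_assoc] using (W.eR (ap4 n v) hy).map (MulAut.conj g)
theorem inn (g : G) (h : g * b * g⁻¹ = b ∨ g * b * g⁻¹ = b⁻¹) : ∃ k, ∀ y, g * φ y * g⁻¹ = φ (k * y * k⁻¹) := by
  have m : ∀ y, g * φ y * g⁻¹ ∈ φ.range := fun y => TG_le (M := φ.range.comap (lc g φ)) (fun p _ => by
    have c : Commute (g * φ (T p) * g⁻¹) (g * b * g⁻¹) := (W.cb _).symm.map (MulAut.conj g)
    exact (W.m2 _ (h.elim (· ▸ c) fun e => Commute.inv_right_iff.1 (e ▸ c)) ((pe2 (mapT p)).e_conj g)).imp fun _ e => e.symm)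
    (gen0 y)
  choose f hf using m
  let F : Sp →* Sp := MonoidHom.mk' f fun a c => W.inj (by rw [map_mul, hf, hf, hf, map_mul, conj_mul])
  obtain ⟨k, e⟩ := inner (MulEquiv.ofBijective F (Finite.injective_iff_bijective.1 fun a c e => W.inj (by
    have := congrArg φ (show f a = f c from e)
    rw [hf, hf] at this; exact mul_left_cancel (mul_right_cancel this))))
  exact ⟨k, fun y => by rw [← e, ← hf]; rfl⟩
theorem cenL (r : G) (rr : r * r = 1) (h : r * b * r⁻¹ = b ∨ r * b * r⁻¹ = b⁻¹) (h1 : Commute r (φ d1)) (h2 : Commute r (φ d2))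
    (h3 : Commute r (φ d3)) (y : Sp) : Commute r (φ y) := by
  obtain ⟨k, e⟩ := W.inn r h
  have c : ∀ {d}, Commute r (φ d) → Commute k d := fun c => mul_inv_eq_iff_eq_mul.1 (W.inj (by rw [← e, c.eq, mul_inv_cancel_right]))
  obtain ⟨t, rfl⟩ := centA (c h1) (c h2) (c h3)
  have : dA t * dA t = 1 := eq_one_of_central fun z => mul_inv_eq_iff_eq_mul.1 (W.inj (by
    rw [_root_.mul_inv_rev, ← mul_assoc, mul_assoc (dA t), mul_assoc (dA t), ← e, ← e, ← mul_assoc, ← mul_assoc, rr, mul_assoc,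
      ← _root_.mul_inv_rev, rr]; simp))
  exact mul_inv_eq_iff_eq_mul.1 (by rw [e, eq_one23 this (dA_cube t)]; simp)
theorem refl (h : Wm b φ nB) : ∃ r, Fc b r φ R := by
  obtain ⟨g, h⟩ := h
  have q : ∀ {x y : G} (c : Commute (φ (T e1)) x), g * x * g⁻¹ = y → Commute (g * φ (T e1) * g⁻¹) y := fun c e =>
    e ▸ c.map (MulAut.conj g)
  have rr : g * φ (T e1) * g⁻¹ * (g * φ (T e1) * g⁻¹) = 1 := by rw [conj_mul, mapT]; simp
  have rb : g * φ (T e1) * g⁻¹ * b * (g * φ (T e1) * g⁻¹)⁻¹ = b⁻¹ := by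
    rw [← ea0 (b := b) (φ := φ), ← show _ = ea b φ (1, 0, 0, 0) from a1 h, conj_inv, conj_inv, conj_mul, conj_mul, ← map_inv,
      ← map_inv, ← map_mul, ← map_mul, show T e1 * d1 * (T e1)⁻¹ = d1⁻¹ by decide +kernel]
  exact ⟨_, W, rr, rb, W.cenL _ rr (.inr rb) (q (W.cb _).symm ((a0 h).trans ((ea1 _).trans (by rw [dA1]))))
    (q (W.cm.2 (by decide +kernel)) ((a2 h).trans ((ea1 _).trans (by rw [dA2]))))
    (q (W.cm.2 (by decide +kernel)) ((a3 h).trans ((ea1 _).trans (by rw [dA3])))),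
    fun k hk => ((W.wlc g).RL k ((W.nR h).symm ▸ hk) _).symm⟩
end Wc

theorem Fc.flc (F : Fc b r φ R) (g : G) : Fc (g * b * g⁻¹) (g * r * g⁻¹) (lc g φ) (cj g R) :=
  ⟨F.toWc.wlc g, by rw [conj_mul, F.rr]; simp, by rw [conj_inv, conj_inv, conj_mul, conj_mul, F.rb],
    fun y => (F.rL y).map (MulAut.conj g), fun _ hk => let ⟨k, hk, e⟩ := mem_cj'.1 hk; e ▸ (F.rR k hk).map (MulAut.conj g)⟩
theorem Fc.fcf (F : Fc b r φ R) (k : Sp) : Fc b r (cf φ k) R := ⟨F.toWc.wcf k, F.rr, F.rb, fun _ => F.rL _, F.rR⟩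

variable [Finite G]
theorem co1 (F : Fc b r φ R) (h : Wm b φ nB) : ∃ ψ, Co b r φ R e1 f1 ψ := by
  obtain ⟨g, h⟩ := h
  have W := F.toWc
  have W0 := W.wlc g
  rw [W.nR h, Wc.a0 h, show nB.1 = (0, 1, 0, 0) from rfl, ea1, dA1] at W0
  have v1 : lc g φ d1 = b := (Wc.a1 h).trans ea0
  have v2 : lc g φ d2 = φ d2 := (Wc.a2 h).trans ((ea1 _).trans (by rw [dA2]))
  have v3 : lc g φ d3 = φ d3 := (Wc.a3 h).trans ((ea1 _).trans (by rw [dA3]))
  generalize lc g φ = ψ1 at *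
  have MT : ∀ p, Pp [f1, e1] p → ∃ g, φ (T p) = ψ1 g := fun p hp => W0.m2 _ (W.cm.2
    ((comm_TT.2 (hp e1 (by simp))).mul_right (comm_TT.2 (hp f1 (by simp))))) (pe2 (mapT p))
  obtain ⟨y, hR⟩ := W0.m2 r (F.rL _) (pe2 F.rr)
  obtain ⟨a2, ha2⟩ := MT e2 (by decide)
  obtain ⟨a3, ha3⟩ := MT e3 (by decide)
  have I := W0.inj
  obtain ⟨i, ei⟩ := refl1 (y := y) (I (by rw [map_mul, ← hR, F.rr, map_one]))
    (I (by rw [map_mul, map_mul, map_inv, map_inv, ← hR, v1, F.rb])) (W0.cm.1 (by rw [← hR, v2]; exact F.rL _))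
    (W0.cm.1 (by rw [← hR, v3]; exact F.rL _))
  obtain ⟨j, ej⟩ := refl2 (y := a2) (I (by rw [map_mul, ← ha2, mapT, map_one]))
    (W0.cm.1 (by rw [← ha2, v1]; exact (W.cb _).symm))
    (I (by rw [map_mul, map_mul, map_inv, map_inv, ← ha2, v2, ← map_inv, ← map_mul, ← map_mul, ← map_inv]
           exact congrArg φ (by decide +kernel)))
    (W0.cm.1 (by rw [← ha2, v3]; exact W.cm.2 (by decide +kernel)))
  obtain ⟨l, el⟩ := refl3 (y := a3) (I (by rw [map_mul, ← ha3, mapT, map_one]))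
    (W0.cm.1 (by rw [← ha3, v1]; exact (W.cb _).symm))
    (W0.cm.1 (by rw [← ha3, v2]; exact W.cm.2 (by decide +kernel)))
    (I (by rw [map_mul, map_mul, map_inv, map_inv, ← ha3, v3, ← map_inv, ← map_mul, ← map_mul, ← map_inv]
           exact congrArg φ (by decide +kernel)))
  have W3 := W0.wcf (dA (i, j, l))
  have w1 : cf ψ1 (dA (i, j, l)) (T e1) = r := by rw [cf_eq (ei j l), hR]
  have w2 : cf ψ1 (dA (i, j, l)) (T e2) = φ (T e2) := by rw [cf_eq (ej i l), ha2]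
  have w3 : cf ψ1 (dA (i, j, l)) (T e3) = φ (T e3) := by rw [cf_eq (el i j), ha3]
  have u1 : cf ψ1 (dA (i, j, l)) d1 = b := by rw [← v1, ← dA1, cf_eq (cjc (dA_comm _ _))]
  have u2 : cf ψ1 (dA (i, j, l)) d2 = φ d2 := by rw [← v2, ← dA2, cf_eq (cjc (dA_comm _ _))]
  have u3 : cf ψ1 (dA (i, j, l)) d3 = φ d3 := by rw [← v3, ← dA3, cf_eq (cjc (dA_comm _ _))]
  replace MT : ∀ p, Pp [f1, e1] p → φ (T p) ∈ (cf ψ1 (dA (i, j, l))).range := fun p hp =>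
    let ⟨g, e⟩ := MT p hp; ⟨(dA (i, j, l))⁻¹ * g * dA (i, j, l), by rw [e, cf_apply]; group⟩
  generalize cf ψ1 (dA (i, j, l)) = ψ at *
  have x1 : ψ (T f1) = r * b := by rw [show T f1 = T e1 * d1 by decide +kernel, map_mul, w1, u1]
  have x2 : ψ (T f2) = φ (T f2) := by rw [show T f2 = T e2 * d2 by decide +kernel, map_mul, w2, u2, map_mul]
  have x3 : ψ (T f3) = φ (T f3) := by rw [show T f3 = T e3 * d3 by decide +kernel, map_mul, w3, u3, map_mul]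
  have rb : φ (T e1) * φ d1 * (φ (T e1))⁻¹ = (φ d1)⁻¹ := by
    rw [← map_inv, ← map_inv, ← map_mul, ← map_mul]; exact congrArg φ (by decide +kernel)
  refine ⟨ψ, ⟨W3, mapT _, rb, W3.cenL _ (mapT _) (.inr rb) (u1 ▸ (W.cb _).symm) (u2 ▸ W.cm.2 (by decide +kernel))
    (u3 ▸ W.cm.2 (by decide +kernel)), fun k hk => (W.RL k hk _).symm⟩, w1, u1,
    fun k k1 k2 => TG_le (M := ψ.eqLocus φ) (fun p hp => ?_) (gen2 k (by simp [Fx, k1, k2]))⟩
  change ψ (T p) = φ (T p)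
  by_cases p0 : p = 0
  · rw [p0, T_zero, map_one, map_one]
  obtain ⟨m, hm, em⟩ := mv_step ((by decide +kernel : ∀ a, Pp [f1, e1] a → a ≠ 0 →
    ∃ p q, Pp [f1, e1] p ∧ Pp [f1, e1] q ∧ tf p (tf q e2) = a) p hp p0)
  obtain ⟨m', em'⟩ := TG_le (M := ψ.range.comap φ) MT hm
  have e : ψ (T (m' • e2)) = φ (T p) := by
    rw [← em, ← conj_T, ← conj_T, map_mul, map_mul, map_mul, map_mul, map_inv, map_inv, em', w2]
  have c : ∀ {b}, Commute (ψ (T b)) (φ (T p)) → ω (m' • e2) b = false := fun c => by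
    rw [← comm_TT, ← W3.cm, e]; exact c.symm
  rw [← e, eq_of_ω ((c (w1 ▸ F.rL _)).trans (hp e1 (by simp)).symm)
    ((c (x1 ▸ (F.rL _).mul_left (W.cb _))).trans (hp f1 (by simp)).symm)
    (T_match W.inj W3.inj e w2) (T_match W.inj W3.inj e x2) (T_match W.inj W3.inj e w3) (T_match W.inj W3.inj e x3)]
omit [Finite G] in
theorem Co.cf {a c : V} (h : Co b r φ R a c ψ) (g : Sp) {a' c' : V} (ea : g • a' = a) (ec : g • c' = c) :
    Co b r (cf φ g) R a' c' (cf ψ g) :=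
  ⟨by rw [map_mul, cfT, cfT, ea, ec, ← map_mul]; exact h.fc.fcf g, by rw [cfT, ea, h.ha],
    by rw [map_mul, cfT, cfT, ea, ec, ← map_mul, h.hc], fun k k1 k2 =>
    h.ag (g * k * g⁻¹) (by rw [← ea, mul_smul, mul_smul, inv_smul_smul, k1])
      (by rw [← ec, mul_smul, mul_smul, inv_smul_smul, k2])⟩
omit [Finite G] in
theorem Wc.wmcf (W : Wc b φ R) (h : Wm b φ m) (k : Sp) : Wm b (cf φ k) m := by
  obtain ⟨g, h⟩ := h
  have e : ∀ v, ea b (cf φ k) v = φ k * ea b φ v * (φ k)⁻¹ := fun v => by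
    rw [← elc, W.aL, ea, ea, cfa, lc_apply, map_mul, map_mul, map_inv]
  exact ⟨φ k * g * (φ k)⁻¹, fun v => by rw [e, e, ← h]; group⟩
theorem co (F : Fc b r φ R) (h : Wm b φ nB) {a c : V} (ac : ω a c = true) : ∃ ψ, Co b r φ R a c ψ := by
  obtain ⟨g, rfl, rfl⟩ := ex_hyp ac
  obtain ⟨ψ, k⟩ := co1 (F.fcf g) (F.toWc.wmcf h g)
  have := k.cf g⁻¹ (inv_smul_smul g e1) (inv_smul_smul g f1)
  rw [show cf (cf φ g) g⁻¹ = φ from MonoidHom.ext fun x => by rw [cf_apply, cf_apply]; group] at this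
  exact ⟨_, this⟩

theorem api : Api.{u} where
  inner := inner
  mono := mono
  sig := sig
  ch H := ch H
  odd H := odd H
  add W := W.add
  einj W := W.einj
  mem W := W.mem
  cA W := W.cA
  m2 W := W.m2
  m3 W := W.m3
  cen W := W.cen
  ac W := W.ac
  nac W := W.nac
  amul W := W.amul
  ainv W := W.ainv
  amo W := W.amo
  stab W := W.stab
  fus W := W.fus
  lga _ := Wc.lga
  wlc W := W.wlc
  wcf W := W.wcf
  nR W := W.nR
  elc := elc
  inn W := W.inn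
  cenL W := W.cenL
  refl W := W.refl
  flc := Fc.flc
  fcf := Fc.fcf
  co := co
  e9 := e9

end H26.SX
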