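/-
S3159: the chunk HY.
-/
import Cfsg.Agent.H26.SX1

set_option autoImplicit false
set_option linter.unusedSectionVars false
open Cfsg Subgroup H19 H23.F4
open H11.TC (Ch2)
namespace H26.SX
universe u
variable {G : Type*} [Group G] [Finite G] {b r g x : G} {φ : Sp →* G} {R : Subgroup G}

/-- the chart of a long element of `A` -/
theorem Wc.lw (W : Wc b φ R) {v : t4} (l : Lg b φ v) : ∃ g m, Ac b φ g m ∧ m.1 = v ∧ Wc (ea b φ v) (lc g φ) R := by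
  obtain ⟨m, ⟨g, h⟩, e⟩ := (W.fus v).1 l
  have := W.wlc g
  rw [W.nR h, Wc.a0 h, e] at this
  exact ⟨g, m, h, e, this⟩
/-- `R` centralizes the 2-elements commuting with a long element -/
theorem Wc.cR (W : Wc b φ R) {v : t4} (l : Lg b φ v) {X : Subgroup G} (p : PG 2 X) : X ⊓ C[ea b φ v] ≤ C(R) := fun x hx => by
  obtain ⟨g, m, -, -, W'⟩ := W.lw l
  obtain ⟨y, rfl⟩ := W'.m2 x (mem_cent1.1 hx.2) (p.elt hx.1)
  exact mem_cent.2 fun k hk => W'.RL k hk y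
theorem Fc.r1 (F : Fc b r φ R) : r ≠ 1 := fun e =>
  F.toWc.b1 (eq_one23 (by simpa [e, eq_inv_iff_mul_eq_one] using F.rb) F.toWc.b3)
theorem Wc.bot (W : Wc b φ R) (H : Ch2 G) {t : G} (tt : t * t = 1) (t1 : t ≠ 1) (c : ∀ k ∈ R, Commute k t) (h : Q1 t ≤ C(R)) :
    R = ⊥ := eq_bot_iff.2 fun k hk => mem_bot.2
  ((((Oc_pi _ _).elt (ch H tt t1 k (c k hk) (cents_symm h hk))).sing (π := {2, 3}) (by simp)).e_eq_one (W.R6.elt hk))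
theorem Fc.fr (F : Fc b r φ ⊥) {Θ : Set G} (cj : ∀ x ∈ Θ, ∀ g : G, g * x * g⁻¹ ∈ Θ) (t0 : b ∈ Θ) (t1 : φ d1 ∈ Θ)
    (t2 : φ (d1 * d2) ∈ Θ) (t3 : φ (d1 * d2 * d3) ∉ Θ) (t4 : b * φ d1 ∈ Θ) (g : G) :
    ∃ s s' ψ, g * b * g⁻¹ = s * s' ∧ Fr Θ s s' ψ := by
  have F' := F.flc g
  have e : g * r * g⁻¹ * (g * r * g⁻¹ * (g * b * g⁻¹)) = g * b * g⁻¹ := by rw [← mul_assoc, F'.rr, one_mul]
  refine ⟨_, _, lc g φ, e.symm, F'.rr, ?_, e.symm ▸ F'.o3, F'.inj, F'.rL, fun y => (F'.rL y).mul_left (F'.cb y), fun x hx => ?_,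
    e.symm ▸ cj _ t0 g, cj _ t1 g, cj _ t2 g, fun k => t3 (by simpa [mul_assoc] using cj _ k g⁻¹), ?_⟩
  · have := F'.rb
    rw [inv_eq_of_mul_eq_one_right F'.rr] at this
    rw [← mul_assoc, this, inv_mul_cancel]
  · obtain ⟨i, k, y, hk, rfl⟩ := F'.cent x (e ▸ hx)
    exact ⟨i, y, by rw [cj_bot, mem_bot] at hk; rw [e, hk, mul_one]⟩
  · rw [e, lc_apply, conj_mul]; exact cj _ t4 g

theorem hy : HY.{u} := by
  intro _ G _ _ b r φ R H F ⟨g, h⟩ l2 l3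
  have W := F.toWc
  have l0 : Lg b φ (1, 0, 0, 0) := by rw [Lg, ea0]
  have l1 : Lg b φ (0, 1, 0, 0) := (Wc.lga h (1, 0, 0, 0)).2 l0
  have m : ∀ w {v}, Lg b φ v → Lg b φ (ap4 (mo4 w) v) := fun w v l => (Wc.lga (W.amo w) v).2 l
  have n : ∀ v : tA, ea b φ (0, v) ∈ N(Q1 r) := fun v => Oc_norm _ _ (mem_cent1.2 (by rw [ea1]; exact (F.rL _).symm))
  obtain rfl := W.bot H F.rr F.r1 (fun k hk => (F.rR k hk).symm) (e9 ((Oc_pi _ _).sing_ne (by decide)) (W.e3 _) (W.e3 _)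
    (W.ecm _ _) (n (1, 0, 0)) (n (0, 1, 0)) (W.cR l1 (Oc_pi _ _)) (W.cR (m [3] l1) (Oc_pi _ _))
    (by rw [← W.add]; exact W.cR l2 (Oc_pi _ _)) (by rw [← W.neg, ← W.add]; exact W.cR (m [1] l2) (Oc_pi _ _)))
  have cj : ∀ x ∈ {x | IsConj b x}, ∀ g : G, g * x * g⁻¹ ∈ {x | IsConj b x} := fun x hx g => hx.trans (isConj_iff.2 ⟨g, rfl⟩)
  refine ⟨cj, ⟨b, IsConj.refl b⟩, fun θ hθ => ?_⟩
  obtain ⟨k, rfl⟩ := isConj_iff.1 hθ
  refine F.fr cj (IsConj.refl b) (by simpa only [Lg, ea1, dA1, Set.mem_ofPred_eq] using l1) ?_ ?_ ?_ k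
  · simpa only [Lg, ea1, Set.mem_ofPred_eq, show dA (1, 1, 0) = d1 * d2 by decide +kernel] using l2
  · simpa only [Lg, ea1, Set.mem_ofPred_eq, show dA (1, 1, 1) = d1 * d2 * d3 by decide +kernel] using l3
  · have : Lg b φ (1, 1, 0, 0) := m [3] ((Wc.lga h _).2 l2)
    simpa [Lg, ea, dA1] using this

end H26.SX
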