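import Cfsg.Agent.H17.FV0
import Cfsg.Agent.S3099
import Cfsg.Agent.S2119
import Cfsg.Agent.S0205
import Cfsg.Agent.H11.Small

/-! S5720, chunk G1: the top of a group with at most one involution. -/

set_option autoImplicit false

open Subgroup Cfsg H17.FV
open scoped MatrixGroups

namespace H26.FV

universe u

theorem z5 : center (alternatingGroup (Fin 5)) = ⊥ := alternatingGroup.center_eq_bot (by simp)

theorem ns5 (M : Subgroup (alternatingGroup (Fin 5))) (hM : M.Normal) (h : Group.IsSolvable M) :
    M = ⊥ := (hM.eq_bot_or_eq_top).resolve_right fun e => by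
  subst e
  have := Group.isSolvable_of_surjective (f := (⊤ : Subgroup (alternatingGroup (Fin 5))).subtype)
    fun x => ⟨⟨x, trivial⟩, rfl⟩
  have c := IsSimpleGroup.comm_iff_isSolvable.2 this
  obtain ⟨x, hx⟩ := exists_ne (1 : alternatingGroup (Fin 5))
  exact hx (mem_bot.1 (z5.le (mem_center_iff.2 fun g => c g x)))

theorem a5 {H : Type u} [Group H] [Finite H] {n : ℕ} (f : derivedSeries H n →* alternatingGroup (Fin 5))
    (hf : Function.Surjective f) (hk : Group.IsSolvable f.ker) : (solvableRadical H).index ≤ 120 := by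
  have h1 : f.ker = (solvableRadical H).subgroupOf (derivedSeries H n) := by
    rw [← H1.solvRad_eq_subgroupOf_of_subnormal (derivedSeries_normal H n).isSubnormal]
    refine le_antisymm (H1.le_solvRad inferInstance hk) ((Subgroup.map_eq_bot_iff _).1
      (ns5 _ (Normal.map inferInstance f hf) ?_))
    have := H1.solvRad_isSolvable (G := derivedSeries H n)
    exact Group.isSolvable_of_surjective (f.subgroupMap_surjective _)
  let π := QuotientGroup.mk' (solvableRadical H)
  have sj : Function.Surjective π := QuotientGroup.mk'_surjective _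
  have nK : ((derivedSeries H n).map π).Normal := (derivedSeries_normal H n).map π sj
  have h2 : (π.subgroupMap (derivedSeries H n)).ker = f.ker := by
    rw [h1]; ext x
    rw [MonoidHom.mem_ker, mem_subgroupOf, Subtype.ext_iff]
    exact QuotientGroup.eq_one_iff _
  let e : (derivedSeries H n).map π ≃* alternatingGroup (Fin 5) :=
    (QuotientGroup.quotientKerEquivOfSurjective _ (π.subgroupMap_surjective _)).symm.trans
      ((QuotientGroup.quotientMulEquivOfEq h2).trans (QuotientGroup.quotientKerEquivOfSurjective f hf))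
  let c : H ⧸ solvableRadical H →* MulAut ((derivedSeries H n).map π) := MulAut.conjNormal
  have h3 : c.ker ⊓ (derivedSeries H n).map π = ⊥ := eq_bot_iff.2 fun x hx => by
    have : e ⟨x, hx.2⟩ ∈ center (alternatingGroup (Fin 5)) := mem_center_iff.2 fun g => by
      obtain ⟨g, rfl⟩ := e.surjective g
      rw [← map_mul, ← map_mul]
      refine congrArg e (Subtype.ext ?_)
      have := congrArg Subtype.val (DFunLike.congr_fun (MonoidHom.mem_ker.1 hx.1) g)
      exact (mul_inv_eq_iff_eq_mul.1 this).symm
    rw [z5, mem_bot, map_eq_one_iff e e.injective] at this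
    exact congrArg Subtype.val this
  have h4 : Group.IsSolvable c.ker := ⟨n, (map_eq_bot_iff_of_injective _ c.ker.subtype_injective).1
    (eq_bot_iff.2 (h3 ▸ le_inf (map_subtype_le _)
      ((map_derivedSeries_le_derivedSeries _ n).trans (map_derivedSeries_eq sj n).ge)))⟩
  have h5 : Function.Injective c := (MonoidHom.ker_eq_bot_iff c).1
    (H1.solvRad_eq_bot_iff.1 H1.solvRad_quotient_solvRad _ inferInstance h4)
  have h6 := Nat.card_le_card_of_injective c h5
  rw [Nat.card_congr (MulAut.congr e).toEquiv, ← Nat.card_eq_of_bijective _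
    (Cfsg.Agent.S2119.result 5 (by decide) (by decide)), Nat.card_perm] at h6
  rw [index_eq_card]
  simpa [Nat.factorial] using h6

theorem g1 : G1.{u} := by
  intro H _ _ hR hU
  obtain ⟨_, ⟨n, rfl⟩, hm⟩ := exists_minimal_of_wellFoundedLT
    (fun L : Subgroup H => ∃ n, derivedSeries H n = L) ⟨_, 0, rfl⟩
  have hp : Group.IsPerfect (derivedSeries H n) := Subgroup.isPerfect_iff.2 (by
    have := derivedSeries_normal H n
    exact le_antisymm (commutator_le_left _ _) (hm ⟨n + 1, rfl⟩ (commutator_le_left _ _)))
  have ns : ¬ Group.IsSolvable (derivedSeries H n) := fun h => by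
    obtain ⟨m, hm⟩ := h
    rw [Group.IsPerfect.derivedSeries_eq_top (G := derivedSeries H n)] at hm
    have : derivedSeries H n = ⊥ := by
      rw [← (derivedSeries H n).range_subtype, MonoidHom.range_eq_map, hm, Subgroup.map_bot]
    rw [H1.solvRad_eq_top_iff.2 ⟨n, this⟩, index_top] at hR
    omega
  have u := hU.inj (derivedSeries H n).subtype_injective
  refine ⟨derivedSeries H n, ?_⟩
  have oO : Odd (Nat.card (QuotientGroup.mk' (oddCore (derivedSeries H n))).ker) := by
    rw [QuotientGroup.ker_mk']; exact H1.odd_card_oddCore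
  rcases Cfsg.Agent.S3099.result hp (fun A _ hA => by
    by_contra! h
    have := Fintype.ofFinite A
    rw [Nat.card_eq_fintype_card, pow_one, Fintype.two_lt_card_iff] at h
    obtain ⟨a, b, c, ab, ac, bc⟩ := h
    have k : ∀ x y : A, x ≠ 1 → y ≠ 1 → x = y := fun x y hx hy => Subtype.ext
      (u _ _ (by rw [← pow_two]; exact hA _ x.2) (by rw [← pow_two]; exact hA _ y.2)
        (fun e => hx (Subtype.ext e)) fun e => hy (Subtype.ext e))
    by_cases ha : a = 1
    · exact bc (k b c (ha ▸ ab.symm) (ha ▸ ac.symm))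
    by_cases hb : b = 1
    · exact ac (k a c ha (hb ▸ bc.symm))
    · exact ab (k a b ha hb))
    (Nat.not_odd_iff_even.1 fun h => ns (Cfsg.Agent.S0205.result h)) with
    ⟨F, _, _, h1, h2, ⟨e⟩⟩ | ⟨-, ⟨e⟩, -⟩
  · have sj : Function.Surjective (e.toMonoidHom.comp (QuotientGroup.mk' _)) :=
      e.surjective.comp (QuotientGroup.mk'_surjective _)
    have kk : (e.toMonoidHom.comp (QuotientGroup.mk' _)).ker =
        (QuotientGroup.mk' (oddCore (derivedSeries H n))).ker := by
      ext x; simp
    refine Or.inl ⟨F, _, _, h1, by_contra fun h => ?_, _, sj, kk ▸ oO⟩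
    obtain ⟨e5⟩ := H11.nonempty_psl2_five_equiv (F := F) (by obtain ⟨k, hk⟩ := h1; omega)
    refine hR.not_ge (a5 ((e5.toMonoidHom.comp (QuotientGroup.mk' _)).comp
      (e.toMonoidHom.comp (QuotientGroup.mk' _)))
      ((e5.surjective.comp (QuotientGroup.mk'_surjective _)).comp sj) ?_)
    rw [← MonoidHom.comap_ker]
    refine H1.solvRad_ext _ _ ?_ (Cfsg.Agent.S0205.result (kk ▸ oO))
    have : (e5.toMonoidHom.comp (QuotientGroup.mk' (center SL(2, F)))).ker = center SL(2, F) := by
      ext x; simp
    rw [this]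
    exact Group.isSolvable_of_comm fun a b => Subtype.ext (mem_center_iff.1 b.2 a)
  · exact Or.inr ⟨(e.toMonoidHom.comp (QuotientGroup.mk' _)).comp (QuotientGroup.mk' _),
      (e.surjective.comp (QuotientGroup.mk'_surjective _)).comp (QuotientGroup.mk'_surjective _)⟩

end H26.FV
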