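/-
S5815: the glue `R4`, `GD`.
-/
import Cfsg.Agent.H26.O7S
import Cfsg.Agent.S2100
import Cfsg.Agent.S2110
import Cfsg.Agent.S2113
import Cfsg.Agent.S1055
import Cfsg.Agent.S1073

set_option autoImplicit false

open Module QuadraticMap H12 Cfsg MatrixGroups Subgroup
namespace H26.O7
universe u v

theorem r4 (bc : BC.{u, v}) (mo : MO.{u, v}) (sr : SR.{u, v}) : R4.{u, v} := by
  intro F _ _ G _ _ R nc H N _ A ha h2
  obtain ⟨i, hi⟩ := IsAlgClosed.exists_pow_nat_eq (-1 : AlgebraicClosure F) two_pos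
  let E := IntermediateField.adjoin F {i}
  have : FiniteDimensional F E := IntermediateField.adjoin.finiteDimensional (Algebra.IsIntegral.isIntegral i)
  have : Finite E := Module.finite_of_finite F
  let _ := Fintype.ofFinite E
  obtain ⟨R', -, hr⟩ := (bc F E).1 G R
  have c4 : Fintype.card E % 4 = 1 := by
    have a := FiniteField.isSquare_neg_one_iff.1 (⟨⟨i, IntermediateField.mem_adjoin_simple_self F i⟩,
      Subtype.ext (by simpa [pow_two] using hi.symm)⟩ : IsSquare (-1 : E))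
    have b := FiniteField.odd_card_of_char_ne_two (F := E) fun e => R'.two (by simpa [e] using ringChar.Nat.cast_ringChar (R := E))
    omega
  let B := A.comap (QuotientGroup.mk' N)
  obtain ⟨T⟩ : Nonempty (Sylow 2 B) := inferInstance
  let f0 : B →* A := ((QuotientGroup.mk' N).comp B.subtype).codRestrict A fun x => x.2
  have s0 : Function.Surjective f0 := fun ⟨a, ha⟩ => by
    obtain ⟨a, rfl⟩ := QuotientGroup.mk'_surjective N a
    exact ⟨⟨a, ha⟩, rfl⟩
  have pA : IsPGroup 2 A := fun a => ⟨1, Subtype.ext (by simpa using h2 a a.2)⟩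
  have s1 : (f0.comp T.1.subtype).range = ⊤ := by
    rw [MonoidHom.range_comp, range_subtype]
    exact ((T.mapSurjective s0).3 (pA.to_subgroup ⊤) le_top).symm
  let R1 := R'.comp (H.subtype.comp (B.subtype.comp T.1.subtype))
    (H.subtype_injective.comp (B.subtype_injective.comp T.1.subtype_injective))
  obtain ⟨h, hh, hm⟩ := mo E T R1 c4 T.2
  have := sr E T (R1.cj h hh) T.2 (fun t ht => (rk_conj h⁻¹ (R1.ρ t)).trans_ne ((hr _).trans_ne (nc _ (by
    rw [← map_mul, ht, map_one])))) (fun g => hm g) (f0.comp T.1.subtype).ker inferInstance fun g => by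
      rw [MonoidHom.mem_ker, map_mul, ← pow_two]; exact Subtype.ext (h2 _ (Subtype.prop _))
  rwa [index_ker, s1, card_top] at this

theorem gd (w7 : W7.{u, 0}) (spl : SPL.{u, 0}) (ks : KS.{u, 0}) (rs : RS.{u, 0}) (xs : XS3.{u, 0}) (wd : WD.{u, 0})
    (g2 : G2C) (d4 : D4C) (ree : REE) : GD.{u} := by
  refine ⟨fun F _ _ od h5 K _ _ p _ _ R _ _ => ?_, fun F _ _ r od hc K _ _ p _ _ R _ _ => ?_,
    fun F _ _ m m1 hc K _ _ p _ _ R _ _ => ?_⟩
  · obtain ⟨φ₁, φ₂, z, w, w', x, y, c, d1, d2, n1, n2, cx, cy, e⟩ := g2 F od h5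
    obtain ⟨l, _, n, hl, hn⟩ := FiniteField.card' F
    have z1 := c.z₁.trans_ne c.z1
    by_cases h0 : (l : K) = 0
    · obtain ⟨a, ha⟩ := ex_sq_ne h5
      obtain ⟨hs, hna⟩ := Agent.S1055.result (F := F) ⟨a, a.ne_zero, fun e => ha (by rw [e, one_mul])⟩
      obtain ⟨T⟩ := spl K _ R 1 (perf_of_simple hs hna) odd_one (Agent.S2100.result h5)
      replace h0 : (Fintype.card F : K) = 0 := by rw [hn, Nat.cast_pow, h0, zero_pow n.ne_zero]
      rcases (ks K _ R F F φ₁ φ₂ z od od c.z₁ c.z₂ c.z1 c.comm).2 with k | ⟨-, k⟩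
      · exact rs K _ R T F F φ₁ φ₂ z w w' od h5 c.z₁ c.z₂ c.z1 c.rel k (.inr ⟨h0, h5, d1, n1⟩)
      · exact rs K _ R T F F φ₂ φ₁ z w w' od h5 c.z₂ c.z₁ c.z1 c.rel (k h5) (.inr ⟨h0, h5, d2, n2⟩)
    have l2 : l ≠ 2 := by rintro rfl; rw [hn] at od; exact absurd (od.of_dvd_nat (dvd_pow_self 2 n.ne_zero)) (by decide)
    by_cases l3 : l = 3
    · subst l3
      obtain ⟨A, a1, a2, a3⟩ := uu z1 (c.z₂.trans_ne c.z1) c.comm h5
      have := ((w7 K _ R).1 A 3 (by decide) h0 a1 a2).1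
      have : Fintype.card F ≠ 5 := fun e => by
        have := dvd_pow_self 3 n.ne_zero; omega
      nlinarith [show 6 ≤ Fintype.card F by omega]
    · have := hl.two_le
      exact ((w7 K _ R).2 x y _ l hl (by omega) h0 (by rw [← map_pow, up_pow, CharP.cast_eq_zero, zero_mul, up_zero, map_one])
        (fun e => one_ne_zero (up_ne φ₁ z1 e)) cx cy e).elim
  · obtain ⟨l, _, n, hl, hn⟩ := FiniteField.card' F
    obtain ⟨F₁, _, _, _, φ₁, φ₂, z, w, w', x, y, c1, c, n1, e1, e2⟩ := d4 F r l od hc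
    have z1 := c.z₁.trans_ne c.z1
    have z2 := c.z₂.trans_ne c.z1
    have r3 : 3 ≤ r := by
      have := Fintype.one_lt_card (α := F₁); obtain ⟨k, hk⟩ := od; omega
    have h27 : 27 ≤ Fintype.card F := hc ▸ Nat.pow_le_pow_left r3 3
    have cl : φ₁ (up 1) ^ l = 1 := by rw [← map_pow, up_pow, CharP.cast_eq_zero, zero_mul, up_zero, map_one]
    have c0 : φ₁ (up 1) ≠ 1 := fun e => one_ne_zero (up_ne φ₁ z1 e)
    have of : Odd (Fintype.card F) := hc ▸ od.pow
    by_cases h0 : (l : K) = 0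
    · obtain rfl : p = l := (Nat.prime_dvd_prime_iff_eq Fact.out hl).1 ((CharP.cast_eq_zero_iff K p l).1 h0)
      have pp : IsPrimePow r := c1 ▸ FiniteField.isPrimePow_card F₁
      obtain ⟨hs, hna⟩ := Agent.S1071.result pp hc
      obtain ⟨T⟩ := spl K _ R 1 (perf_of_simple hs hna) odd_one (Agent.S2110.result pp hc)
      rcases (ks K _ R F₁ F φ₁ φ₂ z (c1 ▸ od) of c.z₁ c.z₂ c.z1 c.comm).2 with k | ⟨-, k⟩
      · obtain ⟨i, j, -, -, q⟩ := ex_qu φ₂ z2
        exact (xs K p _ R z _ _ _ x y (c.z₂ ▸ q) (c.comm _ _) (c.comm _ _) (k ⟨_, rfl⟩) c0 cl e1 e2).elim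
      · exact rs K _ R T F F₁ φ₂ φ₁ z w w' of (by omega) c.z₂ c.z₁ c.z1 c.rel (k (by omega)) (.inl n1)
    have l2 : l ≠ 2 := by rintro rfl; rw [hn] at of; exact absurd (of.of_dvd_nat (dvd_pow_self 2 n.ne_zero)) (by decide)
    by_cases l3 : l = 3
    · subst l3
      obtain ⟨A, a1, a2, a3⟩ := uu z2 z1 (fun a b => (c.comm b a).symm) (by omega)
      have := ((w7 K _ R).1 A 3 (by decide) h0 a1 a2).1
      nlinarith
    · have := hl.two_le
      obtain ⟨-, -, -, -, a, b, e⟩ := e1 0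
      exact ((w7 K _ R).2 _ _ _ l hl (by omega) h0 cl c0 a b e).elim
  · obtain ⟨E, e1, e2, e3, e4⟩ := ree F m m1 hc
    obtain ⟨hs, hna⟩ := Agent.S1073.result m1 hc
    obtain ⟨T⟩ := spl K _ R 1 (perf_of_simple hs hna) odd_one (Agent.S2113.result m1 hc)
    exact (wd K _ R T).2.2.2 E e1 e2 e3 e4

end H26.O7
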