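/-
S4578: the anticommutation relations.
-/
import Cfsg.Agent.H26.RB0

set_option autoImplicit false

namespace H26.RB
open Cfsg Finset Matrix Equiv H7.Sn

variable {N l : ℕ} {i j : Fin N} {S T : Fk N}

theorem sg_sq (i : Fin N) (S : Fk N) : sg i S * sg i S = 1 := by
  rw [sg, ← mul_pow]; simp

theorem sg_insert (i : Fin N) (h : j ∉ S) : sg i (insert j S) = if i < j then -sg i S else sg i S := by
  rw [sg, sg, filter_insert]
  split_ifs
  · rw [card_insert_of_notMem (by simp [h]), pow_succ, mul_neg_one]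
  · rfl

theorem sg_erase (i : Fin N) (h : j ∈ S) : sg i (S.erase j) = if i < j then -sg i S else sg i S := by
  have := sg_insert i (notMem_erase j S)
  rw [insert_erase h] at this
  split_ifs at this ⊢ <;> simp [this]

theorem mul_cr (A : Mx N) (i : Fin N) (T S : Fk N) :
    (A * cr i) T S = if i ∉ S then A T (insert i S) * sg i S else 0 := by
  by_cases h : i ∈ S <;> simp [mul_apply, cr, h]

theorem crT_apply (i : Fin N) (T S : Fk N) :
    (cr i)ᵀ T S = if i ∈ S ∧ T = S.erase i then sg i S else 0 := by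
  rw [transpose_apply, cr, of_apply]
  by_cases h : i ∈ S ∧ T = S.erase i
  · obtain ⟨h, rfl⟩ := h
    simp [h, sg_erase]
  · rw [if_neg h, if_neg]
    rintro ⟨h1, rfl⟩
    exact h ⟨mem_insert_self _ _, (erase_insert h1).symm⟩

theorem mul_crT (A : Mx N) (i : Fin N) (T S : Fk N) :
    (A * (cr i)ᵀ) T S = if i ∈ S then A T (S.erase i) * sg i S else 0 := by
  by_cases h : i ∈ S <;> simp [mul_apply, crT_apply, h, -transpose_apply]

theorem cr_cr (i j : Fin N) : cr i * cr j + cr j * cr i = 0 := by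
  ext T S
  rw [Matrix.add_apply, mul_cr, mul_cr]
  by_cases hi : i ∈ S <;> by_cases hj : j ∈ S <;> simp [cr, hi, hj]
  rcases lt_trichotomy i j with h | rfl | h
  · simp [h.ne, h.ne', insert_comm, sg_insert, hi, hj, h, h.not_gt, mul_comm]
    split_ifs <;> simp
  · simp
  · simp [h.ne, h.ne', insert_comm, sg_insert, hi, hj, h, h.not_gt, mul_comm]
    split_ifs <;> simp

theorem crT_crT (i j : Fin N) : (cr i)ᵀ * (cr j)ᵀ + (cr j)ᵀ * (cr i)ᵀ = 0 := by
  rw [← transpose_mul, ← transpose_mul, ← transpose_add, cr_cr, transpose_zero]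

theorem cr_crT (i j : Fin N) : cr i * (cr j)ᵀ + (cr j)ᵀ * cr i = if i = j then 1 else 0 := by
  ext T S
  rw [Matrix.add_apply, mul_cr, mul_crT, crT_apply, cr, of_apply]
  rcases eq_or_ne i j with rfl | e
  · by_cases hi : i ∈ S <;> simp [hi, sg_erase, sg_insert, sg_sq, one_apply]
  by_cases hi : i ∈ S <;> by_cases hj : j ∈ S <;> simp [hi, hj, e, e.symm]
  rw [erase_insert_of_ne e, sg_erase _ hj, sg_insert _ hi]
  rcases lt_or_gt_of_ne e with h | h <;> simp [h, h.not_gt, mul_comm] <;> split_ifs <;> simp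

theorem par_cr (i : Fin N) : par N * cr i + cr i * par N = 0 := by
  ext T S
  rw [Matrix.add_apply, par, diagonal_mul, mul_diagonal, cr, of_apply]
  split_ifs with h
  · rw [h.2, card_insert_of_notMem h.1, pow_succ]; simp [mul_comm]
  · simp

theorem par_T : (par N)ᵀ = par N := diagonal_transpose _

theorem par_crT (i : Fin N) : par N * (cr i)ᵀ + (cr i)ᵀ * par N = 0 := by
  rw [← par_T, ← transpose_mul, ← transpose_mul, ← transpose_add, add_comm, par_cr, transpose_zero]

theorem par_par : par N * par N = 1 := by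
  rw [par, diagonal_mul_diagonal, ← diagonal_one]
  simp [← mul_pow]

theorem ph_pos (i : Fin N) : ph N ((i : ℕ) + 1) = cr i := by
  rw [ph, dif_pos (by omega)]; simp

theorem ph_zero : ph N 0 = par N := by simp [ph]

theorem ph_neg (i : Fin N) :
    ph N (-((i : ℕ) + 1)) = (2 * ((i : ℕ) + 1 : ℤ).negOnePow : ℤ) • (cr i)ᵀ := by
  rw [ph, dif_neg (by omega), if_neg (by omega), dif_pos (by omega), Int.negOnePow_neg]; simp

theorem ph_out {k : ℤ} (h : N < |k|) : ph N k = 0 := by
  rw [lt_abs] at h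
  rw [ph, dif_neg (by omega), if_neg (by omega), dif_neg (by omega)]

theorem ph_cases (N : ℕ) (k : ℤ) :
    (∃ i : Fin N, k = (i : ℕ) + 1) ∨ k = 0 ∨ (∃ i : Fin N, k = -((i : ℕ) + 1)) ∨ N < |k| := by
  rw [lt_abs]
  by_cases h : 0 < k ∧ k ≤ N
  · exact .inl ⟨⟨k.toNat - 1, by omega⟩, by simp; omega⟩
  by_cases h' : k < 0 ∧ -k ≤ N
  · exact .inr (.inr (.inl ⟨⟨(-k).toNat - 1, by omega⟩, by simp; omega⟩))
  omega

theorem car : CAR := fun N i j => by
  have ab : ∀ a : Fin N, |((a : ℕ) : ℤ) + 1| ≤ N := fun a => by rw [abs_le]; omega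
  rcases ph_cases N i with ⟨a, rfl⟩ | rfl | ⟨a, rfl⟩ | h
  · rcases ph_cases N j with ⟨b, rfl⟩ | rfl | ⟨b, rfl⟩ | h
    · rw [ph_pos, ph_pos, cr_cr, if_neg (by omega)]
    · rw [ph_pos, ph_zero, add_comm, par_cr, if_neg (by omega)]
    · rw [ph_pos, ph_neg, mul_smul_comm, smul_mul_assoc, ← smul_add, cr_crT]
      rcases eq_or_ne a b with rfl | e
      · simp [ab]
      · rw [if_neg e, if_neg (fun h => e (by omega)), smul_zero]
    · rw [ph_out h, if_neg (fun e => by have := ab a; rw [lt_abs] at h; omega)]; simp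
  · rcases ph_cases N j with ⟨b, rfl⟩ | rfl | ⟨b, rfl⟩ | h
    · rw [ph_pos, ph_zero, par_cr, if_neg (by omega)]
    · simp [ph_zero, par_par, two_smul, one_add_one_eq_two]
    · rw [ph_zero, ph_neg, mul_smul_comm, smul_mul_assoc, ← smul_add, par_crT, if_neg (by omega), smul_zero]
    · rw [ph_out h, if_neg (fun e => by rw [lt_abs] at h; omega)]; simp
  · rcases ph_cases N j with ⟨b, rfl⟩ | rfl | ⟨b, rfl⟩ | h
    · rw [ph_pos, ph_neg, mul_smul_comm, smul_mul_assoc, ← smul_add, add_comm (_ * _), cr_crT]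
      rcases eq_or_ne b a with rfl | e
      · rw [if_pos rfl, if_pos ⟨by omega, by rw [abs_neg]; exact ab b⟩, Int.negOnePow_neg]
      · rw [if_neg e, if_neg (fun h => e (by omega)), smul_zero]
    · rw [ph_zero, ph_neg, mul_smul_comm, smul_mul_assoc, ← smul_add, add_comm (_ * _), par_crT, if_neg (by omega),
        smul_zero]
    · rw [ph_neg, ph_neg, if_neg (by omega)]
      simp only [mul_smul_comm, smul_mul_assoc, smul_smul]
      rw [mul_comm, ← smul_add, crT_crT, smul_zero]
    · rw [ph_out h, if_neg (fun e => by rw [lt_abs] at h; omega)]; simp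
  · rw [ph_out h, if_neg (fun e => by omega)]; simp

theorem adj : ADJ := fun N k T S => by
  have key : ∀ (i : Fin N) (T S : Fk N), 2 ^ #T * cr i T S = 2 * 2 ^ #S * cr i T S := fun i T S => by
    rw [cr, of_apply]
    split_ifs with h
    · rw [h.2, card_insert_of_notMem h.1, pow_succ']
    · simp
  have sq : ∀ k : ℤ, (k.negOnePow : ℤ) * k.negOnePow = 1 := fun k => by
    rw [← Units.val_mul, Int.units_mul_self, Units.val_one]
  rcases ph_cases N k with ⟨a, rfl⟩ | rfl | ⟨a, rfl⟩ | h
  · rw [ph_pos, ph_neg, key, Matrix.smul_apply, transpose_apply, smul_eq_mul]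
    linear_combination (-2 * 2 ^ #S * cr a T S) * sq (a + 1)
  · rcases eq_or_ne T S with rfl | e
    · simp
    · simp [ph_zero, par, e, e.symm]
  · rw [neg_neg, ph_pos, ph_neg, Matrix.smul_apply, transpose_apply, smul_eq_mul, Int.negOnePow_neg, mul_assoc _ (2 ^ _),
      key]
    ring
  · simp [ph_out h, ph_out (show N < |-k| by rwa [abs_neg])]

theorem ket_zero (α : Fin 0 → ℤ) (T : Fk N) : ket N α T = if T = ∅ then 1 else 0 := by
  simp [ket, one_apply]

theorem ket_succ (α : Fin (l + 1) → ℤ) (T : Fk N) :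
    ket N α T = ∑ U, ph N (α 0) T U * ket N (fun i => α i.succ) U := by
  simp [ket, List.ofFn_succ, mul_apply]

theorem kets : KET := fun N l => by
  induction l with
  | zero => exact fun α _ _ S hS T => by rw [ket_zero, show S = ∅ by ext j; simp [hS]]
  | succ l ih =>
    intro α h1 h2 S hS T
    obtain ⟨a, ha⟩ : ∃ a : Fin N, α 0 = (a : ℕ) + 1 := ⟨⟨(α 0).toNat - 1, by have := h2 0; omega⟩, by
      have := h2 0; simp; omega⟩
    have h3 : a ∈ S := (hS a).2 ⟨0, ha⟩
    have h4 := ih (fun i => α i.succ) (h1.comp_strictMono Fin.strictMono_succ) (fun i => h2 _) (S.erase a) fun j => by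
      rw [mem_erase, hS, Fin.exists_fin_succ]
      refine ⟨fun ⟨e, h⟩ => h.resolve_left fun h => e (by omega), fun ⟨i, h⟩ => ⟨?_, .inr ⟨i, h⟩⟩⟩
      have := h1 (Fin.succ_pos i)
      rintro rfl
      omega
    have h5 : sg a S = 1 := by
      rw [sg, filter_eq_empty_iff.2 fun j hj => ?_, card_empty, pow_zero]
      obtain ⟨i, e⟩ := (hS j).1 hj
      have := h1.antitone (Fin.zero_le i)
      omega
    simp [ket_succ, h4, ha, ph_pos, cr, h3, sg_erase, h5]

theorem dec_anti (S : Fk N) : StrictAnti (dec S) := fun a b h => by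
  have := (S.orderEmbOfFin rfl).strictMono (Fin.rev_lt_rev.2 h)
  simp only [dec]
  omega

theorem dec_bd (S : Fk N) (i : Fin #S) : 0 < dec S i ∧ dec S i ≤ N := by
  have := (S.orderEmbOfFin rfl i.rev).2
  simp only [dec]
  omega

theorem mem_dec (S : Fk N) (j : Fin N) : j ∈ S ↔ ∃ i, dec S i = (j : ℕ) + 1 := by
  refine ⟨fun h => ?_, fun ⟨i, h⟩ => ?_⟩
  · obtain ⟨i, e⟩ : j ∈ Set.range (S.orderEmbOfFin rfl) := by rwa [range_orderEmbOfFin]
    exact ⟨i.rev, by simp [dec, e]⟩
  · rw [show j = S.orderEmbOfFin rfl i.rev by simp only [dec] at h; omega]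
    exact orderEmbOfFin_mem _ _ _

theorem ket_dec (S T : Fk N) : ket N (dec S) T = if T = S then 1 else 0 :=
  kets N _ _ (dec_anti S) (dec_bd S) S (mem_dec S) T

theorem XX_zero (α : Fin l → ℤ) : XX N α 0 = ket N α ∅ := by
  rw [XX, show (pm 0 : L (Fin l)) = .single 0 1 from rfl, ip_single]; simp

theorem XX_cons (α : Fin l → ℤ) (r : ℕ) (μ : Multiset ℕ) :
    XX N α (r ::ₘ μ) = ∑ i, XX N (α - Pi.single i (r : ℤ)) μ := by
  rw [XX, pm_cons, ip_ps_mul]
  simp only [XX, ip_eq_sum (subset_refl _), mul_sum]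
  rw [sum_comm]
  simp only [sub_sub, add_comm]

theorem xs0 : XS0 := fun N S => by rw [XS, XX_zero, ket_dec]; simp only [eq_comm]

theorem cr_empty (S : Fk N) : ∃ A ∈ Submonoid.closure (Set.range (cr (N := N))), ∀ T,
    A T ∅ = if T = S then 1 else 0 :=
  ⟨(List.ofFn fun i => ph N (dec S i)).prod, list_prod_mem fun x hx => by
    obtain ⟨i, rfl⟩ := List.mem_ofFn.1 hx
    exact Submonoid.subset_closure ⟨_, (ph_pos _).symm⟩, ket_dec S⟩

theorem gamma : GAM := fun n => by
  let f : Mx n →+* Matrix (Fk n) (Fk n) ℂ := (Int.castRingHom ℂ).mapMatrix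
  have e1 : ∀ i, gam (.inl i) = f (cr i) + f (cr i)ᵀ := fun i => map_add f _ _
  have e2 : ∀ i, gam (.inr (some i)) = Complex.I • (f (cr i) - f (cr i)ᵀ) := fun i => by
    rw [← map_sub]; rfl
  have e3 : gam (.inr none) = f (par n) := rfl
  have c1 := fun i j : Fin n => congrArg f (cr_cr i j)
  have c2 := fun i j : Fin n => congrArg f (crT_crT i j)
  have c3 := fun i j : Fin n => congrArg f (cr_crT i j)
  have c4 := fun i : Fin n => congrArg f (par_cr i)
  have c5 := fun i : Fin n => congrArg f (par_crT i)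
  have c6 := congrArg f (par_par (N := n))
  simp only [map_add, map_mul, map_zero, map_one, apply_ite f] at c1 c2 c3 c4 c5 c6
  have c7 := fun i j : Fin n => (c3 j i).trans (if_congr eq_comm rfl rfl)
  have c8 : ∀ i j : Fin n, (if i = j then 2 else 0 : Matrix (Fk n) (Fk n) ℂ) =
      (if i = j then 1 else 0) + if i = j then 1 else 0 := fun i j => by
    split_ifs <;> simp [one_add_one_eq_two]
  refine ⟨?_, fun i => by simp [gam, ← transpose_map, add_comm], fun A h => ?_⟩
  · rintro (i | _ | i) (j | _ | j) <;> simp only [e1, e2, e3, mul_smul_comm, smul_mul_assoc, smul_smul,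
      Complex.I_mul_I, Sum.inl.injEq, Sum.inr.injEq, Option.some.injEq, reduceCtorEq, if_false, if_true,
      ← smul_add, smul_eq_zero, c8, neg_one_smul]
    · linear_combination (norm := noncomm_ring) c1 i j + c2 i j + c3 i j + c7 i j
    · linear_combination (norm := noncomm_ring) c4 i + c5 i
    · exact .inr (by linear_combination (norm := noncomm_ring) c1 i j - c2 i j - c3 i j + c7 i j)
    · linear_combination (norm := noncomm_ring) c4 j + c5 j
    · rw [c6, one_add_one_eq_two]
    · exact .inr (by linear_combination (norm := noncomm_ring) c4 j - c5 j)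
    · exact .inr (by linear_combination (norm := noncomm_ring) c1 i j - c2 i j + c3 i j - c7 i j)
    · exact .inr (by linear_combination (norm := noncomm_ring) c4 i - c5 i)
    · linear_combination (norm := noncomm_ring) c3 i j + c7 i j - c1 i j - c2 i j
  have h1 : ∀ i, A * f (cr i) = f (cr i) * A ∧ A * f (cr i)ᵀ = f (cr i)ᵀ * A := fun i => by
    have a := h (.inl i)
    have b := h (.inr (some i))
    rw [e2, mul_smul_comm, smul_mul_assoc, smul_right_inj Complex.I_ne_zero] at b
    rw [e1] at a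
    constructor <;> apply smul_right_injective _ (two_ne_zero' ℂ) <;> simp only [two_smul]
    · linear_combination (norm := noncomm_ring) a + b
    · linear_combination (norm := noncomm_ring) a - b
  have h2 : ∀ S, A S ∅ = if S = ∅ then A ∅ ∅ else 0 := fun S => by
    split_ifs with e
    · rw [e]
    obtain ⟨i, hi⟩ := nonempty_iff_ne_empty.2 e
    have := congrFun (congrFun (h1 i).2 (S.erase i)) ∅
    simpa [mul_apply, f, cr, hi, sg, (insert_ne_empty _ _).symm, eq_comm (a := (0 : ℂ))] using this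
  refine ⟨A ∅ ∅, Matrix.ext fun T S => ?_⟩
  obtain ⟨C, h3, h4⟩ := cr_empty S
  have h5 : A * f C = f C * A := by
    clear h4
    induction h3 using Submonoid.closure_induction with
    | mem _ h => obtain ⟨i, rfl⟩ := h; exact (h1 i).1
    | one => simp
    | mul x y _ _ a b => rw [map_mul, ← mul_assoc, a, mul_assoc, b, mul_assoc]
  have := congrFun (congrFun h5 T) ∅
  simp only [mul_apply, f, RingHom.mapMatrix_apply, map_apply, h4] at this
  rw [sum_eq_single ∅ (f := fun U => _ * A U ∅) (fun U _ e => by rw [h2 U, if_neg e, mul_zero]) (by simp)] at this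
  simpa [h4, one_apply] using this

end H26.RB
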