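/-
S4578: block-theoretic reductions.
-/
import Cfsg.Agent.H26.RB0
import Cfsg.Agent.H8.Ht

set_option autoImplicit false

namespace H26.RB
open Cfsg Subgroup H5 H7 H8 H21

universe u

theorem comm_iff {D : Type*} [Group D] : IsMulCommutative D ↔ center D = ⊤ :=
  ⟨fun _ => eq_top_iff.2 fun x _ => mem_center_iff.2 fun y => mul_comm' y x,
    fun h => ⟨⟨fun x y => mem_center_iff.1 (h.ge (mem_top y)) x⟩⟩⟩

theorem fin : FIN.{u} := fun H _ _ p M B D χ ⟨hM, hB, hD, hχ⟩ => by
  have := Fact.mk hM.1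
  have := Fintype.ofFinite H
  have h1 := card_isDefectGroup hM hB hD
  have h2 := H21.factorization_degree (p := p) hχ
  have h3 := height_add_two_le hM hB hχ
  obtain ⟨c, h4, h5⟩ := (Nat.dvd_prime_pow hM.1).1 (h1 ▸ card_subgroup_dvd_card (center D))
  have h6 : (center D).index = p ^ (blockDefect p B - c) := by
    have := (center D).index_mul_card
    rw [h1, h5, ← Nat.sub_add_cancel h4, pow_add] at this
    exact Nat.eq_of_mul_eq_mul_right (pow_pos hM.1.pos c) this
  have h7 : IsMulCommutative D ↔ c = blockDefect p B := by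
    rw [comm_iff, ← card_eq_iff_eq_top, h1, h5, Nat.pow_right_inj hM.1.one_lt]
  simp only [Goal, Tiny, Good, h6, h1, h5, hM.1.factorization_pow, Finsupp.single_eq_same,
    Nat.pow_le_pow_iff_right hM.1.one_lt, Nat.pow_lt_pow_iff_right hM.1.one_lt]
  refine ⟨?_, fun k h8 h9 => by rw [h7] at h8 ⊢; omega⟩
  rintro (h | ⟨h, h'⟩)
  · have : IsMulCommutative D := by
      interval_cases blockDefect p B
      · rw [Subgroup.card_eq_one.1 h1]; infer_instance
      · exact (isCyclic_of_prime_card (h1.trans (pow_one p))).isMulCommutative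
      · exact IsPGroup.isMulCommutative_of_card_eq_prime_sq h1
    rw [h7] at this ⊢; omega
  · have := (Nat.pow_le_pow_iff_right hM.1.one_lt).1 (h'.trans_eq (pow_one p).symm)
    rw [h7] at h ⊢; omega

theorem sc : SC.{u} := fun D _ _ p k E h1 h2 => by
  have h3 : center D ≤ E := fun x hx => (h1 x).2 fun e _ => (mem_center_iff.1 hx e).symm
  refine ⟨fun h => ?_, fun h => lt_of_lt_of_le (lt_of_le_of_ne (card_le_of_le h3) fun e => h ?_) h2⟩
  · rwa [top_unique ((comm_iff.1 h).ge.trans h3), card_top] at h2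
  · have h4 := eq_of_le_of_card_ge h3 e.ge
    exact comm_iff.2 (eq_top_iff.2 fun x _ => h4.ge ((h1 x).2 fun e he => mem_center_iff.1 (h4.ge he) x))

theorem sub : SUB.{u} := fun H _ _ p M B D χ ⟨hM, hB, hD, hχ⟩ hp u hu hc χ' h1 => by
  have := Fact.mk hM.1
  have := charP_kk hM
  have h := isSec_cent (p := p) (u := u) (isPElt_of_mem (H7.isPGroup_of_isDefectGroup hD) hu)
  obtain ⟨b, hb, -, hd⟩ := h.exists_major hM hB hD hu (mem_centralizer_iff.2 hc)
  obtain ⟨ψ, hψ, h0⟩ := exists_blockHeight_eq_zero (p := p) (⟨χ, hχ⟩ : B.Nonempty)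
  have hf := fB_mem_VG hM hb.1
  by_contra hn
  push Not at hn
  have h2 : sec p u _ b χ.1 + sec p u _ b χ'.1 = 0 := by
    rw [← map_add, sec_def, ← blockPart_rp hM hf (h.isClass_tr (χ.2.isClassFunction.add χ'.2.isClassFunction)),
      show rp p (tr u (centralizer {u}) (χ.1 + χ'.1)) = 0 from
        rp_eq_zero_iff.2 fun s hs => hn s (h.comm s) (by rwa [orderOf_coe])]
    exact map_zero (bpL b)
  have h3 : mm p u _ b ψ.1 χ.1 + mm p u _ b ψ.1 χ'.1 = 0 := by
    have := Fintype.ofFinite (centralizer {u})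
    rw [mm_eq, mm_eq, ← classInner_add_right, h2, classInner_zero_right]
  have h4 := h.val_mm_of_major hM hb hd hψ h0 hχ
  have h5 : mm p u _ b ψ.1 χ.1 ≠ 0 := fun e => by
    rw [e, mul_zero, map_zero] at h4
    exact pow_ne_zero _ (val_p_ne_zero hM) h4.symm
  by_cases h6 : χ' ∈ B
  swap
  · exact h5 (by rwa [h.mm_eq_zero_of_notMem' hM hb _ h6, add_zero] at h3)
  obtain ⟨z, z1, z2, z3⟩ := h.exists_mm_eq_omega hM hf ψ.2.isClassFunction (irr_apply_mem_V ψ)
  rw [z3, ← mul_assoc, ← mul_div_assoc, map_mul, H21.val_pow_mul_one_div hM hχ,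
    mul_eq_left₀ (pow_ne_zero _ (val_p_ne_zero hM)), ← red_ne_zero_iff] at h4
  rw [z3, z3, h1, ← mul_add, mul_eq_zero, or_iff_right (div_ne_zero (irr_one_ne_zero χ)
    (Nat.cast_ne_zero.2 Nat.card_pos.ne'))] at h3
  have h7 := congrArg (red M) h3
  rw [red_add (omega_mem_V χ z1 z2) (omega_mem_V χ' z1 z2), red_zero,
    ← red_omega_eq_of_sameBlock hM (sameBlock_of_mem hM hB hχ h6) z1 z2, ← two_mul, mul_eq_zero,
    or_iff_left h4] at h7
  exact hp ((Nat.prime_dvd_prime_iff_eq hM.1 Nat.prime_two).1 ((CharP.cast_eq_zero_iff (kk M) p 2).1 h7))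

end H26.RB
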