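/-
S4578: bosons, the Morris recursion, divisibility.
-/
import Cfsg.Agent.H26.RB1

set_option autoImplicit false

namespace H26.RB
open Cfsg Finset Matrix Equiv H7.Sn

variable {N l : ℕ}

theorem ne_sq (k : ℤ) : (k.negOnePow : ℤ) * k.negOnePow = 1 := by
  rw [← Units.val_mul, Int.units_mul_self, Units.val_one]

theorem comm : COMM := fun N r m hr hm => by
  have key : ∀ k l : ℤ, ph N k * ph N l * ph N m - ph N m * (ph N k * ph N l) =
      ph N k * (ph N m * ph N l + ph N l * ph N m) - (ph N m * ph N k + ph N k * ph N m) * ph N l :=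
    fun k l => by noncomm_ring
  have h1 : ∀ k : ℤ, m + (-k - r) = 0 ↔ k = m - r := fun k => by omega
  have h2 : ∀ k : ℤ, m + k = 0 ↔ k = -m := fun k => by omega
  simp only [bb, sum_mul, mul_sum, ← sum_sub_distrib, smul_mul_assoc, mul_smul_comm, ← smul_sub, key, car N m,
    hm, and_true, h1, h2, mul_ite, ite_mul, mul_one, one_mul, mul_zero, zero_mul]
  simp only [smul_sub, sum_sub_distrib, smul_ite, smul_zero, sum_ite_eq', mem_Icc, ← abs_le, abs_neg, hm, if_true,
    smul_smul, neg_neg, Int.negOnePow_neg, Int.negOnePow_sub, Int.negOnePow_odd r hr]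
  split_ifs with h
  · rw [← sub_smul]
    congr 1
    push_cast
    linear_combination -4 * ne_sq m
  · simp [ph_out (not_le.1 h)]

theorem ph_vac {k : ℤ} (h : k < 0) (T : Fk N) : ph N k T ∅ = 0 := by
  rcases ph_cases N k with ⟨a, rfl⟩ | rfl | ⟨a, rfl⟩ | h
  · omega
  · omega
  · rw [ph_neg, Matrix.smul_apply, crT_apply]; simp
  · simp [ph_out h]

theorem bb_vac {r : ℤ} (h : 0 < r) (T : Fk N) : bb N r T ∅ = 0 := by
  simp only [bb, Matrix.sum_apply, Matrix.smul_apply]
  refine sum_eq_zero fun k _ => smul_eq_zero_of_right _ ?_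
  rcases lt_or_ge (-k - r) 0 with e | e
  · simp [mul_apply, ph_vac e]
  · have := car N k (-k - r)
    rw [if_neg (by omega), add_eq_zero_iff_eq_neg] at this
    rw [this]
    simp [mul_apply, ph_vac (show k < 0 by omega)]

theorem bb_ket {r : ℤ} (hr : Odd r) (h : 0 < r) (α : Fin l → ℤ) (hα : ∀ i, α i ≤ N) (T : Fk N) :
    ∑ S, bb N r T S * ket N α S = -4 * ∑ i, ket N (α - Pi.single i r) T := by
  induction l generalizing T with
  | zero => simp [ket_zero, bb_vac h]
  | succ l ih =>
    have h1 : bb N r * ph N (α 0) = ph N (α 0) * bb N r + (-4 : ℤ) • ph N (α 0 - r) := by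
      by_cases e : |α 0| ≤ N
      · rw [← comm N r _ hr e, add_sub_cancel]
      · have := hα 0
        rw [abs_le] at e
        rw [ph_out (k := α 0) (by rw [lt_abs]; omega), ph_out (by rw [lt_abs]; omega)]; simp
    have h2 := fun U => congrFun (congrFun h1 T) U
    simp only [mul_apply, Matrix.add_apply, Matrix.smul_apply, smul_eq_mul] at h2
    simp only [ket_succ, mul_sum, ← mul_assoc]
    rw [sum_comm]
    simp only [← sum_mul, h2, add_mul, sum_add_distrib, Fin.sum_univ_succ]
    simp only [sum_mul, mul_assoc]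
    rw [sum_comm, add_comm]
    simp only [← mul_sum, ih _ fun i => hα _]
    congr 1
    · simp
    · simp only [mul_sum, mul_left_comm _ (-4 : ℤ)]
      rw [sum_comm]
      refine sum_congr rfl fun i _ => sum_congr rfl fun U _ => ?_
      congr 3
      · simp
      · ext j; simp [Pi.single_apply]

theorem mn_of {μ : Multiset ℕ} (h : ∀ (l : ℕ) (α : Fin l → ℤ), (∀ i, α i ≤ N) →
    XX N α μ = ∑ S, ket N α S * XS S μ) {r : ℕ} (hr : Odd r) (α : Fin l → ℤ) (hα : ∀ i, α i ≤ N) :
    -4 * XX N α (r ::ₘ μ) = ∑ T, (∑ S, bb N r T S * ket N α S) * XS T μ := by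
  have h1 : ∀ i j, (α - Pi.single i (r : ℤ) : Fin l → ℤ) j ≤ N := fun i j => by
    have := hα j
    simp only [Pi.sub_apply, Pi.single_apply]
    split_ifs <;> omega
  simp only [XX_cons, h _ _ (h1 _), bb_ket (hr.natCast (R := ℤ)) (by exact_mod_cast hr.pos) α hα, mul_assoc,
    ← mul_sum, sum_mul]
  rw [sum_comm]

theorem link : LINK := fun N l α μ hα hμ => by
  induction μ using Multiset.induction_on generalizing l with
  | empty => simp [XX_zero, xs0 N]
  | cons r μ ih =>
    have h1 := fun l α hα => ih l α hα fun k hk => hμ k (Multiset.mem_cons_of_mem hk)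
    have h2 := hμ r (Multiset.mem_cons_self _ _)
    refine mul_left_cancel₀ (show (-4 : ℤ) ≠ 0 by decide) ?_
    simp only [mn_of h1 h2 α hα, mul_sum, mul_left_comm (-4 : ℤ), XS, mn_of h1 h2 _ fun i => (dec_bd _ i).2,
      ket_dec, mul_ite, mul_one, mul_zero, sum_ite_eq', mem_univ, if_true, sum_mul]
    rw [sum_comm]
    simp only [mul_assoc, mul_left_comm]

theorem mn : MN := fun N r μ S hr hμ => by
  simp [XS, mn_of (fun l α hα => link N l α μ hα hμ) hr _ fun i => (dec_bd _ i).2, ket_dec]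

theorem ph_ne {k : ℤ} {T S : Fk N} (h : ph N k T S ≠ 0) :
    (#T + if k < 0 then 1 else 0) = (#S + if 0 < k then 1 else 0) ∧ (wt T : ℤ) = wt S + k := by
  rcases ph_cases N k with ⟨a, rfl⟩ | rfl | ⟨a, rfl⟩ | e
  · rw [ph_pos, cr, of_apply, ite_ne_right_iff] at h
    obtain ⟨⟨h, rfl⟩, -⟩ := h
    rw [if_neg (by omega), if_pos (by omega), card_insert_of_notMem h, wt, sum_insert h, wt]
    exact ⟨rfl, by push_cast; ring⟩
  · rw [ph_zero, par] at h
    simp [show T = S by by_contra e; exact h (diagonal_apply_ne _ e)]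
  · rw [ph_neg, Matrix.smul_apply, transpose_apply, cr, of_apply, smul_ite, smul_zero, ite_ne_right_iff] at h
    obtain ⟨⟨h, rfl⟩, -⟩ := h
    rw [if_pos (by omega), if_neg (by omega), card_insert_of_notMem h, wt, wt, sum_insert h]
    exact ⟨rfl, by push_cast; ring⟩
  · simp [ph_out e] at h

theorem ph_dvd (k : ℤ) (T S : Fk N) : 2 ^ (if k < 0 then 1 else 0) ∣ ph N k T S := by
  rcases ph_cases N k with ⟨a, rfl⟩ | rfl | ⟨a, rfl⟩ | e
  · simp [show ¬ ((a : ℕ) + 1 : ℤ) < 0 by omega]
  · simp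
  · rw [if_pos (by omega), ph_neg, Matrix.smul_apply, smul_eq_mul, mul_assoc, pow_one]
    exact dvd_mul_right _ _
  · simp [ph_out e]

theorem ket_ne (γ : Fin l → ℤ) (T : Fk N) : 2 ^ #{i | γ i < 0} ∣ ket N γ T ∧ (ket N γ T ≠ 0 →
    #T + #{i | γ i < 0} = #{i | 0 < γ i} ∧ (wt T : ℤ) = ∑ i, γ i) := by
  induction l generalizing T with
  | zero => simp +contextual [ket_zero, wt]
  | succ l ih =>
    simp only [ket_succ, card_filter, Fin.sum_univ_succ, pow_add] at ih ⊢
    refine ⟨dvd_sum fun U _ => mul_dvd_mul (ph_dvd _ _ _) (ih _ U).1, fun h => ?_⟩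
    obtain ⟨U, -, h⟩ := exists_ne_zero_of_sum_ne_zero h
    have h1 := ph_ne (left_ne_zero_of_mul h)
    have h2 := (ih _ U).2 (right_ne_zero_of_mul h)
    omega

theorem vdv : VDV := fun N l γ => by
  by_cases h : ket N γ ∅ = 0
  · simp [h]
  · rw [← ((ket_ne γ ∅).2 h).1, card_empty, zero_add]
    exact (ket_ne γ ∅).1

theorem XX_ne {μ : Multiset ℕ} {α : Fin l → ℤ} (h : XX N α μ ≠ 0) : ∑ i, α i = μ.sum := by
  induction μ using Multiset.induction_on generalizing α with
  | empty => rw [XX_zero] at h; simpa [wt] using ((ket_ne α ∅).2 h).2.symm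
  | cons r μ ih =>
    rw [XX_cons] at h
    obtain ⟨i, -, h⟩ := exists_ne_zero_of_sum_ne_zero h
    have := ih h
    rw [sum_sub_single] at this
    rw [Multiset.sum_cons, Nat.cast_add]
    omega

theorem sum_dec (S : Fk N) : ∑ i, dec S i = wt S :=
  (((ket_ne (dec S) S).2 (by simp [ket_dec])).2).symm

theorem hom : HOM := fun N S μ h => by exact_mod_cast (sum_dec S).symm.trans (XX_ne h)

end H26.RB
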