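/-
S4578: the double cover of the symmetric group.
-/
import Cfsg.Agent.H26.RB1

set_option autoImplicit false

namespace H26.RB
open Cfsg Finset Matrix Equiv H7.Sn

variable {n : ℕ} {i j k l : Fin n} {g h : SG n}

theorem gam_car (a b : Fin n ⊕ Option (Fin n)) :
    gam a * gam b + gam b * gam a = if a = b then 2 else 0 := (gamma n).1 a b

theorem gam_sq (a : Fin n ⊕ Option (Fin n)) : gam a * gam a = 1 := by
  have := gam_car a a
  rw [if_pos rfl, ← one_add_one_eq_two, ← two_smul ℂ, ← two_smul ℂ] at this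
  exact smul_right_injective _ two_ne_zero this

theorem gam_anti {a b : Fin n ⊕ Option (Fin n)} (h : a ≠ b) : gam a * gam b = -(gam b * gam a) :=
  eq_neg_of_add_eq_zero_left ((gam_car a b).trans (if_neg h))

/-- lift of a transposition -/
noncomputable def tt (i j : Fin n) : Matrix (Fk n) (Fk n) ℂ :=
  ((√2 : ℝ) : ℂ)⁻¹ • (gam (.inl i) - gam (.inl j))

theorem rt_sq : ((√2 : ℝ) : ℂ)⁻¹ * ((√2 : ℝ) : ℂ)⁻¹ = 2⁻¹ := by
  rw [← mul_inv, ← Complex.ofReal_mul, Real.mul_self_sqrt zero_le_two]; rfl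

theorem tt_mul (i j k l : Fin n) : tt i j * tt k l =
    (2⁻¹ : ℂ) • ((gam (.inl i) - gam (.inl j)) * (gam (.inl k) - gam (.inl l))) := by
  rw [tt, tt, smul_mul_assoc, mul_smul_comm, smul_smul, rt_sq]

theorem tt_sq (h : i ≠ j) : tt i j * tt i j = 1 := by
  rw [tt_mul, sub_mul, mul_sub, mul_sub, gam_sq, gam_sq, gam_anti (a := .inl i) (by simpa),
    inv_smul_eq_iff₀ two_ne_zero, two_smul]
  abel

theorem tt_symm (i j : Fin n) : tt j i = -tt i j := by rw [tt, tt, ← smul_neg, neg_sub]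

theorem tt_gam (h : i ≠ j) (a : Fin n ⊕ Option (Fin n)) :
    tt i j * gam a = -(gam (Sum.map (swap i j) id a) * tt i j) := by
  rw [tt, smul_mul_assoc, mul_smul_comm, ← smul_neg, sub_mul, mul_sub]
  congr 1
  by_cases h1 : a = .inl i
  · simp [h1, gam_sq, gam_anti (a := .inl j) (b := .inl i) (by simpa using h.symm), add_comm, sub_eq_add_neg]
  by_cases h2 : a = .inl j
  · simp [h2, gam_sq, add_comm, sub_eq_add_neg, gam_anti (a := .inl i) (b := .inl j) (by simpa)]
  rw [show Sum.map (swap i j) id a = a by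
    cases a <;> simp_all [swap_apply_of_ne_of_ne], gam_anti h1, gam_anti h2]
  abel

/-- the lift as an element of the group -/
noncomputable def tG (h : i ≠ j) : SG n :=
  ⟨(⟨tt i j, tt i j, tt_sq h, tt_sq h⟩, swap i j), by
    simpa [tt, transpose_sub, (gamma n).2.1] using tt_sq h, fun a => by simpa [h] using tt_gam h a⟩

theorem π_tG (h : i ≠ j) : sπ n (tG h) = swap i j := rfl

theorem ρ_tG (h : i ≠ j) : sρ n (tG h) = tt i j := rfl

theorem π_z : sπ n (sz n) = 1 := rfl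

theorem ρ_z : sρ n (sz n) = -1 := rfl

theorem sg_ext (h1 : sπ n g = sπ n h) (h2 : sρ n g = sρ n h) : g = h :=
  Subtype.ext (Prod.ext (Units.ext h2) h1)

theorem ρ_gam (g : SG n) (a : Fin n ⊕ Option (Fin n)) : sρ n g * gam a =
    ((Perm.sign (sπ n g) : ℤ) : ℂ) • (gam (Sum.map (sπ n g) id a) * sρ n g) := g.2.2 a

theorem ρ_tt (g : SG n) (i j : Fin n) : sρ n g * tt i j =
    ((Perm.sign (sπ n g) : ℤ) : ℂ) • (tt (sπ n g i) (sπ n g j) * sρ n g) := by
  simp only [tt, mul_smul_comm, mul_sub, ρ_gam, smul_mul_assoc, sub_mul, smul_sub, Sum.map_inl, smul_comm (_ : ℂ)⁻¹]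

theorem neg_one_ne : (-1 : Matrix (Fk n) (Fk n) ℂ) ≠ 1 := fun h => by
  have := congrFun (congrFun h ∅) ∅
  norm_num at this

theorem fker : FKer (sπ n) (sz n) := by
  refine ⟨fun σ => ?_, fun e => neg_one_ne (congrArg (sρ n) e), sg_ext (by simp [π_z]) (by simp [ρ_z]),
    fun g => sg_ext (by simp [π_z]) (by simp [ρ_z]), fun g => ⟨fun e => ?_, ?_⟩⟩
  · induction σ using Perm.swap_induction_on with
    | one => exact ⟨1, map_one _⟩
    | swap_mul σ a b e ih => obtain ⟨g, rfl⟩ := ih; exact ⟨tG e * g, map_mul _ _ _⟩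
  · obtain ⟨c, hc⟩ := (gamma n).2.2 (sρ n g) fun a => by simp [ρ_gam, e]
    have h1 : sρ n g * (sρ n g)ᵀ = 1 := g.2.1
    have h2 := congrFun (congrFun h1 ∅) ∅
    simp only [hc, transpose_smul, transpose_one, smul_mul_assoc, one_mul, Matrix.smul_apply, one_apply_eq,
      smul_eq_mul, mul_one, mul_self_eq_one_iff] at h2
    exact h2.imp (fun h => sg_ext (by simp [e]) (by simp [hc, h])) fun h => sg_ext e (by simp [hc, h, ρ_z])
  · rintro (rfl | rfl)
    exacts [map_one _, rfl]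

theorem eq_or (e : sπ n g = sπ n h) : g = h ∨ g = sz n * h :=
  (((fker).2.2.2.2 (g * h⁻¹)).1 (by simp [e])).imp mul_inv_eq_one.1 mul_inv_eq_iff_eq_mul.1

theorem ρ_or (e : sπ n g = sπ n h) : sρ n g = sρ n h ∨ sρ n g = -sρ n h :=
  (eq_or e).imp (congrArg _) fun e => by simp [e, ρ_z]

theorem trace_eq_zero {A u : Matrix (Fk n) (Fk n) ℂ} (hu : u * u = 1) (h : A * u = -(u * A)) : A.trace = 0 := by
  have : A.trace = -A.trace := by
    conv_lhs => rw [← mul_one A, ← hu, ← mul_assoc, h, neg_mul, trace_neg, trace_mul_cycle, hu, one_mul]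
  exact self_eq_neg.1 this

theorem ftau : FTau (sπ n) (sz n) (sτ n) := by
  refine ⟨fun g h => ?_, fun g => by simp [sτ, ρ_z, neg_div], by simp [sτ], fun g e => ?_⟩
  · rw [sτ, sτ, map_mul, trace_mul_comm, ← map_mul, ← mul_assoc, inv_mul_cancel, one_mul]
  · rw [sτ, trace_eq_zero (gam_sq (.inr none)) (by simp [ρ_gam, e]), zero_div]

theorem tt_anti (h1 : i ≠ k) (h2 : i ≠ l) (h3 : j ≠ k) (h4 : j ≠ l) : tt i j * tt k l = -(tt k l * tt i j) := by
  rw [tt_mul, tt_mul, ← smul_neg]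
  congr 1
  simp only [mul_sub, sub_mul]
  rw [gam_anti (a := .inl i) (b := .inl k) (by simpa), gam_anti (a := .inl i) (b := .inl l) (by simpa),
    gam_anti (a := .inl j) (b := .inl k) (by simpa), gam_anti (a := .inl j) (b := .inl l) (by simpa)]
  abel

theorem ne_of_anti (e : sρ n g * sρ n h = -(sρ n h * sρ n g)) : g * h ≠ h * g := fun e' => by
  rw [← map_mul, ← map_mul, e'] at e
  have := congrArg (· * sρ n (h * g)⁻¹) e
  simp only [neg_mul, ← map_mul, mul_inv_cancel, map_one] at this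
  exact neg_one_ne this.symm

theorem fanti : FAnti (sπ n) := fun x g a b c d hn hx hg h => by
  simp only [List.nodup_cons, List.mem_cons, not_or] at hn
  have h1 : sρ n x * (tt a b * tt c d) = -(tt a b * tt c d * sρ n x) := by
    rw [← mul_assoc, ρ_tt, smul_mul_assoc, mul_assoc, ρ_tt, hx]
    rcases h with ⟨h1, h2, h3, h4⟩ | ⟨h1, h2, h3, h4⟩
    · simp [h1, h2, h3, h4, tt_symm a b, mul_assoc]
    · simp [h1, h2, h3, h4, ← mul_assoc, tt_anti hn.1.2.1 hn.1.2.2.1 hn.2.1.1 hn.2.1.2.1]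
  refine ne_of_anti ?_
  rcases ρ_or (g := g) (h := tG hn.1.1 * tG hn.2.2.1.1) hg with e | e <;> simp [e, ρ_tG, h1]

theorem g1 : G1 := fun _ => ⟨fker, ftau, fanti, fun _ _ h => ⟨tG h, rfl, rfl⟩⟩

theorem ρ_comm (g h : SG n) (e : (sπ n g).Disjoint (sπ n h)) : sρ n g * sρ n h =
    (if Perm.sign (sπ n h) = 1 then 1 else ((Perm.sign (sπ n g) : ℤ) : ℂ)) • (sρ n h * sρ n g) := by
  obtain ⟨σ, hσ⟩ : ∃ σ : Perm {a // sπ n g a = a}, Perm.ofSubtype σ = sπ n h :=
    ⟨_, Perm.ofSubtype_subtypePerm (fun a => by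
      rw [← Perm.mul_apply, e.commute.eq, Perm.mul_apply, (sπ n h).injective.eq_iff])
      fun a ha => (e a).resolve_right ha⟩
  clear e
  induction σ using Perm.swap_induction_on generalizing h with
  | one => rcases ρ_or (g := h) (h := 1) (by simp [← hσ]) with e | e <;> simp [e, ← hσ]
  | swap_mul σ a b e ih =>
    obtain ⟨k, hk⟩ := (fker (n := n)).1 (Perm.ofSubtype σ)
    have e' : a.1 ≠ b.1 := Subtype.val_injective.ne e
    have h1 : sπ n h = sπ n (tG e' * k) := by rw [← hσ, map_mul, map_mul, hk, Perm.ofSubtype_swap_eq, π_tG]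
    have h2 := ih k hk.symm
    have h3 : sρ n g * (tt a.1 b.1 * sρ n k) = (if Perm.sign (sπ n h) = 1 then 1 else
        ((Perm.sign (sπ n g) : ℤ) : ℂ)) • (tt a.1 b.1 * sρ n k * sρ n g) := by
      rw [← mul_assoc, ρ_tt, a.2, b.2, smul_mul_assoc, mul_assoc, h2, mul_smul_comm, smul_smul, mul_assoc, h1,
        map_mul, map_mul, π_tG, Perm.sign_swap e']
      congr 1
      rcases Int.units_eq_one_or (Perm.sign (sπ n k)) with e | e <;>
        rcases Int.units_eq_one_or (Perm.sign (sπ n g)) with e' | e' <;> simp [e, e']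
    rcases ρ_or h1 with e | e <;> simp [e, ρ_tG, h3]

theorem g2 : G2 := fun n g h1 h2 => by
  simp only [Od, not_forall] at h2
  obtain ⟨k, h2, h3⟩ := h2
  rw [ct_eq, Multiset.mem_add] at h2
  obtain ⟨c, d, h4, h5, h6, rfl⟩ := Perm.mem_cycleType_iff.1 (h2.resolve_right fun e =>
    h3 (Multiset.eq_of_mem_replicate e ▸ odd_one))
  obtain ⟨C, rfl⟩ := (fker (n := n)).1 c
  obtain ⟨D, rfl⟩ := (fker (n := n)).1 d
  have h7 : Perm.sign (sπ n C) = -1 := by rw [h6.sign, (Nat.not_odd_iff_even.1 h3).neg_one_pow]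
  have h8 : Perm.sign (sπ n C) * Perm.sign (sπ n D) = 1 := by rw [← map_mul, ← h4, h1]
  rw [h7, neg_one_mul, neg_eq_iff_eq_neg] at h8
  have h9 := ρ_comm D C h5.symm
  rw [h7, h8, if_neg (by decide)] at h9
  refine isConj_iff.2 ⟨C, mul_inv_eq_iff_eq_mul.2 (sg_ext ?_ ?_)⟩
  · rw [map_mul, map_mul, map_mul, π_z, one_mul, h4, mul_assoc, h5.commute.eq]
  · rcases ρ_or (h := C * D) (h4.trans (map_mul _ _ _).symm) with e | e <;> simp [e, ρ_z, mul_assoc, h9]

theorem tr_gg {X : Matrix (Fk n) (Fk n) ℂ} (h : i ≠ j)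
    (hX : X * gam (.inl i) = gam (.inl i) * X ∨ X * gam (.inl j) = gam (.inl j) * X) :
    (X * (gam (.inl i) * gam (.inl j))).trace = 0 := by
  have e := gam_anti (a := .inl j) (b := .inl i) (by simpa using h.symm)
  rcases hX with hX | hX
  · exact trace_eq_zero (gam_sq (.inl i)) (by rw [← mul_assoc _ X, ← hX]; simp [mul_assoc, e])
  · refine trace_eq_zero (gam_sq (.inl j)) ?_
    rw [← mul_assoc _ X, ← hX, mul_assoc X, mul_assoc X, ← mul_assoc _ (gam (.inl i)), e]
    simp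

theorem tr_step (g : SG n) (h : Perm.sign (sπ n g) = 1) (hi : sπ n g i = i) (hj : sπ n g j = j) (h1 : i ≠ j)
    (h2 : i ≠ k) (h3 : j ≠ k) : (sρ n g * (tt i j * tt j k)).trace * 2 = -(sρ n g).trace := by
  have a : sρ n g * gam (.inl i) = gam (.inl i) * sρ n g := by simp [ρ_gam, h, hi]
  have b : sρ n g * gam (.inl j) = gam (.inl j) * sρ n g := by simp [ρ_gam, h, hj]
  simp [tt_mul, mul_sub, sub_mul, gam_sq, tr_gg h1 (.inl a), tr_gg h2 (.inl a), tr_gg h3 (.inl b)]
  ring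

theorem tr_form (m : ℕ) (l : List (Fin n)) (h1 : l.length = 2 * m + 1) (h2 : l.Nodup) (A B : SG n)
    (hA : sπ n A = l.formPerm) (hB : Perm.sign (sπ n B) = 1) (h3 : ∀ a ∈ l, sπ n B a = a) :
    Perm.sign (sπ n A) = 1 ∧ (sρ n (B * A)).trace ^ 2 * 2 ^ (2 * m) = (sρ n B).trace ^ 2 := by
  induction m generalizing l A with
  | zero =>
    obtain ⟨a, rfl⟩ := List.length_eq_one_iff.1 h1
    rcases ρ_or (g := A) (h := 1) (by simpa using hA) with e | e <;> simp [e, hA]
  | succ m ih =>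
    obtain _ | ⟨a, _ | ⟨b, _ | ⟨c, l⟩⟩⟩ := l <;> simp only [List.length_cons, List.length_nil] at h1 <;> try omega
    obtain ⟨C, hC⟩ := (fker (n := n)).1 (c :: l).formPerm
    have ha := (List.nodup_cons.1 h2).1
    have hb := List.nodup_cons.1 (List.nodup_cons.1 h2).2
    obtain ⟨h4, h5⟩ := ih (c :: l) (by simp; omega) hb.2 C hC fun x hx => h3 x (by simp [List.mem_cons.1 hx])
    have e1 : a ≠ b := by rintro rfl; simp at ha
    have e2 : a ≠ c := by rintro rfl; simp at ha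
    have e3 : b ≠ c := by rintro rfl; simp at hb
    have h6 : sπ n A = sπ n (tG e1 * tG e3 * C) := by
      simp [hA, π_tG, hC, mul_assoc]
    have h7 := tr_step (C * B) (by simp [h4, hB]) (by
      rw [map_mul, Perm.mul_apply, h3 a (by simp), hC, List.formPerm_apply_of_notMem fun h => ha (by simp [h])])
      (by rw [map_mul, Perm.mul_apply, h3 b (by simp), hC, List.formPerm_apply_of_notMem hb.1]) e1 e2 e3
    rw [map_mul, mul_assoc, trace_mul_comm, trace_mul_comm (sρ n C), ← map_mul _ B C] at h7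
    refine ⟨by simp [h6, h4, π_tG, e1, e3], ?_⟩
    rw [← h5, ← neg_sq (sρ n (B * C)).trace, ← h7]
    rcases ρ_or h6 with e | e <;> simp only [e, map_mul, ρ_tG, mul_assoc, mul_neg, trace_neg] <;> ring

theorem tr_odd (σ : Perm (Fin n)) (h : Od σ.cycleType) (A B : SG n) (hA : sπ n A = σ)
    (hB : Perm.sign (sπ n B) = 1) (h3 : σ.Disjoint (sπ n B)) : Perm.sign σ = 1 ∧
      (sρ n (B * A)).trace ^ 2 * 2 ^ σ.cycleType.sum = (sρ n B).trace ^ 2 * 2 ^ σ.cycleType.card := by
  induction σ using Perm.cycle_induction_on generalizing A B with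
  | base_one => rcases ρ_or (g := A) (h := 1) (by simpa using hA) with e | e <;> simp [e]
  | base_cycles σ hσ =>
    obtain ⟨a, ha, -⟩ := id hσ
    obtain ⟨m, hm⟩ := h #σ.support (by simp [hσ.cycleType])
    have h4 := tr_form m (σ.toList a) (by rw [Perm.length_toList, hσ.cycleOf_eq ha, hm]) (σ.nodup_toList a) A B
      (by rw [Perm.formPerm_toList, hσ.cycleOf_eq ha, hA]) hB fun x hx => (h3 x).resolve_left (by
        have := Perm.mem_toList_iff.1 hx
        exact Perm.mem_support.1 (this.1.mem_support_iff.1 this.2))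
    exact ⟨hA ▸ h4.1, by simp [hσ.cycleType, hm, pow_succ, ← h4.2, mul_assoc]⟩
  | induction_disjoint σ τ hd _ ih1 ih2 =>
    obtain ⟨C, rfl⟩ := (fker (n := n)).1 σ
    obtain ⟨D, rfl⟩ := (fker (n := n)).1 τ
    rw [hd.cycleType_mul] at h ⊢
    have d1 : (sπ n C).Disjoint (sπ n B) := fun x => (h3 x).elim (fun e => (hd x).elim .inl fun e' => by
      rw [Perm.mul_apply, e'] at e; exact .inl e) .inr
    have d2 : (sπ n D).Disjoint (sπ n B) := fun x => (h3 x).elim (fun e => (hd x).elim (fun e' => by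
      rw [hd.commute.eq, Perm.mul_apply, e'] at e; exact .inl e) .inl) .inr
    obtain ⟨a1, a2⟩ := ih1 (fun k hk => h k (by simp [hk])) C B rfl hB d1
    obtain ⟨a3, a4⟩ := ih2 (fun k hk => h k (by simp [hk])) D (B * C) rfl (by simp [hB, a1])
      (map_mul (sπ n) B C ▸ d2.mul_right hd.symm)
    refine ⟨by simp [a1, a3], ?_⟩
    have : (sρ n (B * A)).trace ^ 2 = (sρ n (B * C * D)).trace ^ 2 := by
      rcases ρ_or (h := C * D) (hA.trans (map_mul _ _ _).symm) with e | e <;> simp [e, mul_assoc]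
    rw [this, Multiset.sum_add, Multiset.card_add]
    linear_combination 2 ^ (sπ n C).cycleType.sum * a4 + 2 ^ (sπ n D).cycleType.card * a2

theorem g3 : G3 := fun n g h => by
  have h1 := (tr_odd _ (fun k hk => h k (by simp [ct_eq, hk])) g 1 rfl (by simp) (by simp)).2
  have h2 := (sπ n g).sum_cycleType_le
  rw [ct_eq, Multiset.card_add, Multiset.card_replicate, sτ, pow_add]
  simp only [Fintype.card_fin, one_mul, map_one, trace_one, Fintype.card_finset, Nat.cast_pow,
    Nat.cast_ofNat] at h1 h2 ⊢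
  obtain ⟨m, hm⟩ := Nat.exists_eq_add_of_le h2
  rw [show n - (sπ n g).cycleType.sum = m by omega]
  have h3 : (2 : ℂ) ^ n = 2 ^ (sπ n g).cycleType.sum * 2 ^ m := by rw [← pow_add, ← hm]
  field_simp
  refine mul_right_cancel₀ (pow_ne_zero (sπ n g).cycleType.sum (two_ne_zero' ℂ)) ?_
  linear_combination h1 + 2 ^ n * 2 ^ (sπ n g).cycleType.card * h3

theorem spg (g4 : G4) : SPG := fun n => by
  have : Finite (sπ n).ker := Set.Finite.subset (Set.toFinite {1, sz n}) fun g hg => (fker.2.2.2.2 g).1 hg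
  have : Finite (SG n) := (MonoidHom.finite_iff_finite_ker_range (sπ n)).2 ⟨this, inferInstance⟩
  exact ⟨SG n, inferInstance, Fintype.ofFinite _, sπ n, sz n, sτ n, fker, ftau, g2 n, g3 n, g4 n, fanti⟩

end H26.RB
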