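/-
S4578: the functions `QQ` are generalized characters.
-/
import Cfsg.Agent.H26.RB3

set_option autoImplicit false

namespace H26.RB
open Cfsg Finset Matrix Equiv H7.Sn H5 MulAction

theorem orb : ORB := fun K Ω _ _ _ _ F hF h => by
  classical
  have := Fintype.ofFinite K
  have h1 := isCharacter_sum (univ : Finset (orbitRel.Quotient K Ω)) _ fun q _ => (h q.out).ind
  convert h1 using 2 with g
  rw [Finset.sum_apply, Nat.card_eq_fintype_card, Fintype.card_subtype,
    card_eq_sum_card_fiberwise (f := (Quotient.mk'' : Ω → orbitRel.Quotient K Ω)) (t := univ) (by simp),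
    Nat.cast_sum, mul_sum]
  refine sum_congr rfl fun q _ => ?_
  have h2 : stabilizer K (⟨q.out, mem_orbit_self _⟩ : orbit K q.out) = stabilizer K q.out :=
    Subgroup.ext fun _ => Subtype.ext_iff
  rw [indFun_restrict _ hF, Pi.mul_apply, ← h2, ← perm_eq_indFun_stabilizer, mul_comm, ← Fintype.card_coe,
    ← Nat.card_eq_fintype_card]
  congr 2
  have h3 : ∀ ω, Quotient.mk'' ω = q ↔ ω ∈ orbit K q.out := fun ω => by
    rw [← orbitRel_apply, ← Quotient.eq'', Quotient.out_eq']
  exact Nat.card_congr ⟨fun ω => ⟨⟨ω.1, (h3 _).1 (mem_filter.1 ω.2).2⟩,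
    Subtype.ext (mem_filter.1 (mem_filter.1 ω.2).1).2⟩, fun ω => ⟨ω.1.1, mem_filter.2
      ⟨mem_filter.2 ⟨mem_univ _, congrArg Subtype.val ω.2⟩, (h3 _).2 ω.1.2⟩⟩, fun _ => rfl, fun _ => rfl⟩

variable {n l : ℕ} {G : Type} [Group G] [Fintype G] {π : G →* Perm (Fin n)} {z : G} {τ : G → ℂ}

theorem cont_apply (f : Fin n → Fin l) (i : Fin l) : cont f i = #{a | f a = i} := by
  simp [cont, Finset.sum_apply, Pi.single_apply, eq_comm (a := i)]

theorem card_image (f : Fin n → Fin l) : #(univ.image f) + #{i | cont f i = 0} = l := by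
  rw [show ({i | cont f i = 0} : Finset _) = (univ.image f)ᶜ by ext; simp [cont_apply, filter_eq_empty_iff],
    card_add_card_compl, Fintype.card_fin]

omit [Fintype G] in
theorem pm_char (h1 : IsClassFunction G τ) (h2 : FHalf π τ) {K : Type} [Group K] [Finite K] (ι : K →* G)
    (d : Fin l → ℤ) (h : (∀ g, Perm.sign (π (ι g)) = 1) ∨ Even (n - (l - #{i | d i = 0}))) :
    IsCharacter K fun g => 2 ^ ((n - (l - #{i | d i = 0})) / 2) * τ (ι g) *
      ((pm (ct (π (ι g))) : L (Fin l)).coeff d : ℤ) := by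
  let : MulAction K {f : Fin n → Fin l // cont f = d} :=
    { smul g f := ⟨f.1 ∘ (π (ι g)).symm,
        (Equiv.sum_comp (π (ι g)).symm fun a => Pi.single (f.1 a) 1).trans f.2⟩
      one_smul f := Subtype.ext (show f.1 ∘ (π (ι 1)).symm = _ by rw [map_one, map_one]; rfl)
      mul_smul a b f := Subtype.ext (show f.1 ∘ (π (ι (a * b))).symm = _ by rw [map_mul, map_mul]; rfl) }
  have h3 : ∀ (g : K) (f : {f : Fin n → Fin l // cont f = d}), g • f = f ↔ f.1 ∘ π (ι g) = f.1 := fun g f =>
    Subtype.ext_iff.trans (((π (ι g)).comp_symm_eq _ _).trans eq_comm)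
  convert orb K {f : Fin n → Fin l // cont f = d} (fun g => 2 ^ ((n - (l - #{i | d i = 0})) / 2) * τ (ι g))
    (fun a b => by simp only [map_mul, map_inv, h1 _ _]) fun f => ?_ using 3 with g
  · rw [pm_ct, Nat.card_congr (β := ({f : Fin n → Fin l | f ∘ π (ι g) = f ∧ cont f = d} : Finset _))
      ⟨fun f => ⟨f.1.1, by simpa [f.1.2] using (h3 g f.1).1 f.2⟩,
        fun f => ⟨⟨f.1, (mem_filter.1 f.2).2.2⟩, (h3 g _).2 (mem_filter.1 f.2).2.1⟩, fun _ => rfl, fun _ => rfl⟩]
    simp [Finsupp.single_apply, filter_filter, Fintype.card_subtype]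
  · obtain ⟨θ, h4, h5⟩ := h2 l f.1
    have h6 : #(univ.image f.1) = l - #{i | d i = 0} := by have := card_image f.1; rw [f.2] at this; omega
    convert h4.comp ((ι.comp (stabilizer K f).subtype).codRestrict (Tf π f.1) fun g => (h3 g.1 f).1 g.2) using 2 with g
    rw [h5 _ (h.imp (fun h => h g) (h6 ▸ id)), h6]
    rfl

theorem c1 : C1 := fun n G _ _ π z τ hs S => by
  have key : ∀ {K : Type} [Group K] [Finite K] (ι : K →* G), (∀ d : Fin #S → ℤ, (∀ i, 0 ≤ d i) →
      IsGeneralizedCharacter K fun g => (2 ^ ((n - #S) / 2 + #{i | d i = 0}) : ℕ) * τ (ι g) *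
        ((pm (ct (π (ι g))) : L (Fin #S)).coeff d : ℤ)) → IsGeneralizedCharacter K fun g => QQ π τ S (ι g) := by
    intro K _ _ ι h
    let Γ : Finset (Fin #S → ℤ) := univ.image (cont : (Fin n → Fin #S) → _)
    have h1 : ∀ d ∈ Γ, ∀ i, 0 ≤ d i := by simp [Γ, cont_apply]
    have h2 : ∀ d : Fin #S → ℤ, 2 ^ #{i | d i = 0} ∣ ket n (dec S - d) ∅ := fun d =>
      (pow_dvd_pow _ (card_le_card fun i => by simpa +contextual using fun _ => (dec_bd S i).1)).trans (vdv n _ _)
    choose v hv using h2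
    convert isGeneralizedCharacter_sum Γ _ fun d hd => (h d (h1 d hd)).intCast_smul (v d) using 2 with g
    rw [QQ, XS, XX, ip_eq_sum (Γ := Γ), Finset.sum_apply]
    · simp only [hv, Int.cast_sum, mul_sum, Pi.smul_apply, smul_eq_mul, pow_add]
      exact sum_congr rfl fun d _ => by push_cast; ring
    · intro d hd
      rw [pm_ct, Finsupp.mem_support_iff] at hd
      by_contra e
      simp only [Γ, mem_image, mem_univ, true_and, not_exists] at e
      simp [e] at hd
  have hS : #S ≤ n := (card_le_univ S).trans_eq (Fintype.card_fin n)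
  have hj : ∀ d : Fin #S → ℤ, #{i | d i = 0} ≤ #S := fun d => (card_le_univ _).trans_eq (Fintype.card_fin _)
  have hN := fun d : Fin #S → ℤ => pm_char hs.tau.1 hs.half (NN π).subtype d (.inl fun g => g.2)
  refine ⟨key (NN π).subtype fun d _ => ?_, fun h => key (MonoidHom.id G) fun d _ => ?_⟩
  · obtain ⟨k, hk⟩ : ∃ k, (n - #S) / 2 + #{i | d i = 0} = k + (n - (#S - #{i | d i = 0})) / 2 :=
      Nat.exists_eq_add_of_le' (by have := hj d; omega)
    convert (hN d).isGeneralizedCharacter.natCast_smul (2 ^ k) using 2 with g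
    simp [hk, pow_add, mul_assoc]
  by_cases e : Even (n - (#S - #{i | d i = 0}))
  · obtain ⟨k, hk⟩ : ∃ k, (n - #S) / 2 + #{i | d i = 0} = k + (n - (#S - #{i | d i = 0})) / 2 :=
      Nat.exists_eq_add_of_le' (by have := hj d; omega)
    convert (pm_char hs.tau.1 hs.half (MonoidHom.id G) d (.inr e)).isGeneralizedCharacter.natCast_smul (2 ^ k)
      using 2 with g
    simp [hk, pow_add, mul_assoc]
  obtain ⟨k, hk⟩ : ∃ k, (n - #S) / 2 + #{i | d i = 0} = k + ((n - (#S - #{i | d i = 0})) / 2 + 1) :=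
    Nat.exists_eq_add_of_le' (by have := hj d; rw [Nat.even_iff] at h e; omega)
  obtain ⟨c, hc⟩ : (NN π).index ∣ 2 := by
    rw [Subgroup.index_comap_of_surjective _ hs.ker.1, alternatingGroup_eq_sign_ker, Subgroup.index_ker]
    exact (Subgroup.card_subgroup_dvd_card _).trans (by simp)
  convert (hN d).ind.isGeneralizedCharacter.natCast_smul (2 ^ k * c) using 2 with g
  rw [Pi.smul_apply, smul_eq_mul]
  by_cases hg : g ∈ NN π
  · rw [show indFun _ _ g = _ from congrFun (H6.res_indFun_of_invariant (N := NN π) fun x => funext fun y => by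
      simp only [H6.cj_apply, Subgroup.coe_subtype, hs.tau.1 _ _, map_mul, map_inv,
        isConj_iff_ct.1 (isConj_iff.2 ⟨π x, rfl⟩).symm]) ⟨g, hg⟩, hk, pow_add, pow_succ, Nat.cast_mul,
      Nat.cast_mul, show ((2 : ℕ) : ℂ) = ((NN π).index * c : ℕ) from congrArg _ hc]
    simp
    ring
  · simp [indFun_eq_zero_of_normal _ _ hg, hs.tau.2.2.2 g ((Int.units_eq_one_or _).resolve_left hg)]

end H26.RB
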