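/-
S4578: the spin characters.
-/
import Cfsg.Agent.H26.RB5

set_option autoImplicit false

namespace H26.RB
open Cfsg Finset Matrix Equiv H7.Sn H5
open scoped Nat ComplexConjugate

universe u

variable {n : ℕ} {G : Type} [Group G] {π : G →* Perm (Fin n)} {z : G} {τ : G → ℂ}

theorem van (hs : SpinD π z τ) {F : G → ℂ} (h1 : IsClassFunction G F) (h2 : ∀ g, F (z * g) = -F g) {g : G}
    (hg : g ∈ NN π) (h : ¬ Od (ct (π g))) : F g = 0 := by
  obtain ⟨x, hx⟩ := isConj_iff.1 (hs.even g hg h)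
  exact self_eq_neg.1 ((h1 g x).symm.trans (hx ▸ h2 g))

theorem od_of (hs : SpinD π z τ) {g : G} (h : τ g ≠ 0) : Od (ct (π g)) := by
  by_contra e
  exact h (van hs hs.tau.1 hs.tau.2.1 ((Int.units_eq_one_or _).resolve_right fun e => h (hs.tau.2.2.2 g e)) e)

theorem conj_tau (hs : SpinD π z τ) (g : G) : conj (τ g) = τ g := by
  by_cases h : τ g = 0
  · simp [h]
  have h1 := hs.sq g (od_of hs h)
  have h2 : τ g ^ 2 = ((√(2 ^ (ct (π g)).card / 2 ^ n) : ℝ) : ℂ) ^ 2 := by
    rw [← Complex.ofReal_pow, Real.sq_sqrt (by positivity)]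
    push_cast
    rw [← h1, mul_div_cancel_right₀ _ (by simp)]
  rcases sq_eq_sq_iff_eq_or_eq_neg.1 h2 with e | e <;> simp only [e, map_neg, Complex.conj_ofReal]

theorem conj_QQ (hs : SpinD π z τ) (S : Fk n) (g : G) : conj (QQ π τ S g) = QQ π τ S g := by
  simp [QQ, conj_tau hs, Complex.conj_ofNat]

theorem cf_QQ (hs : SpinD π z τ) (S : Fk n) : IsClassFunction G (QQ π τ S) := fun g x => by
  simp only [QQ, hs.tau.1 _ _, map_mul, map_inv, isConj_iff_ct.1 (isConj_iff.2 ⟨π x, rfl⟩).symm]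

theorem sum_π [Fintype G] (h : FKer π z) (f : Perm (Fin n) → ℂ) : ∑ x, f (π x) = 2 * ∑ σ, f σ := by
  classical
  rw [← sum_fiberwise (s := univ) (g := π), mul_sum]
  refine sum_congr rfl fun σ _ => ?_
  obtain ⟨x, rfl⟩ := h.1 σ
  rw [show ({y | π y = π x} : Finset G) = {x, z * x} from Finset.ext fun y => by
    simpa [mul_inv_eq_one, mul_inv_eq_iff_eq_mul] using h.2.2.2.2 (y * x⁻¹), sum_pair (by simpa using h.2.1),
    map_mul, (h.2.2.2.2 z).2 (.inr rfl), one_mul, two_mul]

theorem idx (h : FKer π z) (hn : 2 ≤ n) : (NN π).index = 2 := by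
  have : Nontrivial (Fin n) := Fin.nontrivial_iff_two_le.2 hn
  rw [Subgroup.index_comap_of_surjective _ h.1, alternatingGroup.index_eq_two]

theorem card_NN [Fintype G] (h : FKer π z) (hn : 2 ≤ n) : Nat.card (NN π) = n ! := by
  have h1 := sum_π h fun _ => 1
  have h2 := (NN π).index_mul_card
  simp only [sum_const, card_univ, nsmul_eq_mul, mul_one, Fintype.card_perm, Fintype.card_fin] at h1
  rw [idx h hn, Nat.card_eq_fintype_card (α := G), show Fintype.card G = 2 * (n !) by exact_mod_cast h1] at h2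
  omega

theorem c2 (col : COL) : C2 := fun n G _ _ π z τ _ hn hs F h1 h2 g hg => by
  classical
  by_cases ho : Od (ct (π g))
  swap
  · simp [van hs h1 h2 hg ho, QQ, van hs hs.tau.1 hs.tau.2.1 hg ho]
  have h3 : ∀ x, F x * ∑ S : Fk n, (if Even (n - #S) then 2⁻¹ else 1) * QQ π τ S x * QQ π τ S g =
      F g * (2⁻¹ * zz (ct (π g))) * classInd (π g) (π x) := fun x => by
    have h4 : ∀ S : Fk n, (if Even (n - #S) then 2⁻¹ else 1) * QQ π τ S x * QQ π τ S g =
        2⁻¹ * 2 ^ n * τ x * τ g * (2⁻¹ ^ #S * XS S (ct (π x)) * XS S (ct (π g))) := fun S => by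
      obtain ⟨m, hm⟩ := Nat.exists_eq_add_of_le ((card_le_univ S).trans_eq (Fintype.card_fin n))
      have h5 : (2 : ℂ) ^ n = 2 ^ #S * 2 ^ m := by rw [← pow_add, ← hm]
      simp only [QQ, show n - #S = m by omega, h5, inv_pow]
      rcases Nat.even_or_odd' m with ⟨k, rfl | rfl⟩
      · simp [pow_mul']; field_simp
      · rw [if_neg (by simp), show (2 * k + 1) / 2 = k by omega, pow_succ, pow_mul']; field_simp
    simp only [h4, ← mul_sum]
    by_cases e : IsConj (π g) (π x)
    · have h5 := congrArg ((↑) : ℚ → ℂ) (col n _ _ ho ho ((ct_sum _).trans (Fintype.card_fin n)).le)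
      rw [if_pos rfl] at h5
      push_cast at h5
      have h6 : F x * τ x = F g * τ g := by
        obtain ⟨σ, e⟩ := isConj_iff.1 e
        obtain ⟨y, rfl⟩ := hs.ker.1 σ
        rcases (hs.ker.2.2.2.2 (x * (y * g * y⁻¹)⁻¹)).1 (by rw [map_mul, map_inv, ← e]; simp) with e | e
        · rw [mul_inv_eq_one.1 e, h1, hs.tau.1]
        · rw [mul_inv_eq_iff_eq_mul.1 e, h2, hs.tau.2.1, h1, hs.tau.1, neg_mul_neg]
      rw [← isConj_iff_ct.1 e, h5, classInd, if_pos e, inv_pow]
      field_simp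
      linear_combination 2 ^ n * τ g * (zz (ct (π g))) * h6 + F g * (zz (ct (π g))) * hs.sq g ho
    · rw [classInd, if_neg e, mul_zero]
      by_cases e' : τ x = 0
      · simp [e']
      have h5 := congrArg ((↑) : ℚ → ℂ) (col n _ _ (od_of hs e') ho ((ct_sum _).trans (Fintype.card_fin n)).le)
      rw [if_neg fun h => e (isConj_iff_ct.2 h.symm)] at h5
      push_cast at h5
      simp [h5, -inv_pow]
  have h4 : ∑ x : NN π, classInd (π g) (π x) = ∑ x, classInd (π g) (π x) := by
    rw [← sum_subtype (p := (· ∈ NN π)) {x | x ∈ NN π} (by simp) fun x => classInd (π g) (π x)]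
    refine sum_filter_of_ne fun x _ h => ?_
    exact (isConj_iff_eq.1 (Perm.sign.map_isConj (show IsConj (π g) (π x) by
      by_contra e; exact h (if_neg e)))).symm.trans hg
  have h5 := sum_classInd_mul (π g) (show IsClassFunction _ fun _ => 1 from fun _ _ => rfl)
  have h6 := congrArg ((↑) : ℕ → ℂ) (Subgroup.centralizer {π g}).index_mul_card
  simp only [mul_one, card_cent, Nat.card_perm, Nat.card_fin, Nat.cast_mul] at h5 h6
  calc F g = (n ! : ℂ)⁻¹ * ∑ x : NN π, F g * (2⁻¹ * zz (ct (π g))) * classInd (π g) (π x) := by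
        rw [← mul_sum, h4, sum_π hs.ker, h5, eq_inv_mul_iff_mul_eq₀ (Nat.cast_ne_zero.2 n.factorial_ne_zero), ← h6]
        ring
    _ = _ := by
        simp only [← h3, classInner_def, conj_QQ hs, card_NN hs.ker hn, mul_sum, sum_mul]
        rw [sum_comm]
        exact sum_congr rfl fun _ _ => sum_congr rfl fun _ _ => by ring

theorem uniq1 {ι : Type*} [Fintype ι] {a : ι → ℤ} {k : ℤ} (hk : 0 < k) (h : ∑ i, a i = k)
    (h1 : ∀ i, a i = 0 ∨ k ≤ a i) : ∃ i, a i = k ∧ ∀ j ≠ i, a j = 0 := by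
  classical
  obtain ⟨i, -, hi⟩ := exists_ne_zero_of_sum_ne_zero (h.trans_ne hk.ne')
  have h2 : ∀ j ∈ univ.erase i, 0 ≤ a j := fun j _ => by have := h1 j; omega
  have h3 := sum_nonneg h2
  have h4 := h1 i
  rw [← add_sum_erase _ _ (mem_univ i)] at h
  exact ⟨i, by omega, fun j e => (sum_eq_zero_iff_of_nonneg h2).1 (by omega) j (by simpa)⟩

theorem c3 (col : COL) : C3 := fun n G _ _ π z τ hn hs χ t ht ⟨y, hy, hχ⟩ => by
  classical
  have := Fintype.ofFinite (NN π)
  have hi := idx hs.ker hn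
  have hz : π z = 1 := (hs.ker.2.2.2.2 z).2 (.inr rfl)
  have h0 := χ.2.isCharacter.isClassFunction
  have e : y.1 = z := ((hs.ker.2.2.2.2 y).1 hy).resolve_left fun e => hχ (congrArg _ (Subtype.ext e))
  have hc := hs.ker.2.2.2.1
  have h1 : ∀ x, χ.1 (y * x) = -χ.1 x := by
    obtain ⟨f, hf⟩ := χ.2.exists_centerHom _ χ.2.center_le_charCenter
    obtain ⟨c, e1⟩ : ∃ c, ∀ x, χ.1 (y * x) = c * χ.1 x :=
      ⟨_, hf ⟨y, Subgroup.mem_center_iff.2 fun g => Subtype.ext (by simpa [e] using hc g)⟩⟩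
    have e2 := e1 y
    rw [show y * y = 1 from Subtype.ext (by simpa [e] using hs.ker.2.2.1), ← mul_one y, e1, ← mul_assoc, eq_comm,
      mul_eq_right₀ χ.2.apply_one_ne_zero, mul_self_eq_one_iff] at e2
    intro x
    rw [e1, e2.resolve_left fun e => hχ (by rw [← mul_one y, e1, e, one_mul]), neg_one_mul]
  have h2 : ∀ x, H6.cj x (χ.1 + H6.cj t χ.1) = χ.1 + H6.cj t χ.1 := fun x => by
    by_cases e : x ∈ NN π
    · exact H6.cj_of_mem (h0.add (H6.cf_cj h0 t)) e
    · rw [H6.cj_add, ← H6.cj_mul, H6.cj_of_mem (g := t * x) h0 (((NN π).mul_mem_iff_of_index_two hi).2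
        (iff_of_false ht e)), add_comm, (H6.cj_eq_cj_iff (h := t)).2 (H6.le_inertia h0
          (((NN π).mul_mem_iff_of_index_two hi).2 (iff_of_false e (mt (inv_mem_iff.1) ht))))]
  have h3 := c2 col n G π z τ hn hs (extendByZero (NN π) (χ.1 + H6.cj t χ.1)) (fun g x => by
    by_cases e : g ∈ NN π
    · rw [extendByZero_of_mem _ _ e, extendByZero_of_mem _ _ (Subgroup.Normal.conj_mem inferInstance _ e x)]
      exact congrFun (h2 x) ⟨g, e⟩
    · rw [extendByZero_of_not_mem _ _ e, extendByZero_of_not_mem _ _ fun h => e (by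
        simpa [mul_assoc] using Subgroup.Normal.conj_mem inferInstance _ h x⁻¹)]) fun g => by
    by_cases e' : g ∈ NN π
    · rw [extendByZero_of_mem _ _ e', extendByZero_of_mem _ _ (e ▸ mul_mem y.2 e'), Pi.add_apply, Pi.add_apply,
        neg_add, ← h1, H6.cj_apply, H6.cj_apply, ← h1]
      congr 1 <;> refine congrArg χ.1 (Subtype.ext ?_) <;> simp [e, ← mul_assoc, hc t]
    · rw [extendByZero_of_not_mem _ _ e', extendByZero_of_not_mem _ _ fun h => e' (by simpa [hz] using h), neg_zero]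
  simp only [extendByZero_coe, Subtype.forall'] at h3
  have h4 := fun S => χ.2.isGeneralizedCharacter.exists_classInner_int (c1 n G π z τ hs S).1
  choose m hm using h4
  have h5 : ∀ S, classInner (χ.1 + H6.cj t χ.1) (fun x => QQ π τ S x) = 2 * m S := fun S => by
    rw [classInner_add_left, ← H6.cj_res (cf_QQ hs S) t, H6.inner_cj_cj, H6.cj_res (cf_QQ hs S) t, hm, two_mul]
  have h6 : χ.1 + H6.cj t χ.1 = ∑ S : Fk n, (((if Even (n - #S) then 1 else 2) * m S : ℤ) : ℂ) •
      fun x : NN π => QQ π τ S x := funext fun x => by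
    rw [h3, Finset.sum_apply]
    refine sum_congr rfl fun S _ => ?_
    rw [show (fun x => (χ.1 + H6.cj t χ.1) x) = _ from rfl, h5]
    split_ifs <;> simp
  have h7 : classInner (χ.1 + H6.cj t χ.1) χ.1 = (∑ S : Fk n, (if Even (n - #S) then 1 else 2) * m S * m S : ℤ) := by
    simp only [h6, classInner_sum_left, classInner_smul_left, (c1 n G π z τ hs _).1.classInner_comm
      χ.2.isGeneralizedCharacter, hm]
    push_cast
    rfl
  suffices ∃ S, (if Even (n - #S) then 1 else 2) * m S * m S ∣ 2 ∧ ∀ T ≠ S,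
      (if Even (n - #T) then 1 else 2) * m T * m T = 0 by
    obtain ⟨S, h8, h9⟩ := this
    refine ⟨S, _, (dvd_mul_right _ _).trans h8, fun x => (congrFun h6 x).trans ?_⟩
    rw [sum_eq_single S (fun T _ e => by have := h9 T e; split_ifs at this ⊢ <;> simp_all) (by simp)]
    rfl
  rw [classInner_add_left, χ.2.classInner_self, (H6.irr_cj χ.2 t).classInner_eq χ.2] at h7
  split_ifs at h7 with e
  swap
  · obtain ⟨S, h8, h9⟩ := uniq1 (a := fun S : Fk n => (if Even (n - #S) then 1 else 2) * m S * m S) one_pos (by exact_mod_cast (add_zero _).symm.trans h7 |>.symm) fun S => by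
      split_ifs <;> by_cases e : m S = 0 <;> simp [e] <;> nlinarith [mul_self_pos.2 e]
    exact ⟨S, h8.dvd.trans (one_dvd _), h9⟩
  have h8 : ∀ x, H6.cj x χ.1 = χ.1 := fun x => smul_right_injective _ (two_ne_zero' ℂ) (by
    simpa only [e, ← two_smul ℂ, H6.cj_smul] using h2 x)
  obtain ⟨ψ, p1, p2⟩ := H6.exists_irr_over_res (NN π) χ.2
  obtain ⟨k, p3, -, p4⟩ := H6.exists_res_eq_nat_smul p1 χ.2 h8 p2
  have p5 : k = 1 := by
    have a := p1.sum_norm_sq
    have b := χ.2.sum_norm_sq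
    have c : ∑ x : NN π, ‖ψ x‖ ^ 2 ≤ ∑ x, ‖ψ x‖ ^ 2 := by
      rw [← sum_subtype (p := (· ∈ NN π)) {x | x ∈ NN π} (by simp) fun x => ‖ψ x‖ ^ 2]
      exact sum_le_univ_sum_of_nonneg fun _ => by positivity
    simp only [congrFun p4, Pi.smul_apply, norm_smul, mul_pow, ← mul_sum, a, b, ← (NN π).index_mul_card, hi,
      Complex.norm_natCast, Nat.cast_mul] at c
    have d : k ^ 2 ≤ 2 := by exact_mod_cast le_of_mul_le_mul_right c (Nat.cast_pos.2 Nat.card_pos)
    nlinarith
  obtain ⟨S, h9, h10⟩ := uniq1 (a := fun S : Fk n => (if Even (n - #S) then 1 else 2) * m S * m S) two_pos (by exact_mod_cast (one_add_one_eq_two.symm.trans h7).symm) fun S => by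
    by_cases e' : m S = 0
    · simp [e']
    have e1 := mul_self_pos.2 e'
    split_ifs with h
    · obtain ⟨j, hj⟩ := ((c1 n G π z τ hs S).2 h).exists_classInner_int p1.isGeneralizedCharacter
      have e2 := classInner_indFun_left (NN π) (fun x => QQ π τ S x) p1.isClassFunction
      rw [p4, p5, (c1 n G π z τ hs _).1.classInner_comm (by simpa using χ.2.isGeneralizedCharacter),
        show indFun (NN π) (fun x => QQ π τ S x) = (2 : ℂ) • QQ π τ S from funext fun g => ?_,
        classInner_smul_left, hj, Nat.cast_one, one_smul, hm] at e2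
      · have e3 : 2 * j = m S := by exact_mod_cast e2
        right
        rw [← e3] at e1 ⊢
        nlinarith [show 0 < j * j by nlinarith]
      by_cases hg : g ∈ NN π
      · rw [show indFun _ _ g = _ from congrFun (H6.res_indFun_of_invariant (H6.cj_res (cf_QQ hs S))) ⟨g, hg⟩, hi]
        rfl
      · simp [indFun_eq_zero_of_normal _ _ hg, QQ, hs.tau.2.2.2 g ((Int.units_eq_one_or _).resolve_left hg)]
    · right; nlinarith
  exact ⟨S, h9.dvd, h10⟩

theorem spc (col : COL) (dw : DW) (sp : SPG) (emb : EMB.{u}) : SPC.{u} :=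
  fun n H _ _ π hc h2 p hp hp2 χ ⟨y, hy, hχ⟩ => by
  obtain ⟨G, _, _, π', z, τ, hs⟩ := sp n
  obtain ⟨e, he⟩ := emb n H π hc h2 G π' z hs.ker hs.anti
  have hn : 2 ≤ n := by have := hc.five; omega
  obtain ⟨t, ht⟩ : ∃ t, t ∉ NN π' := by
    by_contra h
    have := idx hs.ker hn
    rw [(Subgroup.eq_top_iff' (NN π')).2 (not_exists_not.1 h)] at this
    simp at this
  have h1 : ∀ f : NN π' → ℂ, H6.cj t f 1 = f 1 := fun f => congrArg f (Subtype.ext (by simp))
  obtain ⟨S, c, h3, h4⟩ := c3 col n G π' z τ hn hs ⟨_, χ.2.comp_equiv e.symm⟩ t ht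
    ⟨e y, (he y).trans hy, by simpa using hχ⟩
  refine ⟨⟨_, (H6.irr_cj (χ.2.comp_equiv e.symm) t).comp_equiv e⟩, by
    simp only [map_one, h1],
    fun g w h5 h6 => ?_⟩
  have h7 := h4 (e g)
  simp only [MulEquiv.symm_apply_apply, QQ, he] at h7
  rw [h7] at h5
  simp only [ne_eq, mul_eq_zero, not_or, Int.cast_eq_zero] at h5
  have h8 := dw n p w S _ hp hp2 (he g ▸ od_of hs h5.2.1.2) h5.2.2 h6
  rw [ct_sum, Fintype.card_fin] at h8
  have h9 := h4 1
  simp only [map_one, QQ, h1, OneMemClass.coe_one, mul_one, ct_one,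
    Fintype.card_fin, hs.tau.2.2.1, H7.irr_apply_one] at h9
  have h10 : (2 * charDegree χ.1 : ℤ) = c * (2 ^ ((n - #S) / 2) * XS S (.replicate n 1)) := by
    exact_mod_cast (two_mul _).trans h9
  have h11 := congrArg (fun a : ℤ => a.natAbs.factorization p) h10
  have h12 : ¬ p ∣ 2 := fun h => hp2 ((Nat.prime_dvd_prime_iff_eq hp Nat.prime_two).1 h)
  simp only [Int.natAbs_mul, Int.natAbs_pow, Int.natAbs_natCast] at h11
  rw [Nat.factorization_mul (by simp) (H7.charDegree_ne_zero χ), Nat.factorization_mul (by simpa using h5.1)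
    (by simpa using h8.1), Nat.factorization_mul (by simp) (by simpa using h8.1)] at h11
  simp [Nat.factorization_eq_zero_of_not_dvd h12, Nat.factorization_eq_zero_of_not_dvd
    fun h : p ∣ c.natAbs => h12 (h.trans (Int.natAbs_dvd_natAbs.2 h3))] at h11
  exact h11 ▸ h8.2

end H26.RB
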