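/-
S4578: central extensions of the alternating groups.
-/
import Cfsg.Agent.H26.RB6
import Cfsg.Agent.H27.Alt2
import Cfsg.Agent.H23.Schur2
import Cfsg.Agent.S2116

set_option autoImplicit false

namespace H26.RB
open Cfsg Equiv Subgroup H27.A2 H11.Alt

universe u

variable {n : ℕ} {H : Type*} [Group H] {π : H →* Perm (Fin n)}

/-- the map onto the alternating group -/
def Cov.alt (h : Cov π) : H →* alternatingGroup (Fin n) := π.codRestrict _ fun g => h.range.le ⟨g, rfl⟩

theorem Cov.ker_alt (h : Cov π) : h.alt.ker = π.ker := MonoidHom.ker_codRestrict _ _ _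

theorem Cov.stem (h : Cov π) : IsStemExtension h.alt :=
  ⟨fun x => (h.range.ge x.2).imp fun _ => Subtype.ext, h.ker_alt ▸ h.cen, h.perf ▸ le_top⟩

theorem stem_le [Finite H] {σ : H →* alternatingGroup (Fin n)} (hn : 5 ≤ n) (h : IsStemExtension σ)
    (h1 : n = 5 ∨ 8 ≤ n ∨ ∀ y, σ y = 1 → y ^ 2 = 1) : Nat.card σ.ker ≤ 2 := by
  obtain ⟨m, rfl⟩ := Nat.exists_eq_add_of_le' (show 2 ≤ n by omega)
  have e : ((eF m).toMonoidHom.comp σ).ker = σ.ker := by ext; simp
  have hs : Function.Surjective ((eF m).toMonoidHom.comp σ) := (eF m).surjective.comp h.1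
  have hc := e.le.trans h.2.1
  have hd := e.le.trans h.2.2
  obtain ⟨T, hT⟩ : ∃ T, Lift ((eF m).toMonoidHom.comp σ) T := by
    rcases h1 with h1 | h1 | h1
    · obtain rfl : m = 3 := by omega
      obtain ⟨c, h2⟩ := hs (cc 0)
      refine exists_lift_cop hs hc (k := 13) fun y hy => ?_
      have h3 := pow_index hc hd c hy
      have h4 := (zpowers (cc (γ := Fin 3) 0)).index_mul_card
      have := Fact.mk Nat.prime_three
      have : Nontrivial (Fin 3 ⊕ Bool) := ⟨pu, pv, by simp⟩
      rw [Nat.card_zpowers, orderOf_eq_prime (cc_cube 0) (by decide), nat_card_alternatingGroup] at h4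
      rw [h2, index_comap_of_surjective _ hs, show (zpowers (cc (γ := Fin 3) 0)).index = 20 by
        simp [Nat.factorial] at h4; omega] at h3
      rw [show 3 * 13 + 1 = 20 * 2 from rfl, pow_mul, h3, one_pow]
    · exact exists_lift_big hs hc (by simp; omega)
    · exact exists_lift_cop hs hc (k := 1) fun y hy => by
        rw [show 3 * 1 + 1 = 2 * 2 from rfl, pow_mul, h1 y (e.le hy), one_pow]
  exact e ▸ hT.ker_le hs hc hd (i := ⟨0, by omega⟩) (j := ⟨1, by omega⟩) (by simp)

theorem ker : KER.{u} := fun n H _ _ π h => by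
  have h1 : n ≠ 6 → n ≠ 7 → Nat.card π.ker ∣ 2 := fun a b => by
    have h1 := h.ker_alt ▸ stem_le h.five h.stem (by have := h.five; omega)
    have h2 : 0 < Nat.card π.ker := Nat.card_pos
    interval_cases Nat.card π.ker <;> simp
  refine ⟨?_, h1⟩
  by_cases e : n = 6 ∨ n = 7
  · simpa [h.ker_alt] using H23.card_ker_dvd (Cfsg.Agent.S2116.result n e) h.stem
  · exact (h1 (by omega) (by omega)).trans (by decide)

theorem emb : EMB.{u} := fun n H _ _ π h h2 G _ _ π' z hk ha => by
  have := Fintype.ofFinite G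
  have hn := h.five
  let τ : NN π' →* alternatingGroup (Fin n) := (π'.comp (NN π').subtype).codRestrict _ fun g => g.2
  have ts : Function.Surjective τ := fun x => by
    obtain ⟨g, e⟩ := hk.1 x
    exact ⟨⟨g, by simp [e]⟩, Subtype.ext e⟩
  have tk : ∀ g, τ g = 1 → g.1 = 1 ∨ g.1 = z := fun g e => (hk.2.2.2.2 g).1 (congrArg Subtype.val e)
  let P : Subgroup (H × NN π') := (h.alt.comp (MonoidHom.fst _ _)).eqLocus (τ.comp (MonoidHom.snd _ _))
  let ξ : P →* alternatingGroup (Fin n) := (h.alt.comp (MonoidHom.fst _ _)).comp P.subtype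
  have k2 : ∀ x : P, ξ x = τ x.1.2 := fun x => x.2
  have pf : Group.IsPerfect (alternatingGroup (Fin n)) :=
    (show Group.IsPerfect H from ⟨h.perf⟩).ofSurjective h.stem.1
  have st := H23.stem_commutator pf ξ (fun y => by
    obtain ⟨a, ha⟩ := h.stem.1 y
    obtain ⟨b, hb⟩ := ts y
    exact ⟨⟨(a, b), ha.trans hb.symm⟩, ha⟩) fun x hx => mem_center_iff.2 fun y => Subtype.ext (Prod.ext
      (mem_center_iff.1 (h.stem.2.1 (show x.1.1 ∈ h.alt.ker from hx)) _) (Subtype.ext (by
        rcases tk _ ((k2 x).symm.trans hx) with e | e <;> simp [e, hk.2.2.2.1]))) 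
  have le := stem_le hn st (.inr (.inr fun y hy => Subtype.ext (Subtype.ext (Prod.ext
    (congrArg Subtype.val (h2 ▸ pow_card_eq_one' (x := (⟨y.1.1.1, h.ker_alt.le hy⟩ : π.ker))))
    (Subtype.ext (by rcases tk _ ((k2 y.1).symm.trans hy) with e | e <;> simp [e, sq, hk.2.2.1]))))))
  have cd : ∀ {L : Type u} [Group L] {s : L →* alternatingGroup (Fin n)}, Function.Surjective s →
      Nat.card L = Nat.card s.ker * Nat.card (alternatingGroup (Fin n)) := fun {L} _ s e => by
    rw [← card_mul_index s.ker, index_ker, MonoidHom.range_eq_top.2 e, card_top]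
  have b1 : Function.Bijective (((MonoidHom.fst _ _).comp P.subtype).comp (commutator P).subtype) :=
    (H23.surjective_of_stem _ h.stem st.1).bijective_of_nat_card_le (by
      rw [cd h.stem.1, cd st.1, h.ker_alt, h2]; exact Nat.mul_le_mul_right _ le)
  let ι : H →* NN π' := (((MonoidHom.snd _ _).comp P.subtype).comp (commutator P).subtype).comp
    (MulEquiv.ofBijective _ b1).symm.toMonoidHom
  have h3 : ∀ x, τ (ι x) = h.alt x := fun x => by
    obtain ⟨y, rfl⟩ := (MulEquiv.ofBijective _ b1).surjective x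
    simp only [ι, MonoidHom.comp_apply, MulEquiv.coe_toMonoidHom, MulEquiv.symm_apply_apply]
    exact (k2 y.1).symm
  have h4 : ∀ x, π' (ι x) = π x := fun x => congrArg Subtype.val (h3 x)
  refine ⟨MulEquiv.ofBijective ι ((Nat.bijective_iff_injective_and_card _).2
    ⟨(injective_iff_map_eq_one ι).2 fun y hy => by_contra fun hy1 => ?_, ?_⟩), h4⟩
  · have h5 : ∀ x, π x = 1 → ι x = 1 := fun x hx => by
      obtain ⟨w, -, hw⟩ := (Nat.card_eq_two_iff' (1 : π.ker)).1 h2
      by_cases e : x = 1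
      · rw [e, map_one]
      · rwa [show x = y from congrArg Subtype.val ((hw ⟨x, hx⟩ fun h => e (congrArg Subtype.val h)).trans
          (hw ⟨y, by rw [MonoidHom.mem_ker, ← h4, hy]; simp⟩ fun h => hy1 (congrArg Subtype.val h)).symm)]
    obtain ⟨a, b, c, d, n4⟩ : ∃ a b c d : Fin n, [a, b, c, d].Nodup :=
      ⟨⟨0, by omega⟩, ⟨1, by omega⟩, ⟨2, by omega⟩, ⟨3, by omega⟩, by simp⟩
    obtain ⟨⟨ab, ac, ad⟩, ⟨bc, bd⟩, cd⟩ : (a ≠ b ∧ a ≠ c ∧ a ≠ d) ∧ (b ≠ c ∧ b ≠ d) ∧ c ≠ d := by simpa using n4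
    obtain ⟨x, hx⟩ := h.range.ge (show swap a c * swap b d ∈ alternatingGroup (Fin n) by simp [ac, bd])
    obtain ⟨g, hg⟩ := h.range.ge (show swap a b * swap c d ∈ alternatingGroup (Fin n) by simp [ab, cd])
    have x4 : π x a = c ∧ π x c = a ∧ π x b = d ∧ π x d = b := by
      simp [hx, swap_apply_of_ne_of_ne, ab, ad, bc.symm, cd, ad.symm, cd.symm, ab.symm, bc]
    refine ha (ι x) (ι g) a b c d n4 (ι x).2 ((h4 g).trans hg) (.inr (by rwa [h4])) ?_
    have := h5 (x * g * (g * x)⁻¹) (by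
      rw [map_mul, map_inv, mul_inv_eq_one, map_mul, map_mul, ← mul_inv_eq_iff_eq_mul, hg, ← conj_mul,
        ← swap_apply_apply, ← swap_apply_apply, x4.1, x4.2.1, x4.2.2.1, x4.2.2.2, (Perm.disjoint_swap_swap n4).commute.eq])
    rw [map_mul, map_inv, mul_inv_eq_one, map_mul, map_mul] at this
    exact congrArg Subtype.val this
  · have : Nontrivial (Fin n) := Fin.nontrivial_iff_two_le.2 (by omega)
    rw [cd h.stem.1, h.ker_alt, h2, card_NN hk (by omega), two_mul_nat_card_alternatingGroup, Nat.card_perm,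
      Nat.card_fin]

end H26.RB
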