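/-
S4578: assembly.
-/
import Cfsg.Agent.H26.RB2
import Cfsg.Agent.H26.RB4
import Cfsg.Agent.H26.RB7
import Cfsg.Agent.H12.RB1
import Cfsg.Agent.H12.RB2
import Cfsg.Agent.H2.RB1
import Cfsg.Agent.H2.RB2
import Cfsg.Agent.H7.Twist

set_option autoImplicit false

namespace H26.RB
open Cfsg Equiv Subgroup

universe u

theorem spg' : SPG := spg (H2.RB.g4 gamma)

theorem spc' : SPC.{u} :=
  spc (H12.RB.col car adj comm mn xs0) (H2.RB.dw mn (H2.RB.wd (H12.RB.deg car link)) hom) spg' emb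

theorem top (odd : ODD.{u}) (p2a : P2A.{u}) (p2s : P2S.{u}) (sm : SM.{u}) {H : Type u} [Group H] [Finite H]
    (hq : IsQuasisimple H) {n : ℕ} (hn : 5 ≤ n) (e : H ⧸ center H ≃* alternatingGroup (Fin n)) {p : ℕ}
    {M : Ideal AlgInt} {B : Set (IrrCharacter H)} {D : Subgroup H} {χ : IrrCharacter H} (h : Blk p M B D χ) :
    Goal p B D χ := by
  let π := (alternatingGroup (Fin n)).subtype.comp (e.toMonoidHom.comp (QuotientGroup.mk' _))
  have hc : Cov π := ⟨hn, by
    rw [MonoidHom.range_comp, MonoidHom.range_eq_top.2 (e.surjective.comp (QuotientGroup.mk'_surjective _)),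
      ← MonoidHom.range_eq_map, range_subtype], fun x hx => by simpa [π] using hx, hq.1.commutator_eq_top⟩
  by_cases h7 : n ≤ 7
  · have := Fact.mk h.hM.1
    obtain ⟨y, hy, P, rfl⟩ := h.hD
    exact (fin H p M B _ χ h).1 (sm n H π hc h7 p y P (H7.not_dvd_of_isDefectClass h.hM h.hB hy))
  have h2 := (ker n H π hc).2 (by omega) (by omega)
  rcases eq_or_ne p 2 with rfl | hp
  · rcases (Nat.dvd_prime Nat.prime_two).1 h2 with e | e
    · exact p2a n H π hc e M B D χ h
    · exact (fin H 2 M B _ χ h).1 (p2s n H π hc e M B D χ h)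
  · exact odd n H π hc h2 p M B D χ h hp

end H26.RB
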