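import Cfsg.Agent.H28.Sylow
import Cfsg.Agent.H28.Core

/-! Rank one data with a cyclic torus, and central elements of a Sylow subgroup fixed by its normalizer. -/

set_option autoImplicit false

namespace H26.RK
open Cfsg Subgroup

variable {X Y : Type*} [Group X] [Group Y] {p : ℕ} {K U B S : Subgroup X} {w h : X}

/-- rank one data -/
structure Dt (p : ℕ) (K U B : Subgroup X) (w h : X) : Prop where
  UB : U ≤ B
  BK : B ≤ K
  wK : w ∈ K
  pU : IsPGroup p U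
  nU : ∀ b ∈ B, ∀ u ∈ U, b * u * b⁻¹ ∈ U
  bru : ∀ g ∈ K, g ∈ B ∨ ∃ u ∈ U, (u * w)⁻¹ * g ∈ B
  opp : ∀ u ∈ U, w⁻¹ * u * w ∈ B → u = 1
  ne : ∃ u ∈ U, u ≠ 1
  cyc : ∃ t, ∃ m, p.Coprime m ∧ t ^ m = 1 ∧ ∀ g ∈ B, w⁻¹ * g * w ∈ B → g ∈ zpowers t
  hB : h ∈ B
  hw : w⁻¹ * h * w ∈ B
  hp : h ^ (p - 1) = 1
  fr : ∀ u ∈ U, u * h = h * u → u = 1
  gen : ∀ L : Subgroup X, (∀ k ∈ K, ∀ u ∈ U, k * u * k⁻¹ ∈ L) → K ≤ L

theorem cyc_of {F : Type*} [Field F] [Fintype F] [Finite X] [Fact p.Prime] [CharP F p] (d : X → F) (d1 : d 1 = 1)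
    (hd : ∀ a ∈ B, ∀ b ∈ B, d (a * b) = d a * d b) (hi : ∀ g ∈ B, w⁻¹ * g * w ∈ B → d g = 1 → g = 1) :
    ∃ t, ∃ m, p.Coprime m ∧ t ^ m = 1 ∧ ∀ g ∈ B, w⁻¹ * g * w ∈ B → g ∈ zpowers t := by
  let H : Subgroup X := B ⊓ B.comap (MulAut.conj w⁻¹).toMonoidHom
  have mH : ∀ g, g ∈ H ↔ g ∈ B ∧ w⁻¹ * g * w ∈ B := fun g => by simp [H, mem_comap]
  let f : H →* F := ⟨⟨fun g => d g, d1⟩, fun a b => hd _ a.2.1 _ b.2.1⟩
  have hf : Function.Injective f := (injective_iff_map_eq_one f).2 fun g e =>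
    Subtype.ext (hi _ g.2.1 ((mH _).1 g.2).2 e)
  have := isCyclic_of_injective_ringHom f hf
  obtain ⟨t, ht⟩ := IsCyclic.exists_generator (α := H)
  refine ⟨t, Fintype.card F - 1, ?_, ?_, fun g h1 h2 => ?_⟩
  · obtain ⟨n, -, e⟩ := FiniteField.card F p
    rw [e]
    exact (Nat.coprime_self_sub_right (Nat.one_le_pow _ _ (Fact.out : p.Prime).pos)).2 (Nat.coprime_one_right _) |>.coprime_dvd_left
      (dvd_pow_self p n.ne_zero)
  · have : f t ≠ 0 := fun e => by simpa [e] using (map_mul f t t⁻¹).symm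
    have e : t ^ (Fintype.card F - 1) = 1 := hf (by rw [map_pow, FiniteField.pow_card_sub_one_eq_one _ this, map_one])
    simpa using congrArg Subtype.val e
  · obtain ⟨k, e⟩ := ht ⟨g, (mH _).2 ⟨h1, h2⟩⟩
    exact ⟨k, by simpa using congrArg Subtype.val e⟩

theorem pow_of {F : Type*} [Field F] [Fact p.Prime] [CharP F p] (h2 : (2 : F) ≠ 0) (d : X → F) (d1 : d 1 = 1)
    (hd : ∀ a ∈ B, ∀ b ∈ B, d (a * b) = d a * d b) (hi : ∀ g ∈ B, w⁻¹ * g * w ∈ B → d g = 1 → g = 1)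
    (hB : h ∈ B) (hw : w⁻¹ * h * w ∈ B) (e : d h = 2) : h ^ (p - 1) = 1 := by
  have h1 : ∀ n : ℕ, d (h ^ n) = 2 ^ n := fun n => by
    induction n with
    | zero => simpa
    | succ n ih => rw [pow_succ, hd _ (pow_mem hB n) _ hB, ih, e, pow_succ]
  refine hi _ (pow_mem hB _) ?_ ?_
  · have := pow_mem (show (w⁻¹ * h * w⁻¹⁻¹) ∈ B by rwa [inv_inv]) (p - 1)
    rwa [conj_pow, inv_inv] at this
  · have : (2 : F) ^ p = 2 := by simpa [one_add_one_eq_two] using add_pow_char (1 : F) 1 p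
    rw [h1, ← mul_left_inj' h2, ← pow_succ, Nat.sub_add_cancel (Fact.out : p.Prime).pos, this, one_mul]

namespace Dt

theorem mem_B (D : Dt p K U B w h) {g : X} (hg : g ∈ K) (hn : g ∈ normalizer (U : Set X)) : g ∈ B := by
  refine (D.bru g hg).elim id fun ⟨u, hu, e⟩ => ?_
  obtain ⟨v, hv, hv1⟩ := D.ne
  refine (hv1 ?_).elim
  have h1 := D.nU _ e _ (H28.conj_mem_of_mem_normalizer' hn (mul_mem (mul_mem hu hv) (inv_mem hu)))
  exact D.opp v hv (D.UB (by simpa [mul_assoc] using h1))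

theorem map (D : Dt p K U B w h) (f : X →* Y) (hk : ∀ k ∈ K, f k = 1 → ∀ g ∈ K, g * k = k * g) :
    Dt p (K.map f) (U.map f) (B.map f) (f w) (f h) := by
  have kB : ∀ k ∈ K, f k = 1 → k ∈ B := fun k h1 h2 => D.mem_B h1 (mem_normalizer_iff.2 fun u =>
    ⟨fun hu => by rwa [← hk k h1 h2 u (D.BK (D.UB hu)), mul_inv_cancel_right], fun hu => by
      have := hk k h1 h2 _ (D.BK (D.UB hu))
      rwa [show u = k * u * k⁻¹ from mul_left_cancel (a := k) (by rw [← this]; group)]⟩)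
  have lB : ∀ g ∈ K, f g ∈ B.map f → g ∈ B := by
    rintro g hg ⟨b, hb, e⟩
    simpa using mul_mem hb (kB (b⁻¹ * g) (mul_mem (inv_mem (D.BK hb)) hg) (by simp [e]))
  have cK : ∀ g ∈ K, w⁻¹ * g * w ∈ K := fun g hg => mul_mem (mul_mem (inv_mem D.wK) hg) D.wK
  have uk : ∀ u ∈ U, f u = 1 → u = 1 := fun u hu e => D.opp u hu (kB _ (cK u (D.BK (D.UB hu))) (by simp [e]))
  refine ⟨map_mono D.UB, map_mono D.BK, mem_map_of_mem f D.wK, D.pU.map f, ?_, ?_, ?_, ?_, ?_, mem_map_of_mem f D.hB,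
    by simpa using mem_map_of_mem f D.hw, by rw [← map_pow, D.hp, map_one], ?_, ?_⟩
  · rintro _ ⟨b, hb, rfl⟩ _ ⟨u, hu, rfl⟩
    simpa using mem_map_of_mem f (D.nU b hb u hu)
  · rintro _ ⟨g, hg, rfl⟩
    exact (D.bru g hg).imp (mem_map_of_mem f) fun ⟨u, hu, e⟩ =>
      ⟨f u, mem_map_of_mem f hu, by simpa using mem_map_of_mem f e⟩
  · rintro _ ⟨u, hu, rfl⟩ e
    rw [D.opp u hu (lB _ (cK u (D.BK (D.UB hu))) (by simpa using e)), map_one]
  · obtain ⟨u, hu, e⟩ := D.ne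
    exact ⟨f u, mem_map_of_mem f hu, fun a => e (uk u hu a)⟩
  · obtain ⟨t, m, h1, h2, h3⟩ := D.cyc
    refine ⟨f t, m, h1, by rw [← map_pow, h2, map_one], ?_⟩
    rintro _ ⟨g, hg, rfl⟩ e
    rw [← MonoidHom.map_zpowers]
    exact mem_map_of_mem f (h3 g hg (lB _ (cK g (D.BK hg)) (by simpa using e)))
  · rintro _ ⟨u, hu, rfl⟩ e
    have := uk (u * (h * u⁻¹ * h⁻¹)) (mul_mem hu (D.nU h D.hB _ (inv_mem hu))) (by
      simp only [map_mul, map_inv, ← mul_assoc, e]; group)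
    rw [D.fr u hu (by rw [eq_comm, ← mul_inv_eq_one, ← inv_inj, inv_one, ← this]; group), map_one]
  · intro L hL
    rw [map_le_iff_le_comap]
    exact D.gen _ fun k h1 u hu => by
      simpa [mem_comap] using hL _ (mem_map_of_mem f h1) _ (mem_map_of_mem f hu)

theorem mem_U (D : Dt p K U B w h) {b : X} (hb : b ∈ B) {k : ℕ} (e : b ^ p ^ k = 1) : b ∈ U := by
  have wB : b * w ∉ B := fun a => by
    obtain ⟨v, hv, hv1⟩ := D.ne
    have h1 : w ∈ B := by simpa using mul_mem (inv_mem hb) a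
    exact hv1 (D.opp v hv (mul_mem (mul_mem (inv_mem h1) (D.UB hv)) h1))
  obtain ⟨u, hu, a⟩ := (D.bru _ (mul_mem (D.BK hb) D.wK)).resolve_left wB
  obtain ⟨t, m, h1, h2, h3⟩ := D.cyc
  have hg : u⁻¹ * b ∈ B := mul_mem (inv_mem (D.UB hu)) hb
  have a' : w⁻¹ * (u⁻¹ * b) * w ∈ B := by simpa [mul_assoc] using a
  have h4 : ∀ n : ℕ, (u⁻¹ * b) ^ n * (b ^ n)⁻¹ ∈ U := fun n => by
    induction n with
    | zero => simp
    | succ n ih =>
      have := mul_mem (inv_mem hu) (D.nU b hb _ ih)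
      convert this using 1
      rw [pow_succ', pow_succ']; group
  have h5 : (u⁻¹ * b) ^ p ^ k = 1 := D.opp _ (by simpa [e] using h4 (p ^ k)) (by
    have := pow_mem (show (w⁻¹ * (u⁻¹ * b) * w⁻¹⁻¹) ∈ B by rwa [inv_inv]) (p ^ k)
    rwa [conj_pow, inv_inv] at this)
  obtain ⟨j, hj⟩ := h3 _ hg a'
  have h6 : (u⁻¹ * b) ^ m = 1 := by
    rw [← hj, ← zpow_natCast, ← zpow_mul, mul_comm, zpow_mul, zpow_natCast, h2, one_zpow]
  have h7 : u⁻¹ * b = 1 := orderOf_eq_one_iff.1 (Nat.eq_one_of_dvd_coprimes (h1.pow_left k)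
    (orderOf_dvd_of_pow_eq_one h5) (orderOf_dvd_of_pow_eq_one h6))
  rwa [← inv_mul_eq_one.1 h7]

variable [Finite X] [hp : Fact p.Prime]

theorem inf_eq (D : Dt p K U B w h) (hS : IsPGroup p S) (hU : U ≤ S) : S ⊓ K = U := by
  by_contra a
  have h1 : U < S ⊓ K := lt_of_le_of_ne (le_inf hU (D.UB.trans D.BK)) (Ne.symm a)
  obtain ⟨x, hx, hx'⟩ := SetLike.exists_of_lt (H28.lt_inf_normalizer (hS.to_inf_left) h1)
  obtain ⟨k, e⟩ := H28.isPGroup_iff_mem.1 hS x hx.1.1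
  exact hx' (D.mem_U (D.mem_B hx.1.2 hx.2) e)

omit hp in
theorem card_lt (hp : 1 < p) (t : X) : Nat.card {g : X | g ∈ zpowers t ∧ g ^ (p - 1) = 1} < p := by
  classical
  have := Fintype.ofFinite (zpowers t)
  have h1 := IsCyclic.card_pow_eq_one_le (α := zpowers t) (n := p - 1) (by omega)
  have : Nat.card {g : X | g ∈ zpowers t ∧ g ^ (p - 1) = 1} ≤ Nat.card (Finset.univ.filter fun a : zpowers t => a ^ (p - 1) = 1) :=
    Nat.card_le_card_of_injective (fun g => ⟨⟨g.1, g.2.1⟩, by simpa [Subtype.ext_iff] using g.2.2⟩) fun a b e => by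
      simpa [Subtype.ext_iff] using e
  rw [Nat.card_eq_fintype_card (α := Finset.univ.filter _), Fintype.card_coe] at this
  omega

theorem comm_of {T : Set X} (hT : Nat.card T < p) {s : X} {k : ℕ} (e : s ^ p ^ k = 1) (h1 : ∀ g ∈ T, s * g * s⁻¹ ∈ T)
    {g : X} (hg : g ∈ T) : s * g = g * s := by
  let f : T → T := fun x => ⟨_, h1 x x.2⟩
  have hf : ∀ n x, (f^[n] x : X) = s ^ n * x * (s ^ n)⁻¹ := fun n => by
    induction n with
    | zero => simp
    | succ n ih => intro x; rw [Function.iterate_succ_apply', pow_succ']; simp only [f, ih]; group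
  have h2 : Function.IsPeriodicPt f (p ^ k) ⟨g, hg⟩ := Subtype.ext (by rw [hf, e]; simp)
  obtain ⟨j, -, hj⟩ := (Nat.dvd_prime_pow hp.out).1 h2.minimalPeriod_dvd
  have := Fintype.ofFinite T
  have h3 := Function.minimalPeriod_le_card (f := f) (x := ⟨g, hg⟩)
  rw [← Nat.card_eq_fintype_card, hj] at h3
  have h4 : j = 0 := by
    by_contra a
    exact absurd (Nat.le_self_pow a p) (by omega)
  have h5 := congrArg Subtype.val (Function.minimalPeriod_eq_one_iff_isFixedPt.1 (by rw [hj, h4, pow_zero]))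
  exact mul_inv_eq_iff_eq_mul.1 h5

theorem cent (D : Dt p K U B w h) [hK : K.Normal] (hS : IsPGroup p S) (hU : U ≤ S) {z : X} (hz : z ∈ S)
    (hc : ∀ g ∈ normalizer (S : Set X), g * z = z * g) : ∀ k ∈ K, k * z = z * k := by
  have eU := D.inf_eq hS hU
  have SN : S ≤ normalizer (U : Set X) := eU ▸ H28.le_normalizer_inf le_normalizer fun g _ => H28.mem_normalizer_of_normal K g
  have BN : B ≤ normalizer (U : Set X) := fun b hb => mem_normalizer_fintype fun u hu => D.nU b hb u hu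
  have cK : ∀ g ∈ K, w⁻¹ * g * w ∈ K := fun g hg => mul_mem (mul_mem (inv_mem D.wK) hg) D.wK
  have op : ∀ u ∈ U, w⁻¹ * u * w ∈ normalizer (U : Set X) → u = 1 := fun u hu e =>
    D.opp u hu (D.mem_B (cK u (D.BK (D.UB hu))) e)
  have dec : ∀ s ∈ S, ∃ u ∈ U, w⁻¹ * (u⁻¹ * s) * w ∈ normalizer (U : Set X) := fun s hs => by
    rcases D.bru _ (hK.conj_mem w D.wK s) with a | ⟨u, hu, a⟩
    · obtain ⟨v, hv, hv1⟩ := D.ne
      have h1 : w ∈ normalizer (U : Set X) := by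
        simpa [mul_assoc] using mul_mem (mul_mem (inv_mem (SN hs)) (BN a)) (SN hs)
      exact (hv1 (op v hv (mul_mem (mul_mem (inv_mem h1) (le_normalizer hv)) h1))).elim
    · exact ⟨u, hu, by simpa [mul_assoc] using mul_mem (BN a) (SN hs)⟩
  obtain ⟨t, -, -, -, ht⟩ := D.cyc
  have cm : ∀ s ∈ S, w⁻¹ * s * w ∈ normalizer (U : Set X) → s * h = h * s := fun s hs e => by
    obtain ⟨k, hk⟩ := H28.isPGroup_iff_mem.1 hS s hs
    refine comm_of (T := {g | (g ∈ B ∧ w⁻¹ * g * w ∈ B) ∧ g ^ (p - 1) = 1}) (lt_of_le_of_lt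
      (Nat.card_mono (Set.toFinite _) fun g hg => And.intro (ht g hg.1.1 hg.1.2) hg.2) (card_lt hp.out.one_lt t)) hk ?_
      ⟨⟨D.hB, D.hw⟩, D.hp⟩
    rintro g ⟨⟨h1, h2⟩, h3⟩
    have h4 := hK.conj_mem g (D.BK h1) s
    refine ⟨⟨D.mem_B h4 (mul_mem (mul_mem (SN hs) (BN h1)) (inv_mem (SN hs))), D.mem_B (cK _ h4) ?_⟩, by
      rw [conj_pow, h3]; simp⟩
    simpa [mul_assoc] using mul_mem (mul_mem e (BN h2)) (inv_mem e)
  have hN : h ∈ normalizer (S : Set X) := mem_normalizer_fintype fun s hs => by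
    obtain ⟨u, hu, e⟩ := dec s hs
    have h1 := mul_mem (inv_mem (hU hu)) hs
    have := mul_mem (hU (D.nU h D.hB u hu)) h1
    rwa [mul_assoc (h * u), show h⁻¹ * (u⁻¹ * s) = u⁻¹ * s * h⁻¹ by
      rw [eq_mul_inv_iff_mul_eq, mul_assoc, cm _ h1 e]; group, show h * u * (u⁻¹ * s * h⁻¹) = h * s * h⁻¹ by group] at this
  have zw : w⁻¹ * z * w ∈ normalizer (U : Set X) := by
    obtain ⟨u, hu, e⟩ := dec z hz
    have h1 := cm _ (mul_mem (inv_mem (hU hu)) hz) e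
    rw [mul_assoc, ← hc h hN, ← mul_assoc, ← mul_assoc, mul_left_inj] at h1
    simpa [D.fr _ (inv_mem hu) h1] using e
  have zk : ∀ k ∈ K, k⁻¹ * z * k ∈ normalizer (U : Set X) := fun k hk => by
    rcases D.bru k hk with a | ⟨u, hu, a⟩
    · exact mul_mem (mul_mem (inv_mem (BN a)) (SN hz)) (BN a)
    · have := mul_mem (mul_mem (inv_mem (BN a)) zw) (BN a)
      convert this using 1
      have e := hc u (le_normalizer (hU hu))
      calc k⁻¹ * z * k = k⁻¹ * (z * u) * (u⁻¹ * k) := by group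
        _ = _ := by rw [← e]; group
  intro k hk
  refine mem_centralizer_singleton_iff.1 (D.gen _ (fun k hk u hu => mem_centralizer_singleton_iff.2 ?_) hk)
  have h1 := op ((k⁻¹ * z * k) * u * (k⁻¹ * z * k)⁻¹ * u⁻¹)
    (mul_mem (H28.conj_mem_of_mem_normalizer (zk k hk) hu) (inv_mem hu)) (by
      have := mul_mem (zk _ (mul_mem hk D.wK)) (inv_mem (zk _ (mul_mem hk (mul_mem (inv_mem (D.BK (D.UB hu))) D.wK))))
      convert this using 1
      group)
  calc k * u * k⁻¹ * z = k * ((k⁻¹ * z * k * u * (k⁻¹ * z * k)⁻¹ * u⁻¹) * u) * k⁻¹ * z := by rw [h1]; group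
    _ = _ := by group

theorem eq_one (D : Dt p K U B w h) [hK : K.Normal] (S : Sylow p X) (h1 : K ⊔ S = ⊤) (h2 : pCore p X = ⊥) {z : X}
    (hz : z ∈ (S : Subgroup X)) (hc : ∀ g ∈ normalizer ((S : Subgroup X) : Set X), g * z = z * g) : z = 1 := by
  obtain ⟨T, hT⟩ := D.pU.exists_le_sylow
  obtain ⟨x, rfl⟩ := MulAction.exists_smul_eq X S T
  have D' := D.map (MulAut.conj x⁻¹).toMonoidHom fun k _ e g _ => by
    rw [(map_eq_one_iff _ (MulAut.conj x⁻¹).injective).1 e]; simp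
  rw [show K.map (MulAut.conj x⁻¹).toMonoidHom = K from H28.mem_normalizer_iff_cj.1 (H28.mem_normalizer_of_normal K _)] at D'
  have h3 := D'.cent S.isPGroup' (by
    rintro _ ⟨u, hu, rfl⟩
    have := hT hu
    rw [Sylow.coe_subgroup_smul, mem_pointwise_smul_iff_inv_smul_mem] at this
    simpa using this) hz hc
  have h4 : z ∈ center X := mem_center_iff.2 fun g => mem_centralizer_singleton_iff.1
    ((sup_le (fun k hk => mem_centralizer_singleton_iff.2 (h3 k hk)) fun s hs =>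
      mem_centralizer_singleton_iff.2 (hc s (le_normalizer hs)) : K ⊔ S ≤ centralizer {z}) (h1.ge (mem_top g)))
  have h5 : zpowers z ≤ pCore p X := le_sSup ⟨⟨fun n hn g => by
    rwa [mem_center_iff.1 ((zpowers_le.2 h4) hn) g, mul_inv_cancel_right]⟩, S.isPGroup'.to_le (zpowers_le.2 hz)⟩
  simpa [h2] using h5

end Dt
end H26.RK
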