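import Cfsg.Agent.H26.RK1
import Cfsg.Agent.H13.SL2Pres
import Cfsg.Agent.H4.U3c

/-! Rank one data for the two-dimensional linear and three-dimensional unitary groups. -/

set_option autoImplicit false

namespace H26.RK
open Cfsg Subgroup Matrix MatrixGroups

variable {F : Type*} [Field F] [Fintype F] {p : ℕ} [hp : Fact p.Prime] [CharP F p]

omit [Fintype F] hp in
theorem ne_zero (h : 5 ≤ p) {n : ℕ} (h0 : n ≠ 0) (h1 : n < 5) : (n : F) ≠ 0 := fun e =>
  absurd (Nat.le_of_dvd (Nat.pos_of_ne_zero h0) ((CharP.cast_eq_zero_iff F p n).1 e)) (by omega)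

section
open H13.SL2

theorem dt_sl (h5 : 5 ≤ p) : ∃ (U B : Subgroup SL(2, F)) (w h : SL(2, F)), Dt p ⊤ U B w h := by
  have h2 : (2 : F) ≠ 0 := by exact_mod_cast ne_zero (F := F) h5 (n := 2) (by decide) (by decide)
  have h3 : (3 : F) ≠ 0 := by exact_mod_cast ne_zero (F := F) h5 (n := 3) (by decide) (by decide)
  let B : Subgroup SL(2, F) :=
    { carrier := {g | g 1 0 = 0}
      mul_mem' := fun {a b} ha hb => by
        simp only [Set.mem_ofPred_eq] at *; rw [H13.SL2.mul_apply', ha, hb]; simp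
      one_mem' := by simp
      inv_mem' := fun {a} ha => by
        simp only [Set.mem_ofPred_eq] at *; simp [SpecialLinearGroup.SL2_inv_expl, ha] }
  have mB : ∀ g, g ∈ B ↔ g 1 0 = 0 := fun _ => Iff.rfl
  have cw : ∀ g : SL(2, F), ((w 1)⁻¹ * g * w 1 : SL(2, F)) 1 0 = -g 0 1 := fun g => by
    simp only [H13.SL2.mul_apply']
    simp [SpecialLinearGroup.SL2_inv_expl, coe_w (one_ne_zero (α := F))]
  have hd : ∀ a ∈ B, ∀ b ∈ B, (a * b) 0 0 = a 0 0 * b 0 0 := fun a _ b hb => by rw [H13.SL2.mul_apply', (mB _).1 hb]; simp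
  have hi : ∀ g ∈ B, (w 1)⁻¹ * g * w 1 ∈ B → g 0 0 = 1 → g = 1 := fun g h1 h4 e => by
    have := det' g
    rw [mB, cw, neg_eq_zero] at h4
    rw [(mB _).1 h1, e] at this
    exact ext' (by simp [e]) (by simp [h4]) (by simp [(mB _).1 h1]) (by simpa using this)
  let h : SL(2, F) := ⟨!![2, 0; 0, 2⁻¹], by simp [det_fin_two, h2]⟩
  have hB : h ∈ B := (mB _).2 (by simp [h])
  have hw : (w 1)⁻¹ * h * w 1 ∈ B := by rw [mB, cw]; simp [h]
  refine ⟨upperUnipotentSL2 F, B, w 1, h, fun g hg => ?_, le_top, trivial, H28.isPGroup_iff_mem.2 fun g hg => ?_,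
    fun b hb g hg => ?_, fun g _ => ?_, fun g hg e => ?_, ⟨x 1, x_mem 1, by simp [x_eq_one]⟩,
    cyc_of (fun g => g 0 0) (by simp) hd hi, hB, hw, pow_of h2 (fun g => g 0 0) (by simp) hd hi hB hw (by simp [h]),
    fun g hg e => ?_, fun L hL => ?_⟩
  · obtain ⟨t, rfl⟩ := mem_upper.1 hg
    simp [mB]
  · obtain ⟨t, rfl⟩ := mem_upper.1 hg
    have : ∀ n : ℕ, x t ^ n = x (n * t) := fun n => by
      induction n with
      | zero => simp
      | succ n ih => rw [pow_succ, ih, ← x_add]; congr 1; push_cast; ring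
    exact ⟨1, by simp [this]⟩
  · obtain ⟨t, rfl⟩ := mem_upper.1 hg
    have := det' b
    rw [(mB _).1 hb] at this
    refine mem_upper.2 ⟨b 0 0 ^ 2 * t, ext' ?_ ?_ ?_ ?_⟩ <;> simp only [H13.SL2.mul_apply'] <;>
      simp [SpecialLinearGroup.SL2_inv_expl, (mB _).1 hb]
    · linear_combination this
    · ring
    · linear_combination this
  · by_cases e : g 1 0 = 0
    · exact .inl e
    · refine .inr ⟨x (g 0 0 / g 1 0), x_mem _, ?_⟩
      rw [mB, _root_.mul_inv_rev]
      simp only [H13.SL2.mul_apply']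
      simp [SpecialLinearGroup.SL2_inv_expl, coe_w (one_ne_zero (α := F)), e]
  · obtain ⟨t, rfl⟩ := mem_upper.1 hg
    rw [mB, cw] at e
    exact x_eq_one.2 (by simpa using e)
  · obtain ⟨t, rfl⟩ := mem_upper.1 hg
    have := congrArg (fun g : SL(2, F) => g 0 1) e
    simp only [H13.SL2.mul_apply'] at this
    simp [h] at this
    refine x_eq_one.2 ((mul_eq_zero.1 (?_ : 3 * t = 0)).resolve_left h3)
    field_simp at this
    linear_combination -this
  · rw [← upper_sup_lower]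
    refine sup_le (fun g hg => by simpa using hL 1 trivial g hg) fun g hg => ?_
    obtain ⟨t, rfl⟩ := mem_lower.1 hg
    have := hL (w 1) trivial _ (x_mem (-t))
    rwa [w_x one_ne_zero, mul_inv_cancel_right, neg_neg, one_pow, div_one] at this

end

section
open H4 H4.U3

theorem dt_su (h5 : 5 ≤ p) {q : ℕ} (hF : Fintype.card F = q ^ 2) {a : ℕ} (hq : q = p ^ a) :
    ∃ (U B : Subgroup (H11.suMat hF (U3.J F))) (w h : H11.suMat hF (U3.J F)), Dt p ⊤ U B w h := by
  have h2 : (2 : F) ≠ 0 := by exact_mod_cast ne_zero (F := F) h5 (n := 2) (by decide) (by decide)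
  have h3 : (3 : F) ≠ 0 := by exact_mod_cast ne_zero (F := F) h5 (n := 3) (by decide) (by decide)
  have q2 : q ≠ 2 := fun e => by
    have := (Nat.prime_dvd_prime_iff_eq hp.out Nat.prime_two).1 (e ▸ hq ▸ dvd_pow_self p (by rintro rfl; simp [e] at hq))
    omega
  let B := MulAction.stabilizer (H11.suMat hF (U3.J F)) (none : Option (U3 hF))
  have mB : ∀ g, g ∈ B ↔ g • (none : Option (U3 hF)) = none := fun _ => Iff.rfl
  have cw : ∀ g, (wy hF)⁻¹ * g * wy hF ∈ B ↔ g • (some 1 : Option (U3 hF)) = some 1 := fun g => by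
    rw [mB, mul_smul, mul_smul, wy_none, inv_smul_eq_iff, wy_none]
  have hd : ∀ a ∈ B, ∀ b ∈ B, (a * b).1.1 0 0 = a.1.1 0 0 * b.1.1 0 0 := fun a ha b hb => diag_mul ha hb 0
  have hi : ∀ g ∈ B, (wy hF)⁻¹ * g * wy hF ∈ B → g.1.1 0 0 = 1 → g = 1 := fun g h1 h4 e => by
    obtain ⟨a1, a2, a3⟩ := triang h1
    have hs : (g.1.1.map (H11.frob hF))ᵀ * U3.J F * g.1.1 = U3.J F := g.2
    have h6 := congrFun (congrFun hs 0) 2
    have h7 := g.1.2
    simp [U3.J, Matrix.mul_apply, Fin.sum_univ_three, a1, a2, e, -H11.frob_apply] at h6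
    rw [det_fin_three] at h7
    simp [a1, a2, a3, e, h6] at h7
    obtain ⟨y, rfl⟩ := mem_range h1 e h7 h6
    rw [cw, toSU_some, mul_one, Option.some_inj] at h4
    rw [h4, map_one]
  let h : H11.suMat hF (U3.J F) := ⟨⟨!![2, 0, 0; 0, 1, 0; 0, 0, 2⁻¹], by simp [det_fin_three, h2]⟩, by
    change ((!![2, 0, 0; 0, 1, 0; 0, 0, 2⁻¹] : Matrix (Fin 3) (Fin 3) F).map (H11.frob hF))ᵀ * U3.J F *
      !![2, 0, 0; 0, 1, 0; 0, 0, 2⁻¹] = U3.J F
    ext i j
    fin_cases i <;> fin_cases j <;>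
      simp [U3.J, Matrix.mul_apply, Fin.sum_univ_three, -H11.frob_apply, map_ofNat, h2]⟩
  have hv : h.1.1 = !![2, 0, 0; 0, 1, 0; 0, 0, 2⁻¹] := rfl
  have hB : h ∈ B := smul_eq_iff.2 ⟨2, funext fun i => by
    rw [hv]; fin_cases i <;> simp [pt, mulVec, dotProduct, Fin.sum_univ_three]⟩
  have hw : (wy hF)⁻¹ * h * wy hF ∈ B := (cw _).2 (smul_eq_iff.2 ⟨2⁻¹, funext fun i => by
    rw [hv]; fin_cases i <;> simp [pt, mulVec, dotProduct, Fin.sum_univ_three, -H11.frob_apply]⟩)
  obtain ⟨y, hy⟩ := exists_a hF 1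
  have y1 : toSU hF y ≠ 1 := fun e => by simp [(map_eq_one_iff _ toSU_injective).1 e] at hy
  refine ⟨(toSU hF).range, B, wy hF, h, ?_, le_top, trivial, (IsPGroup.of_card (n := a * 3) (by
      rw [card, hq, pow_mul])).of_equiv (MonoidHom.ofInjective toSU_injective), ?_, fun g _ => ?_, ?_, ⟨_, ⟨y, rfl⟩, y1⟩,
    cyc_of (fun g => g.1.1 0 0) (by simp) hd hi, hB, hw, pow_of h2 (fun g => g.1.1 0 0) (by simp) hd hi hB hw (by simp [hv]),
    ?_, fun L hL => ?_⟩
  · rintro _ ⟨u, rfl⟩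
    exact toSU_none u
  · rintro b hb _ ⟨u, rfl⟩
    exact conj_mem_range hb u
  · rcases e : g • (none : Option (U3 hF)) with _ | u
    · exact .inl e
    · exact .inr ⟨_, ⟨u, rfl⟩, by rw [mB, mul_smul, e, inv_smul_eq_iff, mul_smul, wy_none, toSU_some, mul_one]⟩
  · rintro _ ⟨u, rfl⟩ e
    rw [cw, toSU_some, mul_one, Option.some_inj] at e
    rw [e, map_one]
  · rintro _ ⟨u, rfl⟩ e
    have e1 : mat u * !![2, 0, 0; 0, 1, 0; 0, 0, 2⁻¹] = !![2, 0, 0; 0, 1, 0; 0, 0, 2⁻¹] * mat u :=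
      congrArg (fun g : H11.suMat hF (U3.J F) => g.1.1) e
    have e2 := congrFun (congrFun e1 0) 2
    simp [mat, Matrix.mul_apply, Fin.sum_univ_three] at e2
    by_contra a
    refine b_ne (x := u) (fun b => a (by rw [b, map_one])) ((mul_eq_zero.1 (?_ : 3 * u.b = 0)).resolve_left h3)
    field_simp at e2
    linear_combination -e2
  · have hN : normalClosure ((toSU hF).range : Set (H11.suMat hF (U3.J F))) ≤ L := (closure_le _).2 fun g hg => by
      obtain ⟨u, hu, e⟩ := Group.mem_conjugatesOfSet_iff.1 hg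
      obtain ⟨s, rfl⟩ := isConj_iff.1 e
      exact hL s trivial u hu
    refine le_trans ?_ hN
    rcases normal_cases q2 (normalClosure ((toSU hF).range : Set (H11.suMat hF (U3.J F)))) with h1 | h1
    · have := center_smul (h1 (subset_normalClosure ⟨y, rfl⟩)) (some 1)
      rw [toSU_some, mul_one, Option.some_inj] at this
      simp [this] at y1
    obtain ⟨e⟩ := H11.nonempty_suMat_equiv hF (M := U3.J F) (n := 3)
      (by ext i j; fin_cases i <;> fin_cases j <;> simp [U3.J, -H11.frob_apply])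
      (by simp [U3.J, Matrix.det_fin_three]) (by simp)
    rw [← H11.perfect_of_equiv e.symm (H11.su_perfect hF le_rfl (by simp [q2])), _root_.commutator_def, commutator_le]
    intro a _ b _
    obtain ⟨a, ha, c, hc, rfl⟩ := mem_sup_of_normal_right.1 (h1.ge (mem_top a))
    obtain ⟨b, hb, d, hd, rfl⟩ := mem_sup_of_normal_right.1 (h1.ge (mem_top b))
    have := mul_mem (mul_mem (mul_mem ha hb) (inv_mem ha)) (inv_mem hb)
    convert this using 1
    rw [commutatorElement_def, mul_assoc a c, ← mem_center_iff.1 hc, mul_assoc b d, mem_center_iff.1 hd c |>.symm]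
    have e1 := mem_center_iff.1 hd a⁻¹
    calc _ = a * b * (d * a⁻¹) * d⁻¹ * b⁻¹ := by rw [mem_center_iff.1 hd c]; group
      _ = _ := by rw [← e1]; group

end

omit [CharP F p] in
theorem dt_of {X : Type*} [Group X] {K : Subgroup X} (h5 : 5 ≤ p) {a : ℕ}
    (h : (Fintype.card F = p ^ a ∧ (Nonempty (K ≃* SL(2, F)) ∨ Nonempty (K ≃* PSL(2, F)))) ∨
      (Fintype.card F = p ^ (2 * a) ∧ (Nonempty (K ≃* SU 3 F (p ^ a)) ∨ Nonempty (K ≃* PSU 3 F (p ^ a))))) :
    ∃ (U B : Subgroup X) (w h : X), Dt p K U B w h := by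
  have key : ∀ {M : Type _} [Group M] {N : Type _} [Group N] (f : M →* N), Function.Surjective f → f.ker ≤ center M → (K ≃* N) →
      (∃ (U B : Subgroup M) (w h : M), Dt p ⊤ U B w h) → ∃ (U B : Subgroup X) (w h : X), Dt p K U B w h := by
    intro M _ N _ f hf hk e ⟨U, B, w, h, D⟩
    have := D.map ((K.subtype.comp e.symm.toMonoidHom).comp f) fun k _ a g _ =>
      mem_center_iff.1 (hk (by simpa [MonoidHom.mem_ker] using a)) g
    rw [← Subgroup.map_map, ← Subgroup.map_map, map_top_of_surjective f hf, map_top_of_surjective _ e.symm.surjective,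
      ← MonoidHom.range_eq_map, range_subtype] at this
    exact ⟨_, _, _, _, this⟩
  rcases h with ⟨hF, h⟩ | ⟨hF, h⟩
  · have := charP_of_card_eq_prime_pow hF
    rcases h with ⟨⟨e⟩⟩ | ⟨⟨e⟩⟩
    · exact key (MonoidHom.id _) Function.surjective_id (by simp) e (dt_sl h5)
    · exact key (QuotientGroup.mk' _) (QuotientGroup.mk'_surjective _) (QuotientGroup.ker_mk' _).le e (dt_sl h5)
  · have := charP_of_card_eq_prime_pow hF
    rw [mul_comm, pow_mul] at hF
    rcases h with ⟨⟨e⟩⟩ | ⟨⟨e⟩⟩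
    · obtain ⟨f⟩ := H11.nonempty_suMat_equiv hF (M := H4.U3.J F) (n := 3)
        (by ext i j; fin_cases i <;> fin_cases j <;> simp [H4.U3.J, -H11.frob_apply])
        (by simp [H4.U3.J, Matrix.det_fin_three]) (by simp)
      exact key (MonoidHom.id _) Function.surjective_id (by simp) (e.trans f.symm) (dt_su h5 hF rfl)
    · obtain ⟨f⟩ := H4.U3.nonempty_quot hF
      exact key (QuotientGroup.mk' _) (QuotientGroup.mk'_surjective _) (QuotientGroup.ker_mk' _).le (e.trans f.symm)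
        (dt_su h5 hF rfl)

end H26.RK
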