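import Cfsg.Agent.H9.RL0
import Cfsg.Agent.S0483

/-! S3860, chunk `GW`: a real element of odd order with a centralizer of odd order. -/

set_option autoImplicit false
set_option linter.unusedVariables false

namespace H26.RL
open Cfsg Subgroup H9.RL Matrix
open scoped MatrixGroups

universe u

/-- a real element of odd order centralized by no involution -/
def W (X : Type*) [Group X] : Prop := ∃ x t : X, (x ≠ 1 ∧ Odd (orderOf x) ∧ t * x * t⁻¹ = x⁻¹) ∧
  ∀ y : X, y * y = 1 → y * x = x * y → y = 1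

theorem W.congr {X Y : Type*} [Group X] [Group Y] (e : X ≃* Y) (h : W Y) : W X := by
  obtain ⟨x, t, ⟨a, b, c⟩, d⟩ := h
  refine ⟨e.symm x, e.symm t, ⟨by simpa, by rwa [MulEquiv.orderOf_eq], by simp only [← map_inv, ← map_mul, c]⟩,
    fun y h1 h2 => e.injective ((d _ (by rw [← map_mul, h1, map_one]) ?_).trans (map_one e).symm)⟩
  simpa using congrArg e h2

theorem w_a7 : W (alternatingGroup (Fin 7)) := by
  let x : Equiv.Perm (Fin 7) := c[0, 1, 2, 3, 4]
  have k0 : ∀ a b c : Fin 7, (∀ i, ![a, x a, x (x a), x (x (x a)), x (x (x (x a))), b, c]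
      (![a, x a, x (x a), x (x (x a)), x (x (x (x a))), b, c] i) = i) →
      a = 0 ∧ (b = 5 ∧ c = 6 ∨ b = 6 ∧ c = 5) ∨ x a = a := by decide +kernel
  have k : ∀ y : Equiv.Perm (Fin 7), y * x = x * y → y * y = 1 → Equiv.Perm.sign y = 1 → y = 1 := fun y a b c => by
    have e : ∀ i, y (x i) = x (y i) := fun i => DFunLike.congr_fun a i
    have e1 : y 1 = x (y 0) := e 0
    have e2 : y 2 = x (y 1) := e 1
    have e3 : y 3 = x (y 2) := e 2
    have e4 : y 4 = x (y 3) := e 3
    have f : (y : Fin 7 → Fin 7) = ![y 0, x (y 0), x (x (y 0)), x (x (x (y 0))), x (x (x (x (y 0)))), y 5, y 6] := by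
      rw [← e1, ← e2, ← e3, ← e4]; ext i; fin_cases i <;> rfl
    rcases k0 (y 0) (y 5) (y 6) (fun i => by rw [← f]; exact DFunLike.congr_fun b i) with ⟨g, ⟨g1, g2⟩ | ⟨g1, g2⟩⟩ | g
    · rw [g, g1, g2] at f
      exact DFunLike.coe_injective (f.trans (by decide +kernel))
    · rw [g, g1, g2] at f
      rw [show y = .swap 5 6 from DFunLike.coe_injective (f.trans (by decide +kernel))] at c
      exact absurd c (by decide +kernel)
    · exact absurd (y.injective (e1.trans g)) (by decide)
  have : Fact (Nat.Prime 5) := ⟨Nat.prime_five⟩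
  refine ⟨⟨x, Equiv.Perm.mem_alternatingGroup.2 (by decide +kernel)⟩,
    ⟨.swap 1 4 * .swap 2 3, Equiv.Perm.mem_alternatingGroup.2 (by decide +kernel)⟩,
    ⟨by decide +kernel, ?_, by decide +kernel⟩, fun y a b =>
      Subtype.ext (k y (Subtype.ext_iff.1 b) (Subtype.ext_iff.1 a) (Equiv.Perm.mem_alternatingGroup.1 y.2))⟩
  rw [orderOf_eq_prime (p := 5) (by decide +kernel) (by decide +kernel)]
  decide

variable {F : Type*} [Field F]

/-- the projection -/
abbrev pr : SL(2, F) →* PSL(2, F) := QuotientGroup.mk' _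

theorem mk_eq {a b : SL(2, F)} (h : pr a = pr b) : ∃ c : F, c * c = 1 ∧ b.1 = c • a.1 := by
  obtain ⟨r, h1, h2⟩ := Matrix.SpecialLinearGroup.mem_center_iff.1 (QuotientGroup.eq.1 h)
  refine ⟨r, by simpa [sq] using h1, ?_⟩
  have : b.1 = a.1 * scalar (Fin 2) r := by
    rw [h2]; exact congrArg Subtype.val (mul_inv_cancel_left a b).symm
  rw [this]
  ext i j
  simp [mul_comm]

theorem mk_one {y : SL(2, F)} (h0 : y.1 0 1 = 0) (h1 : y.1 1 0 = 0) (h2 : y.1 1 1 = y.1 0 0) : pr y = 1 := by
  have d := y.2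
  rw [det_fin_two] at d
  refine (QuotientGroup.eq_one_iff y).2 (Matrix.SpecialLinearGroup.mem_center_iff.2 ⟨y.1 0 0, ?_, ?_⟩)
  · rw [h0, h2] at d; simpa [sq] using d
  · ext i j; fin_cases i <;> fin_cases j <;> simp [h0, h1, h2]

theorem w_of {x t : SL(2, F)} {n : ℕ} (o : Odd n) (e : x.1 ^ n = 1) (i : x.1 * t.1 * x.1 = t.1)
    (h1 : ∀ c : F, x.1 ≠ c • 1)
    (h : ∀ (y : Matrix (Fin 2) (Fin 2) F) (c d : F), y.det = 1 → c * c = 1 → d * d = 1 → y * y = d • 1 →
      x.1 * y = c • (y * x.1) → y 0 1 = 0 ∧ y 1 0 = 0 ∧ y 1 1 = y 0 0) : W PSL(2, F) := by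
  have e' : x ^ n = 1 := Subtype.ext e
  have i' : x * t * x = t := Subtype.ext i
  refine ⟨pr x, pr t, ⟨fun k => (mk_eq (a := 1) k.symm).elim fun c k => h1 c k.2,
    o.of_dvd_nat (orderOf_dvd_of_pow_eq_one (by rw [← map_pow, e', map_one])), ?_⟩, fun y a b => ?_⟩
  · rw [← map_inv, ← map_inv, ← map_mul, ← map_mul]
    congr 1
    calc _ = x⁻¹ * (x * t * x) * t⁻¹ := by group
      _ = _ := by rw [i']; group
  obtain ⟨y, rfl⟩ := QuotientGroup.mk'_surjective _ y
  obtain ⟨d, d1, d2⟩ := mk_eq (a := 1) (b := y * y) a.symm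
  obtain ⟨c, c1, c2⟩ := mk_eq (a := y * x) (b := x * y) b
  obtain ⟨e1, e2, e3⟩ := h y.1 c d y.2 c1 d1 d2 c2
  exact mk_one e1 e2 e3

theorem w_psl [Fintype F] (ho : Odd (Fintype.card F)) (h3 : 3 < Fintype.card F) : W PSL(2, F) := by
  have h2 : (2 : F) ≠ 0 := fun e => by
    have := (FiniteField.even_card_iff_char_two.1 ((ringChar.spec F 2).1 (by exact_mod_cast e) |>
      fun d => (Nat.prime_dvd_prime_iff_eq (CharP.char_is_prime F _) Nat.prime_two).1 d))
    rw [Nat.odd_iff] at ho; omega
  by_cases s : IsSquare (-1 : F)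
  · obtain ⟨i, hi⟩ := s
    have pw : ∀ n : ℕ, !![(1 : F), 1; 0, 1] ^ n = !![1, (n : F); 0, 1] := fun n => by
      induction n with
      | zero => simp [one_fin_two]
      | succ n ih => rw [pow_succ, ih]; simp [add_comm]
    refine w_of (x := ⟨!![1, 1; 0, 1], by simp⟩) (t := ⟨!![i, 0; 0, -i], by simp [← hi]⟩) ho ?_ (by simp) ?_ ?_
    · rw [pw]; simp [one_fin_two]
    · intro c k
      simpa using congrFun (congrFun k 0) 1
    · intro y c d dt c1 d1 a b
      have a1 := congrFun (congrFun a 0) 1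
      have b0 := congrFun (congrFun b 0) 0
      have b1 := congrFun (congrFun b 0) 1
      have b2 := congrFun (congrFun b 1) 0
      have b3 := congrFun (congrFun b 1) 1
      rw [det_fin_two] at dt
      simp only [mul_apply, Fin.sum_univ_two, Matrix.smul_apply, of_apply, cons_val', cons_val_zero, cons_val_one,
        cons_val_fin_one, smul_eq_mul, one_apply_ne (zero_ne_one' (Fin 2))] at a1 b0 b1 b2 b3
      obtain rfl : c = 1 := by
        by_contra n
        have e := mul_self_eq_one_iff.1 c1 |>.resolve_left n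
        subst e
        have e1 : y 1 0 = 0 := mul_left_cancel₀ h2 (by linear_combination b2)
        have e2 : y 0 0 = 0 := mul_left_cancel₀ h2 (by linear_combination b0 - e1)
        simp [e1, e2] at dt
      have e1 : y 1 0 = 0 := by linear_combination b0
      have e2 : y 1 1 = y 0 0 := by linear_combination b1
      rw [e1, e2] at dt
      exact ⟨mul_left_cancel₀ h2 (by rw [e2] at a1; linear_combination y 0 0 * a1 - 2 * y 0 1 * dt), e1, e2⟩
  · obtain ⟨m, m0, m1, m2⟩ : ∃ m : F, m ≠ 0 ∧ m ≠ 1 ∧ m ≠ -1 := by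
      classical
      by_contra! k
      have : (Finset.univ : Finset F) ⊆ {0, 1, -1} := fun m _ => by
        have := k m
        simp only [Finset.mem_insert, Finset.mem_singleton]
        tauto
      have := (Finset.card_le_card this).trans Finset.card_le_three
      rw [Finset.card_univ] at this
      omega
    have q4 : Fintype.card F % 4 = 3 := by_contra fun k => s (FiniteField.isSquare_neg_one_iff.2 k)
    have ns : ∀ a : F, a * a ≠ -1 := fun a e => s ⟨a, e.symm⟩
    obtain ⟨l, l0, l1, l2⟩ : ∃ l : F, l ≠ 0 ∧ l * l ≠ 1 ∧ l ^ (Fintype.card F / 2) = 1 := by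
      refine ⟨m * m, mul_ne_zero m0 m0, fun e => ?_, ?_⟩
      · rcases mul_self_eq_one_iff.1 e with e | e
        · exact (mul_self_eq_one_iff.1 e).elim m1 m2
        · exact ns m e
      · rw [← sq, ← pow_mul, show 2 * (Fintype.card F / 2) = Fintype.card F - 1 by omega,
          FiniteField.pow_card_sub_one_eq_one m m0]
    have li := mul_inv_cancel₀ l0
    refine w_of (n := Fintype.card F / 2) (x := ⟨diagonal ![l, l⁻¹], by simp [l0]⟩) (t := ⟨!![0, 1; -1, 0], by simp⟩)
      (Nat.odd_iff.2 (by omega)) ?_ ?_ ?_ ?_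
    · rw [diagonal_pow]
      ext a b; fin_cases a <;> fin_cases b <;> simp [l2]
    · ext a b; fin_cases a <;> fin_cases b <;> simp [mul_apply, diagonal_apply, l0]
    · intro c k
      have k0 := congrFun (congrFun k 0) 0
      have k1 := congrFun (congrFun k 1) 1
      simp only [diagonal_apply_eq, cons_val_zero, cons_val_one, Matrix.smul_apply, one_apply_eq] at k0 k1
      exact l1 (by rw [← li, k1, ← k0])
    · intro y c d dt c1 d1 a b
      have a0 := congrFun (congrFun a 0) 0
      have b0 := congrFun (congrFun b 0) 0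
      have b1 := congrFun (congrFun b 0) 1
      have b2 := congrFun (congrFun b 1) 0
      rw [det_fin_two] at dt
      simp only [diagonal_mul, mul_diagonal, Matrix.smul_apply, cons_val_zero, cons_val_one, smul_eq_mul] at b0 b1 b2
      simp only [mul_apply, Fin.sum_univ_two, Matrix.smul_apply, one_apply_eq, smul_eq_mul, mul_one] at a0
      obtain rfl : c = 1 := by
        by_contra n
        have e := mul_self_eq_one_iff.1 c1 |>.resolve_left n
        subst e
        have e1 : y 0 0 = 0 := mul_left_cancel₀ (mul_ne_zero h2 l0) (by linear_combination b0)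
        have e2 : y 0 1 ≠ 0 := fun e => by simp [e, e1] at dt
        exact ns l (mul_left_cancel₀ e2 (by linear_combination l * b1 - y 0 1 * li))
      have e1 : y 0 1 = 0 := mul_left_cancel₀ (sub_ne_zero.2 l1) (by linear_combination l * b1 + y 0 1 * li)
      have e2 : y 1 0 = 0 := mul_left_cancel₀ (sub_ne_zero.2 l1) (by linear_combination -l * b2 + y 1 0 * li)
      rw [e1] at a0 dt
      obtain rfl : d = 1 := (mul_self_eq_one_iff.1 d1).resolve_right fun e => ns (y 0 0) (by linear_combination a0 + e)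
      exact ⟨e1, e2, by linear_combination y 0 0 * dt - y 1 1 * a0⟩

theorem gw : GW.{u} := fun {X} _ _ _ hX T n hn e => by
  have : Group.IsPerfect X := ⟨((inferInstance : (commutator X).Normal).eq_bot_or_eq_top).resolve_left fun k =>
    hX ⟨⟨fun a b => commutatorElement_eq_one_iff_mul_comm.1
      (mem_bot.1 (k ▸ commutator_mem_commutator (mem_top a) (mem_top b)))⟩⟩⟩
  have o : oddCore X = ⊥ := ((inferInstance : (oddCore X).Normal).eq_bot_or_eq_top).resolve_right fun k => by
    have a := H1.odd_card_oddCore (G := X)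
    obtain ⟨e⟩ := e
    have b := card_subgroup_dvd_card (T : Subgroup X)
    rw [Nat.card_congr e.toEquiv, DihedralGroup.nat_card] at b
    rw [k, Subgroup.card_top] at a
    exact Nat.not_even_iff_odd.2 a (even_iff_two_dvd.2 ((dvd_mul_right 2 n).trans b))
  have f : X ≃* X ⧸ oddCore X := (QuotientGroup.quotientBot.symm.trans (QuotientGroup.quotientMulEquivOfEq o.symm))
  obtain ⟨x, t, ⟨a, b, c⟩, d⟩ : W X := by
    rcases Cfsg.Agent.S0483.result T n hn e with ⟨F, _, _, a, b, ⟨g⟩⟩ | ⟨⟨g⟩⟩
    · exact (w_psl a b).congr (f.trans g)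
    · exact w_a7.congr (f.trans g)
  exact ⟨x, t, ⟨a, b, c⟩, d⟩

end H26.RL
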