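import Cfsg.Agent.H22.SB1

/-! Point stabilizers of primitive groups: the numerical steps. -/

set_option autoImplicit false
set_option synthInstance.maxSize 4000

namespace H26.SB
open H22.SB
open scoped Nat

variable {d k h o c g G X : ℕ}

theorem ind {P : ℕ → Prop} (m : ℕ) (b : P m) (s : ∀ n, m ≤ n → P n → P (n + 1)) {n : ℕ} (l : m ≤ n) : P n :=
  Nat.le_induction b s n l

theorem f4 (l : 8 ≤ d) : d ^ 4 ≤ (d - 1)! := by
  obtain ⟨n, rfl⟩ : ∃ n, d = n + 1 := ⟨d - 1, by omega⟩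
  refine ind (P := fun n => (n + 1) ^ 4 ≤ n !) 7 (by decide) (fun n l ih => ?_) (by omega)
  calc (n + 1 + 1) ^ 4 ≤ (2 * (n + 1)) ^ 4 / 2 := by
        rw [Nat.le_div_iff_mul_le two_pos]; nlinarith [Nat.zero_le (n ^ 4), Nat.zero_le (n ^ 3), sq_nonneg n]
    _ = 8 * (n + 1) ^ 4 := by rw [mul_pow]; omega
    _ ≤ _ := Nat.mul_le_mul (by omega) ih

theorem f5 (l : 11 ≤ d) : 16 * d ^ 5 ≤ (d - 1)! := by
  obtain ⟨n, rfl⟩ : ∃ n, d = n + 1 := ⟨d - 1, by omega⟩
  refine ind (P := fun n => 16 * (n + 1) ^ 5 ≤ n !) 10 (by decide) (fun n l ih => ?_) (by omega)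
  have : 2 * (n + 1 + 1) ≤ 3 * (n + 1) := by omega
  have := Nat.pow_le_pow_left this 5
  rw [mul_pow, mul_pow] at this
  calc 16 * (n + 1 + 1) ^ 5 ≤ 8 * (16 * (n + 1) ^ 5) := by omega
    _ ≤ _ := Nat.mul_le_mul (by omega) ih

theorem W4 (l : 8 ≤ d) : d ^ (4 * d) ≤ W d := by
  rw [pow_mul]
  exact (Nat.pow_le_pow_left (f4 l) d).trans (Nat.le_mul_of_pos_left _ d.factorial_pos)

theorem W12 (l : 5 ≤ d) : d ^ 12 ≤ W d := by
  by_cases e : 8 ≤ d
  · exact (Nat.pow_le_pow_right (by omega) (by omega)).trans (W4 e)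
  · interval_cases d <;> decide

theorem np : NP := fun p f n d h e p2 f1 n2 d4 l c => by
  have q2 : 2 ^ f ≤ p ^ f := Nat.pow_le_pow_left p2 f
  have f2 : 2 * f ≤ 2 ^ f := by
    obtain ⟨m, rfl⟩ : ∃ m, f = m + 1 := ⟨f - 1, by omega⟩
    have := m.lt_two_pow_self
    rw [pow_succ]; omega
  have q0 : 2 ≤ p ^ f := by omega
  generalize p ^ f = q at *
  have l1 : h * (d + 1) ≤ q ^ n ^ 2 := by
    obtain ⟨m, hm⟩ : ∃ m, n ^ 2 = m + 1 := ⟨n ^ 2 - 1, by have := Nat.pow_pos (n := 2) (show 0 < n by omega); omega⟩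
    rw [hm] at l ⊢
    exact l.trans (pow_succ' q m ▸ Nat.mul_le_mul_right _ (by omega))
  have k : ∀ a t, q ^ e ≤ t → n ≤ a * e → h * (d + 1) ≤ t ^ (a * a * e) := fun a t x y =>
    l1.trans ((Nat.pow_le_pow_right (by omega) (by nlinarith : n ^ 2 ≤ e * (a * a * e))).trans (by
      rw [pow_mul]; exact Nat.pow_le_pow_left x _))
  have e2 : 2 ^ e ≤ q ^ e := Nat.pow_le_pow_left q0 e
  by_cases d8 : 8 ≤ d
  · have t : q ^ e ≤ d := by omega
    have e9 : 9 * e ≤ 4 * d := by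
      by_cases e3 : 3 ≤ e
      · have := ind (P := fun e => 9 * e ≤ 4 * 2 ^ e) 3 (by decide) (fun n l ih => by rw [pow_succ]; omega) e3
        omega
      · omega
    exact (Nat.le_mul_of_pos_right _ d.succ_pos).trans ((k 3 d t (by omega)).trans
      ((Nat.pow_le_pow_right (by omega) e9).trans (W4 d8)))
  have e3 : e < 3 := (Nat.pow_lt_pow_iff_right one_lt_two).1 (by omega)
  rcases c with ⟨a, b⟩ | ⟨a, b⟩
  · have := (k 2 d a b).trans (Nat.pow_le_pow_right (by omega) (by omega : _ ≤ 8))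
    interval_cases d <;> norm_num [W, Nat.factorial] <;> omega
  · have e2 : e < 2 := (Nat.pow_lt_pow_iff_right one_lt_two).1 (by omega)
    have := (k 3 3 (by omega) b).trans (Nat.pow_le_pow_right (by omega) (by omega : _ ≤ 9))
    interval_cases d <;> norm_num [W, Nat.factorial] <;> omega

theorem n3 : N3 := fun q f n d h fq q2 n2 d4 l c => by
  obtain ⟨n, rfl⟩ : ∃ m, n = m + 1 := ⟨n - 1, by omega⟩
  rcases Nat.eq_zero_or_pos f with rfl | f0
  · omega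
  have c1 : q ^ n ≤ 2 * d * (n + 1) ^ 2 := by
    refine Nat.le_of_mul_le_mul_right ?_ (show 0 < q by omega)
    have a := Nat.mul_le_mul_left ((q + 1) * d * (n + 1)) (min_le_left (n + 1) (q + 1))
    have b : 1 ≤ d * (n + 1) ^ 2 := Nat.mul_pos (by omega) (by positivity)
    rw [← pow_succ]
    nlinarith
  have m1 : n ≤ f * n := Nat.le_mul_of_pos_left _ f0
  have c2 : 2 ^ (f * n) ≤ 2 * d * (f * n + 1) ^ 2 := by
    rw [pow_mul]
    exact (Nat.pow_le_pow_left fq n).trans (c1.trans (by gcongr))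
  have l1 : h ≤ 4 * d * (f * n) * (f * n + 1) ^ 2 := l.trans (by
    calc 2 * f * (n + 1) ^ 3 * d = 2 * d * (f * (n + 1)) * (n + 1) ^ 2 := by ring
      _ ≤ 2 * d * (f * (2 * n)) * (f * n + 1) ^ 2 := by gcongr; omega
      _ = _ := by ring)
  generalize f * n = m at *
  have m2 : m ≤ 2 * d + 1 := by
    by_contra! x
    have := ind (P := fun m => (m - 2) * (m + 1) ^ 2 < 2 ^ m) 10 (by decide) (fun n l ih => by
      obtain ⟨n, rfl⟩ : ∃ m, n = m + 2 := ⟨n - 2, by omega⟩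
      simp only [Nat.add_sub_cancel, show n + 2 + 1 - 2 = n + 1 from rfl] at *
      rw [pow_succ 2]
      have : 8 * n ^ 2 ≤ n ^ 3 := by rw [pow_succ' n 2]; exact Nat.mul_le_mul_right _ (by omega)
      nlinarith) (show 10 ≤ m by omega)
    have := Nat.mul_le_mul_right ((m + 1) ^ 2) (show 2 * d ≤ m - 2 by omega)
    omega
  have l2 : h ≤ 4 * d * (2 * d + 1) * (2 * d + 1 + 1) ^ 2 := l1.trans (by gcongr)
  rcases d4.eq_or_lt with rfl | d5
  · exact l2.trans (by decide)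
  · refine l2.trans (le_trans ?_ (W12 d5))
    calc _ ≤ d ^ 2 * d ^ 2 * (d ^ 2) ^ 2 := by gcongr <;> nlinarith
      _ = d ^ 8 := by ring
      _ ≤ _ := Nat.pow_le_pow_right (by omega) (by omega)

theorem n4 : N4 := fun r k n d h a b rp rd d4 e eh la lb c4 c => by
  have r2 := rp.two_le
  have n2 : n ≤ d + 2 := c.elim (fun ⟨x, y⟩ => by
    have : r ^ k ≤ 2 ^ 4 := x ▸ Nat.pow_le_pow_right two_pos y
    nlinarith) id
  have b1 : b ≤ (r ^ k) ^ k := (Nat.le_of_dvd (Finset.prod_pos fun i hi => Nat.sub_pos_of_lt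
    (Nat.pow_lt_pow_right r2 (Finset.mem_range.1 hi))) lb).trans (by
      simpa using Finset.prod_le_pow_card (Finset.range k) _ _ fun i _ => Nat.sub_le (r ^ k) (r ^ i))
  have l : h ≤ 2 * d * (r ^ k) ^ (k + 1) := by
    rw [eh, pow_succ']
    calc r ^ k * a * b ≤ r ^ k * (2 * d) * (r ^ k) ^ k := by gcongr
      _ = _ := by ring
  have N : r ^ k ≤ (d + 2) ^ 2 := e ▸ Nat.pow_le_pow_left n2 2
  have k2 : 2 ^ k ≤ (d + 2) ^ 2 := (Nat.pow_le_pow_left r2 k).trans N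
  by_cases d8 : 8 ≤ d
  · have kd : k + 2 ≤ d := by
      by_contra! x
      have := ind (P := fun d => 2 * (d + 2) ^ 2 < 2 ^ d) 8 (by decide) (fun n l ih => by rw [pow_succ 2]; nlinarith) d8
      have := Nat.pow_le_pow_right two_pos (show d ≤ k + 1 by omega)
      rw [pow_succ] at this
      omega
    refine l.trans (le_trans ?_ (W4 d8))
    calc _ ≤ d ^ 2 * (d ^ 4) ^ (k + 1) := Nat.mul_le_mul (by nlinarith) (Nat.pow_le_pow_left
          (N.trans (by rw [show d ^ 4 = (d ^ 2) ^ 2 by ring]; gcongr; nlinarith)) _)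
      _ = d ^ (2 + 4 * (k + 1)) := by ring
      _ ≤ _ := Nat.pow_le_pow_right (by omega) (by omega)
  by_cases d6 : 6 ≤ d
  · have k7 : k < 7 := (Nat.pow_lt_pow_iff_right one_lt_two).1 (k2.trans_lt (by nlinarith))
    have := l.trans (Nat.mul_le_mul_left _ ((Nat.pow_le_pow_left N _).trans (Nat.pow_le_pow_right (by positivity) k7)))
    exact this.trans (by interval_cases d <;> decide)
  have k6 : k < 6 := (Nat.pow_lt_pow_iff_right one_lt_two).1 (k2.trans_lt (by nlinarith))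
  have t : ∀ d < 6, ∀ r ≤ d, ∀ k < 6, ∀ n ≤ d + 2, 4 ≤ d → 2 ≤ r → r ≠ 4 → n ^ 2 = r ^ k →
      (d = 4 ∧ r = 2 ∧ k = 4) ∨ 2 * d * (r ^ k) ^ (k + 1) ≤ W d := by decide +kernel
  refine (t d (by omega) r rd k k6 n n2 d4 r2 (by rintro rfl; revert rp; decide) e).elim ?_ l.trans
  rintro ⟨rfl, rfl, rfl⟩
  obtain ⟨j, hj⟩ := (c4 rfl).resolve_left (by decide)
  obtain ⟨i, -, rfl⟩ := (Nat.dvd_prime_pow Nat.prime_two).1 (show b ∣ 2 ^ j from hj ▸ eh ▸ dvd_mul_left _ _)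
  have : 2 ^ i ∣ 64 := (Nat.Coprime.pow_left i (by decide : Nat.Coprime 2 315)).dvd_of_dvd_mul_right lb
  have := Nat.le_of_dvd (by decide) this
  rw [eh]
  calc _ ≤ 2 ^ 4 * (2 * 4) * 64 := by gcongr
    _ ≤ _ := by decide

/-- the largest number of blocks for small `d` -/
def K (d : ℕ) : ℕ := if d = 4 then 4 else if d ≤ 6 then 6 else 10

theorem kK (d4 : 4 ≤ d) (l : d < 11) (pr : ∀ l, l.Prime → l ≠ 2 → l ≤ k → l ≤ d) : k ≤ K d := by
  have a := pr 5 (by decide) (by decide)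
  have b := pr 7 (by decide) (by decide)
  have c := pr 11 (by decide) (by decide)
  unfold K
  split_ifs <;> omega

theorem k2d (d4 : 4 ≤ d) (pr : ∀ l, l.Prime → l ≠ 2 → l ≤ k → l ≤ d) : k ≤ 2 * d := by
  obtain ⟨p, hp, a, b⟩ := Nat.exists_prime_lt_and_le_two_mul d (by omega)
  have := pr p hp (by omega)
  omega

theorem c1 {j : ℕ} (o1 : 1 ≤ o) (j2 : 2 ≤ j) (jk : j < k) (l : o ^ j * k.choose j ≤ d * k * c) : o ^ 2 ≤ d * c := by
  have : k ≤ k.choose j := by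
    obtain ⟨m, rfl⟩ : ∃ m, k = m + 1 := ⟨k - 1, by omega⟩
    obtain ⟨j, rfl⟩ : ∃ i, j = i + 1 := ⟨j - 1, by omega⟩
    clear l
    induction m generalizing j with
    | zero => omega
    | succ m ih =>
      rw [Nat.choose_succ_succ']
      rcases Nat.eq_or_lt_of_le (show j + 1 ≤ m + 1 by omega) with e | e
      · obtain rfl : j = m := by omega
        simp
      · have := ih j j2 e
        have := Nat.choose_pos (show j ≤ m + 1 by omega)
        omega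
  refine Nat.le_of_mul_le_mul_right ?_ (show 0 < k by omega)
  calc o ^ 2 * k ≤ o ^ j * k.choose j := Nat.mul_le_mul (Nat.pow_le_pow_right o1 j2) this
    _ ≤ _ := l.trans_eq (by ring)

theorem lg (l : 11 ≤ d) (pr : ∀ l, l.Prime → l ≠ 2 → l ≤ k → l ≤ d) (a : h ≤ 2 * (k ! * G ^ k)) (cn : Cn o c g d k) (o1 : 1 ≤ o)
    (b1 : o ^ 2 ≤ d * c → G ≤ 2 * d ^ 2) (b2 : G ≤ o ^ 2) (b3 : o ^ k ≤ g * (d * k * c) → o ^ k ≤ 16 * d ^ 6) : h ≤ W d := by
  have k2 := k2d (by omega) pr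
  have p : 1 ≤ 2 * d ^ 2 := by nlinarith
  have x : G ^ k ≤ (2 * d ^ 2) ^ (2 * d) := by
    rcases cn with ⟨j, j2, jk, e⟩ | e
    · exact (Nat.pow_le_pow_left (b1 (c1 o1 j2 jk e)) k).trans (Nat.pow_le_pow_right p k2)
    · calc G ^ k ≤ (o ^ 2) ^ k := Nat.pow_le_pow_left b2 k
        _ = (o ^ k) ^ 2 := by ring
        _ ≤ ((2 * d ^ 2) ^ 4) ^ 2 := Nat.pow_le_pow_left ((b3 e).trans (by
          rw [mul_pow, ← pow_mul]; gcongr <;> omega)) 2
        _ ≤ _ := by rw [← pow_mul]; exact Nat.pow_le_pow_right p (by omega)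
  calc h ≤ 2 ^ d * ((2 * d) ^ d * d ! * (2 * d ^ 2) ^ (2 * d)) := a.trans (Nat.mul_le_mul
        (Nat.le_self_pow (by omega) 2) (Nat.mul_le_mul ((Nat.factorial_le k2).trans (Nat.factorial_two_mul_le d)) x))
    _ = d ! * (16 * d ^ 5) ^ d := by
        rw [pow_mul, show 16 * d ^ 5 = 2 * (2 * d) * (2 * d ^ 2) ^ 2 by ring, mul_pow (2 * (2 * d)), mul_pow 2 (2 * d) d]
        ac_rfl
    _ ≤ _ := Nat.mul_le_mul_left _ (Nat.pow_le_pow_left (f5 l) d)

instance dCn (o c g d k : ℕ) : Decidable (Cn o c g d k) :=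
  decidable_of_iff ((∃ j < k, 2 ≤ j ∧ o ^ j * k.choose j ≤ d * k * c) ∨ o ^ k ≤ g * (d * k * c))
    (or_congr_left (exists_congr fun _ => and_left_comm))

theorem n1 : N1 := fun z f d h k z1 fz k2 d4 pr l cn => by
  obtain ⟨k, rfl⟩ : ∃ m, k = m + 1 := ⟨k - 1, by omega⟩
  have l1 : h ≤ 2 * f * ((k + 1)! * z ^ k) := Nat.le_of_mul_le_mul_right (l.trans_eq (by ring)) z1
  have a1 : z ^ 2 ≤ d * z → z ≤ d := fun e => Nat.le_of_mul_le_mul_right (by rwa [← sq]) z1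
  have a2 : z ^ (k + 1) ≤ (k + 1).gcd z * (d * (k + 1) * z) → z ^ k ≤ d * (k + 1) ^ 2 := fun e =>
    Nat.le_of_mul_le_mul_right (e.trans ((Nat.mul_le_mul_right _ (Nat.gcd_le_left z (m := k + 1) k.succ_pos)).trans_eq (by ring))) z1
  have zk : z ≤ z ^ k := Nat.le_self_pow (by omega) z
  by_cases d11 : 11 ≤ d
  · have := f.lt_two_pow_self
    have k2 := k2d d4 pr
    refine lg d11 pr (G := z) (l1.trans ?_) cn z1 (fun e => (a1 e).trans (by nlinarith)) (Nat.le_self_pow two_ne_zero z) fun e => ?_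
    · calc _ ≤ 2 * z * ((k + 1)! * z ^ k) := by gcongr; omega
        _ = _ := by ring
    · have t : z ^ k ≤ d * (2 * d) ^ 2 := (a2 e).trans (by gcongr)
      calc z ^ (k + 1) ≤ d * (2 * d) ^ 2 * (d * (2 * d) ^ 2) := Nat.mul_le_mul t (zk.trans t)
        _ = _ := by ring
  have kk := kK d4 (by omega) pr
  have t : ∀ d < 11, ∀ k < 10, ∀ f < 11, 4 ≤ d → k + 1 ≤ K d → (2 ^ f ≤ d + 1 → 2 * f * ((k + 1)! * d ^ k) ≤ W d) ∧
      (2 ^ f ≤ d * (k + 1) ^ 2 + 1 → 2 * f * ((k + 1)! * (d * (k + 1) ^ 2)) ≤ W d) := by decide +kernel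
  have k10 : k < 10 := by unfold K at kk; split_ifs at kk <;> omega
  have f11 : z ≤ 1000 → f < 11 := fun e => (Nat.pow_lt_pow_iff_right one_lt_two).1 (by omega)
  rcases cn with ⟨j, j2, jk, e⟩ | e
  · have := a1 (c1 z1 j2 jk e)
    exact l1.trans (le_trans (by gcongr) ((t d (by omega) k k10 f (f11 (by omega)) d4 kk).1 (by omega)))
  · have := a2 e
    have : d * (k + 1) ^ 2 ≤ 10 * 10 ^ 2 := by gcongr <;> omega
    exact l1.trans (le_trans (by gcongr) ((t d (by omega) k k10 f (f11 (by omega)) d4 kk).2 (by omega)))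

theorem k11 (e : k ≤ K d) : k < 11 := by unfold K at e; split_ifs at e <;> omega

theorem n2l : N2L := fun p d h k pp pd k2 d4 pr l cn => by
  have p2 := pp.two_le
  by_cases d11 : 11 ≤ d
  · have o1 : 1 ≤ p ^ 2 - 1 := Nat.le_sub_of_add_le (by nlinarith)
    have g : (p ^ 2 - 1) * (p ^ 2 - p) ≤ (p ^ 2 - 1) ^ 2 := by rw [sq (_ - 1)]; gcongr; omega
    have o2 : p ^ 2 - 1 ≤ d ^ 2 := (Nat.sub_le _ _).trans (by gcongr)
    have k2 := k2d d4 pr
    refine lg d11 pr ((Nat.le_mul_of_pos_right _ (by omega)).trans l) cn o1 (fun e => g.trans ?_) g fun e => e.trans ?_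
    · have : p ^ 2 - 1 ≤ d := Nat.le_of_mul_le_mul_right (by rwa [← sq]) o1
      nlinarith
    · calc _ ≤ 1 * (d * (2 * d) * d ^ 2) := by gcongr
        _ = 2 * d ^ 4 := by ring
        _ ≤ _ := by gcongr <;> omega
  have kk := kK d4 (by omega) pr
  have t : ∀ d < 11, ∀ p ≤ d, ∀ k < 11, 4 ≤ d → 2 ≤ p → 2 ≤ k → k ≤ K d → Cn (p ^ 2 - 1) (p ^ 2 - 1) 1 d k →
      2 * (k ! * ((p ^ 2 - 1) * (p ^ 2 - p)) ^ k) ≤ W d * (p - 1) := by decide +kernel
  exact Nat.le_of_mul_le_mul_right (l.trans (t d (by omega) p pd k (k11 kk) d4 p2 k2 kk cn)) (by omega)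

theorem n2u : N2U := fun p d h k pp pd k2 d4 pr l cn => by
  have p2 := pp.two_le
  by_cases d11 : 11 ≤ d
  · have o1 : 3 ≤ p ^ 2 - 1 := Nat.le_sub_of_add_le (by nlinarith)
    have o3 : p + 1 ≤ p ^ 2 - 1 := Nat.le_sub_of_add_le (by nlinarith)
    have o2 : p ^ 2 - 1 ≤ d ^ 2 := (Nat.sub_le _ _).trans (by gcongr)
    have k2 := k2d d4 pr
    generalize p ^ 2 - 1 = x at *
    have g : 2 * (p * (p + 1) * x) ≤ (p * x) ^ 2 := by
      calc _ = 2 * (p + 1) * (p * x) := by ring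
        _ ≤ p * x * (p * x) := by gcongr
        _ = _ := by ring
    refine lg d11 pr ((Nat.le_mul_of_pos_right _ (by omega)).trans l) cn (by nlinarith) (fun e => ?_) (by omega) fun e => e.trans ?_
    · have : p * x ≤ 2 * d := Nat.le_of_mul_le_mul_right (c := p * x) (by
        calc _ = (p * x) ^ 2 := by ring
          _ ≤ d * ((2 * p) * x) := e.trans (by gcongr; omega)
          _ = _ := by ring) (by nlinarith)
      have := Nat.pow_le_pow_left this 2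
      nlinarith
    · calc _ ≤ (2 * d) * (d * (2 * d) * ((2 * d) * d ^ 2)) := by gcongr <;> omega
        _ = 8 * d ^ 6 := by ring
        _ ≤ _ := by omega
  have kk := kK d4 (by omega) pr
  have t : ∀ d < 11, ∀ p ≤ d, ∀ k < 11, 4 ≤ d → 2 ≤ p → 2 ≤ k → k ≤ K d →
      Cn (p * (p ^ 2 - 1)) ((p + 1) * (p ^ 2 - 1)) (p + 1) d k →
      2 * (k ! * (p * (p + 1) * (p ^ 2 - 1)) ^ k) ≤ W d * (p + 1) := by decide +kernel
  exact Nat.le_of_mul_le_mul_right (l.trans (t d (by omega) p pd k (k11 kk) d4 p2 k2 kk cn)) (by omega)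

theorem n2t : N2T := fun d h k k2 d4 pr l cn => by
  by_cases d11 : 11 ≤ d
  · have k2 := k2d d4 pr
    refine lg d11 pr ((Nat.le_mul_of_pos_right _ (by omega)).trans l) cn (by omega) (fun e => by nlinarith) (by omega)
      fun e => e.trans ?_
    calc _ ≤ 1 * (d * (2 * d) * d ^ 2) := by gcongr; nlinarith
      _ = 2 * d ^ 4 := by ring
      _ ≤ _ := by gcongr <;> omega
  have kk := kK d4 (by omega) pr
  have t : ∀ d < 11, ∀ k < 11, 4 ≤ d → 2 ≤ k → k ≤ K d → Cn 27 36 1 d k → 2 * (k ! * 648 ^ k) ≤ W d * 3 := by decide +kernel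
  exact Nat.le_of_mul_le_mul_right (l.trans (t d (by omega) k (k11 kk) d4 k2 kk cn)) (by omega)

end H26.SB
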