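import Cfsg.Agent.H28.BD1
import Cfsg.Agent.H14.SM1

/-! Point stabilizers of primitive groups: block systems. -/

set_option autoImplicit false
set_option linter.unusedSectionVars false

namespace H26.SB
open Matrix H22.SB
open scoped Nat

universe u
variable {F : Type} [Field F] [Fintype F] {n k : ℕ} (Φ : Fm F) {𝒟 : Finset (Mat n F)} {β : Fin n → Fin k}

open Classical in
theorem Sys.fix (h : Sys 𝒟) {e e' : Mat n F} (he : e ∈ 𝒟) (he' : e' ∈ 𝒟) {v : Fin n → F} (a : e' *ᵥ v = v) :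
    e *ᵥ v = if e = e' then v else 0 := by
  split_ifs with c
  · rw [c, a]
  · rw [← a, mulVec_mulVec, h.orth e he e' he' c, zero_mulVec]

theorem Sys.sm (h : Sys 𝒟) (v : Fin n → F) : ∑ e ∈ 𝒟, e *ᵥ v = v := by rw [← sum_mulVec, h.sum, one_mulVec]

theorem onf (hu : Φ.u) (h : Sys 𝒟) (ha : ∀ e ∈ 𝒟, Φ.adj e = e) (m : ℕ) (l : m ≤ n) : ∃ v : Fin m → Fin n → F,
    (∀ i j, Φ.B (v i) (v j) = if i = j then 1 else 0) ∧ ∀ i, ∃ e ∈ 𝒟, e *ᵥ v i = v i := by
  induction m with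
  | zero => exact ⟨0, fun i => i.elim0, fun i => i.elim0⟩
  | succ m ih =>
    obtain ⟨v, o, d⟩ := ih (by omega)
    obtain ⟨u, hu', u0⟩ := (Submodule.ne_bot_iff _).1 (LinearMap.ker_ne_bot_of_finrank_lt
      (f := (Matrix.of fun i => Φ.c ∘ v i).mulVecLin) (by simp; omega))
    have pu : ∀ i, Φ.B u (v i) = 0 := fun i => (dotProduct_comm _ _).trans (congrFun hu' i)
    obtain ⟨e, he, e0⟩ : ∃ e ∈ 𝒟, e *ᵥ u ≠ 0 := by
      by_contra! c
      exact u0 (by rw [← Sys.sm h u, Finset.sum_eq_zero c])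
    have ee : ∀ x, e *ᵥ (e *ᵥ x) = e *ᵥ x := fun x => by rw [mulVec_mulVec, h.idem e he]
    have sa : ∀ x y, Φ.B (e *ᵥ x) y = Φ.B x (e *ᵥ y) := fun x y => by rw [Φ.B_mulVec, ha e he]
    have ev : ∀ i, e *ᵥ v i = v i ∨ e *ᵥ v i = 0 := fun i => by
      obtain ⟨e', he', a⟩ := d i
      rw [Sys.fix h he he' a]
      split_ifs <;> simp
    have p1 : ∀ i, Φ.B (e *ᵥ u) (v i) = 0 := fun i => by
      rw [sa]; rcases ev i with k | k <;> rw [k]
      exacts [pu i, Φ.B_zero_right _]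
    obtain ⟨w, w1, w2, w0⟩ : ∃ w, e *ᵥ w = w ∧ (∀ i, Φ.B w (v i) = 0) ∧ Φ.B w w ≠ 0 := by
      by_contra! c
      refine e0 (Φ.B_nd fun y => by_contra fun h0 => ?_)
      let z := e *ᵥ y - ∑ i, Φ.B (e *ᵥ y) (v i) • v i
      have bs : ∀ x, Φ.B z x = Φ.B (e *ᵥ y) x - ∑ i, Φ.B (e *ᵥ y) (v i) * Φ.B (v i) x := fun x => by
        simp only [z, Φ.B_dot, sub_dotProduct, sum_dotProduct, smul_dotProduct, smul_eq_mul]
      have z1 : e *ᵥ z = z := by
        simp only [z, mulVec_sub, ee, mulVec_sum, mulVec_smul]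
        refine congrArg _ (Finset.sum_congr rfl fun i _ => ?_)
        rcases ev i with k | k
        · rw [k]
        · rw [sa, k, Φ.B_zero_right, zero_smul, zero_smul]
      have z2 : ∀ i, Φ.B z (v i) = 0 := fun i => by simp [bs, o]
      have z3 : Φ.B (e *ᵥ u) z = Φ.B (e *ᵥ u) y := by
        have : ∀ i, Φ.B (v i) (e *ᵥ u) = 0 := fun i => by rw [← Φ.B_symm, p1, map_zero]
        rw [← Φ.B_symm, bs, ← Φ.B_symm y]
        simp [this, sa, ee]
      rw [← z3] at h0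
      obtain ⟨t, ht⟩ := H28.SB.tr Φ hu (a := 1) (map_one _)
      have := c ((t / Φ.B (e *ᵥ u) z) • e *ᵥ u + z) (by rw [mulVec_add, mulVec_smul, ee, z1]) fun i => by
        rw [Φ.B_add_left, Φ.B_smul_left, p1, z2]; simp
      have c0 : Φ.B z (e *ᵥ u) ≠ 0 := by rw [← Φ.B_symm]; simpa using h0
      simp only [Φ.B_add_left, Φ.B_add_right, Φ.B_smul_left, Φ.B_smul_right, c _ (ee u) p1, c _ z1 z2, map_div₀, Φ.B_symm] at this
      field_simp at this
      apply mul_ne_zero h0 c0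
      linear_combination this - Φ.B (e *ᵥ u) z * Φ.B z (e *ᵥ u) * ht
    obtain ⟨t, ht⟩ := H28.SB.nm Φ hu (a := (Φ.B w w)⁻¹) (by rw [map_inv₀, Φ.B_symm])
    have w3 : ∀ i, Φ.B (v i) w = 0 := fun i => by rw [← Φ.B_symm, w2, map_zero]
    refine ⟨Fin.cons (t • w) v, fun i j => ?_, fun i => ?_⟩
    · refine Fin.cases ?_ (fun i => ?_) i <;> refine Fin.cases ?_ (fun j => ?_) j <;>
        simp [Φ.B_smul_left, Φ.B_smul_right, w2, w3, o, ← mul_assoc, ht, w0, eq_comm (a := (0 : Fin (m + 1)))]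
    · exact Fin.cases ⟨e, he, by simp [mulVec_smul, w1]⟩ d i

theorem cols (h : Sys 𝒟) (ha : Φ.u → ∀ e ∈ 𝒟, Φ.adj e = e) : ∃ g ∈ Φ.Γ (Fin n), ∀ j, ∃ e ∈ 𝒟,
    e *ᵥ (g : Mat n F).col j = (g : Mat n F).col j := by
  by_cases hu : Φ.u
  · obtain ⟨v, o, d⟩ := onf Φ hu h (ha hu) n le_rfl
    have a : Φ.adj (of v)ᵀ * (of v)ᵀ = 1 := by
      ext i j
      simpa [mul_apply, Φ.adj_apply, Fm.B, one_apply, mul_comm, eq_comm] using o j i
    exact ⟨Fm.mkG (of v)ᵀ (right_ne_zero_of_mul (by rw [← det_mul, a, det_one]; exact one_ne_zero)), fun _ => a, d⟩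
  · have s : ⊤ ≤ Submodule.span F {v | ∃ e ∈ 𝒟, e *ᵥ v = v} := fun v _ => Sys.sm h v ▸ Submodule.sum_mem _ fun e he =>
      Submodule.subset_span ⟨e, he, by rw [mulVec_mulVec, h.idem e he]⟩
    let b := (Module.Basis.ofSpan s).reindex ((Module.Basis.ofSpan s).indexEquiv (Pi.basisFun F (Fin n)))
    have := (linearIndependent_cols_iff_isUnit (A := (of b)ᵀ)).1 b.linearIndependent
    exact ⟨this.unit, fun c => (hu c).elim, fun j => Module.Basis.ofSpan_subset s ⟨_, (Module.Basis.reindex_apply _ _ j).symm⟩⟩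

theorem nf : NF := fun F _ _ Φ n 𝒟 h ha => by
  classical
  obtain ⟨g, hg, c⟩ := cols Φ h ha
  choose e he c using c
  let β : Fin n → Fin 𝒟.card := fun j => 𝒟.equivFin ⟨e j, he j⟩
  have k : ∀ i, (g : Mat n F) * eb F β i * ((g⁻¹ : GL (Fin n) F) : Mat n F) = 𝒟.equivFin.symm i := fun i => by
    rw [Units.mul_inv_eq_iff_eq_mul]
    ext a j
    have := congrFun (Sys.fix h (𝒟.equivFin.symm i).2 (he j) (c j)) a
    have b : (𝒟.equivFin.symm i).1 = e j ↔ β j = i := by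
      rw [eq_comm (a := β j), ← Equiv.symm_apply_eq, Subtype.ext_iff]
    rw [eb, mul_diagonal, mul_apply]
    refine Eq.trans ?_ this.symm
    simp only [b]
    split_ifs <;> simp
  refine ⟨g, hg, β, fun i => by_contra fun c => h.ne _ (𝒟.equivFin.symm i).2 ?_, ?_, fun m r i => ?_⟩
  · have : eb F β i = 0 := by ext a b; simp [eb, diagonal_apply, not_exists.1 c a]
    rw [← k, this, mul_zero, zero_mul]
  · ext x
    simp only [k]
    exact ⟨fun hx => ⟨𝒟.equivFin ⟨x, hx⟩, by simp⟩, by rintro ⟨i, rfl⟩; exact (𝒟.equivFin.symm i).2⟩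
  · rw [← r _ (𝒟.equivFin.symm i).2, ← k, rank_mul_eq_left_of_isUnit_det _ _ (Matrix.isUnits_det_units _),
      rank_mul_eq_right_of_isUnit_det _ _ (Matrix.isUnits_det_units _), eb, rank_diagonal]
    exact Fintype.card_congr (Equiv.subtypeEquivRight fun j => by simp)

theorem bd_iff {x : Mat n F} : (∀ i, x * eb F β i = eb F β i * x) ↔ ∀ a b, β a ≠ β b → x a b = 0 := by
  refine ⟨fun h a b c => by simpa [eb, c] using congrFun (congrFun (h (β b)) a) b, fun h i => ?_⟩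
  ext a b
  by_cases c : β a = β b
  · simp [eb, c]
  · simp [eb, h a b c]

theorem bd_mul {x : Mat n F} (h : ∀ a b, β a ≠ β b → x a b = 0) (y : Mat n F) (i : Fin k) :
    x.toBlock (β · = i) (β · = i) * y.toBlock (β · = i) (β · = i) = (x * y).toBlock (β · = i) (β · = i) := by
  have : (x.toBlock (β · = i) fun j => ¬ β j = i) = 0 := by
    ext a b
    exact h _ _ fun e => b.2 (e.symm.trans a.2)
  rw [toBlock_mul_eq_add _ (β · = i), this, Matrix.zero_mul, add_zero]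

theorem ub : UB := fun F _ _ Φ n k β _ => by
  classical
  set H := St (Set.range (eb F β)) ⊓ Φ.Γ (Fin n)
  let χ : H →* Equiv.Perm (Set.range (eb F β)) := MonoidHom.toHomPerm
    { toFun := fun g x => ⟨_, (g.2.1 x).1 x.2⟩
      map_one' := funext fun x => Subtype.ext (by simp; rfl)
      map_mul' := fun a b => funext fun x => Subtype.ext (by
        change _ = (a.1 : Mat n F) * (b.1 * x * (b.1⁻¹ : GL _ F)) * (a.1⁻¹ : GL _ F)
        simp [Matrix.mul_assoc]) }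
  have z : ∀ g : χ.ker, ∀ a b, β a ≠ β b → (g.1.1 : Mat n F) a b = 0 := fun g => bd_iff.1 fun i => by
    have : χ g.1 ⟨_, i, rfl⟩ = ⟨_, i, rfl⟩ := by rw [g.2]; rfl
    exact (Units.mul_inv_eq_iff_eq_mul _).1 (congrArg Subtype.val this)
  let ψ : χ.ker → ∀ i, Φ.Γ (Fb β i) := fun g i => ⟨⟨(g.1.1 : Mat n F).toBlock (β · = i) (β · = i),
    ((g⁻¹).1.1 : Mat n F).toBlock (β · = i) (β · = i), by rw [bd_mul (z g)]; simp [toBlock_one_self],
      by rw [bd_mul (z g⁻¹)]; simp [toBlock_one_self]⟩, fun hu => by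
    have := bd_mul (z g⁻¹) (g.1.1 : Mat n F) i
    rw [show ((g⁻¹).1.1 : Mat n F) = Φ.adj (g.1.1 : Mat n F) from (Fm.adj_Γ g.1.2.2 hu).symm, g.1.2.2 hu,
      toBlock_one_self] at this
    exact this⟩
  have i : Function.Injective ψ := fun g g' e => Subtype.ext (Subtype.ext (Units.ext (Matrix.ext fun a b => by
    by_cases c : β a = β b
    · exact congrArg (fun x => (x (β b)).1.1 ⟨a, c⟩ ⟨b, rfl⟩) e
    · rw [z g a b c, z g' a b c])))
  rw [← χ.ker.index_mul_card, Subgroup.index_ker, ← Nat.card_pi]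
  refine Nat.mul_le_mul ((Subgroup.card_le_card_group _).trans ?_) (Nat.card_le_card_of_injective ψ i)
  rw [Nat.card_perm]
  exact Nat.factorial_le (by simpa using Nat.card_le_card_of_surjective _ (Set.rangeFactorization_surjective (f := eb F β)))

theorem pb : PB.{u} := fun F _ _ Φ G _ _ n X k β b => by
  have mx := X.MX b.inv (H28.SB.ps F Φ n k β X.u3 b.sj b.two)
  have key : ∀ (s : Φ.S (Fin n)) l, l.Prime → s.1 ∈ St (Set.range (eb F β)) → (∀ m, Sc (mt s ^ m) → l ∣ m) → l ≤ X.d :=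
    fun s l hl a c => X.pr l hl ((c _ (mt_pow s _ ▸ (X.ker _).1 (by rw [map_pow, pow_orderOf_eq_one]))).trans
      (Subgroup.orderOf_dvd_natCard _ ((mx s).2 a)))
  refine ⟨fun i l => ?_, fun m hm l hl l2 lk => ?_⟩
  · obtain ⟨⟨a, ha⟩, ⟨c, hc⟩, ac⟩ := Fintype.one_lt_card_iff.1 l
    replace ac : a ≠ c := fun e => ac (Subtype.ext e)
    obtain ⟨N, N0, N2, Nb, Nu⟩ : ∃ N : Mat n F, N a c ≠ 0 ∧ N * N = 0 ∧ (∀ x y, β x ≠ β y → N x y = 0) ∧
        (Φ.u → Φ.adj N = -N) := by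
      by_cases hu : Φ.u
      · obtain ⟨δ, d0, d⟩ := H14.SM.ex_δ Φ hu
        obtain ⟨t, ht⟩ := H28.SB.nm Φ hu (a := -1) (by simp)
        have t0 : t ≠ 0 := by rintro rfl; simp at ht
        let w : Fin n → F := Pi.single a 1 + Pi.single c t
        have w0 : ∀ x, β x ≠ i → w x = 0 := fun x e => by
          simp [w, ne_of_apply_ne β (ha ▸ e), ne_of_apply_ne β (hc ▸ e)]
        refine ⟨δ • vecMulVec w (Φ.c ∘ w), by simp [w, vecMulVec_apply, ac, ac.symm, d0, t0], ?_, fun x y e => ?_, fun _ => ?_⟩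
        · rw [smul_mul_smul_comm, vecMulVec_mul_vecMulVec, dotProduct_comm, ← Φ.B_dot]
          simp [w, Φ.B_add_left, Φ.B_single_left, ac, ac.symm, ht]
        · by_cases p : β x = i
          · simp [vecMulVec_apply, w0 y (p ▸ e.symm)]
          · simp [vecMulVec_apply, w0 x p]
        · ext x y; simp [Φ.adj_apply, vecMulVec_apply, d, Φ.c_c, -neg_inj]; ring
      · refine ⟨single a c 1, by simp, single_mul_single_of_ne _ _ _ _ ac.symm _, fun x y e => ?_, fun c => (hu c).elim⟩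
        exact single_apply_of_ne _ _ _ _ _ fun ⟨p, q⟩ => e (by rw [← p, ← q, ha, hc])
    refine key (H14.SM.un Φ N2 Nu) _ Φ.pp (mem_St_of_comm ?_) fun m ⟨t, e⟩ => ?_
    · rintro _ ⟨j, rfl⟩
      change (1 + N) * _ = _ * (1 + N)
      rw [add_mul, mul_add, bd_iff.2 Nb j, one_mul, mul_one]
    · have := Φ.ch
      have := congrFun (congrFun ((H14.SM.upow N2 m).symm.trans e) a) c
      exact (CharP.cast_eq_zero_iff F _ _).1 (by simpa [ac, N0] using this)
  · have := Fact.mk hl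
    obtain ⟨τ, hτ⟩ := exists_prime_orderOf_dvd_card (G := Equiv.Perm (Fin k)) l (by
      rw [Fintype.card_perm, Fintype.card_fin]; exact hl.dvd_factorial.2 lk)
    let ε : ∀ c, {a // τ (β a) = c} ≃ {a // β a = c} := fun c => (Equiv.subtypeEquivRight fun _ => τ.eq_symm_apply.symm).trans
      (Fintype.equivOfCardEq ((hm _).trans (hm _).symm))
    obtain ⟨ρ, hρ⟩ : ∃ ρ : Equiv.Perm (Fin n), ∀ a, β (ρ a) = τ (β a) := ⟨_, Equiv.ofFiberEquiv_map ε⟩
    have pw : ∀ (j : ℕ) a, β ((ρ ^ j) a) = (τ ^ j) (β a) := fun j => by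
      induction j with
      | zero => simp
      | succ j ih => intro a; rw [pow_succ', pow_succ', Equiv.Perm.mul_apply, hρ, ih, Equiv.Perm.mul_apply]
    refine key (Φ.mkS (permMatrixHom (ρ ^ 2)) (by
      rw [permMatrixHom_apply, det_permutation, map_inv, map_pow, Int.units_sq]; simp) fun _ => ?_) l hl (mem_St_of_maps ?_) ?_
    · rw [show Φ.adj (permMatrixHom (ρ ^ 2) : Mat n F) = permMatrixHom (ρ ^ 2)⁻¹ by
        ext x y; simp [Φ.adj_apply, PEquiv.toMatrix_apply, Equiv.toPEquiv_apply, Equiv.eq_symm_apply, eq_comm, apply_ite],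
        ← map_mul, inv_mul_cancel, map_one]
    · rintro _ ⟨j, rfl⟩
      refine ⟨(τ ^ 2) j, (Units.eq_mul_inv_iff_mul_eq _).2 ?_⟩
      change _ * permMatrixHom (ρ ^ 2) = permMatrixHom (ρ ^ 2) * _
      ext x y
      simp only [eb, diagonal_mul, mul_diagonal, permMatrixHom_apply, PEquiv.toMatrix_apply, Equiv.toPEquiv_apply]
      by_cases c : x = (ρ ^ 2) y
      · simp [c, pw]
      · simp [Equiv.symm_apply_eq, c]
    · rintro m ⟨t, e⟩
      rw [Fm.mt_mkS, ← map_pow, ← pow_mul] at e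
      have : τ ^ (2 * m) = 1 := Equiv.ext fun j => by
        obtain ⟨a, rfl⟩ := b.sj j
        have := congrFun (congrFun e ((ρ ^ (2 * m)) a)) a
        by_cases c : (ρ ^ (2 * m)) a = a
        · rw [← pw, c]; rfl
        · simp [c, PEquiv.toMatrix_apply, Equiv.toPEquiv_apply] at this
      exact ((Nat.coprime_primes hl Nat.prime_two).2 l2).dvd_of_dvd_mul_left (hτ ▸ orderOf_dvd_of_pow_eq_one this)

end H26.SB
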