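/-
S3159: the chunk GO.
-/
import Cfsg.Agent.H26.SX4

set_option autoImplicit false
set_option linter.unusedSectionVars false
set_option synthInstance.maxSize 4096
set_option synthInstance.maxHeartbeats 200000
open Cfsg Subgroup H19 H23.F4
open H11.TC (Ch2 cz)
open scoped commutatorElement
namespace H26.SX
universe u
variable {G : Type*} [Group G] [Finite G] {a b c d r u g x : G} {φ χ : Sp →* G} {R X Y L N : Subgroup G} {s t : tA}

/-- generation under two elements of order three whose actions commute -/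
theorem e9a (p : PiG {3}ᶜ X) (na : a ∈ N(X)) (nb : b ∈ N(X)) (a3 : a ^ 3 = 1) (b3 : b ^ 3 = 1) (ab : ⁅a, b⁆ ∈ C(X))
    (h1 : X ⊓ C[a] ≤ L) (h2 : X ⊓ C[b] ≤ L) (h3 : X ⊓ C[a * b] ≤ L) (h4 : X ⊓ C[a * b⁻¹] ≤ L) : X ≤ L := by
  have : Finite (X ⋊[MonoidHom.id _] MulAut X) := Finite.of_equiv _ SemidirectProduct.equivProd.symm
  let f : N(X) →* X ⋊[MonoidHom.id _] MulAut X := SemidirectProduct.inr.comp X.normalizerMonoidHom
  let ι : X →* X ⋊[MonoidHom.id _] MulAut X := SemidirectProduct.inl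
  have e : ∀ (c : N(X)) (x : X), f c * ι x * (f c)⁻¹ = ι ⟨c * x * c⁻¹, conj_mem_of_norm c.2 x.2⟩ := fun c x => by
    rw [← map_inv]
    exact (show f c * ι x * f c⁻¹ = _ by simp [f, ι]).trans (SemidirectProduct.inl_aut (φ := MonoidHom.id _) (X.normalizerMonoidHom c) x).symm
  have n : ∀ c, f c ∈ N(ι.range) := fun c => mem_norm_of_cj_le fun _ hx => by
    obtain ⟨_, ⟨x, rfl⟩, rfl⟩ := mem_cj'.1 hx; exact ⟨_, (e c x).symm⟩
  have k : ∀ c : N(X), X ⊓ C[c.1] ≤ L → ι.range ⊓ C[f c] ≤ (L.subgroupOf X).map ι := by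
    rintro c h _ ⟨⟨x, rfl⟩, hx⟩
    have := (e c x).symm.trans (mul_inv_eq_iff_eq_mul.2 (mem_cent1.1 hx).symm)
    exact ⟨x, h ⟨x.2, mem_cent1.2 (mul_inv_eq_iff_eq_mul.1 (congrArg Subtype.val (SemidirectProduct.inl_injective this))).symm⟩, rfl⟩
  have := e9 (a := f ⟨a, na⟩) (b := f ⟨b, nb⟩) (p.dvd (card_range_dvd ι)) (by rw [← map_pow, ← f.map_one]; congr; exact Subtype.ext a3)
    (by rw [← map_pow, ← f.map_one]; congr; exact Subtype.ext b3) (by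
      rw [← commutatorElement_eq_one_iff_commute, ← map_commutatorElement]
      exact congrArg SemidirectProduct.inr (show _ ∈ X.normalizerMonoidHom.ker by rw [normalizerMonoidHom_ker]; exact ab))
    (n _) (n _) (k _ h1) (k _ h2) (by rw [← map_mul]; exact k _ h3) (by rw [← map_inv, ← map_mul]; exact k _ h4)
  intro x hx
  obtain ⟨y, hy, e⟩ := this ⟨⟨x, hx⟩, rfl⟩
  obtain rfl := SemidirectProduct.inl_injective e
  exact hy
theorem stab1 (p : PG 2 Y) (d3 : d ^ 3 = 1) (n : d ∈ N(Y)) (ud : Commute d u) (dr : Commute d r)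
    (h : ∀ y ∈ Y, ∃ ε ∈ zpowers r, u * y * u⁻¹ = y * ε) (c : Y ⊓ C[d] ≤ C[u]) : Y ≤ C[u] := fun y hy => by
  obtain ⟨ε, ⟨i, rfl⟩, e⟩ := h y hy
  obtain ⟨k, hk, e'⟩ := lift_cent (g := y) ((p.infl C[u]).sing_ne (by decide)) d3 (norm_inf n (norm_c1 ud))
    ⟨Y.mul_mem (conj_mem_of_norm n hy) (Y.inv_mem hy), mem_cent1.2 (Eq.symm (mul_inv_eq_iff_eq_mul.1 (by
      calc _ = (u * d * u⁻¹) * (u * y * u⁻¹) * (u * d * u⁻¹)⁻¹ * (u * y * u⁻¹)⁻¹ := by group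
        _ = _ := by
          rw [← ud.eq, mul_inv_cancel_right, e, ← mul_assoc, mul_assoc (d * y), ← (dr.zpow_right i).inv_left.eq]; group)))⟩
  exact (C[u].mul_mem_cancel_left hk.2).1 (c ⟨Y.mul_mem hk.1 hy, mem_cent1.2 e'⟩)
/-- `Y` lies in a quaternion group on which `d` acts -/
def Qe (Y : Subgroup G) (r d : G) : Prop := ∀ y ∈ Y, y ∉ zpowers r → ¬ Commute y (d * y * d⁻¹) ∧
  ∀ y' ∈ Y, y' ∈ zpowers r ∨ ∃ j : Fin 3, ∃ ε ∈ zpowers r, y' = d ^ j.1 * y * (d ^ j.1)⁻¹ * ε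
theorem cjr (c : Commute g r) : g * x * g⁻¹ ∈ zpowers r ↔ x ∈ zpowers r := by
  conv_lhs => rw [← cj_of_mem_norm (cent1_le_norm_zpowers r (mem_cent1.2 c)), conj_mem_cj]
theorem Qe.cj (h : Qe Y r d) (c : Commute g r) : Qe (cj g Y) r (g * d * g⁻¹) := fun _ hy' n => by
  obtain ⟨y, hy, rfl⟩ := mem_cj'.1 hy'
  obtain ⟨h1, h2⟩ := h y hy (mt (cjr c).2 n)
  refine ⟨fun k => h1 (by simpa [mul_assoc] using k.map (MulAut.conj g⁻¹)), fun _ hz' => ?_⟩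
  obtain ⟨z, hz, rfl⟩ := mem_cj'.1 hz'
  exact (h2 z hz).imp (cjr c).2 fun ⟨j, ε, hε, e⟩ => ⟨j, _, (cjr c).2 hε, by rw [e, conj_pow]; group⟩
theorem Qe.act (h : Qe Y r d) (rr : r * r = 1) (uu : u * u = 1) (d3 : d ^ 3 = 1) (ud : Commute d u) (ur : Commute u r)
    (dr : Commute d r) (n : u ∈ N(Y)) : ∀ y ∈ Y, ∃ ε ∈ zpowers r, u * y * u⁻¹ = y * ε := fun y hy => by
  by_cases m : y ∈ zpowers r
  · exact ⟨_, mul_mem (inv_mem m) ((cjr ur).2 m), by group⟩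
  obtain ⟨h1, h2⟩ := h y hy m
  obtain ⟨j, ε, hε, e⟩ := (h2 _ (conj_mem_of_norm n hy)).resolve_left (mt (cjr ur).1 m)
  have c : ∀ {x}, Commute x r → Commute x ε := fun c => let ⟨i, e⟩ := hε; e ▸ c.zpow_right i
  have e2 : d ^ (j.1 + j.1) * y * (d ^ (j.1 + j.1))⁻¹ = y := by
    have εε : ε * ε = 1 := by rcases zp2 rr hε with rfl | rfl; exacts [mul_one _, rr]
    calc _ = d ^ j.1 * (d ^ j.1 * y * (d ^ j.1)⁻¹ * ε) * (d ^ j.1)⁻¹ * ε := by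
          rw [pow_add, ← mul_assoc, mul_assoc _ ε, ← ((c dr).pow_left j).inv_left.eq, ← mul_assoc, mul_assoc _ ε, εε]; group
      _ = u * (d ^ j.1 * y * (d ^ j.1)⁻¹ * ε) * u⁻¹ := by
          rw [show u * (d ^ j.1 * y * (d ^ j.1)⁻¹ * ε) * u⁻¹ = u * d ^ j.1 * u⁻¹ * (u * y * u⁻¹) * (u * d ^ j.1 * u⁻¹)⁻¹ *
            (u * ε * u⁻¹) by group, ← (ud.pow_left j).eq, (c ur).eq, mul_inv_cancel_right, mul_inv_cancel_right, ← e]
      _ = _ := by rw [← e, ← mul_assoc, ← mul_assoc, uu, mul_assoc, ← _root_.mul_inv_rev, uu]; simp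
  have k : ∀ n, Commute (d ^ n) y → n.Coprime 3 → False := fun n c o => h1 (by
    rw [mul_inv_eq_iff_eq_mul.2 (mem_cent1.1 (mem_of_pow_mem o (pe3 d3) (mem_cent1.2 c)))])
  fin_cases j
  · exact ⟨ε, hε, by simpa using e⟩
  all_goals exact (k _ (mul_inv_eq_iff_eq_mul.1 e2) (by decide)).elim

theorem On_par {P : Sp → Prop} (h : ∀ q, Pp [e2, f2, e3, f3] q → ∀ q', Pp [e2, f2, e3, f3] q' → ∀ a b c,
    P (H23.F4.X e2 q * H23.F4.X f3 q' * (Tb a e2 * Tb b f3 * Tb c (e2 + f3)))) {g : Sp} (hg : g ∈ On) : P g := by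
  obtain ⟨q, q', h1, h2, k⟩ := On_ex hg
  obtain ⟨a, b, c, e⟩ := ZL_ex' k
  have := h q h1 q' h2 a b c
  rwa [← e, mul_inv_cancel_left] at this
def q8 : List Sp := [1, sx, wd [1, 2, 5, 39], wd [1, 2, 6, 37], wd [1, 2, 7, 38], wd [1, 3, 5, 34], wd [1, 3, 6, 35], wd [1, 3, 7, 33]]
theorem On_τ {g : Sp} (hg : g ∈ On) : Commute g τ → g = 1 ∨ g = sx :=
  On_par (P := fun g => Commute g τ → g = 1 ∨ g = sx) (by decide +kernel) hg
theorem On_q8 {g : Sp} (hg : g ∈ On) : Commute g (τ * d1) → g ∈ q8 :=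
  On_par (P := fun g => Commute g (τ * d1) → g ∈ q8) (by decide +kernel) hg
theorem q8_qe : ∀ g ∈ q8, g ≠ 1 → g ≠ sx → ¬ Commute g (d1 * g * d1⁻¹) ∧ ∀ g' ∈ q8, (g' = 1 ∨ g' = sx) ∨
    ∃ j : Fin 3, ∃ e ∈ [1, sx], g' = d1 ^ j.1 * g * (d1 ^ j.1)⁻¹ * e := by decide +kernel

structure Gd (b r : G) (φ χ : Sp →* G) (R : Subgroup G) : Prop where
  F : Fc b r φ R
  W : Wc (φ ww) χ R
  hs : χ sx = r
  h1 : χ d1 = φ d3
  ht : χ τ = φ bb
theorem ex_gd (W : Wc b φ R) (h : Wm b φ nG) : ∃ r χ, Gd b r φ χ R := by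
  obtain ⟨g, h⟩ := h
  have W0 := (W.wlc g).wcf (sw13 * k0⁻¹)
  have ew : dA (1, 1, 0) = ww := by decide +kernel
  rw [W.nR h, Wc.a0 h, show nG.1 = (0, 1, 1, 0) from rfl, ea1, ew] at W0
  have q : ∀ {y t}, sw13 * k0⁻¹ * y * (sw13 * k0⁻¹)⁻¹ = dA t → cf (lc g φ) (sw13 * k0⁻¹) y = ea b φ (ap4 nG (0, t)) :=
    fun e => by rw [cf_eq e, lc_apply, ← h, ea1]
  have v1 := (q (y := d1) (t := (0, 0, 1)) (by decide +kernel)).trans ((ea1 (0, 0, 1)).trans (congrArg φ dA3))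
  have v2 := (q (y := σ) (t := (1, 1, 0)) (by decide +kernel)).trans ((W.neg (1, 0, 0, 0)).trans (congrArg _ ea0))
  have v3 := (q (y := τ) (t := (2, 1, 0)) (by decide +kernel)).trans
    ((ea1 (1, 2, 0)).trans (congrArg φ (show _ = bb by decide +kernel)))
  generalize cf (lc g φ) (sw13 * k0⁻¹) = χ at *
  have rr : χ sx * χ sx = 1 := map_sq (by decide +kernel)
  have rb : χ sx * b * (χ sx)⁻¹ = b⁻¹ := by
    rw [← inv_inv b, ← v2, ← map_inv, ← map_inv, ← map_mul, ← map_mul, ← map_inv]; exact congrArg χ (by decide +kernel)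
  have c1 : Commute (χ sx) (φ ww) := (W0.cb _).symm
  have c2 : Commute (χ sx) (φ bb) := v3 ▸ W0.cm.2 (by decide +kernel)
  exact ⟨_, χ, ⟨W, rr, rb, W.cenL _ rr (.inr rb)
    (by rw [show d1 = (ww * bb)⁻¹ by decide +kernel, map_inv, map_mul]; exact (c1.mul_right c2).inv_right)
    (by rw [show d2 = ww⁻¹ * bb by decide +kernel, map_mul, map_inv]; exact c1.inv_right.mul_right c2)
    (v1 ▸ W0.cm.2 (by decide +kernel)), fun k hk => (W0.RL k hk _).symm⟩, W0, rfl, v1, v3⟩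

abbrev Yq (r : G) (φ : Sp →* G) (s t : tA) : Subgroup G := Q1 r ⊓ C[φ (dA s)] ⊓ C[φ (dA t)]
theorem nQ1 (c : Commute x r) : x ∈ N(Q1 r) := Oc_norm _ _ (mem_cent1.2 c)
theorem pQ1 (r : G) : PG 2 (Q1 r) := Oc_pi _ _
theorem e9D (p : PG 2 X) (n : ∀ t, φ (dA t) ∈ N(X)) (s t : tA) (h1 : X ⊓ C[φ (dA s)] ≤ L) (h2 : X ⊓ C[φ (dA t)] ≤ L)
    (h3 : X ⊓ C[φ (dA (s + t))] ≤ L) (h4 : X ⊓ C[φ (dA (s + -t))] ≤ L) : X ≤ L :=
  e9 (p.sing_ne (by decide)) (map3 (dA_cube s)) (map3 (dA_cube t)) ((dA_comm s t).map φ) (n s) (n t) h1 h2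
    (by rwa [← map_mul, ← dA_add]) (by rwa [← map_inv, ← map_mul, ← dA_neg, ← dA_add])
theorem Yq_cj (c : ∀ y, Commute r (φ y)) (w : List ℕ) (s t : tA) :
    cj (φ (w.map mg).prod) (Yq r φ s t) = Yq r φ (w.foldr ma s) (w.foldr ma t) := by
  simp only [cj_inf, cj_cent1, cj_of_mem_norm (nQ1 (c _).symm), ← map_inv, ← map_mul, mw_conj]
theorem Yq_tr (c : ∀ y, Commute r (φ y)) (h : Yq r φ s t ≤ zpowers r) (s' t' : tA) (e : ∃ w ∈ monoW, ∃ i j k l : Fin 3,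
    w.foldr ma s = i.1 • s' + j.1 • t' ∧ w.foldr ma t = k.1 • s' + l.1 • t') : Yq r φ s' t' ≤ zpowers r := by
  obtain ⟨w, -, i, j, k, l, e1, e2⟩ := e
  have := cj_mono (φ (w.map mg).prod) h
  rw [Yq_cj c, cj_of_mem_norm (cent1_le_norm_zpowers r (mem_cent1.2 (c _).symm)), e1, e2] at this
  refine le_trans (fun x hx => ?_) this
  simp only [Yq, dA_add, dA_nsmul, map_mul, map_pow]
  have q : ∀ i j : ℕ, x ∈ C[φ (dA s') ^ i * φ (dA t') ^ j] := fun i j => mem_cent1.2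
    ((Commute.pow_right (mem_cent1.1 hx.1.2) i).mul_right (Commute.pow_right (mem_cent1.1 hx.2) j))
  exact ⟨⟨hx.1.1, q _ _⟩, q _ _⟩

namespace Gd
variable (D : Gd b r φ χ R)
include D
theorem nL (y : Sp) : φ y ∈ N(Q1 r) := nQ1 (D.F.rL y).symm
theorem n1 (s t : tA) : φ (dA t) ∈ N(Q1 r ⊓ C[φ (dA s)]) := norm_inf (D.nL _) (norm_c1 ((dA_comm t s).map φ))
theorem on (hx : x ∈ Q1 r ⊓ C[φ (dA (1, 1, 0))]) : ∃ g ∈ On, x = χ g := by
  have ew : dA (1, 1, 0) = ww := by decide +kernel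
  obtain ⟨g, rfl⟩ := D.W.m2 x (ew ▸ mem_cent1.1 hx.2) ((pQ1 r).elt hx.1)
  exact ⟨g, le_On (Q := (Q1 r ⊓ C[φ (dA (1, 1, 0))]).comap χ) (pi_comap D.W.inj (((pQ1 r).infl _).sing_ne (by decide)))
    (fun g hg => D.W.cm.1 (D.hs ▸ mem_cent1.1 (Oc_le _ _ hg.1))) (norm_comap (by rw [D.h1, ← dA3]; exact D.n1 _ _))
    (norm_comap (by rw [D.ht, ← show dA (1, 2, 0) = bb by decide +kernel]; exact D.n1 _ _)) hx, rfl⟩
theorem mr {g : Sp} (h : g = 1 ∨ g = sx) : χ g ∈ zpowers r := by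
  rcases h with rfl | rfl
  exacts [map_one χ ▸ one_mem _, D.hs ▸ mem_zpowers _]
theorem z1 : Yq r φ (1, 1, 0) (1, 2, 0) ≤ zpowers r := fun x hx => by
  obtain ⟨g, hg, rfl⟩ := D.on hx.1
  exact D.mr (On_τ hg (D.W.cm.1 (by rw [D.ht, ← show dA (1, 2, 0) = bb by decide +kernel]; exact mem_cent1.1 hx.2)))
theorem qe0 : Qe (Yq r φ (1, 1, 0) (1, 2, 1)) r (φ (dA (0, 0, 1))) := by
  have k : ∀ y ∈ Yq r φ (1, 1, 0) (1, 2, 1), ∃ g ∈ q8, y = χ g := fun y hy => by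
    obtain ⟨g, hg, rfl⟩ := D.on hy.1
    exact ⟨g, On_q8 hg (D.W.cm.1 (by
      rw [map_mul, D.ht, D.h1, ← map_mul, ← show dA (1, 2, 1) = bb * d3 by decide +kernel]; exact mem_cent1.1 hy.2)), rfl⟩
  intro y hy n
  obtain ⟨g, hg, rfl⟩ := k y hy
  obtain ⟨h1, h2⟩ := q8_qe g hg (fun e => n (D.mr (.inl e))) fun e => n (D.mr (.inr e))
  rw [dA3, ← D.h1]
  refine ⟨fun c => h1 (D.W.cm.1 (by simpa using c)), fun y hy => ?_⟩
  obtain ⟨g', hg', rfl⟩ := k y hy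
  exact (h2 g' hg').imp D.mr fun ⟨j, e, he, h⟩ => ⟨j, χ e, D.mr (by simpa using he), by simp [h]⟩
theorem qe (w : List ℕ) : Qe (Yq r φ (w.foldr ma (1, 1, 0)) (w.foldr ma (1, 2, 1))) r (φ (dA (w.foldr ma (0, 0, 1)))) := by
  have := D.qe0.cj (D.F.rL (w.map mg).prod).symm
  rwa [Yq_cj D.F.rL, ← map_inv, ← map_mul, ← map_mul, mw_conj] at this
theorem rY (s t : tA) : zpowers r ≤ Yq r φ s t := zpowers_le.2 ⟨⟨le_Oc ⟨zpowers_le.2 (mem_cent1_self r),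
  norms_of_cents (by rw [cent_zpowers])⟩ (piG_zpowers.2 (pe2 D.F.rr)) (mem_zpowers r), mem_cent1.2 (D.F.rL _)⟩, mem_cent1.2 (D.F.rL _)⟩
theorem ca (H : Ch2 G) (z2 : Yq r φ (1, 1, 0) (0, 0, 1) ≤ zpowers r) : False := by
  have t1 := Yq_tr D.F.rL D.z1
  have t2 := Yq_tr D.F.rL z2
  have p := pQ1 r
  have uw : Commute (χ (T e2)) (φ (dA (1, 1, 0))) := by rw [show dA (1, 1, 0) = ww by decide +kernel]; exact (D.W.cb _).symm
  have ud : Commute (χ (T e2)) (φ (dA (0, 0, 1))) := by rw [dA3, ← D.h1]; exact D.W.cm.2 (by decide +kernel)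
  have ur : Commute (χ (T e2)) r := D.hs ▸ D.W.cm.2 (by decide +kernel)
  have ru : zpowers r ≤ C[χ (T e2)] := zpowers_le.2 (mem_cent1.2 ur.symm)
  have cz : ∀ i : Fin 3, Qe (Yq r φ (1, 2, 0) (1, 1, i)) r (φ (dA (0, 0, i))) → Yq r φ (1, 1, i) (0, 0, 1) ≤ zpowers r →
      Yq r φ (1, 1, i) (1, 2, 1) ≤ zpowers r → Yq r φ (1, 1, i) (1, 2, 2) ≤ zpowers r → Yq r φ (1, 1, i) (0, 0, i) ≤ zpowers r →
      Yq r φ (1, 2, 0) (1, 1, i) ≤ C[χ (T e2)] := fun i q a1 a2 a3 a4 => by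
    have e : Yq r φ (1, 2, 0) (1, 1, i) = Q1 r ⊓ C[φ (dA (1, 1, i))] := le_antisymm (fun x hx => ⟨hx.1.1, hx.2⟩)
      (e9D (p.infl _) (D.n1 _) (1, 2, 0) (0, 0, 1) (fun x hx => ⟨⟨hx.1.1, hx.2⟩, hx.1.2⟩) (a1.trans (D.rY _ _))
        (a2.trans (D.rY _ _)) (a3.trans (D.rY _ _)))
    rw [e] at q ⊢
    have ui : Commute (χ (T e2)) (φ (dA (0, 0, i))) := by
      rw [(by decide : ∀ i : Fin 3, ((0, 0, i) : tA) = i.1 • (0, 0, 1)) i, dA_nsmul, map_pow]; exact ud.pow_right _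
    exact stab1 (p.infl _) (map3 (dA_cube _)) (D.n1 _ _) ui.symm (D.F.rL _).symm (q.act D.F.rr (mapT _) (map3 (dA_cube _)) ui.symm ur
      (D.F.rL _).symm (norm_inf (nQ1 ur) (norm_c1 (by
        rw [(by decide : ∀ i : Fin 3, ((1, 1, i) : tA) = (1, 1, 0) + (0, 0, i)) i, dA_add, map_mul]; exact uw.mul_right ui))))
      (a4.trans ru)
  have m := ch H D.F.rr D.F.r1 _ ur (mem_cent.2 fun q hq => mem_cent1.1 (e9D p (fun _ => D.nL _) (1, 0, 0) (0, 1, 0)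
    ((e9D (p.infl _) (D.n1 _) (0, 1, 0) (0, 0, 1) (t1 _ _ (by decide +kernel)) (t1 _ _ (by decide +kernel))
      (t2 _ _ (by decide +kernel)) (t2 _ _ (by decide +kernel))).trans ru)
    ((e9D (p.infl _) (D.n1 _) (1, 0, 0) (0, 0, 1) (t1 _ _ (by decide +kernel)) (t1 _ _ (by decide +kernel))
      (t2 _ _ (by decide +kernel)) (t2 _ _ (by decide +kernel))).trans ru)
    (fun x hx => by
      obtain ⟨g, hg, rfl⟩ := D.on hx
      exact mem_cent1.2 (D.W.cm.2 (ZL_comm hg (mem_ZL rfl rfl rfl rfl))))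
    (e9D (p.infl _) (D.n1 _) (1, 1, 0) (0, 0, 1) ((t1 _ _ (by decide +kernel)).trans ru) ((t2 _ _ (by decide +kernel)).trans ru)
      (cz 1 (D.qe [1]) (t2 _ _ (by decide +kernel)) (t2 _ _ (by decide +kernel)) (t2 _ _ (by decide +kernel))
        (t2 _ _ (by decide +kernel)))
      (cz 2 (D.qe [2, 1]) (t2 _ _ (by decide +kernel)) (t2 _ _ (by decide +kernel)) (t2 _ _ (by decide +kernel))
        (t2 _ _ (by decide +kernel)))) hq))
  rcases zp2 D.F.rr (z2 ⟨⟨m, mem_cent1.2 uw⟩, mem_cent1.2 ud⟩) with e | e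
  · exact absurd (D.W.inj (e.trans (map_one χ).symm)) (by decide +kernel)
  · exact absurd (D.W.inj (e.trans D.hs.symm)) (by decide +kernel)
theorem gen (l : X ≤ Q1 r ⊓ C[φ zz]) (n : ∀ g, Commute g zz → φ g ∈ N(X)) (n' : ∀ g, Commute g zz → φ g ∈ N(L))
    (h : X ⊓ C[φ bb] ≤ L) : X ≤ L := by
  have k : ∀ a g (i j : ℕ), Commute g zz → g * bb * g⁻¹ = zz ^ i * a ^ j → X ⊓ C[φ a] ≤ L := fun a g i j c e x hx => by
    have := conj_mem_of_norm (n' g c) (h ⟨conj_mem_of_norm' (n g c) hx.1, mem_cent1.2 (by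
      have : Commute x (φ (g * bb * g⁻¹)) := by
        rw [e, map_mul, map_pow, map_pow]
        exact (Commute.pow_right (mem_cent1.1 (l hx.1).2) i).mul_right (Commute.pow_right (mem_cent1.1 hx.2) j)
      simpa [mul_assoc, commute_iff_eq] using this.map (MulAut.conj (φ g)⁻¹))⟩)
    simpa [mul_assoc] using this
  exact e9a (a := φ bb) (b := φ ρ) ((((pQ1 r).infl _).of_le l).sing_ne (by decide)) (n _ (by decide +kernel)) (n _ (by decide +kernel))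
    (map3 (by decide +kernel)) (map3 ρ_cube) (by
      rw [← map_commutatorElement, show ⁅bb, ρ⁆ = zz by decide +kernel]; exact mem_cent.2 fun x hx => mem_cent1.1 (l hx).2) h
    (k ρ (wd [22, 43]) 1 2 (by decide +kernel) (by decide +kernel))
    (by rw [← map_mul]; exact k _ (wd [21, 63]) 1 1 (by decide +kernel) (by decide +kernel))
    (by rw [← map_inv, ← map_mul]; exact k _ (wd [21, 42]) 2 1 (by decide +kernel) (by decide +kernel))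
theorem nY {g : Sp} (c : Commute g zz) : φ g ∈ N(Q1 r ⊓ C[φ zz]) := norm_inf (D.nL _) (norm_c1 (c.map φ))
theorem irr (l : N ≤ Q1 r ⊓ C[φ zz]) (hr : r ∈ N) (n : ∀ g, Commute g zz → φ g ∈ N(N)) (h : ¬ N ≤ zpowers r) :
    Q1 r ⊓ C[φ zz] ≤ N ∧ ∃ y ∈ Q1 r ⊓ C[φ zz], ¬ Commute y (φ d3 * y * (φ d3)⁻¹) := by
  obtain ⟨y, hy, k⟩ := SetLike.not_le_iff_exists.1 fun k => h (D.gen l n
    (fun g _ => cent1_le_norm_zpowers r (mem_cent1.2 (D.F.rL g).symm)) k)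
  have q : Qe (Yq r φ (1, 2, 0) (1, 1, 1)) r (φ (dA (0, 0, 1))) := D.qe [1]
  simp only [Yq, dA3, show dA (1, 2, 0) = bb by decide +kernel, show dA (1, 1, 1) = zz by decide +kernel] at q
  obtain ⟨h1, h2⟩ := q y ⟨⟨(l hy.1).1, hy.2⟩, (l hy.1).2⟩ k
  refine ⟨D.gen le_rfl (fun _ => D.nY) n fun x hx => ?_, y, l hy.1, h1⟩
  rcases h2 x ⟨⟨hx.1.1, hx.2⟩, hx.1.2⟩ with e | ⟨j, ε, hε, rfl⟩
  · exact zpowers_le.2 hr e
  · exact mul_mem (conj_mem_of_norm (pow_mem (n _ (by decide +kernel)) _) hy.1) (zpowers_le.2 hr hε)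
theorem cb (z2 : ¬ Yq r φ (1, 1, 0) (0, 0, 1) ≤ zpowers r) : False := by
  obtain ⟨u, hu, k⟩ := SetLike.not_le_iff_exists.1 z2
  have ez : dA (1, 1, 0) * dA (0, 0, 1) = zz := by decide +kernel
  have uY : u ∈ Q1 r ⊓ C[φ zz] := ⟨hu.1.1, mem_cent1.2 (by
    rw [← ez, map_mul]; exact Commute.mul_right (mem_cent1.1 hu.1.2) (mem_cent1.1 hu.2))⟩
  have rY : r ∈ Q1 r ⊓ C[φ zz] := ⟨(D.rY 0 0 (mem_zpowers r)).1.1, mem_cent1.2 (D.F.rL _)⟩
  have Yr : Q1 r ⊓ C[φ zz] ≤ C[r] := inf_le_left.trans (Oc_le _ _)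
  have n := Yr.trans (cent1_le_norm_zpowers r)
  have p := (pQ1 r).infl C[φ zz]
  have h1 := (D.irr (N := Q1 r ⊓ C[φ zz] ⊓ cz (zpowers r) (Q1 r ⊓ C[φ zz])) inf_le_left ⟨rY, n rY, fun g hg => by
      rw [commutatorElement_eq_one_iff_mul_comm.2 (mem_cent1.1 (Yr hg)).symm]; exact one_mem _⟩
    (fun g c => norm_inf (D.nY c) (H11.TC.cz_norm (cent1_le_norm_zpowers r (mem_cent1.2 (D.F.rL g).symm)) (D.nY c))) fun l => by
      obtain ⟨_, ⟨⟨y, hy, rfl⟩, c⟩, y1⟩ := exists_ne_one ((p.quo (zpowers r)).center_ne_bot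
        (mt (quo_eq_bot_iff n).1 fun l => k (l uY)))
      refine y1 (qmk_eq_one.2 (l ⟨hy, y.2, fun g hg => (qmk_eq_one (x := ⁅y, ⟨g, n hg⟩⁆)).1 ?_⟩))
      rw [map_commutatorElement, commutatorElement_eq_one_iff_mul_comm]
      exact (mem_cent.1 c _ (mem_im_of (x := ⟨g, n hg⟩) hg)).symm).1
  have h2 : Q1 r ⊓ C[φ zz] ≤ C[u] := stab1 p (map3 (dA_cube (0, 0, 1))) (D.nY (by decide +kernel)) (mem_cent1.1 hu.2).symm
    (D.F.rL _).symm (fun y hy => ⟨_, conj_mem_of_norm' (n hy) (((h1 uY).2).2 y hy), by simp [commutatorElement_def, mul_assoc]⟩)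
    fun x hx => by
      obtain ⟨g, hg, rfl⟩ := D.on (x := x) ⟨hx.1.1, mem_cent1.2 (by
        rw [eq_mul_inv_of_mul_eq ez, map_mul, map_inv]
        exact Commute.mul_right (mem_cent1.1 hx.1.2) (Commute.inv_right (mem_cent1.1 hx.2)))⟩
      obtain ⟨z, hz, rfl⟩ := D.on hu.1
      exact mem_cent1.2 (D.W.cm.2 (ZL_comm hg (On_d1 hz (D.W.cm.1 (by rw [D.h1, ← dA3]; exact mem_cent1.1 hu.2)))))
  obtain ⟨h3, y, hy, c⟩ := D.irr (N := Q1 r ⊓ C[φ zz] ⊓ C(Q1 r ⊓ C[φ zz])) inf_le_left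
    ⟨rY, mem_cent.2 fun g hg => mem_cent1.1 (Yr hg)⟩ (fun g c => norm_inf (D.nY c) (norm_le_norm_cent _ (D.nY c)))
    fun l => k (l ⟨uY, mem_cent.2 fun g hg => mem_cent1.1 (h2 hg)⟩)
  exact c (mem_cent.1 (h3 (conj_mem_of_norm (D.nY (by decide +kernel)) hy)).2 y hy)
end Gd

theorem go : GO.{u} := by
  intro _ G _ _ b φ R H W h
  obtain ⟨r, χ, D⟩ := ex_gd W h
  exact D.cb (D.ca H)

end H26.SX
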