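/-
S3159: the chunk SU.
-/
import Cfsg.Agent.H26.SX1

set_option autoImplicit false
set_option linter.unusedSectionVars false
open Cfsg Subgroup H19 H23.F4
open scoped commutatorElement
namespace H26.SX
universe u
variable {G : Type*} [Group G] [Finite G] {b g x k : G} {φ : Sp →* G} {E X : Subgroup G}

theorem sp27 {B : Subgroup Sp} (ab : Ab B) (p : PG 3 B) : #B = 27 ∨ #B ≤ 9 := by
  obtain ⟨g, -, h⟩ := syl_PM.scj_le (le_top : B ≤ ⊤) p
  have d := card_dvd h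
  rw [card_cj, card_PM] at d
  obtain ⟨i, hi, e⟩ := (Nat.dvd_prime_pow p3 (m := 4)).1 d
  interval_cases i <;> simp only [e] <;> try decide
  have := eq_of_le_of_card_eq h (by rw [card_cj, e, card_PM]; rfl)
  exact absurd (mul_comm_of_comm (show Ab PM from this ▸ comm_cj.2 ab) (mem_sup_left (show d1 ∈ AM from ⟨_, dA1⟩)) (mem_sup_right (mem_zpowers ρ))) (by decide +kernel)

abbrev KK (b : G) (φ : Sp →* G) : Subgroup G := C[b] ⊓ C(φ.range)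
/-- `C(b) = K × L` and `⟨b⟩ = Ω₁` of the Sylow 3-subgroups of `K` -/
structure Ww (b : G) (φ : Sp →* G) : Prop where
  o3 : orderOf b = 3
  inj : Function.Injective φ
  cb : ∀ g, Commute b (φ g)
  dec : ∀ x ∈ C[b], ∃ k ∈ KK b φ, ∃ y, x = k * φ y
  om : ∀ k ∈ KK b φ, k ^ 3 = 1 → k ∈ zpowers b

theorem kc (hk : k ∈ KK b φ) (y : Sp) : Commute k (φ y) := (mem_cent.1 hk.2 _ ⟨y, rfl⟩).symm
theorem mem_KK (h1 : Commute k b) (h2 : ∀ y, Commute k (φ y)) : k ∈ KK b φ :=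
  ⟨mem_cent1.2 h1, mem_cent.2 (by rintro _ ⟨y, rfl⟩; exact (h2 y).symm)⟩
namespace Ww
variable (W : Ww b φ)
include W
theorem b3 : b ^ 3 = 1 := W.o3 ▸ pow_orderOf_eq_one b
theorem bK : b ∈ KK b φ := mem_KK (Commute.refl b) W.cb
theorem Lc (y : Sp) : φ y ∈ C[b] := mem_cent1.2 (W.cb y).symm
theorem sep {y : Sp} (h : φ y ∈ KK b φ) : y = 1 := eq_one_of_central fun z => (comm_map W.inj).1 (kc h z)
theorem pw (hk : k ∈ KK b φ) {y : Sp} {n : ℕ} (e : (k * φ y) ^ n = 1) : k ^ n = 1 ∧ y ^ n = 1 := by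
  rw [(kc hk y).mul_pow, ← map_pow] at e
  have := W.sep (eq_inv_of_mul_eq_one_right e ▸ inv_mem (pow_mem hk n))
  exact ⟨by simpa [this] using e, this⟩
theorem nK (hx : x ∈ C[b]) : x ∈ N(KK b φ) := by
  obtain ⟨k, hk, y, rfl⟩ := W.dec x hx
  exact mul_mem (le_normalizer hk) (cent_le_norm _ (mem_cent.2 fun z hz => kc hz y))
theorem lc (g : G) : Ww (g * b * g⁻¹) (lc g φ) := by
  have e : KK (g * b * g⁻¹) (SX.lc g φ) = cj g (KK b φ) := by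
    rw [cj_inf, cj_cent1, cj_cent, cj, SX.lc, MonoidHom.map_range]
  refine ⟨by rw [orderOf_conj', W.o3], (MulAut.conj g).injective.comp W.inj, fun y => (W.cb y).map (MulAut.conj g),
    fun x hx => ?_, fun k hk k3 => ?_⟩
  · rw [← cj_cent1] at hx
    obtain ⟨x', hx', rfl⟩ := mem_cj'.1 hx
    obtain ⟨k, hk, y, rfl⟩ := W.dec x' hx'
    exact ⟨_, e ▸ conj_mem_cj.2 hk, y, (conj_mul ..).symm⟩
  · rw [e] at hk
    obtain ⟨k', hk', rfl⟩ := mem_cj'.1 hk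
    rw [← cj_zpowers, conj_mem_cj]
    exact W.om k' hk' (by rwa [conj_pow, conj_eq_one_iff] at k3)
theorem m3 (hx : x ∈ C[b]) (x3 : x ^ 3 = 1) : ∃ (i : Fin 3) (y : Sp), y ^ 3 = 1 ∧ x = b ^ i.1 * φ y := by
  obtain ⟨k, hk, y, rfl⟩ := W.dec x hx
  obtain ⟨i, rfl⟩ := zp3' W.b3 (W.om k hk (W.pw hk x3).1)
  exact ⟨i, y, (W.pw hk x3).2, rfl⟩
theorem cz (B : Subgroup Sp) : B.map φ ≤ C(zpowers b) := by rw [cent_zpowers]; rintro _ ⟨y, -, rfl⟩; exact W.Lc y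
theorem c3 (B : Subgroup Sp) : #(zpowers b ⊔ B.map φ) = 3 * #B := by
  rw [card_sup_of_disjoint (norms_of_cents (W.cz B)) (eq_bot_iff.2 (by
    rintro _ ⟨h1, y, -, rfl⟩
    rw [W.sep (zpowers_le.2 W.bK h1), map_one]; exact one_mem _)), Nat.card_zpowers, W.o3, card_map_of_injective W.inj]
theorem e27 (ab : Ab E) (e3 : ∀ a ∈ E, a ^ 3 = 1) (hb : b ∈ E) :
    #E = 3 * #(E.comap φ) ∧ Ab (E.comap φ) ∧ PG 3 (E.comap φ) := by
  refine ⟨?_, ⟨⟨fun x y => Subtype.ext ((comm_map W.inj).1 (mul_comm_of_comm ab x.2 y.2))⟩⟩, pi_comap W.inj (pg_of_pow p3 e3)⟩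
  rw [← W.c3]
  refine congrArg _ (congrArg _ (le_antisymm (fun x hx => ?_) (sup_le (zpowers_le.2 hb) (map_comap_le _ _))))
  obtain ⟨i, y, -, rfl⟩ := W.m3 (mem_cent1.2 (mul_comm_of_comm ab hx hb)) (e3 x hx)
  exact mul_mem (mem_sup_left (npow_mem_zpowers _ _)) (mem_sup_right ⟨y, (mul_mem_cancel_left (pow_mem hb _)).1 hx, rfl⟩)
theorem ext (ab : Ab E) (e3 : ∀ a ∈ E, a ^ 3 = 1) (l : E ≤ C[b]) :
    Ab (zpowers b ⊔ E) ∧ ∀ a ∈ zpowers b ⊔ E, a ^ 3 = 1 := by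
  have c : E ≤ C(zpowers b) := by rwa [cent_zpowers]
  refine ⟨comm_sup (comm_zpowers _) ab (cents_symm c), fun a ha => ?_⟩
  obtain ⟨u, hu, v, hv, rfl⟩ := (mem_sup_of_norm (norms_of_cents c)).1 ha
  obtain ⟨i, rfl⟩ := zp3' W.b3 hu
  rw [Commute.mul_pow (mem_cent.1 (c hv) _ hu), e3 v hv, pow_right_comm, W.b3]; simp
theorem cA : #(AA b φ) = 81 ∧ Ab (AA b φ) ∧ (∀ a ∈ AA b φ, a ^ 3 = 1) ∧ AA b φ ≤ C(KK b φ) := by
  have := W.ext (E := AM.map φ) ⟨⟨by rintro ⟨_, _, ⟨s, rfl⟩, rfl⟩ ⟨_, _, ⟨t, rfl⟩, rfl⟩; exact Subtype.ext ((dA_comm s t).map φ)⟩⟩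
    (by rintro _ ⟨_, ⟨s, rfl⟩, rfl⟩; exact map3 (dA_cube s)) (by rintro _ ⟨y, -, rfl⟩; exact W.Lc y)
  exact ⟨by rw [W.c3, card_AM], this.1, this.2, sup_le (zpowers_le.2 (mem_cent.2 fun k hk => mem_cent1.1 hk.1))
    (by rintro _ ⟨y, -, rfl⟩; exact mem_cent.2 fun k hk => kc hk y)⟩
theorem proj (l : X ≤ C[b]) (p : PG 2 X) (n : AM.map φ ≤ N(X)) : X ≤ KK b φ := fun x hx => by
  have nk : X ≤ N(KK b φ) := fun y hy => W.nK (l hy)
  have := sig ((KK b φ ⊔ X).comap φ) (PiN.of_elt fun y hy => by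
    obtain ⟨k, hk, q, hq, e⟩ := (mem_sup_of_norm nk).1 hy
    refine (p.elt hq).dvd (orderOf_dvd_of_pow_eq_one (W.pw (inv_mem hk) ?_).2)
    rw [e, inv_mul_cancel_left, pow_orderOf_eq_one])
    fun a ha => norm_comap (norms_sup (zpowers_le.2 (W.nK (W.Lc a))) (zpowers_le.2 (n ⟨a, ha, rfl⟩)) (mem_zpowers _))
  obtain ⟨k, hk, y, rfl⟩ := W.dec x (l hx)
  rwa [mem_bot.1 (this.le (show φ y ∈ KK b φ ⊔ X from
    (mul_mem_cancel_left (mem_sup_left hk)).1 (mem_sup_right hx))), map_one, mul_one]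
theorem le81 (ab : Ab E) (e3 : ∀ a ∈ E, a ^ 3 = 1) (l : E ≤ C[b]) : #E ≤ 81 ∧ (#E ≤ 27 ∨ ∃ k, AM.map φ ≤ cj (φ k) (zpowers b ⊔ E)) := by
  obtain ⟨a, e⟩ := W.ext ab e3 l
  obtain ⟨c, a', p⟩ := W.e27 a e (mem_sup_left (mem_zpowers b))
  have := card_le (le_sup_right : E ≤ zpowers b ⊔ E)
  rcases sp27 a' p with h | h
  · obtain ⟨k, e⟩ := conj27 a' p h
    refine ⟨by omega, .inr ⟨k, ?_⟩⟩
    rintro _ ⟨y, hy, rfl⟩
    obtain ⟨z, hz, rfl⟩ := mem_cj'.1 (e ▸ hy)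
    rw [map_mul, map_mul, map_inv]; exact conj_mem_cj.2 hz
  · exact ⟨by omega, .inl (by omega)⟩
theorem odd (h5 : ∀ B : Subgroup C[b], IsElementaryAbelian 3 B → (∃ H : Subgroup C[b], IsTwoLocal H ∧ B ≤ H) →
    (∀ B' : Subgroup C[b], IsElementaryAbelian 3 B' → (∃ H : Subgroup C[b], IsTwoLocal H ∧ B' ≤ H) → #B' ≤ #B) →
    ∃ Q : Subgroup C[b], IsPGroup 2 Q ∧ B ≤ N(Q) ∧ ⁅Q, B⁆ ≠ ⊥) : PiG {2}ᶜ (KK b φ) := PiN.of_not_dvd fun d => by
  obtain ⟨s, hs, o⟩ := exists_orderOf_eq_prime Nat.prime_two d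
  obtain ⟨c, ab, e3, cK⟩ := W.cA
  have l : AA b φ ≤ C[b] := cK.trans (cent_le_cent1 W.bK)
  obtain ⟨Q, p, n, k⟩ := h5 ((AA b φ).subgroupOf C[b]) ⟨inferInstance, fun x hx => Subtype.ext (e3 _ hx)⟩
    ⟨_, ⟨zpowers ⟨s, hs.1⟩, (PiN.of_card Nat.prime_two (by rw [Nat.card_zpowers, ← o]; exact (orderOf_coe _).symm)).isPGroup,
      fun e => by simp [show s = 1 from Subtype.ext_iff.1 (zpowers_eq_bot.1 e)] at o, rfl⟩, fun x hx =>
        cent1_le_norm_zpowers _ (mem_cent1.2 (Subtype.ext (mem_cent.1 (cK hx) s hs).symm))⟩ fun B hB _ => by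
      rw [card_subgroupOf' l, c, ← card_map_of_injective (subtype_injective C[b])]
      have := hB.1
      exact (W.le81 inferInstance (by rintro _ ⟨x, hx, rfl⟩; exact congrArg Subtype.val (hB.2 x hx)) (map_subtype_le B)).1
  have := W.proj (map_subtype_le Q) ((PiN.of_isPGroup Nat.prime_two p).dvd (card_map_dvd _ _)) fun a ha =>
    mem_norm_of_cj_le fun _ hx => by
      obtain ⟨_, ⟨q, hq, rfl⟩, rfl⟩ := mem_cj'.1 hx
      exact ⟨_, conj_mem_of_norm (n (show (⟨a, l (mem_sup_right ha)⟩ : C[b]) ∈ (AA b φ).subgroupOf _ from mem_sup_right ha)) hq, rfl⟩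
  exact k (commg_eq_bot.2 fun q hq => mem_cent.2 fun a ha => Subtype.ext (mem_cent.1 (cK ha) _ (this ⟨q, hq, rfl⟩)).symm)
theorem rk (o : PiG {2}ᶜ (KK b φ)) : TwoLocalPRankLE 3 3 C[b] := by
  rintro _ ⟨X, p, n, rfl⟩ E ab e3
  let f := C[b].subtype.comp N(X).subtype
  have i : Function.Injective f := Subtype.val_injective.comp Subtype.val_injective
  rw [← card_map_of_injective i]
  refine (W.le81 inferInstance (by rintro _ ⟨x, hx, rfl⟩; rw [← map_pow, e3 x hx, map_one])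
    (by rintro _ ⟨x, -, rfl⟩; exact x.1.2)).2.resolve_right fun ⟨k, h⟩ => n ?_
  have p' : PG 2 (X.map C[b].subtype) := (PiN.of_isPGroup Nat.prime_two p).dvd (card_map_dvd _ _)
  have := W.proj (X := cj (φ k) (X.map C[b].subtype)) 
    ((cj_mono _ (map_subtype_le X)).trans (cj_of_mem_norm (le_normalizer (W.Lc k))).le) (p'.J _) (h.trans (by
      rw [← cj_norm]
      refine cj_mono _ (sup_le (norms_of_cents (cents_symm (by rw [cent_zpowers]; exact map_subtype_le X))) ?_)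
      rintro _ ⟨x, -, rfl⟩
      refine mem_norm_of_cj_le fun _ hx => ?_
      obtain ⟨_, ⟨q, hq, rfl⟩, rfl⟩ := mem_cj'.1 hx
      exact ⟨_, conj_mem_of_norm x.2 hq, rfl⟩))
  have := (p'.J (φ k)).eq_bot (o.of_le this)
  rwa [cj_eq_bot, map_eq_bot_iff_of_injective _ (subtype_injective _)] at this
theorem lg (h1 : g * b * g⁻¹ ∈ C[b]) (h2 : zpowers (g * b * g⁻¹) ≠ zpowers b) : ∃ v : t4, v.2 ≠ 0 ∧ Lg b φ v := by
  have g3 : (g * b * g⁻¹) ^ 3 = 1 := (W.lc g).b3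
  obtain ⟨i, y, y3, e⟩ := W.m3 h1 g3
  obtain ⟨l, t, e'⟩ : ∃ l t, l * y * l⁻¹ = dA t := by
    have k : ∀ {a t}, dA t = a → IsConj a y → ∃ l t, l * y * l⁻¹ = dA t := fun e c =>
      (isConj_iff.1 c.symm).imp fun _ h => ⟨_, h.trans e.symm⟩
    rcases cls3 y3 with c | c | c | c
    exacts [⟨1, 0, by simp [c, dA_zero]⟩, k dA1 c, k (t := (1, 1, 0)) (by decide +kernel) c,
      k (t := (1, 1, 1)) (by decide +kernel) c]
  refine ⟨(i, t), fun t0 => h2 ?_, isConj_iff.2 ⟨φ l * g, ?_⟩⟩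
  · rw [show t = 0 from t0, dA_zero, conj_eq_one_iff] at e'
    exact eq_of_le_of_card_eq (zpowers_le.2 (by rw [e, e', map_one, mul_one]; exact npow_mem_zpowers _ _))
      (by rw [Nat.card_zpowers, Nat.card_zpowers, orderOf_conj'])
  · calc _ = φ l * (g * b * g⁻¹) * (φ l)⁻¹ := by group
      _ = _ := by rw [e, ea, ← e', ← mul_assoc, ← ((W.cb l).pow_left _).eq, map_mul, map_mul, map_inv]; group
theorem ncube {v : t4} (v0 : v.2 ≠ 0) (l : Lg b φ v) {c : G} (hc : c ∈ KK b φ) : c ^ 3 ≠ b := fun e => by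
  obtain ⟨g, h⟩ := isConj_iff.1 l
  have W' := W.lc g
  generalize SX.lc g φ = ψ at W'
  obtain ⟨c81, ab, e3, cK⟩ := W.cA
  have m : g * b * g⁻¹ ∈ AA b φ := h ▸ mul_mem (mem_sup_left (npow_mem_zpowers _ _)) (mem_sup_right ⟨_, ⟨_, rfl⟩, rfl⟩)
  obtain ⟨c', a', p⟩ := W'.e27 ab e3 m
  obtain ⟨n, en⟩ := conj27 a' p (by omega)
  obtain ⟨k, hk, z, rfl⟩ := W'.dec c (mem_cent1.2 (mem_cent.1 (cK m) c hc))
  have q : ∀ t, Commute (n * z * n⁻¹) (dA t) := fun t => by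
    obtain ⟨a, ha, e⟩ := mem_cj'.1 (en.ge ⟨t, rfl⟩)
    have : Commute (ψ z) (ψ a) := by
      simpa using (kc hk a).inv_left.mul_left (show Commute (k * ψ z) (ψ a) from mem_cent.1 (cK ha) _ hc)
    exact e ▸ ((comm_map W'.inj).1 this).map (MulAut.conj n)
  obtain ⟨t, et⟩ := centA (dA1 ▸ q _) (dA2 ▸ q _) (dA3 ▸ q _)
  have z3 := dA_cube t
  rw [← et, conj_pow, conj_eq_one_iff] at z3
  rw [(kc hk z).mul_pow, map3 z3, mul_one] at e
  have := W'.om b (e ▸ pow_mem hk 3) W.b3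
  have := eq_of_le_of_card_eq (zpowers_le.2 this) (by rw [Nat.card_zpowers, Nat.card_zpowers, orderOf_conj'])
  exact v0 (dA_eq_one _ (W.sep ((mul_mem_cancel_left (pow_mem W.bK v.1.1)).1 (zpowers_le.2 W.bK (this ▸ h ▸ mem_zpowers _)))))
end Ww

theorem su : SU.{u} := by
  intro _ G _ _ b L o l n ⟨e⟩ cy hrk ⟨g, h1, h2⟩ h5
  obtain ⟨φ, i, rfl⟩ : ∃ φ : Sp →* G, Function.Injective φ ∧ φ.range = L :=
    ⟨L.subtype.comp e.toMonoidHom, Subtype.val_injective.comp e.injective,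
      Subgroup.ext fun x => ⟨fun ⟨y, h⟩ => h ▸ (e y).2, fun h => ⟨e.symm ⟨x, h⟩, by simp⟩⟩⟩
  have cb : ∀ y, Commute b (φ y) := fun y => (mem_cent1.1 (l ⟨y, rfl⟩)).symm
  have b3 : b ^ 3 = 1 := o ▸ pow_orderOf_eq_one b
  have bK : b ∈ KK b φ := mem_KK (Commute.refl b) cb
  have cR : ∀ {P}, Syl 3 P (KK b φ) → Cyc P := fun {P} s => by
    obtain ⟨Q, s', l'⟩ := s.pi.exists_syl (s.le.trans inf_le_right)
    obtain ⟨Q, rfl⟩ := s'.exists_sylow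
    have := cy Q
    exact cyc_mono (isCyclic_of_surjective _ (Q.1.equivMapOfInjective _ (subtype_injective _)).surjective) l'
  have ex : ∀ {X}, PG 3 X → X ≤ KK b φ → ∃ P, Syl 3 P (KK b φ) ∧ b ∈ P ∧ X ≤ P := fun p l =>
    let ⟨P, s, l⟩ := ((pg_zp b3).sup p (norms_of_cents (by rw [cent_zpowers]; exact l.trans inf_le_left))).exists_syl
      (sup_le (zpowers_le.2 bK) l)
    ⟨P, s, l (mem_sup_left (mem_zpowers b)), le_sup_right.trans l⟩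
  have c3 : #(zpowers b) = 3 := by rw [Nat.card_zpowers, o]
  have W : Ww b φ := ⟨o, i, cb, fun x hx => by
      choose f hf using fun y => (show x * φ y * x⁻¹ ∈ φ.range from n.conj_mem ⟨φ y, l ⟨y, rfl⟩⟩ ⟨y, rfl⟩ ⟨x, hx⟩)
      let F : Sp →* Sp := MonoidHom.mk' f fun a c => i (by rw [map_mul, hf, hf, hf, map_mul, conj_mul])
      obtain ⟨k, e⟩ := inner (MulEquiv.ofBijective F (Finite.injective_iff_bijective.1 fun a c e => i (by
        have := congrArg φ (show f a = f c from e)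
        rw [hf, hf] at this; exact mul_left_cancel (mul_right_cancel this))))
      refine ⟨x * φ k⁻¹, mem_KK (Commute.mul_left (mem_cent1.1 hx) (cb _).symm) fun y => ?_, k, by simp⟩
      have := hf (k⁻¹ * y * k)
      rw [show f (k⁻¹ * y * k) = y from (e _).trans (by group)] at this
      rw [commute_iff_eq, ← mul_inv_eq_iff_eq_mul]
      conv_rhs => rw [this]
      simp [mul_assoc],
    fun k hk k3 => let ⟨P, s, hb, l⟩ := ex (pg_zp k3) (zpowers_le.2 hk)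
      (cyc_mem_iff (cR s) (zpowers_le.2 hb)).2 ⟨l (mem_zpowers k), c3.symm ▸ k3⟩⟩
  obtain ⟨v, v0, lv⟩ := W.lg h1 h2
  have s : Syl 3 (zpowers b) (KK b φ) := by
    obtain ⟨P, s, hb, -⟩ := ex PiN.bot bot_le
    obtain ⟨r, rfl⟩ := cyc_iff.1 (cR s)
    obtain ⟨i, hi⟩ := mem_powers_iff_mem_zpowers.2 hb
    simp only at hi
    refine (le_antisymm (zpowers_le.2 (mem_of_pow_mem (n := i) (((Nat.Prime.coprime_iff_not_dvd p3).2 ?_).symm)
      (s.pi.elt (mem_zpowers r)) (hi ▸ mem_zpowers _))) (zpowers_le.2 hb)) ▸ s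
    rintro ⟨j, rfl⟩
    exact W.ncube v0 lv (s.le (npow_mem_zpowers r j)) (by rw [← hi, mul_comm, pow_mul])
  obtain ⟨R, d⟩ := s.exists_compl (inf_le_left.trans (cent1_le_norm_zpowers b))
  refine ⟨φ, R, ⟨o, i, cb, fun k hk => mem_cent1.1 (d.right_le hk).1, fun k hk => kc (d.right_le hk),
    (((W.odd h5).of_le d.right_le).inter (d.hall_right s).pi).mono (by rintro p ⟨a, c⟩ (h | h); exacts [a h, c h]),
    fun x hx => ?_⟩, fun X E p n l a e => ?_, v, v0, lv⟩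
  · obtain ⟨k, hk, y, rfl⟩ := W.dec x (mem_cent1.2 hx)
    obtain ⟨u, hu, k', hk', rfl⟩ := d.mem hk
    obtain ⟨i, rfl⟩ := zp3' b3 hu
    exact ⟨i, k', y, hk', rfl⟩
  · have := (hrk 3).2 (W.rk (W.odd h5)) _ ⟨X, p.isPGroup, n, rfl⟩ (E.subgroupOf N(X)) inferInstance fun x hx => Subtype.ext (e _ hx)
    rwa [card_subgroupOf' l] at this

end H26.SX
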