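/-
S3159: the subgroups of `GL₄(3)` with point stabilizer `W(B₃)`.
-/
import Cfsg.Agent.H26.SX2

set_option autoImplicit false
set_option synthInstance.maxSize 4096
set_option synthInstance.maxHeartbeats 200000
open H23.F4
namespace H26.SX

namespace TR
def dec (n : ℕ) : t4 := (Fin.ofNat 3 (n / 27), Fin.ofNat 3 (n / 9), Fin.ofNat 3 (n / 3), Fin.ofNat 3 n)
def enc (v : t4) : ℕ := v.1.1 * 27 + v.2.1.1 * 9 + v.2.2.1.1 * 3 + v.2.2.2.1
def mk (l : List ℕ) : M4 := (dec (l.getD 0 0), dec (l.getD 1 0), dec (l.getD 2 0), dec (l.getD 3 0))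
/-- normalized vectors -/
def Nm (v : t4) : Prop := enc v < enc (-v)
instance (v : t4) : Decidable (Nm v) := by unfold Nm; infer_instance
def pts : List t4 := t4s.filter fun v => decide (Nm v)
def let4 (h h' : M4) (l : ℕ) : M4 := if l < 48 then mo4 (monoW.getD l []) else [h, h'].getD (l - 48) nB
def ev (h h' : M4) (w : List ℕ) : M4 := w.foldr (fun l m => cmp4 (let4 h h' l) m) id4
abbrev En := List ℕ × List ℕ × ℕ × List ℕ
/-- the certificate is correct -/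
def Ok (e : En) : Prop := cmp4 (mk e.1) (mk e.2.1) = id4 ∧
  if e.2.2.1 = 0 then (ev (mk e.1) (mk e.2.1) e.2.2.2).1 = (1, 0, 0, 0) ∧ ∀ w ∈ monoW, ev (mk e.1) (mk e.2.1) e.2.2.2 ≠ mo4 w
  else ev (mk e.1) (mk e.2.1) e.2.2.2 = [nB, nB, nG, nA].getD e.2.2.1 nF
instance (e : En) : Decidable (Ok e) := by unfold Ok; infer_instance
def tb1 : List En := [
  ([9, 1, 3, 27], [1, 27, 3, 9], 1, [48, 30]), ([9, 1, 3, 36], [55, 27, 3, 9], 0, [49, 16, 48, 48]),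
  ([9, 1, 3, 45], [28, 27, 3, 9], 0, [49, 16, 48, 48]), ([9, 4, 5, 27], [1, 27, 24, 21], 2, [15, 48, 48, 2]),
  ([9, 4, 5, 36], [55, 27, 24, 21], 0, [49, 49, 1, 48, 48]),
  ([9, 4, 5, 45], [28, 27, 24, 21], 0, [49, 49, 1, 48, 48]), ([12, 1, 15, 27], [1, 60, 57, 9], 0, [48, 4, 49]),
  ([12, 1, 15, 39], [55, 60, 57, 9], 0, [48, 4, 49]), ([12, 1, 15, 51], [28, 60, 57, 9], 0, [48, 4, 49]),
  ([12, 1, 30, 36], [35, 59, 61, 9], 0, [48, 10, 48, 48]),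
  ([12, 1, 33, 45], [62, 61, 59, 9], 0, [49, 49, 1, 48, 48]), ([12, 1, 42, 48], [8, 59, 61, 9], 2, [48, 16]),
  ([12, 15, 28, 29], [8, 72, 63, 7], 1, [1, 49, 1, 48, 1]),
  ([12, 15, 40, 41], [62, 72, 63, 7], 0, [49, 49, 2, 48, 48]),
  ([12, 15, 52, 53], [35, 72, 63, 7], 0, [48, 10, 48, 48]), ([12, 16, 17, 27], [1, 66, 78, 21], 0, [48, 1, 49]),
  ([12, 16, 17, 39], [55, 66, 78, 21], 0, [48, 1, 49]), ([12, 16, 17, 51], [28, 66, 78, 21], 0, [48, 1, 49]),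
  ([36, 1, 3, 9], [29, 1, 3, 9], 3, [48, 30]), ([36, 1, 3, 27], [1, 29, 3, 9], 0, [49, 49, 4, 15, 48, 48]),
  ([36, 1, 3, 45], [56, 55, 3, 9], 0, [49, 49, 4, 15, 48, 48]),
  ([36, 4, 5, 9], [29, 1, 24, 21], 0, [49, 49, 4, 48, 48]),
  ([36, 4, 5, 27], [1, 29, 24, 21], 0, [49, 49, 4, 48, 48]),
  ([36, 4, 5, 45], [56, 55, 24, 21], 1, [16, 49, 1, 48, 15]), ([39, 1, 3, 9], [35, 1, 3, 9], 3, [16, 49, 1, 48, 22]),
  ([39, 1, 12, 15], [33, 8, 7, 9], 0, [48, 4, 15, 49]), ([39, 1, 15, 27], [1, 61, 58, 9], 0, [48, 4, 49]),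
  ([39, 1, 15, 51], [56, 35, 32, 9], 0, [48, 4, 49]), ([39, 1, 30, 36], [58, 33, 29, 9], 0, [49, 49, 4, 6, 48, 48]),
  ([39, 1, 42, 48], [8, 55, 57, 9], 0, [49, 49, 2, 48, 48]), ([39, 12, 16, 17], [45, 22, 26, 7], 0, [48, 2, 49]),
  ([39, 13, 14, 15], [39, 14, 13, 21], 0, [49, 1, 49, 5, 48, 1, 48]),
  ([39, 15, 28, 29], [8, 80, 71, 7], 0, [49, 49, 2, 48, 48]),
  ([39, 15, 52, 53], [58, 49, 40, 7], 2, [28, 48, 2, 48, 5]), ([39, 16, 17, 27], [1, 67, 79, 21], 0, [48, 1, 49]),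
  ([39, 16, 17, 51], [56, 41, 53, 21], 0, [48, 1, 49]), ([40, 1, 3, 9], [53, 1, 3, 9], 3, [16, 49, 1, 48, 22]),
  ([40, 4, 10, 12], [40, 17, 23, 25], 0, [49, 49]), ([40, 14, 16, 17], [52, 24, 19, 7], 0, [49, 6, 49]),
  ([40, 28, 30, 36], [53, 68, 70, 76], 0, [49, 17, 49]), ([40, 29, 33, 45], [40, 39, 37, 31], 0, [49, 49]),
  ([40, 31, 37, 39], [40, 45, 33, 29], 0, [49, 49]), ([40, 35, 47, 51], [53, 62, 74, 78], 2, [38, 49, 1, 48, 16]),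
  ([40, 41, 43, 49], [53, 55, 57, 63], 0, [49, 17, 49]),
  ([40, 44, 50, 52], [40, 44, 50, 52], 1, [16, 48, 6, 48, 30]),
  ([63, 1, 3, 9], [55, 1, 3, 9], 3, [16, 49, 1, 48, 22]),
  ([63, 1, 3, 27], [1, 28, 3, 9], 0, [49, 49, 16, 20, 48, 48]),
  ([63, 1, 3, 36], [29, 56, 3, 9], 0, [49, 49, 16, 20, 48, 48]),
  ([63, 4, 5, 9], [55, 1, 24, 21], 0, [49, 49, 4, 6, 48, 48]),
  ([63, 4, 5, 27], [1, 28, 24, 21], 0, [49, 49, 4, 6, 48, 48]),
  ([63, 4, 5, 36], [29, 56, 24, 21], 1, [29, 49, 1, 48, 22]), ([66, 1, 3, 9], [58, 1, 3, 9], 3, [16, 49, 1, 48, 22]),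
  ([66, 1, 12, 15], [57, 8, 7, 9], 0, [48, 4, 15, 49]), ([66, 1, 15, 27], [1, 62, 59, 9], 0, [48, 4, 49]),
  ([66, 1, 15, 39], [29, 34, 31, 9], 0, [48, 4, 49]), ([66, 1, 33, 45], [31, 30, 28, 9], 0, [49, 49, 5, 48, 48]),
  ([66, 1, 42, 48], [8, 60, 56, 9], 0, [49, 15, 48, 48]), ([66, 12, 16, 17], [63, 22, 26, 7], 0, [48, 2, 49]),
  ([66, 13, 14, 15], [78, 14, 13, 21], 0, [49, 1, 49, 5, 10, 48, 1, 48]),
  ([66, 15, 28, 29], [8, 76, 67, 7], 0, [49, 15, 48, 48]),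
  ([66, 15, 40, 41], [31, 53, 44, 7], 2, [21, 48, 2, 48, 2]), ([66, 16, 17, 27], [1, 68, 80, 21], 0, [48, 1, 49]),
  ([66, 16, 17, 39], [29, 40, 52, 21], 0, [48, 1, 49]), ([67, 1, 3, 9], [67, 1, 3, 9], 3, [16, 48, 1, 48, 22]),
  ([67, 4, 10, 12], [80, 17, 23, 25], 0, [49, 17, 49]), ([67, 14, 16, 17], [68, 24, 19, 7], 0, [49, 3, 49]),
  ([67, 28, 30, 36], [67, 51, 47, 35], 0, [49, 49]), ([67, 29, 33, 45], [80, 79, 77, 71], 0, [49, 17, 49]),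
  ([67, 31, 37, 39], [80, 58, 64, 66], 2, [15, 49, 1, 48, 34]), ([67, 35, 47, 51], [67, 36, 30, 28], 0, [49, 49]),
  ([67, 41, 43, 49], [67, 41, 43, 49], 1, [1, 48, 6, 48, 9]), ([67, 44, 50, 52], [80, 72, 60, 56], 0, [49, 17, 49])]
def tb2 : List En := [
  ([40, 1, 3, 9], [53, 1, 3, 9], 0, [49, 50, 48]), ([40, 4, 10, 12], [40, 17, 23, 25], 0, [49, 49]),
  ([40, 14, 16, 17], [52, 24, 19, 7], 0, [49, 6, 49]), ([40, 28, 30, 36], [53, 68, 70, 76], 0, [49, 17, 49]),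
  ([40, 29, 33, 45], [40, 39, 37, 31], 0, [49, 49]), ([40, 31, 37, 39], [40, 45, 33, 29], 0, [49, 49]),
  ([40, 35, 47, 51], [53, 62, 74, 78], 0, [49, 50, 48]), ([40, 41, 43, 49], [53, 55, 57, 63], 0, [49, 17, 49]),
  ([40, 44, 50, 52], [40, 44, 50, 52], 4, [48])]
theorem ok1 : ∀ e ∈ tb1, Ok e ∧ (∀ l ∈ e.2.2.2, l < 50) ∧ e.2.2.1 < 4 ∧ ((mk e.1).1.1 = 0 → e.2.2.1 < 3) ∧
    (mk e.1).1 ≠ (0, 1, 1, 1) := by decide +kernel
theorem ok2 : ∀ e ∈ tb2, Ok e ∧ (e.2.2.1 = 0 ∨ e.2.2.1 = 4) := by decide +kernel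
def In3 (a b c x : t4) : Prop := x = a ∨ x = b ∨ x = c ∨ x = -a ∨ x = -b ∨ x = -c
instance (a b c x : t4) : Decidable (In3 a b c x) := by unfold In3; infer_instance
def m4 (n : ℕ) (v : t4) : t4 := (v.1, ma n v.2)
/-- the frame is invariant under the generators fixing `v` -/
def Iv (v a b c : t4) : Prop := ∀ n ∈ [1, 2, 3, 4], m4 n v = v → In3 a b c (m4 n a) ∧ In3 a b c (m4 n b) ∧ In3 a b c (m4 n c)
instance (v a b c : t4) : Decidable (Iv v a b c) := by unfold Iv; infer_instance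
def reps : List t4 := [(0, 1, 0, 0), (0, 1, 1, 0), (0, 1, 1, 1), (1, 1, 0, 0), (1, 1, 1, 0), (1, 1, 1, 1), (2, 1, 0, 0),
  (2, 1, 1, 0), (2, 1, 1, 1)]
def nm (v : t4) : ℕ := min (enc v) (enc (-v))
def tb (n x : ℕ) : ℕ := ([0, 163587430878442151377081648056738306819167202593872304184479874353879458917034966756766742839010541787592045039161821255685258824032250870080883019796066635873995976622208, 155920885896575197838044392653573737904804210547391597879214810511286579935074099508083348507330196903021216695870250517370466237903610690883563443348410125569403423572096, 152176416650091883160416662575418902132067135435302498187156496994015500867189121492796786930910587863479557335721336500820965886270997788381776016979534403557826664349824].getD n 152234909642236946862627576847250846761801897225892867149082551747444188381446140482967817637298934221719269780259686300795872531611192723607877493802217588813260080071040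 >>> (7 * x)) % 128
theorem tb_eq : ∀ n ∈ [1, 2, 3, 4], ∀ a, tb n (enc a) = nm (m4 n a) := by decide +kernel
def ptn : List ℕ := [1, 3, 4, 5, 9, 10, 11, 12, 13, 14, 15, 16, 17, 27, 28, 29, 30, 31, 32, 33, 34, 35, 36, 37, 38, 39, 40, 41, 42, 43, 44, 45, 46, 47, 48, 49, 50, 51, 52, 53]
theorem ptn_eq : ∀ a ∈ pts, enc a ∈ ptn ∧ dec (enc a) = a ∧ nm a = enc a ∧ nm (-a) = enc a := by decide +kernel
def i3 (a b c x : ℕ) : Bool := x == a || x == b || x == c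
def Fi (v a b c : t4) : Prop := (∀ x, ap4 (v, a, b, c) x = 0 → x = 0) → (∃ e ∈ tb1, mk e.1 = (v, a, b, c)) ∧
  (v = (1, 1, 1, 1) → ∃ e ∈ tb2, mk e.1 = (v, a, b, c))
instance (v a b c : t4) : Decidable (Fi v a b c) := by unfold Fi; infer_instance
def gs (v : t4) : List ℕ := if v.2.2.1 = 0 then [1, 2, 4] else if v.2.2.2 = 0 then [2, 3] else [3, 4]
def chk (v : t4) (l : List ℕ) : Bool := ptn.all fun a => ptn.all fun b => Nat.ble b a || ptn.all fun c => Nat.ble c b ||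
  !(l.all fun n => i3 a b c (tb n a) && i3 a b c (tb n b) && i3 a b c (tb n c)) || decide (Fi v (dec a) (dec b) (dec c))
theorem chk_ok : ∀ v ∈ reps, chk v (gs v) = true ∧ ∀ n ∈ gs v, n ∈ [1, 2, 3, 4] ∧ m4 n v = v := by decide +kernel
theorem enum (v : t4) (hv : v ∈ reps) (a : t4) (ha : a ∈ pts) (b : t4) (hb : b ∈ pts) (l1 : enc a < enc b) (c : t4) (hc : c ∈ pts)
    (l2 : enc b < enc c) (h : Iv v a b c) : Fi v a b c := by
  obtain ⟨a1, a2, a3, a4⟩ := ptn_eq a ha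
  obtain ⟨b1, b2, b3, b4⟩ := ptn_eq b hb
  obtain ⟨c1, c2, c3, c4⟩ := ptn_eq c hc
  have k : ∀ x, In3 a b c x → i3 (enc a) (enc b) (enc c) (nm x) = true := by
    rintro _ (rfl | rfl | rfl | rfl | rfl | rfl) <;> simp [i3, *]
  have := (chk_ok v hv).1
  simp only [chk, List.all_eq_true, Bool.or_eq_true, Nat.ble_eq, decide_eq_true_eq, Bool.not_eq_true'] at this
  have := ((((this _ a1 _ b1).resolve_left (by omega)) _ c1).resolve_left ?_)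
  · rwa [a2, b2, c2] at this
  rintro (e | e)
  · omega
  · refine absurd e (by
      simp only [Bool.not_eq_false, List.all_eq_true, Bool.and_eq_true]
      intro n hn
      obtain ⟨n1, n2⟩ := (chk_ok v hv).2 n hn
      obtain ⟨i1, i2, i3⟩ := h n n1 n2
      simp only [tb_eq n n1]
      exact ⟨⟨k _ i1, k _ i2⟩, k _ i3⟩)
theorem torep : ∀ v : t4, v.2 ≠ 0 → ∃ w ∈ monoW, ap4 (mo4 w) v ∈ reps ∧ (ap4 (mo4 w) v).1 = v.1 := by decide +kernel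

variable {W : M4 → Prop} (mul : ∀ m n, W m → W n → W (cmp4 m n)) (inv : ∀ m, W m → ∃ n, W n ∧ cmp4 n m = id4 ∧ cmp4 m n = id4)
  (mo : ∀ w, W (mo4 w)) (st : ∀ m, W m → m.1 = (1, 0, 0, 0) → ∃ w ∈ monoW, m = mo4 w)
include inv in
theorem ker {m : M4} (h : W m) (x : t4) (e : ap4 m x = 0) : x = 0 := by
  obtain ⟨n, -, e', -⟩ := inv m h
  rw [← ap4_id x, ← e', ap4_cmp, e, ap4_zero]
include mul inv mo st in
theorem iv {v a b c : t4} (h : W (v, a, b, c)) : Iv v a b c := fun n _ e => by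
  obtain ⟨k, hk, e1, e2⟩ := inv _ h
  have s : ∀ x, ap4 (mo4 [n]) x = m4 n x := by
    have : ∀ n ∈ [1, 2, 3, 4], ∀ x, ap4 (mo4 [n]) x = m4 n x := by decide +kernel
    exact this n ‹_›
  obtain ⟨w, hw, e3⟩ := st _ (mul _ _ hk (mul _ _ (mo [n]) h)) (by
    change ap4 k (ap4 (mo4 [n]) v) = _
    rw [s, e]; exact congrArg Prod.fst e1)
  have e4 : cmp4 (mo4 [n]) (v, a, b, c) = cmp4 (v, a, b, c) (mo4 w) := by rw [← e3, ← cmp_assoc, e2, id_cmp]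
  have t : ∀ x, In3 (0, 1, 0, 0) (0, 0, 1, 0) (0, 0, 0, 1) x → In3 a b c (ap4 (v, a, b, c) x) := by
    rintro _ (rfl | rfl | rfl | rfl | rfl | rfl) <;> simp only [ap4_neg, ap4_1, ap4_2, ap4_3, In3, true_or, or_true]
  obtain ⟨i1, i2, i3⟩ := (by decide +kernel : ∀ w ∈ monoW, In3 (0, 1, 0, 0) (0, 0, 1, 0) (0, 0, 0, 1) (mo4 w).2.1 ∧
    In3 (0, 1, 0, 0) (0, 0, 1, 0) (0, 0, 0, 1) (mo4 w).2.2.1 ∧ In3 (0, 1, 0, 0) (0, 0, 1, 0) (0, 0, 0, 1) (mo4 w).2.2.2) w hw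
  simp only [cmp4, Prod.mk.injEq, s] at e4
  exact ⟨e4.2.1 ▸ t _ i1, e4.2.2.1 ▸ t _ i2, e4.2.2.2 ▸ t _ i3⟩
include mul inv mo in
theorem nrm {v a b c : t4} (h : W (v, a, b, c)) :
    ∃ a ∈ pts, ∃ b ∈ pts, ∃ c ∈ pts, enc a < enc b ∧ enc b < enc c ∧ W (v, a, b, c) := by
  have n1 : ∀ {a b c}, W (v, a, b, c) → W (v, -a, b, c) := fun h => by
    simpa only [cmp4, ap4_0, ap4_2, ap4_3, ap4_neg, ap4_1,
      show mo4 [0] = ((1, 0, 0, 0), -(0, 1, 0, 0), (0, 0, 1, 0), (0, 0, 0, 1)) by decide] using mul _ _ h (mo [0])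
  have s1 : ∀ {a b c}, W (v, a, b, c) → W (v, b, a, c) := fun h => by
    simpa only [cmp4, ap4_0, ap4_2, ap4_3, ap4_1,
      show mo4 [3] = ((1, 0, 0, 0), (0, 0, 1, 0), (0, 1, 0, 0), (0, 0, 0, 1)) by decide] using mul _ _ h (mo [3])
  have s2 : ∀ {a b c}, W (v, a, b, c) → W (v, a, c, b) := fun h => by
    simpa only [cmp4, ap4_0, ap4_2, ap4_3, ap4_1,
      show mo4 [4] = ((1, 0, 0, 0), (0, 1, 0, 0), (0, 0, 0, 1), (0, 0, 1, 0)) by decide] using mul _ _ h (mo [4])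
  have p : ∀ {a b c}, W (v, a, b, c) → ∃ a' ∈ pts, W (v, b, c, a') := fun {a b c} h => by
    rcases (by decide +kernel : ∀ a : t4, a = 0 ∨ a ∈ pts ∨ -a ∈ pts) a with e | e | e
    · exact absurd (ker inv h (0, 1, 0, 0) ((ap4_1 _).trans e)) (by decide)
    exacts [⟨_, e, s2 (s1 h)⟩, ⟨_, e, s2 (s1 (n1 h))⟩]
  have d : ∀ {a b c}, W (v, a, b, c) → enc a ≠ enc b := fun {a b c} h e => absurd (ker inv h (-(0, 1, 0, 0) + (0, 0, 1, 0)) (by
    rw [ap4_add, ap4_neg, ap4_1, ap4_2, (by decide +kernel : ∀ a b : t4, enc a = enc b → a = b) a b e, neg_add_cancel])) (by decide)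
  obtain ⟨a, ha, h⟩ := p h
  obtain ⟨b, hb, h⟩ := p h
  obtain ⟨c, hc, h⟩ := p h
  have := d h; have := d (s2 h); have := d (s2 (s1 h))
  rcases lt_or_gt_of_ne (d h) with l1 | l1 <;> rcases lt_or_gt_of_ne (d (s2 h)) with l2 | l2 <;>
    rcases lt_or_gt_of_ne (d (s2 (s1 h))) with l3 | l3
  exacts [⟨a, ha, b, hb, c, hc, l1, l3, h⟩, ⟨a, ha, c, hc, b, hb, l2, l3, s2 h⟩, by omega,
    ⟨c, hc, a, ha, b, hb, l2, l1, s1 (s2 h)⟩, ⟨b, hb, a, ha, c, hc, l1, l2, s1 h⟩, by omega,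
    ⟨b, hb, c, hc, a, ha, l3, l2, s2 (s1 h)⟩, ⟨c, hc, b, hb, a, ha, l3, l1, s1 (s2 (s1 h))⟩]
include mul inv mo st in
theorem use {e : En} (o : Ok e) (h : W (mk e.1)) (b : (∀ l ∈ e.2.2.2, l < 50) ∨ W nB) :
    e.2.2.1 ≠ 0 ∧ W ([nB, nB, nG, nA].getD e.2.2.1 nF) := by
  obtain ⟨k, hk, e1, -⟩ := inv _ h
  obtain rfl : k = mk e.2.1 := by rw [← cmp_id k, ← o.1, ← cmp_assoc, e1, id_cmp]
  have t : ∀ w : List ℕ, ((∀ l ∈ w, l < 50) ∨ W nB) → W (ev (mk e.1) (mk e.2.1) w) := fun w => by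
    induction w with
    | nil => exact fun _ => mo []
    | cons l w ih =>
      refine fun b => mul _ _ ?_ (ih (b.imp_left fun b x hx => b x (List.mem_cons_of_mem _ hx)))
      unfold let4; split_ifs with l1
      · exact mo _
      · obtain ⟨_ | _ | l, rfl⟩ := Nat.exists_eq_add_of_le (not_lt.1 l1)
        exacts [h, hk, by simpa using b.resolve_left fun b => absurd (b _ List.mem_cons_self) (by omega)]
  have o2 := o.2
  split_ifs at o2 with z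
  · obtain ⟨w, hw, e3⟩ := st _ (t _ b) o2.1
    exact (o2.2 w hw e3).elim
  · exact ⟨z, o2 ▸ t _ b⟩
include mul inv mo st in
theorem tab {m : M4} (h : W m) (r : m.1 ∈ reps) :
    (∃ e ∈ tb1, W (mk e.1) ∧ (mk e.1).1 = m.1) ∧ (m.1 = (1, 1, 1, 1) → ∃ e ∈ tb2, W (mk e.1)) := by
  obtain ⟨a, ha, b, hb, c, hc, l1, l2, h⟩ := nrm mul inv mo h
  obtain ⟨⟨e, he, k⟩, k'⟩ := enum _ r a ha b hb l1 c hc l2 (iv mul inv mo st h) (ker inv h)
  exact ⟨⟨e, he, k ▸ h, (congrArg Prod.fst k :)⟩, fun i => let ⟨e, he, k⟩ := k' i; ⟨e, he, k ▸ h⟩⟩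
include mul inv mo st in
theorem one {m : M4} (h : W m) (r : m.1.2 ≠ 0) : W nB ∨ W nG ∨ (W nA ∧ m.1.1 ≠ 0) := by
  obtain ⟨w, -, r, i⟩ := torep _ r
  obtain ⟨e, he, k, k'⟩ := (tab mul inv mo st (mul _ _ (mo w) h) r).1
  obtain ⟨o, l, l4, l3, -⟩ := ok1 e he
  obtain ⟨z, u⟩ := use mul inv mo st o k (.inl l)
  obtain j | j | j : e.2.2.1 = 1 ∨ e.2.2.1 = 2 ∨ e.2.2.1 = 3 := by omega
  all_goals rw [j] at u
  exacts [.inl u, .inr (.inl u), .inr (.inr ⟨u, fun a => absurd (l3 ((congrArg Prod.fst k').trans (i.trans a))) (by omega)⟩)]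
end TR

open TR in
theorem tri : TRI := fun W mul inv mo st ⟨m, h, r⟩ => ⟨by
    by_cases c : ∃ n, W n ∧ n.1.1 = 0
    · obtain ⟨n, hn, c⟩ := c
      refine (one mul inv mo st hn fun e => ?_).imp_right (.imp_right fun k => (k.2 c).elim)
      exact absurd (ker inv hn (1, 0, 0, 0) ((ap4_0 n).trans (Prod.ext c e))) (by decide)
    · exact (one mul inv mo st h r).imp_right (.imp_right fun k => ⟨k.1, fun n hn e => c ⟨n, hn, e⟩⟩),
  fun n hn e => let ⟨x, hx, _, k⟩ := (tab mul inv mo st hn (by rw [e]; decide)).1; (ok1 x hx).2.2.2.2 (k.trans e),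
  fun b ⟨n, hn, e⟩ => by
    obtain ⟨x, hx, k⟩ := (tab mul inv mo st hn (by rw [e]; decide)).2 e
    obtain ⟨z, u⟩ := use mul inv mo st (ok2 x hx).1 k (.inr b)
    rwa [(ok2 x hx).2.resolve_left z] at u⟩

end H26.SX
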