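/-
S3159: the chunk G1.
-/
import Cfsg.Agent.H26.SX4
import Cfsg.Agent.H26.SX8

set_option autoImplicit false
set_option linter.unusedSectionVars false
set_option synthInstance.maxSize 4096
open Cfsg Subgroup H19 H23.F4
namespace H26.SX
universe u
variable {G : Type*} [Group G] [Finite G] {b r x : G} {φ ψ : Sp →* G} {δ : V → G}

def st (r : G) (φ : Sp →* G) (δ : V → G) (p : V) : G := r * φ (T p) * δ p
/-- the transvections -/
def tt (b r : G) (φ : Sp →* G) (δ : V → G) (v : V8) : G :=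
  bif ω8 v f0 then (bif ω8 v e0 then b⁻¹ * st r φ δ (lo v) * b else st r φ δ (lo v))
  else bif ω8 v e0 then b * st r φ δ (lo v) * b⁻¹ else φ (T (lo v))
theorem lo_e0 : lo e0 = 0 := rfl
theorem lo_f0 : lo f0 = 0 := rfl
theorem tt0 (p : V) : tt b r φ δ (up p) = φ (T p) := by simp [tt]
theorem tt1 (p : V) : tt b r φ δ (e0 + up p) = st r φ δ p := by simp [tt, lo_add, lo_e0]
theorem tt2 (p : V) : tt b r φ δ (f0 + up p) = b * st r φ δ p * b⁻¹ := by simp [tt, lo_add, lo_f0]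
theorem tt3 (p : V) : tt b r φ δ (e0 + f0 + up p) = b⁻¹ * st r φ δ p * b := by simp [tt, lo_add, lo_e0, lo_f0]
theorem cases8 {P : V8 → Prop} (h : ∀ p, P (up p) ∧ P (e0 + up p) ∧ P (f0 + up p) ∧ P (e0 + f0 + up p)) (v : V8) : P v := by
  rcases (by decide +kernel : ∀ v, v = up (lo v) ∨ v = e0 + up (lo v) ∨ v = f0 + up (lo v) ∨ v = e0 + f0 + up (lo v)) v with
    e | e | e | e <;> rw [e]
  exacts [(h _).1, (h _).2.1, (h _).2.2.1, (h _).2.2.2]
def Gm (t : V8 → G) : Subgroup (G × Sp8) where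
  carrier := {x | ∀ v, x.1 * t v * x.1⁻¹ = t (x.2 • v)}
  one_mem' v := by simp
  mul_mem' {x y} hx hy v := by rw [Prod.snd_mul, mul_smul, ← hx, ← hy, Prod.fst_mul]; group
  inv_mem' {x} hx v := by rw [Prod.fst_inv, Prod.snd_inv, ← smul_inv_smul x.2 v, ← hx, inv_smul_smul]; group
theorem Gm.cj {t : V8 → G} {σ : Sp8} {v : V8} (h : (x, σ) ∈ Gm t) (k : (t v, T8 v) ∈ Gm t) : (t (σ • v), T8 (σ • v)) ∈ Gm t := by
  rw [← conj_T8, ← h v]; exact mul_mem (mul_mem h k) (inv_mem h)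
def mu (u : V) : V8 := up (u + sc (ω u f3) e3 + sc (ω u e3) f3) + sc8 (ω u f3) e0 + sc8 (ω u e3) f0

section
variable (F : Fc b r φ ⊥) (D : MB b r φ δ)
include F D
theorem stk (k : Sp) (p : V) : φ k * st r φ δ p * (φ k)⁻¹ = st r φ δ (k • p) := by
  rw [st, st, ← D.cj, ← conj_T, map_mul, map_mul, map_inv, ← conj_mul, ← conj_mul, ← (F.rL k).eq, mul_inv_cancel_right]
theorem str (p : V) : r * st r φ δ p * r⁻¹ = st r φ δ p :=
  mul_inv_eq_iff_eq_mul.2 (((Commute.refl r).mul_right (F.rL _)).mul_right (D.cr p).symm)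
theorem gk (k : Sp) : (φ k, emb k) ∈ Gm (tt b r φ δ) := cases8 fun p => by
  have e := F.toWc.aL k
  simp only [smul_add, emb_up, emb_e0, emb_f0, tt0, tt1, tt2, tt3, ← stk F D]
  refine ⟨by rw [← conj_T, map_mul, map_mul, map_inv], trivial, ?_, ?_⟩ <;> conv_rhs => rw [← e]
  all_goals group
theorem gb : (b, T8 e0 * T8 f0) ∈ Gm (tt b r φ δ) := cases8 fun p => by
  have u : (T8 e0 * T8 f0) • up p = up p := by simp [mul_smul, T8_smul]
  have e : b * b = b⁻¹ := eq_inv_of_mul_eq_one_left (by rw [← pow_three', F.toWc.b3])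
  simp only [smul_add, u, show (T8 e0 * T8 f0) • e0 = f0 from rfl, show (T8 e0 * T8 f0) • f0 = e0 + f0 from rfl,
    show f0 + (e0 + f0) = e0 from rfl, tt0, tt1, tt2, tt3]
  exact ⟨mul_inv_eq_iff_eq_mul.2 (F.cb _), trivial, by rw [← mul_assoc, ← mul_assoc, e, mul_assoc, ← _root_.mul_inv_rev, e, inv_inv],
    by group⟩
theorem gr : (r, T8 e0) ∈ Gm (tt b r φ δ) := cases8 fun p => by
  have u : T8 e0 • up p = up p := by simp [T8_smul]
  simp only [smul_add, u, show T8 e0 • e0 = e0 from rfl, show T8 e0 • f0 = e0 + f0 from rfl,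
    show e0 + (e0 + f0) = f0 from rfl, tt0, tt1, tt2, tt3]
  refine ⟨mul_inv_eq_iff_eq_mul.2 (F.rL _), str F D p, ?_, ?_⟩
  · rw [← conj_mul, ← conj_mul, ← conj_inv, F.rb, str F D, inv_inv]
  · rw [← conj_mul, ← conj_mul, ← conj_inv, F.rb, str F D, inv_inv]
theorem tmu (C : Co b r φ ⊥ e3 f3 ψ) (u : V) : tt b r φ δ (mu u) = ψ (T u) := by
  have a : ∀ q, ω q e3 = false → ω q f3 = false → φ (T q) = ψ (T q) ∧ st r φ δ q = ψ (T (e3 + q)) := fun q h1 h2 => by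
    have := C.ag _ (T_fix (ω_comm _ _ ▸ h1)) (T_fix (ω_comm _ _ ▸ h2))
    refine ⟨this.symm, ?_⟩
    rw [st, ← this, ← D.co rfl C q h1 h2, ← C.ha, ← map_mul, ← map_mul, X, ← mul_assoc, ← (comm_TT.2 h1).eq,
      show T q * T e3 * (T q * T e3) = 1 by rw [mul_assoc, (comm_TT.2 h1).symm.left_comm]; simp, one_mul]
  obtain ⟨q, h1, h2, h⟩ := (by decide +kernel : ∀ u, ∃ q, ω q e3 = false ∧ ω q f3 = false ∧ (mu u = up q ∧ u = q ∨
    mu u = e0 + up q ∧ u = e3 + q ∨ mu u = f0 + up q ∧ u = d3 • (e3 + q) ∨ mu u = e0 + f0 + up q ∧ u = d3⁻¹ • (e3 + q))) u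
  rcases h with ⟨e, rfl⟩ | ⟨e, rfl⟩ | ⟨e, rfl⟩ | ⟨e, rfl⟩ <;> rw [e]
  · rw [tt0, (a _ h1 h2).1]
  · rw [tt1, (a _ h1 h2).2]
  · rw [tt2, (a _ h1 h2).2, ← conj_T, map_mul, map_mul, map_inv, d3, C.hc]
  · rw [tt3, (a _ h1 h2).2, ← conj_T d3⁻¹, inv_inv, map_mul, map_mul, map_inv, d3, C.hc]
theorem gs (h : Wm b φ nB) : (tt b r φ δ (e0 + up e1), T8 (e0 + up e1)) ∈ Gm (tt b r φ δ) := fun v => by
  obtain ⟨ψ, C⟩ := co F h (a := e3) (c := f3) rfl
  obtain ⟨k, k1, u, rfl⟩ : ∃ k : Sp, k • e1 = e1 ∧ ∃ u, v = emb k • mu u := by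
    have : ∃ k : Sp, k • e1 = e1 ∧ ∃ q ∈ [0, e1, f1, e2], lo v = k • q := by
      by_cases h0 : lo v = 0
      · exact ⟨1, rfl, 0, by simp, h0⟩
      by_cases h1 : lo v = e1
      · exact ⟨1, rfl, e1, by simp, h1⟩
      cases h2 : ω e1 (lo v)
      · exact (ex_perp (by decide) h0 h1 h2).imp fun k h => ⟨h.1, e2, by simp, h.2.symm⟩
      · exact (ex_hyp h2).imp fun k h => ⟨h.1, f1, by simp, h.2.symm⟩
    obtain ⟨k, k1, q, hq, e⟩ := this
    obtain ⟨u, e'⟩ := (by decide +kernel : ∀ q ∈ [0, e1, f1, e2], ∀ a c, ∃ u, mu u = up q + (sc8 a e0 + sc8 c f0)) q hq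
      (ω8 v f0) (ω8 v e0)
    exact ⟨k, k1, u, by rw [e', smul_add, smul_add, smul_sc8, smul_sc8, emb_up, emb_e0, emb_f0, ← e]; exact (up_lo v).symm⟩
  have s : emb k • (e0 + up e1) = e0 + up e1 := by rw [smul_add, emb_e0, emb_up, k1]
  have m := gk F D k
  conv_lhs => rw [← s, ← m, ← m]
  conv_rhs => rw [← s, ← conj_T8, mul_smul, mul_smul, inv_smul_smul, ← m,
    ← (by decide +kernel : ∀ u, mu (T (e3 + e1) • u) = T8 (e0 + up e1) • mu u), tmu F D C, ← conj_T]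
  rw [show e0 + up e1 = mu (e3 + e1) from rfl, tmu F D C, tmu F D C, map_mul, map_mul, map_inv]; group
theorem gt (h : Wm b φ nB) (v : V8) : (tt b r φ δ v, T8 v) ∈ Gm (tt b r φ δ) := cases8
    (P := fun v => (tt b r φ δ v, T8 v) ∈ Gm (tt b r φ δ)) (fun p => by
  have a : (tt b r φ δ (e0 + up p), T8 (e0 + up p)) ∈ Gm (tt b r φ δ) := by
    by_cases p0 : p = 0
    · rw [tt1]; simpa [p0, st, T_zero, D.d0] using gr F D
    · obtain ⟨k, rfl⟩ := ex_one p0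
      simpa only [smul_add, emb_e0, emb_up] using Gm.cj (gk F D k) (gs F D h)
  have u : (T8 e0 * T8 f0) • up p = up p := by simp [mul_smul, T8_smul]
  have c := Gm.cj (gb F D) a
  rw [smul_add, u] at c
  have d := Gm.cj (gb F D) c
  rw [smul_add, u] at d
  exact ⟨by rw [tt0, ← emb_T]; exact gk F D _, a, c, d⟩) v
theorem gker (h : (x, 1) ∈ Gm (tt b r φ δ)) : x = 1 := by
  have c : ∀ v, Commute x (tt b r φ δ v) := fun v => mul_inv_eq_iff_eq_mul.1 (h v)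
  have c1 : Commute x r := by have := c (e0 + up 0); rw [tt1] at this; simpa [st, T_zero, D.d0] using this
  have c2 : Commute x (b * r * b⁻¹) := by have := c (f0 + up 0); rw [tt2] at this; simpa [st, T_zero, D.d0] using this
  have e : b = r * (b * r * b⁻¹) := by
    have := F.rb
    rw [inv_eq_of_mul_eq_one_right F.rr] at this
    rw [← mul_assoc, ← mul_assoc, this, ← _root_.mul_inv_rev, eq_inv_iff_mul_eq_one, ← pow_three, F.toWc.b3]
  obtain ⟨i, k, y, hk, rfl⟩ := F.cent x (e ▸ c1.mul_right c2)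
  rw [mem_bot.1 hk, mul_one] at *
  have L : ∀ z, Commute (b ^ i.1 * φ y) (φ z) := fun z => mem_cent1.1 (TG_le (M := C[b ^ i.1 * φ y].comap φ)
    (fun p _ => mem_cent1.2 (tt0 (b := b) (r := r) (δ := δ) p ▸ c (up p)).symm) (gen0 z)) |>.symm
  obtain rfl : y = 1 := eq_one_of_central fun z => F.toWc.cm.1 (by
    simpa using ((F.cb z).pow_left i).inv_left.mul_left (L z))
  rw [map_one, mul_one] at *
  refine eq_one23 ?_ (by rw [pow_right_comm, F.toWc.b3, one_pow])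
  nth_rewrite 1 [← mul_inv_eq_iff_eq_mul.2 c1.symm]
  rw [← conj_pow, F.rb, inv_pow, inv_mul_cancel]
end

theorem g1 : G1.{u} := by
  intro _ m G _ _ b r φ δ B D
  have F := B.toFc
  let Γ := Gm (tt b r φ δ)
  let e := MulEquiv.ofBijective ((MonoidHom.snd G Sp8).comp Γ.subtype) ⟨(injective_iff_map_eq_one _).2 fun x h =>
    Subtype.ext (Prod.ext (gker F D (by rw [← show x.1.2 = 1 from h]; exact x.2)) h), fun σ =>
      gen8 (M := ((MonoidHom.snd G Sp8).comp Γ.subtype).range) (fun p => ⟨⟨_, gt F D B.nb p⟩, rfl⟩) σ⟩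
  let ι := ((MonoidHom.fst G Sp8).comp Γ.subtype).comp e.symm.toMonoidHom
  have k : ∀ {x σ}, (x, σ) ∈ Γ → ι σ = x := fun {x σ} h =>
    congrArg (fun y : Γ => y.1.1) (e.symm_apply_apply ⟨_, h⟩)
  have t := fun v => k (gt F D B.nb v)
  have he := k (gr F D)
  have := m.2.1
  refine ⟨ι, (MonoidHom.ker_eq_bot_iff _).1 ((Subgroup.Normal.eq_bot_or_eq_top inferInstance).resolve_right fun e =>
    F.r1 (he ▸ (e.ge (mem_top (T8 e0)) :))), fun y => k (gk F D y), he, ?_, fun p => ?_⟩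
  · rw [← k (gb F D), map_mul, he, ← mul_assoc, F.rr, one_mul]
  · rw [X8, map_mul, map_mul, he, t, t, tt0, tt1, st, ← mul_assoc, mul_assoc r, (F.rL _).symm.left_comm, mapT, mul_one, F.rr, one_mul]

end H26.SX
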