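/-
S3159: the model `Sp8` is Mathlib's symplectic group.
-/
import Cfsg.Agent.H26.SX8

set_option autoImplicit false
open Cfsg Subgroup H23.F4
namespace H26.SX

abbrev Ix8 := Fin 4 ⊕ Fin 4
def bE8 : Fin 4 → V8 := ![up e1, up e2, up e3, e0]
def bF8 : Fin 4 → V8 := ![up f1, up f2, up f3, f0]
def ofV8 (v : V8) : Ix8 → ZMod 2 := Sum.elim (fun i => zb (ω8 v (bF8 i))) fun i => zb (ω8 v (bE8 i))
theorem ofV8_add (x y : V8) : ofV8 (x + y) = ofV8 x + ofV8 y := by
  have : ∀ a b, zb (xor a b) = zb a + zb b := by decide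
  ext (i | i) <;> simp [ofV8, this]
theorem ω8_exp (x y : V8) : ω8 x y = xor (ω (lo x) (lo y)) (xor (ω8 x f0 && ω8 y e0) (ω8 x e0 && ω8 y f0)) := by
  conv_lhs => rw [← up_lo x, ← up_lo y]
  simp only [ω8_add_left, ω8_add_right, ω8_up, ω8_up_hi, ω8_hi_up, Bool.xor_false, Bool.false_xor]
  simp only [hi, ω8_add_left, ω8_add_right, ω8_sc_left, ω8_sc_right, ω8_self, ω8_ef, ω8_fe]
  cases ω8 x f0 <;> cases ω8 x e0 <;> cases ω8 y f0 <;> cases ω8 y e0 <;> rfl
theorem ω_lo (x : V8) (p : V) : ω (lo x) p = ω8 x (up p) := by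
  conv_rhs => rw [← up_lo x]
  simp
theorem ofV8_form (x y : V8) : ofV8 x ⬝ᵥ (Matrix.J (Fin 4) (ZMod 2)).mulVec (ofV8 y) = zb (ω8 x y) := by
  rw [ω8_exp x y, ω_exp]
  have : ∀ a b, zb (xor a b) = zb a + zb b := by decide
  have h2 : ∀ a b, zb (a && b) = zb a * zb b := by decide
  simp [Matrix.J, Matrix.fromBlocks_mulVec, dotProduct, Fintype.sum_sum_type, Fin.sum_univ_four, ofV8, bE8, bF8, this,
    h2, Matrix.neg_mulVec, ZMod.neg_eq_self_mod_two, ω_lo]
  ring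
noncomputable def eqV8 : V8 ≃+ (Ix8 → ZMod 2) :=
  AddEquiv.ofBijective (AddMonoidHom.mk' ofV8 ofV8_add) ((Fintype.bijective_iff_injective_and_card _).2
    ⟨(injective_iff_map_eq_zero _).2 fun x e => nondeg8 x fun p _ => zb_inj (by
      rw [← ofV8_form, show ofV8 x = 0 from e, zero_dotProduct]; rfl), by simp; exact Fintype.card_fin 256⟩)
theorem eqV8_apply (v : V8) : eqV8 v = ofV8 v := rfl
noncomputable def toMat8 (g : Sp8) : Matrix Ix8 Ix8 (ZMod 2) :=
  LinearMap.toMatrix' (((eqV8 : V8 →+ _).comp ((DistribSMul.toAddMonoidHom V8 g).comp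
    (eqV8.symm : _ →+ V8))).toZModLinearMap 2)
theorem toMat8_mulVec (g : Sp8) (v : V8) : (toMat8 g).mulVec (eqV8 v) = eqV8 (g • v) := by
  simp [toMat8, ← Matrix.toLin'_apply]
theorem form_iff8 (M : Matrix Ix8 Ix8 (ZMod 2)) : M ∈ Matrix.symplecticGroup (Fin 4) (ZMod 2) ↔
    ∀ x y, M.mulVec x ⬝ᵥ (Matrix.J (Fin 4) (ZMod 2)).mulVec (M.mulVec y) =
      x ⬝ᵥ (Matrix.J (Fin 4) (ZMod 2)).mulVec y := by
  have e : ∀ x y, M.mulVec x ⬝ᵥ (Matrix.J (Fin 4) (ZMod 2)).mulVec (M.mulVec y) =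
      x ⬝ᵥ (M.transpose * Matrix.J (Fin 4) (ZMod 2) * M).mulVec y := fun x y => by
    rw [← Matrix.mulVec_mulVec, ← Matrix.mulVec_mulVec, Matrix.dotProduct_mulVec x, Matrix.vecMul_transpose]
  rw [SymplecticGroup.mem_iff']
  refine ⟨fun h x y => by rw [e, h], fun h => Matrix.ext fun i j => ?_⟩
  have := h (Pi.single i 1) (Pi.single j 1)
  rw [e] at this
  simpa using this
noncomputable def toSp8 : Sp8 →* Matrix.symplecticGroup (Fin 4) (ZMod 2) where
  toFun g := ⟨toMat8 g, (form_iff8 _).2 fun x y => by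
    obtain ⟨x, rfl⟩ := eqV8.surjective x
    obtain ⟨y, rfl⟩ := eqV8.surjective y
    rw [toMat8_mulVec, toMat8_mulVec]
    simp only [eqV8_apply, ofV8_form, ω8_smul]⟩
  map_one' := Subtype.ext (Matrix.ext_iff_mulVec.2 fun x => by
    obtain ⟨x, rfl⟩ := eqV8.surjective x
    simp [toMat8_mulVec])
  map_mul' g h := Subtype.ext (Matrix.ext_iff_mulVec.2 fun x => by
    obtain ⟨x, rfl⟩ := eqV8.surjective x
    simp [toMat8_mulVec, ← Matrix.mulVec_mulVec, mul_smul])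
theorem toSp8_bij : Function.Bijective toSp8 := by
  refine ⟨fun g h e => ext_v8 fun v => eqV8.injective (by
    rw [← toMat8_mulVec, ← toMat8_mulVec, show toMat8 g = toMat8 h from congrArg Subtype.val e]), fun M => ?_⟩
  obtain ⟨g, e⟩ := mk8 (fun v => eqV8.symm (M.1.mulVec (eqV8 v))) (fun x y => by simp [Matrix.mulVec_add]) fun x y => zb_inj (by
    rw [← ofV8_form, ← ofV8_form, ← eqV8_apply, ← eqV8_apply, ← eqV8_apply, ← eqV8_apply]
    simp only [AddEquiv.apply_symm_apply]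
    exact (form_iff8 _).1 M.2 _ _)
  refine ⟨g, Subtype.ext (Matrix.ext_iff_mulVec.2 fun x => ?_)⟩
  obtain ⟨x, rfl⟩ := eqV8.surjective x
  exact (toMat8_mulVec _ x).trans (by rw [e, AddEquiv.apply_symm_apply])

theorem m8 : M8 := by
  have s := MulEquiv.ofBijective toSp8 toSp8_bij
  have e1 : center (Matrix.symplecticGroup (Fin 4) (ZMod 2)) = ⊥ := card_eq_one.1 (H11.card_center_sp.trans (by simp))
  have e := s.trans ((QuotientGroup.quotientMulEquivOfEq e1).trans QuotientGroup.quotientBot).symm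
  have := Cfsg.Agent.S0270.result (F := ZMod 2) 4 (by norm_num) (by norm_num)
  refine ⟨?_, e.isSimpleGroup, ⟨e⟩⟩
  rw [Nat.card_congr s.toEquiv, H11.card_sp, show Fintype.card (ZMod 2) = 2 from rfl]
  simp [Finset.prod_range_succ]

end H26.SX
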